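import Cfsg.Agent.Sig.Sf5
import Cfsg.Agent.Gen.Baer
import Cfsg.Agent.PLocal.OpMod

/-! Thompson–Bender signalizer lemmas (`bender_omega`, `inv_le_core_odd`, `inv_le_core_class2`: invariant `p'`-subgroups of a
`p`-constrained group lie in `O_{p'}`) and the transitivity theorem `trans_of_inv` for groups with `p`-constrained locals. -/

set_option linter.dupNamespace false
set_option linter.unusedSectionVars false
set_option linter.unusedVariables false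

namespace Cfsg.Agent.Sig
open Subgroup Cfsg.Agent.BG Cfsg.Agent.Gen

local notation "Sol" => Group.IsSolvable
local notation "Nil" => Group.IsNilpotent

variable {G : Type*} [Group G] [Finite G] {p q : ℕ} [hp : Fact p.Prime] {A D E H K P Q : Subgroup G}

/-- Bender's lemma, `Ω₁` form -/
theorem bender_omega (hp2 : p ≠ 2) (hP : IsPGroup p P) (hQ : (#Q).Coprime p) (hPQ : P ≤ N[Q])
    (hK : IsPGroup p K) (hPK : P ≤ N[K]) (hQK : Q ≤ N[K])
    (hC : ∀ x ∈ K ⊓ C[P], x ^ p = 1 → x ∈ C[Q]) : Q ≤ C[K] := by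
  induction K using WellFoundedLT.induction with
  | ind K ih =>
  by_contra hnt
  obtain ⟨-, -, -, -, -, h6⟩ := minimal_action (A := Q) (B := P ⊔ Q) hK (sup_le hPK hQK)
    le_sup_right (sup_le hPQ (normG Q)) hQ (fun h => hnt (commG1'.1 h)) fun U hU hn =>
      commG1'.2 (ih U hU (hK.to_le hU.le) (le_sup_left.trans hn) (le_sup_right.trans hn)
        fun x hx => hC x (inf_le_inf_right _ hU.le hx))
  exact hnt (bender_PQ hp2 hP hQ hPQ hK hPK hQK fun x hx => hC x hx (h6 hp2 x hx.1))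

theorem lift_cent_hyp {G' : Type*} [Group G'] (f : G →* G') (hf : Function.Surjective f)
    (hk : (#f.ker).Coprime p) (hA : IsPGroup p A) {k : ℕ} (h : ∀ x ∈ C[A], x ^ p ^ k = 1 → x ∈ A) :
    ∀ y ∈ C[A.map f], y ^ p ^ k = 1 → y ∈ A.map f := by
  intro y hy hy1
  have e := map_inf_centralizer_of_coprime_ker (K := ⊤) f (by rwa [inf_top_eq]) hA (by simp)
  rw [top_inf_eq, map_top_of_surjective f hf, top_inf_eq] at e
  obtain ⟨x, hx, rfl⟩ : y ∈ (C[A]).map f := e ▸ hy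
  have h1 : x ^ p ^ k ∈ f.ker := by rw [MonoidHom.mem_ker, map_pow, hy1]
  have h2 : (x ^ #f.ker) ^ p ^ k = 1 := by
    rw [← pow_mul, mul_comm, pow_mul]
    exact congrArg Subtype.val (pow_card_eq_one' (x := (⟨_, h1⟩ : f.ker)))
  refine mem_normalizer_of_pow_mem hy1 (hk.pow_right k) ?_
  rw [← map_pow]
  exact mem_map_of_mem f (h _ (pow_mem hx _) h2)

theorem le_core_of_quot (hX : IsPConstrained p G) (hQ : (#Q).Coprime p)
    (h : Q.map (QuotientGroup.mk' (pPrimeCore p G)) ≤ C[pCore p (G ⧸ pPrimeCore p G)]) : Q ≤ pPrimeCore p G := by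
  have h1 := h.trans (isPConstrained_iff_centralizer.1 hX)
  have h2 : Q.map (QuotientGroup.mk' (pPrimeCore p G)) = ⊥ :=
    eq_bot_of_pgroup_coprime ((pcIn_top (G := G ⧸ pPrimeCore p G) p ▸ isPGroup_pcIn).to_le h1) (coprime_card_map _ hQ)
  rwa [Subgroup.map_eq_bot_iff, QuotientGroup.ker_mk'] at h2

theorem cent_of_mem_norm (hA : IsPGroup p K) (hQ : (#Q).Coprime p) (hQK : Q ≤ N[K]) {x : G} (hx : x ∈ K)
    (hn : x ∈ N[Q]) : x ∈ C[Q] := by
  have h : ⁅K ⊓ N[Q], Q⁆ ≤ K ⊓ Q :=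
    le_inf ((commSg _ inf_le_left).trans (commg_subl hQK)) (commg_subr inf_le_right)
  rw [inf_eq_bot_of_pgroup_coprime hA hQ, le_bot_iff] at h
  exact commG1.1 h ⟨hx, hn⟩

/-- Thompson–Bender lemma -/
theorem inv_le_core_odd (hp2 : p ≠ 2) (hX : IsPConstrained p G) (hA : IsPGroup p A)
    (hΩ : ∀ x ∈ C[A], x ^ p = 1 → x ∈ A) (hQ : (#Q).Coprime p) (hAQ : A ≤ N[Q]) : Q ≤ pPrimeCore p G := by
  set f := QuotientGroup.mk' (pPrimeCore p G)
  have hk : (#f.ker).Coprime p := by rw [QuotientGroup.ker_mk']; exact coprime_pPrimeCore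
  have hl := lift_cent_hyp (k := 1) f (QuotientGroup.mk'_surjective _) hk hA (by simpa using hΩ)
  have hP : IsPGroup p (pCore p (G ⧸ pPrimeCore p G)) := pcIn_top (G := G ⧸ pPrimeCore p G) p ▸ isPGroup_pcIn
  have hQ' := coprime_card_map f hQ
  refine le_core_of_quot hX hQ (bender_omega hp2 (hA.map f) hQ' (norms_map f hAQ) hP le_normalizer_of_normal
    le_normalizer_of_normal fun x hx h1 => ?_)
  exact cent_of_mem_norm hP hQ' le_normalizer_of_normal hx.1 (norms_map f hAQ (hl x hx.2 (by simpa using h1)))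

theorem cent_of_class2 (hA : IsPGroup p A) (hQ : (#Q).Coprime p) (hAQ : A ≤ N[Q]) (hK : IsPGroup p K)
    (hAK : A ≤ N[K]) (hQK : Q ≤ N[K]) (h2 : ⁅⁅K ⊔ A, K ⊔ A⁆, K ⊔ A⁆ = ⊥) (hC : K ⊓ C[A] ≤ C[Q]) : Q ≤ C[K] := by
  have c1 : ⁅K, A⁆ ≤ C[K ⊔ A] := (commutator_mono le_sup_left le_sup_right).trans (commG1.1 h2)
  have c2 : ⁅K, A⁆ ≤ Z[K] ⊓ C[Q] := le_inf (le_inf (commg_subl hAK) (c1.trans (centS le_sup_left)))
    ((le_inf (commg_subl hAK) (c1.trans (centS le_sup_right))).trans hC)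
  have cQ : (#Q).Coprime #A := (coprime_of_isPGroup_of_coprime hA hQ).symm
  have nD1 : K ≤ N[Z[K] ⊓ C[Q]] := cents_norm (centsC.1 (inf_le_left.trans inf_le_right))
  have nD2 : Q ≤ N[Z[K] ⊓ C[Q]] := cents_norm (centsC.1 inf_le_right)
  have nD3 : A ≤ N[Z[K] ⊓ C[Q]] := normsI (normsI hAK (norms_cent hAK)) (norms_cent hAQ)
  have c3 : ⁅⁅Q, A⁆, K⁆ ≤ Z[K] ⊓ C[Q] := by
    refine three_subgroups_of_le_normalizer nD2 nD3 nD1 ?_ ?_
    · rw [commGC A K]; exact (commSg _ c2).trans (commg_subl nD2)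
    · exact (commSg _ (commg_subl hQK)).trans c2
  have c4 : ⁅Q, A⁆ ≤ C[K] := by
    refine stable_factor_cent (H := Z[K] ⊓ C[Q]) ((commg_subl hAQ).trans (centsC.1 inf_le_right)) (by rwa [commGC]) ?_
    exact coprime_of_isPGroup_of_coprime (hK.to_le (inf_le_left.trans inf_le_left)) (coprime_card_of_le (commg_subl hAQ) hQ)
  have c5 : Q ⊓ C[A] ≤ C[K] := by
    refine PxQ_lemma (P := A) (pgroup_nil (IsPGroup.to_sup_of_normal_left' hK hA hAK)) ?_ (centsC.1 inf_le_right) hAK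
      (inf_le_left.trans hQK) (hC.trans (centS inf_le_left))
    exact coprime_of_isPGroup_of_coprime hK (coprime_card_of_le inf_le_left hQ)
  rw [← coprime_cent_prod' hAQ cQ (.inl (isSolvable_of_isPGroup hA))]
  exact sup_le c4 c5

theorem inv_le_core_class2 (hX : IsPConstrained p G) (hA : IsPGroup p A)
    (h2 : ∀ S : Subgroup G, IsPGroup p S → ⁅⁅S, S⁆, S⁆ = ⊥)
    (hΩ : ∀ k, ∀ x ∈ C[A], x ^ p ^ k = 1 → x ∈ A) (hQ : (#Q).Coprime p) (hAQ : A ≤ N[Q]) :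
    Q ≤ pPrimeCore p G := by
  set f := QuotientGroup.mk' (pPrimeCore p G)
  have hk : (#f.ker).Coprime p := by rw [QuotientGroup.ker_mk']; exact coprime_pPrimeCore
  have hP : IsPGroup p (pCore p (G ⧸ pPrimeCore p G)) := pcIn_top (G := G ⧸ pPrimeCore p G) p ▸ isPGroup_pcIn
  have hQ' := coprime_card_map f hQ
  refine le_core_of_quot hX hQ (cent_of_class2 (hA.map f) hQ' (norms_map f hAQ) hP le_normalizer_of_normal
    le_normalizer_of_normal ?_ fun x hx => ?_)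
  · obtain ⟨T, hT, e⟩ := PLocal.exists_lift_pgroup (QuotientGroup.mk'_surjective (pPrimeCore p G))
      (IsPGroup.to_sup_of_normal_left' hP (hA.map f) le_normalizer_of_normal)
    rw [← e, ← map_commutator, ← map_commutator, h2 T hT, Subgroup.map_bot]
  · obtain ⟨k, hk1⟩ := hP ⟨x, hx.1⟩
    exact cent_of_mem_norm hP hQ' le_normalizer_of_normal hx.1 (norms_map f hAQ
      (lift_cent_hyp f (QuotientGroup.mk'_surjective _) hk hA (hΩ k) x hx.2 (congrArg Subtype.val hk1)))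

/-- transitivity theorem from the local hypothesis -/
theorem trans_of_inv [hq : Fact q.Prime] (hqp : q ≠ p) (hE : IsPGroup p E) (hc : IsMulCommutative E) (hA : Abelem p A)
    (hAE : A ≤ E) (h3 : p ^ 3 ≤ #A)
    (hloc : ∀ T ≤ E, T ≠ ⊥ → ∀ Q ≤ N[T], PiGrp {p}ᶜ Q → E ≤ N[Q] → Q ≤ Op' p N[T])
    {Q₁ Q₂ : Subgroup G} (h₁ : Q₁ ∈ maxInvSubgroups ⊤ E {q}) (h₂ : Q₂ ∈ maxInvSubgroups ⊤ E {q}) :
    ∃ c ∈ Op' p C[E], cj c Q₁ = Q₂ := by
  have hne := ne_bot_of_sq (sq_le_of_cube h3)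
  have hEne : E ≠ ⊥ := fun e => hne (le_bot_iff.1 (e ▸ hAE))
  have hEE : E ≤ C[E] := abelian_iff.1 hc
  have pg : ∀ {Q : Subgroup G}, Q ∈ maxInvSubgroups ⊤ E {q} → IsPGroup q Q := fun h => PiNat.pg h.1.2.1
  have cop : ∀ {Q B : Subgroup G}, PiGrp {p}ᶜ Q → B ≤ E → (#Q).Coprime #B := fun h hB =>
    pnat_coprime' h (hE.to_le hB).pi
  have ex : ∀ S : Subgroup G, IsPGroup q S → E ≤ N[S] → ∃ R ∈ maxInvSubgroups ⊤ E {q}, S ≤ R := fun S hS hn => by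
    obtain ⟨R, hR, hmax⟩ := Finite.exists_le_maximal (p := fun R => R ∈ invSubgroups ⊤ E {q}) (a := S)
      ⟨le_top, hS.pi, hn⟩
    exact ⟨R, ⟨hmax.1, fun R' hR' l => le_antisymm (hmax.2 hR' l) l⟩, hR⟩
  have mcj : ∀ {R : Subgroup G} {c : G}, c ∈ C[E] → R ∈ maxInvSubgroups ⊤ E {q} → cj c R ∈ maxInvSubgroups ⊤ E {q} := by
    intro R c hc hR
    have n : ∀ {c : G} {R : Subgroup G}, c ∈ C[E] → E ≤ N[R] → E ≤ N[cj c R] := fun {c R} hc h => by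
      rw [← cj_of_norm (cent_sub _ hc : c ∈ N[E]), N_cj]; exact cj_mono c h
    refine ⟨⟨le_top, pgroupJ c hR.1.2.1, n hc hR.1.2.2⟩, fun R' hR' l => ?_⟩
    have := hR.2 (cj c⁻¹ R') ⟨le_top, pgroupJ _ hR'.2.1, n (inv_mem hc) hR'.2.2⟩
      (by have := cj_mono c⁻¹ l; rwa [cj_inv_cj] at this)
    rw [← this, cj_cj_inv]
  induction hD : Q₁ ⊓ Q₂ using WellFoundedGT.induction generalizing Q₁ Q₂ with
  | ind D ih =>
  by_cases e : Q₁ = Q₂
  · exact ⟨1, one_mem _, by rw [cj_one, e]⟩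
  have l1 : D < Q₁ := hD ▸ inf_le_left.lt_of_ne fun e' => e (h₁.2 _ h₂.1 (inf_eq_left.1 e')).symm
  have l2 : D < Q₂ := hD ▸ inf_le_right.lt_of_ne fun e' => e (h₂.2 _ h₁.1 (inf_eq_right.1 e'))
  have nD : E ≤ N[D] := hD ▸ normsI h₁.1.2.2 h₂.1.2.2
  have pp : ∀ {Q : Subgroup G}, Q ∈ maxInvSubgroups ⊤ E {q} → PiGrp {p}ᶜ Q := fun h => p'group_of_ne (pg h) hqp
  obtain ⟨a, ha, ha1, k1, k2⟩ := exists_cent1_not_le hA h3 (hAE.trans (normsI (norms_norm nD) h₁.1.2.2))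
    (hAE.trans (normsI (norms_norm nD) h₂.1.2.2)) (cop (pgroupS inf_le_right (pp h₁)) hAE)
    (cop (pgroupS inf_le_right (pp h₂)) hAE) (not_norm_le_of_lt (pgroup_nil (pg h₁)) l1)
    (not_norm_le_of_lt (pgroup_nil (pg h₂)) l2)
  have hT : zpowers a ≤ E := zpowers_le.2 (hAE ha)
  have nT : E ≤ N[zpowers a] := cents_norm (hEE.trans (centS hT))
  have nC : E ≤ N[C1[a]] := by rw [← C_zpowers]; exact norms_cent nT
  set H := D ⊔ Op' p N[zpowers a] ⊓ N[D]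
  have pH : PiGrp {p}ᶜ H := pgroupY (.inr inf_le_right) (pgroupS l1.le (pp h₁)) (pgroupS inf_le_left (pcore_pgroup _ _))
  have nH : E ≤ N[H] := normsY nD (normsI (norms_pcore _ (norms_norm nT)) (norms_norm nD))
  have sE : Sol E := isSolvable_of_isPGroup hE
  have key : ∀ Q ∈ maxInvSubgroups ⊤ E {q}, D < Q → ¬ N[D] ⊓ Q ⊓ C1[a] ≤ D → ∃ S R, SylowIn q S H ∧
      E ≤ N[S] ∧ R ∈ maxInvSubgroups ⊤ E {q} ∧ S ≤ R ∧ D < Q ⊓ S := fun Q hQ l k => by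
    have n1 : E ≤ N[N[D] ⊓ Q ⊓ C1[a]] := normsI (normsI (norms_norm nD) hQ.1.2.2) nC
    have hle : D ⊔ N[D] ⊓ Q ⊓ C1[a] ≤ H := sup_le_sup_left (le_inf
      (hloc _ hT (zpowers_ne_bot.2 ha1) _ (inf_le_right.trans (C_zpowers (x := a) ▸ cent_sub _))
        (pgroupS (inf_le_left.trans inf_le_right) (pp hQ)) n1) (inf_le_left.trans inf_le_left)) _
    have hQ' : D ⊔ N[D] ⊓ Q ⊓ C1[a] ≤ Q := sup_le l.le (inf_le_left.trans inf_le_right)
    obtain ⟨S, hS, nS, lS⟩ := coprime_Sylow_subset nH (cop pH le_rfl) (.inl sE) hle ((pg hQ).to_le hQ') (normsY nD n1)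
    obtain ⟨R, hR, lR⟩ := ex S hS.pg nS
    exact ⟨S, R, hS, nS, hR, lR, (left_lt_sup.2 k).trans_le (le_inf hQ' lS)⟩
  obtain ⟨S₁, R₁, s1, n1, r1, m1, d1⟩ := key Q₁ h₁ l1 k1
  obtain ⟨S₂, R₂, s2, n2, r2, m2, d2⟩ := key Q₂ h₂ l2 k2
  obtain ⟨c, hc, ec⟩ := coprime_Sylow_trans nH (cop pH le_rfl) (.inl sE) s1 n1 s2 n2
  have hc' : c ∈ Op' p C[E] := by
    have l : H ⊓ C[E] ≤ Op' p N[E] := hloc E le_rfl hEne _ (inf_le_right.trans (cent_sub _))
      (pgroupS inf_le_left pH) (cents_norm (centsC.1 inf_le_right))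
    exact pcore_setI _ (cent_sub _) ⟨l hc, hc.2⟩
  obtain ⟨c₁, hc₁, e₁⟩ := ih _ (d1.trans_le (inf_le_inf_left _ m1)) h₁ r1 rfl
  obtain ⟨c₂, hc₂, e₂⟩ := ih _ (d2.trans_le (le_inf (inf_le_right.trans (ec ▸ cj_mono c m1)) inf_le_left))
    (mcj hc.2 r1) h₂ rfl
  exact ⟨c₂ * c * c₁, mul_mem (mul_mem hc₂ hc') hc₁, by rw [cj_mul, cj_mul, e₁, e₂]⟩

end Cfsg.Agent.Sig
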