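import Cfsg.Agent.Sig.TI1
import Cfsg.Agent.Frob.Zipper
import Cfsg.Agent.BG.S3Gen
import Cfsg.Agent.Classical.PGL2Dih

/-! TI-subgroups inverted by an involution, the case `|N(M) : M| = 2` (`TIv.H'.small`), and the theorem
(`TIv.main`). -/

set_option linter.dupNamespace false
set_option linter.unusedSectionVars false
set_option linter.unusedVariables false

namespace Cfsg.Agent.Sig.TIv

open Subgroup Cfsg Cfsg.Agent.BG Cfsg.Agent.Invol

variable {G : Type*} [Group G] [Finite G] {M : Subgroup G} {z t s x y g a d : G}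

theorem conj_into {p : ℕ} (hp : p.Prime) (hi : ¬ p ∣ M.index) (hy : y ^ p = 1) : ∃ g, g * y * g⁻¹ ∈ M := by
  haveI := Fact.mk hp
  obtain ⟨P, hP⟩ := Sylow_exists p M
  obtain ⟨g, -, h⟩ := Sylow_Jsub (pHall_trans_idx hP le_top ((p'nat_coprime hp).2 (by
    rw [relIndex_top_right]; exact ((Nat.Prime.coprime_iff_not_dvd hp).2 hi).symm))) le_top
    (isPGroup_zpowers (n := 1) (by simpa using hy))
  exact ⟨g, hP.le (h (conj_mem_cj g (mem_zpowers y)))⟩

theorem arith {m Q c : ℕ} (hQ : 2 ≤ Q) (hm : 3 ≤ m) (hc : Q.Coprime m)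
    (h : c * (2 * Q) = 2 * m + m * (2 * Q - 2) * m) (hlt : c < m * (2 * Q - 1)) : m = Q + 1 := by
  obtain ⟨r, rfl⟩ : ∃ r, Q = r + 1 := ⟨Q - 1, by omega⟩
  rw [show 2 * (r + 1) - 2 = 2 * r by omega] at h
  rw [show 2 * (r + 1) - 1 = 2 * r + 1 by omega] at hlt
  have h1 : c * (r + 1) = m * (1 + m * r) := by nlinarith
  obtain ⟨k, hk⟩ := hc.dvd_of_dvd_mul_left (Dvd.intro_left _ h1)
  have h2 : c = m * k := Nat.eq_of_mul_eq_mul_right (show 0 < r + 1 by omega) (by rw [h1, hk]; ring)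
  have h3 : k < 2 * r + 1 := Nat.lt_of_mul_lt_mul_left (h2 ▸ hlt)
  obtain ⟨j, hj⟩ : (r : ℤ) ∣ k - 1 := ⟨m - k, by
    have : (1 : ℤ) + m * r = (r + 1) * k := by exact_mod_cast hk
    linarith⟩
  have hk' : (1 : ℤ) + m * r = (r + 1) * k := by exact_mod_cast hk
  have e : (m : ℤ) = k + j := by
    have : (r : ℤ) * (m - k - j) = 0 := by linarith
    rcases mul_eq_zero.1 this with e | e <;> omega
  have j1 : j < 2 := by
    by_contra! h4
    have : (r : ℤ) * 2 ≤ r * j := mul_le_mul_of_nonneg_left h4 (by omega)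
    omega
  have j0 : 0 < j := by
    by_contra! h4
    have : (r : ℤ) * j ≤ 0 := mul_nonpos_of_nonneg_of_nonpos (by omega) h4
    omega
  obtain rfl : j = 1 := by omega
  omega

namespace H'
variable (h : H' M z)
include h

theorem sq1 (hx : x ∈ M) (h2 : x * x = 1) : x = 1 := eq_one_of_odd_of_mul_self (odd_orderOf_of_mem h.oddM hx) h2

theorem flip (hx : x ∈ M) (hy : y ∈ M) (ha : a ∈ C1[z]) (hc : x * a * y ∈ C1[z]) :
    x * x = a * (y * y)⁻¹ * a⁻¹ := by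
  have e : x * a * y = x⁻¹ * a * y⁻¹ := by
    calc x * a * y = z * (x * a * y) * z⁻¹ := by rw [← mem_cent1.1 hc]; group
      _ = (z * x * z⁻¹) * (z * a * z⁻¹) * (z * y * z⁻¹) := by group
      _ = _ := by rw [h.inv h.z2 h.zN hx, h.inv h.z2 h.zN hy, ← mem_cent1.1 ha]; group
  calc x * x = x * (x * a * y) * y⁻¹ * a⁻¹ := by group
    _ = _ := by rw [e]; group

theorem card_invol (hA : ∀ a ∈ C1[z], a * a = 1) : Nat.card {g : G // orderOf g = 2} = #M * (#C1[z] - 1) := by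
  have e : Nat.card {a : C1[z] // a ≠ 1} = #C1[z] - 1 := by
    classical
    haveI := Fintype.ofFinite C1[z]
    simp [Nat.card_eq_fintype_card]
  have o : ∀ a : {a : C1[z] // a ≠ 1}, orderOf (a.1 : G) = 2 := fun a =>
    orderOf_two_iff.2 ⟨hA _ a.1.2, by simpa using a.2⟩
  rw [← e, ← Nat.card_prod]
  refine (Nat.card_eq_of_bijective (fun u : M × {a : C1[z] // a ≠ 1} =>
    (⟨u.1 * u.2.1 * (u.1 : G)⁻¹, by rw [BG.orderOf_conj', o]⟩ : {g : G // orderOf g = 2})) ⟨?_, ?_⟩).symm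
  · rintro ⟨x, a⟩ ⟨x', a'⟩ e
    have e1 : (x : G) * a.1 * (x : G)⁻¹ = x' * a'.1 * (x' : G)⁻¹ := congrArg Subtype.val e
    have hu : (x' : G)⁻¹ * x ∈ M := mul_mem (inv_mem x'.2) x.2
    have e2 : ((x' : G)⁻¹ * x) * a.1 * ((x' : G)⁻¹ * x)⁻¹ = a'.1 := by
      calc _ = (x' : G)⁻¹ * (x * a.1 * (x : G)⁻¹) * x' := by group
        _ = _ := by rw [e1]; group
    have e3 := h.flip hu (inv_mem hu) a.1.2 (e2 ▸ a'.1.2)
    have e4 := h.sq1 hu (h.fpf (o a) (mul_mem hu hu) (mem_cent1.2 (by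
      nth_rewrite 1 [e3]; group)))
    rw [e4] at e2
    exact Prod.ext (Subtype.ext (inv_mul_eq_one.1 e4).symm) (Subtype.ext (Subtype.ext (by simpa using e2)))
  · rintro ⟨s, hs⟩
    have : ∃ x ∈ M, x⁻¹ * s * x ∈ C1[z] := by
      by_cases hn : s ∈ N[M]
      · obtain ⟨x, hx, rfl⟩ := h.conj_z hs hn
        exact ⟨x, hx, by simpa [mul_assoc] using cent1_self z⟩
      · exact h.exz hs hn
    obtain ⟨x, hx, hc⟩ := this
    exact ⟨(⟨x, hx⟩, ⟨⟨_, hc⟩, fun e => ne_one_of (orderOf_conj'' x s ▸ hs) (congrArg Subtype.val e)⟩),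
      Subtype.ext (by simp [mul_assoc])⟩

theorem card_G : Nat.card G = #N[M] + #M * Nat.card {a : C1[z] // (a : G) ∉ N[M]} * #M := by
  classical
  rw [← Nat.card_prod, ← Nat.card_prod, Nat.card_eq_of_bijective (fun u : (M × {a : C1[z] // (a : G) ∉ N[M]}) × M =>
    (⟨u.1.1 * u.1.2.1 * u.2, fun e => u.1.2.2 (by
      simpa [mul_assoc] using mul_mem (mul_mem (inv_mem (normG _ u.1.1.2)) e) (inv_mem (normG _ u.2.2)))⟩ :
      {g : G // g ∉ N[M]})) ⟨?_, ?_⟩, ← Nat.card_sum]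
  · exact Nat.card_congr (Equiv.sumCompl (· ∈ N[M])).symm
  · rintro ⟨⟨x, a⟩, y⟩ ⟨⟨x', a'⟩, y'⟩ e
    have e1 : (x : G) * a.1 * y = x' * a'.1 * y' := congrArg Subtype.val e
    have hu : (x' : G)⁻¹ * x ∈ M := mul_mem (inv_mem x'.2) x.2
    have hv : (y : G) * (y' : G)⁻¹ ∈ M := mul_mem y.2 (inv_mem y'.2)
    have e2 : ((x' : G)⁻¹ * x) * a.1 * ((y : G) * (y' : G)⁻¹) = a'.1 := by
      calc _ = (x' : G)⁻¹ * (x * a.1 * y) * (y' : G)⁻¹ := by group
        _ = _ := by rw [e1]; group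
    have e3 := h.flip hu hv a.1.2 (e2 ▸ a'.1.2)
    have e4 := h.ti _ _ (inv_mem (mul_mem hv hv)) (e3 ▸ mul_mem hu hu) a.2
    rw [e4] at e3
    have e5 := h.sq1 hu (by simpa using e3)
    have e6 := h.sq1 hv (inv_eq_one.1 e4)
    rw [e5, e6] at e2
    exact Prod.ext (Prod.ext (Subtype.ext (inv_mul_eq_one.1 e5).symm) (Subtype.ext (Subtype.ext (by simpa using e2))))
      (Subtype.ext (mul_inv_eq_one.1 e6))
  · rintro ⟨g, hg⟩
    obtain ⟨x, hx, a, ha, ha', y, hy, rfl⟩ := h.dec hg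
    exact ⟨((⟨x, hx⟩, ⟨⟨a, ha⟩, ha'⟩), ⟨y, hy⟩), rfl⟩

variable (hK : ∀ y ∈ N[M], y ∈ C1[z] → y * y = 1)
include hK

theorem K2 (hy : y ∈ N[M]) (hc : y ∈ C1[z]) : y = 1 ∨ y = z := by
  refine (em _).imp_right fun y1 => ?_
  have := h.fpf h.z2 (h.mul_z (orderOf_two_iff.2 ⟨hK y hy hc, y1⟩) hy) (mul_mem hc (cent1_self z))
  rw [eq_inv_of_mul_eq_one_left this, inv_eq_of h.z2]

theorem memN (g : G) : g ∈ N[M] ↔ g ∈ M ∨ z⁻¹ * g ∈ M := by
  refine ⟨fun hg => ?_, fun hg => hg.elim (normG M ·) fun e => by simpa using mul_mem h.zN (normG _ e)⟩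
  obtain ⟨x, hx, hc⟩ := h.fac g hg
  refine (h.K2 hK (mul_mem (inv_mem (normG _ hx)) hg) hc).imp (fun e => by rwa [← inv_mul_eq_one.1 e]) fun e => ?_
  rw [inv_mul_eq_iff_eq_mul.1 e, ← mul_assoc]
  exact conj_mem_of_norm' h.zN hx

theorem sqA : ∀ a ∈ C1[z], a * a = 1 := fun a ha =>
  (em (a ∈ N[M])).elim (hK a · ha) fun hn => mul_self_of (h.cz hn ha)

theorem cardN : #N[M] = 2 * #M := by
  rw [← Solv.card_mul_relIndex (normG M), mul_comm]
  congr 1
  refine relIndex_eq_two_iff.2 ⟨z, h.zN, fun b hb => ?_⟩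
  rcases (h.memN hK b).1 hb with e | e
  · exact .inr ⟨e, fun e' => h.not_mem h.z2 (by simpa using mul_mem (inv_mem e) e')⟩
  · refine .inl ⟨by simpa [mul_assoc, inv_eq_of h.z2, mul_self_cancel (mul_self_of h.z2)] using conj_mem_of_norm' h.zN e, fun e' =>
      h.not_mem h.z2 (by simpa using mul_mem e' (inv_mem e))⟩

theorem cardA : Nat.card {a : C1[z] // (a : G) ∉ N[M]} + 2 = #C1[z] := by
  classical
  have : Nat.card {a : C1[z] // (a : G) ∈ N[M]} = 2 := Nat.card_eq_two_iff.2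
    ⟨⟨1, one_mem _⟩, ⟨⟨z, cent1_self z⟩, h.zN⟩, fun e => ne_one_of h.z2 (congrArg (fun u => (u.1 : G)) e).symm, by
      ext ⟨⟨a, ha⟩, ha'⟩
      simpa using h.K2 hK ha' ha⟩
  rw [← this, add_comm, ← Nat.card_sum]
  exact Nat.card_congr (Equiv.sumCompl _)

theorem small : (∃ (F : Type) (_ : Field F) (_ : Fintype F) (e : ℕ), 1 < e ∧ Fintype.card F = 2 ^ e ∧ IsCyclic M ∧
      Nat.card M = 2 ^ e + 1 ∧ Nonempty (G ≃* Matrix.ProjectiveSpecialLinearGroup (Fin 2) F)) ∨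
    ∃ (d : ℕ) (E : Subgroup G), 1 ≤ d ∧ E.Normal ∧ IsElementaryAbelian 2 E ∧ Nat.card E = 2 ^ (2 * d) ∧
      E ⊓ N[M] = ⊥ ∧ E ⊔ N[M] = ⊤ ∧ Nonempty (N[M] ≃* DihedralGroup (2 ^ d + 1)) := by
  have hA := h.sqA hK
  obtain ⟨a, ha', ha⟩ := h.exa
  obtain ⟨x, hx, x1⟩ := (M.bot_or_exists_ne_one).resolve_left h.ne
  have c1 := h.card_G
  have c2 := h.cardA hK
  have c3 := h.card_invol hA
  have c4 := card_class_mul_card_centralizer z
  have c5 := M.card_mul_index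
  have m3 : 3 ≤ #M := by
    have := h.oddM
    have := (one_lt_card_iff_ne_bot M).2 h.ne
    rw [Nat.odd_iff] at *; omega
  have m0 : 0 < #M := by omega
  obtain ⟨e, he⟩ := IsPGroup.iff_card.1 (show IsPGroup 2 C1[z] from fun a => ⟨1, Subtype.ext (by
    simpa [pow_two] using hA a a.2)⟩)
  haveI : Nonempty {a : C1[z] // (a : G) ∉ N[M]} := ⟨⟨⟨a, ha'⟩, ha⟩⟩
  have c6 := Nat.card_pos (α := {a : C1[z] // (a : G) ∉ N[M]})
  obtain ⟨d, rfl⟩ : ∃ d, e = d + 2 := ⟨e - 2, by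
    rcases e with _ | _ | e <;> omega⟩
  have q4 : 4 ≤ 2 ^ (d + 2) := by have := Nat.one_le_two_pow (n := d); rw [pow_add]; omega
  rw [h.cardN hK, show Nat.card {a : C1[z] // (a : G) ∉ N[M]} = 2 ^ (d + 2) - 2 by omega] at c1
  rw [he] at c3 c4
  by_cases hall : ∀ t, orderOf t = 2 → IsConj z t
  · have sq : ∀ t c : G, orderOf t = 2 → c ∈ C1[t] → c * c = 1 := fun t c ht hc => by
      obtain ⟨g, rfl⟩ := isConj_iff.1 (hall t ht)
      rw [C1_conj] at hc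
      obtain ⟨b, hb, rfl⟩ := hc
      simpa [← map_mul] using hA b hb
    obtain ⟨F, _, _, f1, f2, ⟨f⟩⟩ := AB.EA.equiv_SL ⟨⟨fun t a b ht ha hb =>
      commute_of_mul_sq (sq t a ht ha) (sq t b ht hb) (sq t _ ht (mul_mem ha hb)),
      ⟨a, z, h.cz ha ha', h.z2, fun e => ha (e ▸ h.zN), ha'⟩,
      ⟨x * z * x⁻¹, z, BG.orderOf_conj' x z ▸ h.z2, h.z2, fun e => x1 (h.fpf h.z2 hx (mem_cent1.2
        (mul_inv_eq_iff_eq_mul.1 ((h.K2 hK (mul_mem (mul_mem (normG _ hx) h.zN) (inv_mem (normG _ hx))) e).resolve_left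
          (ne_one_of (BG.orderOf_conj' x z ▸ h.z2))))))⟩⟩, sq⟩ h.z2
    have c7 : Nat.card {y : G // IsConj z y} = Nat.card {g : G // orderOf g = 2} :=
      Nat.card_congr (Equiv.subtypeEquivRight fun y => ⟨fun e => orderOf_of_isConj e ▸ h.z2, hall y⟩)
    rw [he] at f1
    generalize hq : 2 ^ (d + 2) = q at *
    obtain ⟨r, rfl⟩ : ∃ r, q = r + 2 := ⟨q - 2, by omega⟩
    rw [c7, c3, c1, show r + 2 - 1 = r + 1 by omega, show r + 2 - 2 = r by omega] at c4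
    have c8 : #M = r + 3 := by
      have : (r + 1) * (r + 2) = 2 + r * #M := Nat.eq_of_mul_eq_mul_left m0 (by nlinarith)
      exact Nat.eq_of_mul_eq_mul_left (show 0 < r by omega) (by nlinarith)
    have c9 : M.index = (r + 1) * (r + 2) := Nat.eq_of_mul_eq_mul_left m0 (by
      rw [c5, c1, show r + 2 - 2 = r by omega, ← c4]; ring)
    let φ := f.trans (Classical.slEquivPSL f2)
    refine .inl ⟨F, _, _, d + 2, by omega, f1.trans hq.symm, ?_, by omega, ⟨φ⟩⟩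
    obtain ⟨g, hg⟩ := Classical.psl_exists_orderOf_succ (F := F)
    rw [Classical.gcd_two_pred_of_even (Classical.two_eq_zero_iff_even.1 f2) Nat.card_pos, Nat.div_one,
      Nat.card_eq_fintype_card, f1, ← φ.symm.orderOf_eq] at hg
    generalize φ.symm g = w at hg
    obtain ⟨p, hp, hd⟩ := Nat.exists_prime_and_dvd (show r + 3 ≠ 1 by omega)
    have w1 : orderOf (w ^ ((r + 3) / p)) = p := by
      have := orderOf_pow_orderOf_div (x := w) (by omega) (hg ▸ hd)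
      rwa [hg] at this
    obtain ⟨k, hk⟩ := conj_into (M := M) hp (by
      rw [c9, hp.dvd_mul]
      have p2 : p ≠ 2 := by
        rintro rfl
        have := h.oddM
        rw [c8, Nat.odd_iff] at this; omega
      rintro (h1 | h1)
      · exact p2 ((Nat.prime_dvd_prime_iff_eq hp Nat.prime_two).1 ((Nat.dvd_add_right h1).1 hd))
      · exact hp.one_lt.ne' (Nat.dvd_one.1 ((Nat.dvd_add_right h1).1 hd))) (w1 ▸ pow_orderOf_eq_one _)
    have k1 : k * w ^ ((r + 3) / p) * k⁻¹ ≠ 1 := fun e => hp.one_lt.ne (by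
      rw [← w1, ← BG.orderOf_conj' k, e, orderOf_one])
    have k2 : k * w * k⁻¹ ∈ N[M] := by
      by_contra hn
      refine k1 (h.ti _ _ hk ?_ hn)
      rwa [← conj_pow, ← pow_succ', pow_succ, mul_inv_cancel_right, conj_pow]
    have k3 : orderOf (k * w * k⁻¹) = #M := by rw [BG.orderOf_conj', hg, c8]
    have k4 : k * w * k⁻¹ ∈ M := ((h.memN hK _).1 k2).resolve_right fun e => by
      have := mul_sq_of_inverts (mul_self_of h.z2) (h.inv h.z2 h.zN e)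
      rw [mul_inv_cancel_left, ← pow_two] at this
      have := Nat.le_of_dvd two_pos (orderOf_dvd_of_pow_eq_one this)
      omega
    exact isCyclic_of_orderOf_eq_card (⟨_, k4⟩ : M) (by rw [← k3, orderOf_mk])
  push Not at hall
  obtain ⟨t, t2, tz⟩ := hall
  let T : Set G := {g | orderOf g = 2 ∧ ¬ IsConj z g}
  have c7 : Nat.card {y : G // IsConj z y} + T.ncard = Nat.card {g : G // orderOf g = 2} := by
    rw [← Nat.card_coe_set_eq, ← Nat.card_sum]
    classical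
    refine Nat.card_congr ((Equiv.sumCongr ?_ ?_).trans (Equiv.sumCompl fun g : {g : G // orderOf g = 2} => IsConj z g))
    · exact ⟨fun y => ⟨⟨y.1, orderOf_of_isConj y.2 ▸ h.z2⟩, y.2⟩, fun y => ⟨y.1.1, y.2⟩, fun _ => rfl, fun _ => rfl⟩
    · exact ⟨fun y => ⟨⟨y.1, y.2.1⟩, y.2.2⟩, fun y => ⟨y.1.1, y.1.2, y.2⟩, fun _ => rfl, fun _ => rfl⟩
  have c8 : 0 < T.ncard := (Set.ncard_pos (Set.toFinite _)).2 ⟨t, t2, tz⟩
  have cop : (2 ^ (d + 1)).Coprime #M := Nat.Coprime.pow_left _ ((Nat.coprime_two_left).2 h.oddM)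
  have hq : 2 ^ (d + 2) = 2 * 2 ^ (d + 1) := by ring
  have hd : 2 ^ (2 * (d + 1)) = 2 ^ (d + 1) * 2 ^ (d + 1) := by ring
  have Q2 : 2 ≤ 2 ^ (d + 1) := by omega
  rw [hq] at c1 c3 c4
  have c9 := arith Q2 m3 cop (c4.trans c1) (by omega)
  have two : ∀ p : ℕ, p.Prime → p ∣ 2 * (2 ^ (d + 1) * 2 ^ (d + 1)) → p = 2 := fun p hp hd => by
    rw [← pow_add, ← pow_succ'] at hd
    exact (Nat.prime_dvd_prime_iff_eq hp Nat.prime_two).1 (hp.dvd_of_dvd_pow hd)
  generalize hQ : 2 ^ (d + 1) = Q at *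
  obtain ⟨r, rfl⟩ : ∃ r, Q = r + 1 := ⟨Q - 1, by omega⟩
  rw [show 2 * (r + 1) - 2 = 2 * r by omega] at c1
  rw [show 2 * (r + 1) - 1 = 2 * r + 1 by omega] at c3
  have d1 : M.index = 2 * ((r + 1) * (r + 1)) := Nat.eq_of_mul_eq_mul_left m0 (by rw [c5, c1, c9]; ring)
  have d2 : Nat.card {y : G // IsConj z y} = (r + 2) * (r + 1) :=
    Nat.eq_of_mul_eq_mul_right (show 0 < 2 * (r + 1) by omega) (by rw [c4, c1, c9]; ring)
  have d3 : T.ncard + 1 = (r + 1) * (r + 1) := by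
    rw [d2, c3, c9] at c7
    nlinarith
  have hT : ∀ f ∈ T, f ∈ pCore 2 G := fun f hf => Frob.mem_pCore_of_forall_conj fun g => by
    have f2 := mul_self_of hf.1
    have f2' := mul_self_of (BG.orderOf_conj' g f ▸ hf.1)
    obtain ⟨n, hn⟩ : ∃ n, orderOf (f * (g * f * g⁻¹)) = 2 ^ n := ⟨_, Nat.eq_prime_pow_of_unique_prime_dvd
      (orderOf_pos _).ne' fun {p} hp hd => by
        by_contra p2
        have w1 := orderOf_pow_orderOf_div (orderOf_pos _).ne' hd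
        have w2 := conj_pow_of_inverts (conj_prod_left f2 f2') (orderOf (f * (g * f * g⁻¹)) / p)
        generalize (f * (g * f * g⁻¹)) ^ (orderOf (f * (g * f * g⁻¹)) / p) = w at w1 w2
        obtain ⟨k, hk⟩ := conj_into (M := M) hp (fun e => p2 (two p hp (d1 ▸ e))) (w1 ▸ pow_orderOf_eq_one w)
        have k2 : k * f * k⁻¹ ∈ N[M] := by
          by_contra hn
          have := h.ti _ _ hk (by
            rw [show k * f * k⁻¹ * (k * w * k⁻¹) * (k * f * k⁻¹)⁻¹ = k * (f * w * f⁻¹) * k⁻¹ by group, w2]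
            simpa [mul_assoc] using inv_mem hk) hn
          exact hp.one_lt.ne (by rw [← w1, ← BG.orderOf_conj' k, this, orderOf_one])
        obtain ⟨u, -, e⟩ := h.conj_z (BG.orderOf_conj' k f ▸ hf.1) k2
        exact hf.2 (isConj_iff.2 ⟨k⁻¹ * u, by
          rw [show k⁻¹ * u * z * (k⁻¹ * u)⁻¹ = k⁻¹ * (u * z * u⁻¹) * k by group, e]; group⟩)⟩
    exact isPGroup_closure_pair f2 f2' (n := n) (hn ▸ pow_orderOf_eq_one _)
  have E2 := Solv.isPGroup_pCore 2 G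
  have hE : pCore 2 G ⊓ N[M] = ⊥ := by
    by_contra h0
    obtain ⟨u, hu, u2⟩ := exists_invol_mem_of_isPGroup (E2.to_le inf_le_left) h0
    refine x1 (h.sq1 hx (eq_one_of_odd_of_mem_isPGroup E2 ?_ (odd_orderOf_of_mem h.oddM (mul_mem hx hx))))
    have := mul_mem (Normal.conj_mem inferInstance u hu.1 x) (inv_mem hu.1)
    rwa [show x * u * x⁻¹ * u⁻¹ = x * (u * x * u⁻¹)⁻¹ by group, h.inv u2 hu.2 hx, inv_inv] at this
  have e1 := Solv.card_sup_mul_card_inf (norm_of_normal (pCore 2 G) N[M])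
  have e2 := card_le_of_le (le_top : pCore 2 G ⊔ N[M] ≤ ⊤)
  rw [hE, card_bot, mul_one, h.cardN hK] at e1
  rw [card_top, ← c5, d1] at e2
  have hs : insert 1 T ⊆ pCore 2 G := Set.insert_subset (one_mem _) hT
  have e3 : (insert 1 T).ncard = (r + 1) * (r + 1) := by
    rw [Set.ncard_insert_of_notMem (fun e => ne_one_of e.1 rfl), d3]
  have e4 := Set.ncard_le_ncard hs
  have e5 : ((pCore 2 G : Subgroup G) : Set G).ncard = #(pCore 2 G) := (Nat.card_coe_set_eq _).symm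
  have e6 : #(pCore 2 G) = (r + 1) * (r + 1) := le_antisymm (Nat.le_of_mul_le_mul_right (c := 2 * #M)
    (by nlinarith) (by omega)) (by omega)
  have e7 := Set.eq_of_subset_of_ncard_le hs (by omega)
  have sq : ∀ u ∈ pCore 2 G, u * u = 1 := fun u hu => by
    rcases e7.ge hu with rfl | e
    · simp
    · exact mul_self_of e.1
  have cyc : IsCyclic M := abelian_regular_cyclic h.comm (H := pCore 2 G) (fun e => by
    rw [e, card_bot] at e6; nlinarith) (norm_of_normal _ _) fun u hu u1 => eq_bot_iff.2 fun v hv =>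
      eq_one_of_odd_of_mul_self (odd_orderOf_of_mem (h.odd u hu u1) hv.2) (sq v hv.1)
  refine .inr ⟨d + 1, pCore 2 G, by omega, inferInstance, ⟨⟨⟨fun u v => Subtype.ext (commute_of_mul_sq (sq _ u.2)
    (sq _ v.2) (sq _ (mul_mem u.2 v.2)))⟩⟩, fun u hu => by rw [pow_two, sq u hu]⟩, by omega, hE,
    eq_top_of_card_eq _ (by rw [e1, e6, ← c5, d1]; ring), ?_⟩
  rw [hQ, ← c9]
  exact Classical.nonempty_equiv_dihedral_of_cyclic cyc (mul_self_of h.z2) (fun u hu => h.inv h.z2 h.zN hu)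
    (h.not_mem h.z2) (h.memN hK)

end H'

theorem main (h1 : M ≠ ⊥) (hTI : ∀ g : G, M ⊓ cj g M ≠ ⊥ → cj g M = M) (hz : orderOf z = 2) (hN : z ∈ N[M])
    (hf : M ⊔ (N[M] ⊓ C1[z]) = N[M]) (ho : ∀ x ∈ M, x ≠ 1 → Odd #C1[x]) (hn : ¬ M.Normal)
    (hi : ¬ Nat.card {g : G // orderOf g = 2} ≤ M.index) : H' M z := by
  have h : H M z := ⟨h1, fun g x hx hg hn => by
    by_contra x1
    exact hn (mem_norm_of_cj_le (hTI g fun e => x1 (by
      simpa using (conj_eq_one_iff.1 (mem_bot.1 (e.le ⟨hg, conj_mem_cj g hx⟩))))).le), hz, hN, fun n hn => by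
    obtain ⟨x, hx, y, hy, rfl⟩ := (mem_sup_norml inf_le_left).1 (hf.ge hn)
    exact ⟨x, hx, by simpa using hy.2⟩, ho⟩
  refine ⟨h, fun g hg => h.cos hi hg, ?_⟩
  by_contra! k
  exact hn (normalizer_eq_top_iff.1 (eq_top_iff.2 fun g _ => k g))

end Cfsg.Agent.Sig.TIv
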