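import Cfsg.Agent.Sig.JD2
import Cfsg.Agent.PLocal.NStab

/-! Glauberman's degree bound for the abelian Thompson subgroup, part 3: `[Q, A; 4] ≤ Z(Q)` on a critical subgroup
(`JD.quartic`), and the consequences `JD.JA_degree`. -/

set_option linter.dupNamespace false
set_option linter.unusedSectionVars false
set_option linter.unusedVariables false

namespace Cfsg.Agent.Sig.JD

open Subgroup Cfsg Cfsg.Agent.Transfer Cfsg.Agent.BG Cfsg.Agent.PLocal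
open scoped commutatorElement

section
variable {G : Type*} [Group G] {A X : Subgroup G}

theorem flip {w a : G} (h : ⁅⁅w, a⁆, a⁻¹⁆ = 1) : ⁅w, a⁻¹⁆ = ⁅w, a⁆⁻¹ := by
  have e : ⁅w, a⁻¹⁆ = a⁻¹ * ⁅w, a⁆⁻¹ * a := by simp only [commutatorElement_def]; group
  rw [e, ← (commutatorElement_eq_one_iff_commute.1 h).inv_left.eq]; group

theorem ysym (hX : IsMulCommutative X) (hA : IsMulCommutative A) (hn : A ≤ N[X]) {v : G} (hv : v ∈ X)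
    (h5 : ∀ a ∈ A, ∀ b ∈ A, ∀ c ∈ A, ∀ d ∈ A, ∀ e ∈ A, ⁅⁅⁅⁅⁅v, a⁆, b⁆, c⁆, d⁆, e⁆ = 1) {a b c d : G}
    (ha : a ∈ A) (hb : b ∈ A) (hc : c ∈ A) (hd : d ∈ A) :
    ⁅⁅⁅⁅v, a⁆, b⁆, c⁻¹⁆, d⁻¹⁆ = ⁅⁅⁅⁅v, a⁆, b⁆, c⁆, d⁆ ∧ ⁅⁅⁅⁅v, a⁆, b⁆, c⁆, d⁆ = ⁅⁅⁅⁅v, d⁆, c⁆, b⁆, a⁆ := by
  have sw : ∀ u ∈ X, ∀ a ∈ A, ∀ b ∈ A, ⁅⁅u, a⁆, b⁆ = ⁅⁅u, b⁆, a⁆ := fun u hu a ha b hb =>
    swap_ab hX hn (comm_of hA ha hb) ha hb (c_mem hn hu ha) (c_mem hn hu hb)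
  have m1 : ∀ a ∈ A, ⁅v, a⁆ ∈ X := fun a ha => c_mem hn hv ha
  have m2 : ∀ a ∈ A, ∀ b ∈ A, ⁅⁅v, a⁆, b⁆ ∈ X := fun a ha b hb => c_mem hn (m1 a ha) hb
  constructor
  · rw [flip (h5 a ha b hb _ (inv_mem hc) d hd _ (inv_mem hd)), sw _ (m2 a ha b hb) _ (inv_mem hc) d hd,
      flip (h5 a ha b hb d hd c hc _ (inv_mem hc)), inv_inv, sw _ (m2 a ha b hb) d hd c hc]
  · rw [sw _ (m2 a ha b hb) c hc d hd, sw _ (m1 a ha) b hb d hd, sw _ hv a ha d hd,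
      sw _ (m2 d hd a ha) b hb c hc, sw _ (m1 d hd) a ha c hc, sw _ (m2 d hd c hc) a ha b hb]

end

variable {G : Type*} [Group G] [Finite G] {p : ℕ} {A B Q S T V X Y Z : Subgroup G}

section cl2
variable (h2 : ⁅Q, Q⁆ ≤ Z[Q])
include h2

theorem bmem {u w : G} (hu : u ∈ Q) (hw : w ∈ Q) : ⁅u, w⁆ ∈ Z[Q] := h2 (commutator_mem_commutator hu hw)

omit h2 in
theorem zc {z u : G} (hz : z ∈ Z[Q]) (hu : u ∈ Q) : Commute u z := hz.2 u hu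

theorem b_mul_left {u u' w : G} (hu : u ∈ Q) (hu' : u' ∈ Q) (hw : w ∈ Q) : ⁅u * u', w⁆ = ⁅u, w⁆ * ⁅u', w⁆ := by
  rw [c_mul_left, (zc (bmem h2 hu' hw) hu).eq, mul_inv_cancel_right,
    (zc (bmem h2 hu hw) (bmem h2 hu' hw).1).eq]

theorem b_inv_left {u w : G} (hu : u ∈ Q) (hw : w ∈ Q) : ⁅u⁻¹, w⁆ = ⁅u, w⁆⁻¹ := by
  have := b_mul_left h2 hu (inv_mem hu) hw
  rw [mul_inv_cancel, commutatorElement_one_left] at this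
  exact (eq_inv_of_mul_eq_one_right this.symm)

theorem b_mul_right {u w w' : G} (hu : u ∈ Q) (hw : w ∈ Q) (hw' : w' ∈ Q) :
    ⁅u, w * w'⁆ = ⁅u, w⁆ * ⁅u, w'⁆ := by
  rw [c_mul_right, (zc (bmem h2 hu hw') hw).eq, mul_inv_cancel_right]

theorem b_inv_right {u w : G} (hu : u ∈ Q) (hw : w ∈ Q) : ⁅u, w⁻¹⁆ = ⁅u, w⁆⁻¹ := by
  have := b_mul_right h2 hu hw (inv_mem hw)
  rw [mul_inv_cancel, commutatorElement_one_right] at this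
  exact (eq_inv_of_mul_eq_one_right this.symm)

omit h2 in
theorem b_z {z w : G} (hz : z ∈ Z[Q]) (hw : w ∈ Q) : ⁅z, w⁆ = 1 :=
  commutatorElement_eq_one_iff_commute.2 (zc hz hw).symm

theorem star {u w a : G} (hu : u ∈ Q) (hw : w ∈ Q) (ha : a ∈ N[Q]) :
    ⁅u, ⁅w, a⁆⁆ = ⁅⁅u, a⁻¹⁆, w⁆ * ⁅⁅a⁻¹ * u * a, w⁆, a⁆ := by
  have hu' : a⁻¹ * u * a ∈ Q := conj_mem_of_norm' ha hu
  have hw' : a * w * a⁻¹ ∈ Q := conj_mem_of_norm ha hw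
  have e1 : ⁅w, a⁆ = w * (a * w * a⁻¹)⁻¹ := by simp only [commutatorElement_def]; group
  have e2 : ⁅u, a⁻¹⁆ = u * (a⁻¹ * u * a)⁻¹ := by simp only [commutatorElement_def]; group
  have e3 : ⁅u, a * w * a⁻¹⁆ = a * ⁅a⁻¹ * u * a, w⁆ * a⁻¹ := by simp only [commutatorElement_def]; group
  rw [e1, e2, b_mul_right h2 hu hw (inv_mem hw'), b_inv_right h2 hu hw', b_mul_left h2 hu (inv_mem hu') hw,
    b_inv_left h2 hu' hw, e3, commutatorElement_def ⁅a⁻¹ * u * a, w⁆ a]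
  group

end cl2

variable [Fact p.Prime] [T.Normal] [Q.Normal]

theorem normal_Z : Z[Q].Normal := normal_of_top_le (norms_center (norm_of_normal _ _))

theorem swapQ (h3 : ⁅Q, T⁆ ≤ Z[Q]) {u a b : G} (hu : u ∈ Q) (hb : b ∈ T) (hab : Commute a b) :
    ⁅⁅u, a⁆, b⁆ = ⁅⁅u, b⁆, a⁆ := by
  haveI := normal_Z (Q := Q)
  have h1 : ⁅u, b⁆ ∈ Z[Q] := h3 (commutator_mem_commutator hu hb)
  have h2 : ⁅u, a⁆ ∈ Q := c_mem (norm_of_normal Q ⊤) hu (mem_top a)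
  exact swap hab (zc (Normal.conj_mem inferInstance _ h1 a) h2).symm
    (zc h1 (Normal.conj_mem inferInstance _ h2 b)) (zc h1 h2)

theorem okQ (hQT : Q ≤ T) (h3 : ⁅Q, T⁆ ≤ Z[Q]) : Ok Q Z[Q] A :=
  ⟨inf_le_left, (commgS _ hQT).trans h3, norm_of_normal _ _, norms_center (norm_of_normal _ _)⟩

theorem MinJ.caseII (h : MinJ S T A) (hS : IsPGroup p S) (hTS : T ≤ S) (hQT : Q ≤ T) (h3 : ⁅Q, T⁆ ≤ Z[Q])
    (hB : cent A ⁅Z[Q], A⁆ ≤ T) : iterCommutator Q A 4 ≤ Z[Q] := by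
  haveI := normal_Z (Q := Q)
  have ok : Ok Q Z[Q] A := okQ hQT h3
  have hZ : IsMulCommutative Z[Q] := center_abelian Q
  have hZT : Z[Q] ≤ T := inf_le_left.trans hQT
  obtain ⟨-, hm⟩ := timm h.mem (hZT.trans hTS) hZ ok.nY
  have hn0 : A ≤ N[Z[Q] ⊓ C[A ⊓ T]] := normsI ok.nY (norms_cent (normsI (normG _) (norm_of_normal _ _)))
  have hq := h.quad hS hTS (inf_le_left.trans hZT) (abelianS inf_le_left hZ) hn0
    (le_centralizer_iff.1 inf_le_right)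
  have mQ : ∀ u ∈ Q, ∀ a ∈ A, ⁅u, a⁆ ∈ Q := fun u hu a ha => c_mem ok.nX hu ha
  have mZ : ∀ u ∈ Z[Q], ∀ a ∈ A, ⁅u, a⁆ ∈ Z[Q] := fun u hu a ha => c_mem ok.nY hu ha
  have sZ : ∀ u ∈ Z[Q], ∀ a ∈ A, ∀ b ∈ A, ⁅⁅u, a⁆, b⁆ = ⁅⁅u, b⁆, a⁆ := fun u hu a ha b hb =>
    swap_ab hZ ok.nY (h.comm ha hb) ha hb (mZ u hu a ha) (mZ u hu b hb)
  refine (iter_le_iff ok le_rfl 4 0).2 fun u hu => (mem_K ok).2 ⟨hu, fun a ha => (mem_K ok).2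
    ⟨mQ u hu a ha, fun c hc => (mem_K ok).2 ⟨mQ _ (mQ u hu a ha) c hc, fun d hd => (mem_K ok).2
      ⟨mQ _ (mQ _ (mQ u hu a ha) c hc) d hd, fun e he => ?_⟩⟩⟩⟩
  show _ ∈ Z[Q]
  have hy := mQ _ (mQ _ (mQ u hu a ha) c hc) d hd
  have key : ⁅⁅⁅u, a⁆, c⁆, d⁆ ∈ cent A ⁅Z[Q], A⁆ ⊔ cent Z[Q] (cent A ⁅Z[Q], A⁆) := by
    refine mem_of_mem_abMax hm (hTS (hQT hy)) ?_
    rw [← zpowers_le, le_centralizer_iff, sup_le_iff]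
    refine ⟨fun b hb => mem_centralizer_zpowers_iff.2 ?_, fun z hz => mem_centralizer_zpowers_iff.2 (zc hz.1 hy)⟩
    have hbT := hB hb
    have hz : ⁅u, b⁆ ∈ Z[Q] := h3 (commutator_mem_commutator hu hbT)
    refine commutatorElement_eq_one_iff_commute.1 ?_
    rw [swapQ h3 (mQ _ (mQ u hu a ha) c hc) hbT (h.comm hd hb.1), swapQ h3 (mQ u hu a ha) hbT (h.comm hc hb.1),
      swapQ h3 hu hbT (h.comm ha hb.1)]
    have h4 : ⁅⁅u, b⁆, a⁆ ∈ Z[Q] ⊓ C[A ⊓ T] := ⟨mZ _ hz a ha, fun a₀ h0 => by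
      have hz0 : ⁅u, a₀⁆ ∈ Z[Q] := h3 (commutator_mem_commutator hu h0.2)
      refine (commutatorElement_eq_one_iff_commute.1 ?_).symm
      rw [sZ _ hz a ha a₀ h0.1, swapQ h3 hu h0.2 (h.comm hb.1 h0.1), sZ _ hz0 b hb.1 a ha]
      exact commElt_eq_one hb.2 (commutator_mem_commutator hz0 ha)⟩
    exact commElt_eq_one (hq hd) (commutator_mem_commutator h4 hc)
  rw [mem_sup_norml (cents_norm inf_le_right)] at key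
  obtain ⟨b, hb, z, hz, e1⟩ := key
  rw [e1, c_mul_left, commutatorElement_eq_one_iff_commute.2 (h.comm hb.1 he), mul_one]
  exact Normal.conj_mem inferInstance _ (mZ z hz.1 e he) b

theorem par (hp : p ≠ 2) (hQp : IsPGroup p Q) (h2 : ⁅Q, Q⁆ ≤ Z[Q]) (hA : IsMulCommutative A)
    (hq : A ≤ C[⁅Z[Q], A⁆]) {v : G} (hv : v ∈ K Q Z[Q] A 5) {a b c d : G}
    (ha : a ∈ A) (hb : b ∈ A) (hc : c ∈ A) (hd : d ∈ A) : ⁅⁅⁅⁅⁅v, a⁆, b⁆, c⁆, d⁆, v⁆ ∈ Z[Q] ⊓ C[A] := by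
  haveI := normal_Z (Q := Q)
  have ok : Ok Q Z[Q] A := ⟨inf_le_left, h2, norm_of_normal _ _, norms_center (norm_of_normal _ _)⟩
  have mQ : ∀ u ∈ Q, ∀ a ∈ A, ⁅u, a⁆ ∈ Q := fun u hu a ha => c_mem ok.nX hu ha
  have hF : ∀ z ∈ Z[Q], ∀ a ∈ A, ⁅z, a⁆ ∈ Z[Q] ⊓ C[A] := fun z hz a ha =>
    ⟨c_mem ok.nY hz ha, le_centralizer_iff.1 hq (commutator_mem_commutator hz ha)⟩
  have hvQ : v ∈ Q := hv.1
  have st : ∀ a ∈ A, ∀ b ∈ A, ∀ c ∈ A, ∀ d ∈ A, ∃ f ∈ Z[Q] ⊓ C[A],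
      ⁅⁅⁅v, a⁆, b⁆, ⁅⁅v, c⁆, d⁆⁆ = ⁅⁅⁅⁅⁅v, a⁆, b⁆, d⁻¹⁆, c⁻¹⁆, v⁆ * f := fun a ha b hb c hc d hd => by
    have m2 := mQ _ (mQ _ hvQ a ha) b hb
    have m3 := mQ _ m2 _ (inv_mem hd)
    rw [star h2 m2 (mQ _ hvQ c hc) (ok.nX hd), star h2 m3 hvQ (ok.nX hc), mul_assoc]
    exact ⟨_, mul_mem (hF _ (bmem h2 (conj_mem_of_norm' (ok.nX hc) m3) hvQ) c hc)
      (hF _ (bmem h2 (conj_mem_of_norm' (ok.nX hd) m2) (mQ _ hvQ c hc)) d hd), rfl⟩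
  let π := QuotientGroup.mk' Z[Q]
  have cg : ∀ u ∈ Q, ∀ u' ∈ Q, π u = π u' → ⁅u, v⁆ = ⁅u', v⁆ := fun u hu u' hu' e => by
    have hz : u⁻¹ * u' ∈ Z[Q] := QuotientGroup.eq.1 e
    rw [show u' = u * (u⁻¹ * u') by group, b_mul_left h2 hu hz.1 hvQ, b_z hz hvQ, mul_one]
  have hX : IsMulCommutative (Q.map π) := abelian_iff.2 (comm_eq_bot_iff.1 (by
    rw [← map_commutator, Subgroup.map_eq_bot_iff, QuotientGroup.ker_mk']; exact h2))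
  have hn : A.map π ≤ N[Q.map π] := by
    haveI : (Q.map π).Normal := Normal.map inferInstance _ (QuotientGroup.mk'_surjective _)
    exact norm_of_normal _ _
  have h5 : ∀ a ∈ A.map π, ∀ b ∈ A.map π, ∀ c ∈ A.map π, ∀ d ∈ A.map π, ∀ e ∈ A.map π,
      ⁅⁅⁅⁅⁅π v, a⁆, b⁆, c⁆, d⁆, e⁆ = 1 := by
    rintro _ ⟨a, ha, rfl⟩ _ ⟨b, hb, rfl⟩ _ ⟨c, hc, rfl⟩ _ ⟨d, hd, rfl⟩ _ ⟨e, he, rfl⟩
    simp only [← map_commutatorElement]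
    exact (QuotientGroup.eq_one_iff _).2 (((mem_K ok).1 (((mem_K ok).1 (((mem_K ok).1 (((mem_K ok).1
      (((mem_K ok).1 hv).2 a ha)).2 b hb)).2 c hc)).2 d hd)).2 e he)
  have ys := fun {a b c d : G} (ha : a ∈ A) (hb : b ∈ A) (hc : c ∈ A) (hd : d ∈ A) =>
    ysym hX (by haveI := hA; exact map_isMulCommutative A π) hn (mem_map_of_mem π hvQ) h5 (mem_map_of_mem π ha) (mem_map_of_mem π hb)
      (mem_map_of_mem π hc) (mem_map_of_mem π hd)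
  have m4 : ∀ a ∈ A, ∀ b ∈ A, ∀ c ∈ A, ∀ d ∈ A, ⁅⁅⁅⁅v, a⁆, b⁆, c⁆, d⁆ ∈ Q := fun a ha b hb c hc d hd =>
    mQ _ (mQ _ (mQ _ (mQ _ hvQ a ha) b hb) c hc) d hd
  obtain ⟨f₁, k1, e1⟩ := st a ha b hb d hd c hc
  obtain ⟨f₂, k2, e2⟩ := st d hd c hc a ha b hb
  rw [cg _ (m4 a ha b hb _ (inv_mem hc) _ (inv_mem hd)) _ (m4 a ha b hb c hc d hd)
    (by simp only [map_commutatorElement, map_inv]; exact (ys ha hb hc hd).1)] at e1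
  rw [cg _ (m4 d hd c hc _ (inv_mem hb) _ (inv_mem ha)) _ (m4 a ha b hb c hc d hd)
    (by simp only [map_commutatorElement, map_inv]; rw [(ys hd hc hb ha).1, (ys ha hb hc hd).2]),
    ← commutatorElement_inv, e1] at e2
  have ht := bmem h2 (m4 a ha b hb c hc d hd) hvQ
  generalize ⁅⁅⁅⁅⁅v, a⁆, b⁆, c⁆, d⁆, v⁆ = t at *
  have e3 : t ^ 2 = f₁⁻¹ * f₂⁻¹ := by
    have := (zc ht k1.1.1).inv_left.eq
    calc t ^ 2 = t * (t * f₂) * f₂⁻¹ := by rw [pow_two]; group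
      _ = f₁⁻¹ * f₂⁻¹ := by rw [← e2, mul_inv_rev, ← mul_assoc, ← this]; group
  have h6 : t ^ 2 ∈ Z[Q] ⊓ C[A] := e3 ▸ mul_mem (inv_mem k1) (inv_mem k2)
  obtain ⟨k, hk⟩ := hQp ⟨t, ht.1⟩
  have hk' : t ^ p ^ k = 1 := congrArg Subtype.val hk
  obtain ⟨j, hj⟩ : Odd (p ^ k) := ((Fact.out : p.Prime).odd_of_ne_two hp).pow
  have : t = ((t ^ 2) ^ j)⁻¹ := by
    rw [eq_inv_iff_mul_eq_one, ← pow_mul, ← pow_succ', ← hj, hk']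
  rw [this]
  exact inv_mem (pow_mem h6 j)

theorem isot (hp : p ≠ 2) (hQp : IsPGroup p Q) (h2 : ⁅Q, Q⁆ ≤ Z[Q]) (hA : IsMulCommutative A)
    (hq : A ≤ C[⁅Z[Q], A⁆]) {v : G} (hv : v ∈ K Q Z[Q] A 5) {a b : G} (ha : a ∈ A) (hb : b ∈ A) :
    (∀ c ∈ A, ⁅⁅⁅⁅v, a⁆, b⁆, c⁆, ⁅⁅v, a⁆, b⁆⁆ = 1) ∧
      ∀ c ∈ A, ∀ d ∈ A, ⁅⁅⁅⁅v, a⁆, b⁆, c⁆, ⁅⁅⁅v, a⁆, b⁆, d⁆⁆ = 1 := by
  haveI := normal_Z (Q := Q)
  have ok : Ok Q Z[Q] A := ⟨inf_le_left, h2, norm_of_normal _ _, norms_center (norm_of_normal _ _)⟩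
  have mQ : ∀ u ∈ Q, ∀ a ∈ A, ⁅u, a⁆ ∈ Q := fun u hu a ha => c_mem ok.nX hu ha
  have hF : ∀ z ∈ Z[Q], ∀ a ∈ A, ⁅z, a⁆ ∈ Z[Q] ⊓ C[A] := fun z hz a ha =>
    ⟨c_mem ok.nY hz ha, le_centralizer_iff.1 hq (commutator_mem_commutator hz ha)⟩
  have hF1 : ∀ z ∈ Z[Q] ⊓ C[A], ∀ a ∈ A, ⁅z, a⁆ = 1 := fun z hz a ha =>
    commutatorElement_eq_one_iff_commute.2 (hz.2 a ha).symm
  have dK : ∀ n, ∀ u ∈ K Q Z[Q] A (n + 1), ∀ a ∈ A, ⁅u, a⁆ ∈ K Q Z[Q] A n := fun n u hu =>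
    ((mem_K ok).1 hu).2
  have cK : ∀ n, ∀ u ∈ K Q Z[Q] A n, ∀ a ∈ A, a⁻¹ * u * a ∈ K Q Z[Q] A n := fun n u hu a ha => by
    simpa using conj_K ok n hu (inv_mem ha)
  have hvQ : v ∈ Q := hv.1
  have A1 : ∀ u ∈ K Q Z[Q] A 1, ∀ w ∈ Q, ∀ a ∈ A, ⁅u, ⁅w, a⁆⁆ ∈ Z[Q] ⊓ C[A] := fun u hu w hw a ha => by
    rw [star h2 hu.1 hw (ok.nX ha), b_z (dK 0 u hu _ (inv_mem ha)) hw, one_mul]
    exact hF _ (bmem h2 (cK 1 u hu a ha).1 hw) a ha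
  have B1 : ∀ u ∈ K Q Z[Q] A 1, ∀ w ∈ Q, ∀ a ∈ A, ∀ b ∈ A, ⁅u, ⁅⁅w, a⁆, b⁆⁆ = 1 :=
    fun u hu w hw a ha b hb => by
    rw [star h2 hu.1 (mQ w hw a ha) (ok.nX hb), b_z (dK 0 u hu _ (inv_mem hb)) (mQ w hw a ha), one_mul]
    exact hF1 _ (A1 _ (cK 1 u hu b hb) w hw a ha) b hb
  have A2 : ∀ u ∈ K Q Z[Q] A 2, ∀ w ∈ Q, ∀ a ∈ A, ∀ b ∈ A, ⁅u, ⁅⁅w, a⁆, b⁆⁆ ∈ Z[Q] ⊓ C[A] :=
    fun u hu w hw a ha b hb => by
    rw [star h2 hu.1 (mQ w hw a ha) (ok.nX hb)]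
    exact mul_mem (A1 _ (dK 1 u hu _ (inv_mem hb)) w hw a ha)
      (hF _ (bmem h2 (cK 2 u hu b hb).1 (mQ w hw a ha)) b hb)
  have k3 := dK 3 _ (dK 4 v hv a ha) b hb
  refine ⟨fun c hc => ?_, fun c hc d hd => ?_⟩
  · have k2 := dK 2 _ k3 c hc
    have k1 := dK 1 _ k2 _ (inv_mem hb)
    have e1 : ⁅⁅⁅⁅⁅v, a⁆, b⁆, c⁆, b⁻¹⁆, ⁅v, a⁆⁆ = 1 := by
      have hp' := par hp hQp h2 hA hq hv ha hb hc (inv_mem hb)
      have k0 : ⁅⁅⁅⁅⁅v, a⁆, b⁆, c⁆, b⁻¹⁆, a⁻¹⁆ ∈ Z[Q] := dK 0 _ k1 _ (inv_mem ha)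
      generalize ⁅⁅⁅⁅v, a⁆, b⁆, c⁆, b⁻¹⁆ = y at *
      have e : a⁻¹ * y * a = ⁅y, a⁻¹⁆⁻¹ * y := by simp only [commutatorElement_def]; group
      rw [star h2 k1.1 hvQ (ok.nX ha), b_z k0 hvQ, one_mul, e, b_mul_left h2 (inv_mem k0).1 k1.1 hvQ,
        b_z (inv_mem k0) hvQ, one_mul]
      exact hF1 _ hp' a ha
    have e2 : ⁅⁅⁅⁅v, a⁆, b⁆, c⁆, ⁅v, a⁆⁆ ∈ Z[Q] ⊓ C[A] := by
      rw [star h2 k2.1 hvQ (ok.nX ha)]
      exact mul_mem (par hp hQp h2 hA hq hv ha hb hc (inv_mem ha))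
        (hF _ (bmem h2 (cK 2 _ k2 a ha).1 hvQ) a ha)
    have m1 := mQ v hvQ a ha
    generalize ⁅⁅⁅v, a⁆, b⁆, c⁆ = y at *
    have e : b⁻¹ * y * b = ⁅y, b⁻¹⁆⁻¹ * y := by simp only [commutatorElement_def]; group
    rw [star h2 k2.1 m1 (ok.nX hb), e1, one_mul, e, b_mul_left h2 (inv_mem k1.1) k2.1 m1,
      b_inv_left h2 k1.1 m1, e1, inv_one, one_mul]
    exact hF1 _ e2 b hb
  · have k2 := dK 2 _ k3 c hc
    rw [star h2 k2.1 k3.1 (ok.nX hd), B1 _ (dK 1 _ k2 _ (inv_mem hd)) v hvQ a ha b hb, one_mul]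
    exact hF1 _ (A2 _ (cK 2 _ k2 d hd) v hvQ a ha b hb) d hd

theorem MinJ.caseI (hp : p ≠ 2) (h : MinJ S T A) (hS : IsPGroup p S) (hTS : T ≤ S) (hQT : Q ≤ T)
    (h3 : ⁅Q, T⁆ ≤ Z[Q]) (hq : A ≤ C[⁅Z[Q], A⁆]) : iterCommutator Q A 4 ≤ Z[Q] := by
  have ok : Ok Q Z[Q] A := okQ hQT h3
  have mQ : ∀ u ∈ Q, ∀ a ∈ A, ⁅u, a⁆ ∈ Q := fun u hu a ha => c_mem ok.nX hu ha
  refine (iter_le_iff ok le_rfl 4 0).2 fun u hu => ?_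
  by_contra hu'
  obtain ⟨n, hn⟩ := exists_le_K ok hS (hQT.trans hTS) h.mem.1
  obtain ⟨v, hv, hv'⟩ := exists_step ok 4 n u (hn hu) hu'
  have hvQ : v ∈ Q := hv.1
  refine hv' ((mem_K ok).2 ⟨hvQ, fun a ha => (mem_K ok).2 ⟨mQ v hvQ a ha, fun b hb => ?_⟩⟩)
  obtain ⟨i1, i2⟩ := isot hp (hS.to_le (hQT.trans hTS)) ok.der h.mem.2.1 hq hv ha hb
  have k3 : ⁅⁅v, a⁆, b⁆ ∈ K Q Z[Q] A 3 := ((mem_K ok).1 (((mem_K ok).1 hv).2 a ha)).2 b hb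
  have c0 : ∀ w ∈ Q, ∀ a ∈ A, ∀ b ∈ A, ∀ a₀ ∈ A ⊓ T, ⁅⁅⁅w, a⁆, b⁆, a₀⁆ = 1 := fun w hw a ha b hb a₀ h0 => by
    rw [swapQ h3 (mQ w hw a ha) h0.2 (h.comm hb h0.1), swapQ h3 hw h0.2 (h.comm ha h0.1)]
    exact commElt_eq_one (hq hb) (commutator_mem_commutator (h3 (commutator_mem_commutator hw h0.2)) ha)
  have c1 := c0 v hvQ a ha b hb
  have c2 := c0 _ (mQ v hvQ a ha) b hb
  generalize ⁅⁅v, a⁆, b⁆ = x at *
  have hM : IsMulCommutative (M A x) := abelian_M fun c hc d hd =>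
    commutatorElement_eq_one_iff_commute.1 (i2 c hc d hd)
  have hMK : M A x ≤ K Q Z[Q] A 2 := M_le.2 ((mem_K ok).1 k3).2
  have hxS := hTS (hQT k3.1)
  by_cases hs : cent A (M A x) ≤ T
  · have key : x ∈ cent A (M A x) ⊔ M A x := by
      refine mem_of_mem_abMax (thompson h.mem hxS hM).1 hxS ?_
      rw [← zpowers_le, le_centralizer_iff, sup_le_iff]
      exact ⟨fun c hc => mem_centralizer_zpowers_iff.2
        (commutatorElement_eq_one_iff_commute.1 (c1 c ⟨hc.1, hs hc⟩)), M_le.2 fun c hc =>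
          mem_centralizer_zpowers_iff.2 (commutatorElement_eq_one_iff_commute.1 (i1 c hc)).symm⟩
    rw [sup_comm, mem_sup_norml (cents_norm inf_le_right)] at key
    obtain ⟨m, hm, c, hc, e⟩ := key
    refine (mem_K ok).2 ⟨k3.1, fun d hd => ?_⟩
    rw [e, c_mul_left, commutatorElement_eq_one_iff_commute.2 (h.comm hc.1 hd), mul_one, mul_inv_cancel, one_mul]
    exact ((mem_K ok).1 (hMK hm)).2 d hd
  · refine (mem_K ok).2 ⟨k3.1, fun c hc => (mem_K ok).2 ⟨mQ x k3.1 c hc, fun d hd => ?_⟩⟩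
    obtain ⟨a₀, h0, e⟩ := h.large hTS hxS hM (hMK.trans ((K_le ok 2).trans hQT)) hs hd
    rw [e c hc, c2 c hc a₀ h0]
    exact one_mem _

theorem quartic (hp : p ≠ 2) (hS : IsPGroup p S) (hTS : T ≤ S) (hQT : Q ≤ T) (h3 : ⁅Q, T⁆ ≤ Z[Q])
    (hJ : ¬ thompsonSubgroupAOf S ≤ T) : ∃ A, MinJ S T A ∧ iterCommutator Q A 4 ≤ Z[Q] := by
  obtain ⟨A, h⟩ := exists_minJ hJ
  by_cases hB : cent A ⁅Z[Q], A⁆ ≤ T
  · exact ⟨A, h, h.caseII hS hTS hQT h3 hB⟩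
  have ok : Ok Q Z[Q] A := okQ hQT h3
  have hZ : IsMulCommutative Z[Q] := center_abelian Q
  have hZT : Z[Q] ≤ T := inf_le_left.trans hQT
  obtain ⟨-, hm⟩ := timm h.mem (hZT.trans hTS) hZ ok.nY
  have h' := h.of_le hm (fun h1 => hB (le_sup_left.trans h1)) (sup_le_sup inf_le_left (inf_le_left.trans hZT))
  refine ⟨_, h', h'.caseI hp hS hTS hQT h3 ?_⟩
  have h1 : ⁅Z[Q], cent A ⁅Z[Q], A⁆ ⊔ cent Z[Q] (cent A ⁅Z[Q], A⁆)⁆ ≤ ⁅Z[Q], A⁆ :=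
    commutator_le.2 fun z hz y hy => by
      rw [mem_sup_norml (cents_norm inf_le_right)] at hy
      obtain ⟨b, hb, w, hw, rfl⟩ := hy
      rw [c_fix (comm_of hZ hz hw.1)]
      exact commutator_mem_commutator hz hb.1
  exact (sup_le inf_le_right (inf_le_left.trans ((le_centralizer_self hZ).trans
    (centS (commg_subl ok.nY))))).trans (centS h1)

omit [T.Normal] [Q.Normal] in
theorem JA_degree (hp : p ≠ 2) (hS : IsPGroup p S) (hTS : pCore p G ≤ S)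
    (hJ : ¬ (thompsonSubgroupAOf S).Normal) : ∃ g ∈ S, g ∉ pCore p G ∧
      (∀ U V, IsChiefFactor U V → U ≤ pCore p G → iterCommutator U (zpowers g) 6 ≤ V) ∧
      (Constr p G → ∃ U V, IsChiefFactor U V ∧ U ≤ pCore p G ∧ iterCommutator U (zpowers g) 4 ≤ V ∧
        ¬ ⁅U, zpowers g⁆ ≤ V) := by
  have hT : IsPGroup p (pCore p G) := Solv.isPGroup_pCore p G
  obtain ⟨Q, hQ, -, hn, -, h3, h4⟩ := Thompson_critical hT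
  haveI : Q.Normal := normal_of_top_le ((norm_of_normal _ _).trans hn)
  haveI := normal_Z (Q := Q)
  obtain ⟨A, h, h5⟩ := quartic hp hS hTS hQ h3 fun h => hJ (JA_eq_of_le hTS h ▸ inferInstance)
  obtain ⟨g, hg, hg'⟩ := SetLike.not_le_iff_exists.1 h.nle
  have hgA := zpowers_le.2 hg
  have j3 : ∀ U V, IsChiefFactor U V → U ≤ Q → ∀ W : Subgroup G, W.Normal → W ≤ U → W ≤ Z[Q] →
      iterCommutator W (zpowers g) 3 ≤ V := fun U V hU hUQ W _ hWU hW => by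
    haveI := hU.2.1
    haveI := hU.2.2.1
    have hWT : W ≤ pCore p G := hW.trans (inf_le_left.trans hQ)
    refine (iter_mono le_rfl hgA 3).trans ((h.cubic hS hTS hWT (abelianS hW (center_abelian Q))
      (norm_of_normal _ _) (inf_le_left : W ⊓ V ≤ W) (norm_of_normal _ _) ?_).trans inf_le_right)
    exact (commgS _ inf_le_right).trans (le_inf (commg_subl (norm_of_normal _ _))
      ((commSg _ hWU).trans (IsChiefFactor.comm_le hU (hT.to_le (hUQ.trans hQ)) hT)))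
  have i4 : ∀ U V, IsChiefFactor U V → U ≤ Q → iterCommutator U (zpowers g) 4 ≤ V := fun U V hU hUQ => by
    haveI := hU.2.1
    haveI := hU.2.2.1
    exact chief_iter_of_cover hU ((iter_mono hUQ hgA 4).trans h5) (iter_le_of_le (m := 3) (norm_of_normal _ _)
      (j3 U V hU hUQ _ inferInstance inf_le_left inf_le_right) (by omega))
  refine ⟨g, h.mem.1 hg, hg', fun U V hU hUT => crit_degree (i := 4) (j := 3) hT hQ (by rwa [commGC])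
    (h4.le.trans inf_le_left) (by omega) (by omega) i4
    (fun U V hU hUZ => j3 U V hU (hUZ.trans inf_le_left) U hU.2.1 le_rfl hUZ) hU hUT,
    fun hc => ?_⟩
  by_contra hcon
  push Not at hcon
  set L := normalClosure ((zpowers g : Subgroup G) : Set G)
  have h0 : pResidualOf p L ≤ C[Q] := pRes_cent_of_chief (hT.to_le hQ) bot_le
    (by rw [BG.cent_bot]; exact le_top) fun X Y hX _ h1 => by
      haveI := hX.2.1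
      haveI := hX.2.2.1
      exact normalClosure_comm_le (hcon X Y hX (h1.trans hQ) (i4 X Y hX h1))
  have h2 : pResidualOf p L ≤ pCore p G := by
    refine le_trans (Loc.pResidualOf_le_iff.2 fun x hx hx' => zpowers_le.1 ?_) hc
    exact coprime_nil_cent_of_selfcent (norm_of_normal _ _) (coprime_zpowers hT hx').symm
      (pgroup_nil hT) hQ (zpowers_le.2 (h0 (Loc.mem_pResidualOf hx hx'))) (h4.le.trans inf_le_left)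
  exact hg' (Solv.le_pCore (Loc.isPGroup_of_isPGroup_pResidualOf (hT.to_le h2))
    (le_normalClosure (mem_zpowers g)))

end Cfsg.Agent.Sig.JD
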