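import Cfsg.Agent.Fus.Prl
import Cfsg.Agent.FTC.Tate
import Cfsg.Agent.Transfer.Alperin

/-! Groups with a Sylow `p`-subgroup of maximal class: an element with centraliser of `p`-part `p ^ 2`, or the group is
quasisimple (`Sig.mx_dich`). -/

set_option linter.dupNamespace false
set_option linter.unusedSectionVars false
set_option linter.unusedVariables false

namespace Cfsg.Agent.Sig
open Subgroup Cfsg.Agent.BG Cfsg.Agent.Fus
open scoped commutatorElement

variable {G : Type*} [Group G] [Finite G] {p n : ℕ} [hp : Fact p.Prime]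

theorem exists_unif_not_mem (h : MX p G n) {H : Subgroup G} (hH : H ≠ ⊤) : ∃ x, Unif n x ∧ x ∉ H ⊔ γ G 1 := by
  have h2 := hp.out.two_le
  have hH' : H ⊔ γ G 1 ≠ ⊤ := fun e => hH (eq_of_le_sup_commutator (h.pg.to_subgroup ⊤) le_top e.ge)
  obtain ⟨x, hx⟩ := h.exists_unif
  by_cases h1 : x ∈ H ⊔ γ G 1
  swap; · exact ⟨x, hx, h1⟩
  obtain ⟨y, -, hy⟩ := SetLike.not_le_iff_exists.1 (mt top_le_iff.1 hH')
  have k0 : ∀ k : ℕ, y * x ^ k ∉ H ⊔ γ G 1 := fun k e => hy ((mul_mem_cancel_right (pow_mem h1 k)).1 e)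
  have k1 : ∀ i, 1 ≤ i → i < n → ∃ j ∈ Finset.Ico 1 p, j < n ∧ K2 G i ≤ K2 G j := fun i => by
    induction i using Nat.strong_induction_on with | _ i ih => ?_
    intro a b
    rcases lt_or_ge i p with c | c
    · exact ⟨i, Finset.mem_Ico.2 ⟨a, c⟩, b, le_rfl⟩
    obtain ⟨j, j1, j2, j3⟩ := ih (i - (p - 1)) (by omega) (by omega) (by omega)
    refine ⟨j, j1, j2, le_trans (fun g hg => by_contra fun e => h.K2_ne_top b (h.eq_top_of_K2 (by omega) (by omega)
      ?_ hg e)) j3⟩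
    have := h.K2_le hx (j := i - (p - 1)) (by omega) (by omega)
    rwa [show i - (p - 1) + p - 1 = i by omega] at this
  by_contra! hc
  have k2 : ∀ k : ℕ, ∃ j ∈ Finset.Ico 1 p, j < n ∧ y * x ^ k ∈ K2 G j := fun k => by
    by_contra! e
    refine k0 k (hc _ ⟨fun e => k0 k (mem_sup_right e), fun i a b c => ?_⟩)
    obtain ⟨j, j1, j2, j3⟩ := k1 i a b
    exact e j j1 j2 (j3 c)
  choose f f1 f2 f3 using k2
  obtain ⟨k, hk, l, hl, e1, e2⟩ := Finset.exists_ne_map_eq_of_card_lt_of_maps_to (s := Finset.range p)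
    (t := Finset.Ico 1 p) (by simp; omega) (f := f) fun k _ => f1 k
  have hn : 1 ≤ n := by have := f2 k; have := Finset.mem_Ico.1 (f1 k); omega
  have := PGrp.dvd_of_zpow_mem hp.out (hx.2 _ (Finset.mem_Ico.1 (f1 k)).1 (f2 k)) (γ_le_K2 _ (h.pow_mem_one hn x))
    (i := (l : ℤ) - k) (by
      convert mul_mem (inv_mem (f3 k)) (e2 ▸ f3 l) using 1
      rw [← zpow_natCast, ← zpow_natCast]; group)
  rw [Finset.mem_range] at hk hl
  exact e1 (by have := Int.eq_zero_of_abs_lt_dvd this (by rw [abs_lt]; omega); omega)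

variable {P : Sylow p G}

theorem cent_part (h : MX p (P : Subgroup G) n) (hn : 1 ≤ n) {x : (P : Subgroup G)} (hx : Unif n x)
    (hc : ∀ (g : G) (y : (P : Subgroup G)), y ∈ γ _ 1 → g * x * g⁻¹ ≠ y) : (#C1[(x : G)]).factorization p = 2 := by
  have k : ∀ g : G, g * x * g⁻¹ ∈ (P : Subgroup G) → #((P : Subgroup G) ⊓ C1[g * x * g⁻¹]) ≤ p ^ 2 := fun g hg => by
    have c : ∀ a : (P : Subgroup G), #C1[a] = #((P : Subgroup G) ⊓ C1[(a : G)]) := fun a => by
      rw [← card_subgroupOf inf_le_left, inf_subgroupOf_left]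
      exact congrArg (fun H : Subgroup P => #H) (Subgroup.ext fun g => by
        rw [mem_subgroupOf, mem_cent1, mem_cent1, Subtype.ext_iff]; rfl)
    refine (Transfer.alperin_induction_elem P (fun a b => (∃ g : G, g * x * g⁻¹ = a) → (∃ g : G, g * x * g⁻¹ = b) ∧
      (#((P : Subgroup G) ⊓ C1[a]) ≤ p ^ 2 → #((P : Subgroup G) ⊓ C1[b]) ≤ p ^ 2))
      (fun a b c _ _ _ h1 h2 e => ⟨(h2 (h1 e).1).1, (h2 (h1 e).1).2 ∘ (h1 e).2⟩) ?_ x g x.2 hg ⟨1, by simp⟩).2
      (c x ▸ h.card_cent hx hn)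
    rintro D u - hu e a ha ⟨g, rfl⟩
    refine ⟨⟨u * g, by group⟩, fun h1 => ?_⟩
    have l : D ≤ P := e ▸ inf_le_left
    have hb := conj_mem_of_norm hu ha
    by_cases e1 : D = P
    · rwa [← card_cj u, cj_inf, cj_of_norm (e1 ▸ hu : u ∈ N[(P : Subgroup G)]), ← C1_conj] at h1
    have ua := h.unif_of_card hn ((c ⟨_, l ha⟩).trans_le h1)
    have b1 : (⟨_, l hb⟩ : (P : Subgroup G)) ∉ γ _ 1 := fun e => hc (u * g) _ e (by simp only; group)
    refine (c ⟨_, l hb⟩).ge.trans (h.card_cent ⟨b1, fun i i1 i2 i3 => ua.2 i i1 i2 (sup_le (γ_le_K2 i)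
      (zpowers_le.2 i3) (by_contra fun e2 => e1 (le_antisymm l (subgroupOf_eq_top.1
        (eq_of_le_sup_commutator (h.pg.to_subgroup ⊤) le_top (h.eq_top b1 e2 le_sup_right
          (mem_sup_left hb) (mem_sup_left ha)).ge)))))⟩ hn)
  obtain ⟨R, hR, l⟩ := Sylow_superset (M := C1[(x : G)]) inf_le_right (P.isPGroup'.to_le inf_le_left)
  obtain ⟨g, -, hg⟩ := Sylow_Jsub (sylowIn_top P) le_top hR.pg
  have m : (x : G) ∈ R := l ⟨x.2, cent1_self _⟩
  have h1 := (BG.card_le_card (le_inf hg (C1_conj g x ▸ cj_mono g hR.le))).trans (k g (hg (conj_mem_cj g m)))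
  have h2 := card_le_of_comm (N := ⊤) (x := x) fun g _ => comm_mem_γ' (i := 0) x (mem_top g)
  rw [Subgroup.card_top, h.card, h.card_one, pow_add, mul_comm] at h2
  have h3 := (Nat.le_of_mul_le_mul_right h2 (pow_pos hp.out.pos _)).trans ((card_map_subtype _).ge.trans
    (BG.card_le_card (le_trans (by rintro _ ⟨y, hy, rfl⟩; exact ⟨y.2, mem_cent1.2 (congrArg Subtype.val (mem_cent1.1 hy))⟩) l)))
  rw [card_cj] at h1
  exact Nat.pow_right_injective hp.out.two_le ((card_Sylow hR).symm.trans (le_antisymm h1 h3))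

theorem mx_dich (h : MX p (P : Subgroup G) n) (hO : pPrimeCore p G = ⊥) (hr : ∀ N : Subgroup G, N.Normal → N.index.Coprime p → N = ⊤) :
    (∃ x ∈ (P : Subgroup G), (#C1[x]).factorization p = 2) ∨ (IsQuasisimple G ∧ #(center G) ≤ p) := by
  rcases n.eq_zero_or_pos with rfl | hn
  · refine .inl ⟨1, one_mem _, Nat.pow_right_injective hp.out.two_le ?_⟩
    simp only
    rw [show C1[(1 : G)] = ⊤ by simp [eq_top_iff, mem_cent1], Subgroup.card_top, ← P.card_eq_multiplicity, h.card]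
  have k0 : ∀ N : Subgroup G, N.Normal → (P : Subgroup G) ≤ N → N = ⊤ := fun N h1 h2 =>
    hr N h1 (Nat.Coprime.coprime_dvd_left (index_dvd_of_le h2) (hp.out.coprime_iff_not_dvd.2 P.not_dvd_index).symm)
  by_cases hA : ∃ N : Subgroup G, N.Normal ∧ N ≠ ⊤ ∧ ¬ N.subgroupOf P ≤ γ (P : Subgroup G) 1
  · obtain ⟨N, n1, n2, n3⟩ := hA
    obtain ⟨y, y1, y2⟩ := SetLike.not_le_iff_exists.1 n3
    obtain ⟨z, hz⟩ := h.exists_not_mem hn y2
    obtain ⟨i, -, e⟩ := h.eq_γ (N := N.subgroupOf P ⊓ γ (P : Subgroup G) 1) inf_le_right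
    have l : γ (P : Subgroup G) 1 ≤ N.subgroupOf P := by
      rcases i with _ | i
      · exact e ▸ inf_le_left
      · exact absurd (γ_anti (by omega) (e.le ⟨commutator_le_left _ ⊤ (commutator_mem_commutator y1 (mem_top z)),
          comm_mem_γ' (i := 0) z (mem_top y)⟩)) (h.comm_not_mem hn y2 hz)
    obtain ⟨x, x1, x2⟩ := exists_unif_not_mem h (H := N.subgroupOf P) fun e => n2 (k0 N n1 (subgroupOf_eq_top.1 e))
    exact .inl ⟨x, x.2, cent_part h hn x1 fun g y hy e => x2 (mem_sup_left (by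
      have := n1.conj_mem (y : G) (l hy) g⁻¹
      rw [← e] at this
      simpa [mul_assoc, mem_subgroupOf] using this))⟩
  push Not at hA
  have k1 : ∀ N : Subgroup G, N.Normal → N ≠ ⊤ → N ≤ pCore p G := fun N n1 n2 => by
    obtain ⟨Q, K, k1, k2⟩ := FTC.hasNormalPComplement_of_inf_le_frattini P N fun x hx =>
      ⟨⟨x, hx.2⟩, Phi_top.le (der1_sub_Phi (pgroup_nil (h.pg.to_subgroup ⊤)) (hA N n1 n2 hx.1)), rfl⟩
    have : K = ⊥ := (map_eq_bot_iff_of_injective _ N.subtype_injective).1 (eq_bot_iff.2 ((map_mono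
      (le_sSup ⟨k1, k2.index_eq_card ▸ (hp.out.coprime_iff_not_dvd.2 Q.not_dvd_index).symm⟩ :
        K ≤ pPrimeCore p N)).trans ((Op'_eq p N).ge.trans ((pcoreS_normal _ (normal_top_iff.2 n1)).trans ((Op'_top p).trans hO).le))))
    rw [this, isComplement'_bot_left] at k2
    exact (pcore_max (normal_top_iff.2 n1) (IsPGroup.pi ((k2 ▸ Q.isPGroup').of_equiv topEquiv))).trans (Op_top p).le
  have oP : pCore p G ≤ P := (Op_top p).ge.trans (pcore_sub_Hall (sylowIn_top P))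
  have nO : (pCore p G).Normal := by rw [← Op_top]; exact (pcore_normal _ _).normal
  obtain ⟨x, hx⟩ := h.exists_unif
  obtain ⟨z, hz⟩ := h.exists_not_mem hn hx.1
  have P0 : (P : Subgroup G) ≠ ⊤ := fun e => by
    let N := (γ (P : Subgroup G) 1 ⊔ zpowers x).map (P : Subgroup G).subtype
    have : (γ (P : Subgroup G) 1 ⊔ zpowers x).Normal := (sub_der1_normal le_sup_left le_top).normal
    exact hx.1 (hA N (normal_top_iff.1 (e ▸ normal_map_subtype this)) (fun e' => hz (by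
      simpa [N] using e'.ge (mem_top (z : G)))) (mem_map_of_mem _ (mem_sup_right (mem_zpowers x))))
  have k2 : commutator G = ⊤ := by_contra fun e => P0 (k0 _ (sub_der1_normal ((k1 _ inferInstance e).trans oP)
    le_top).normal le_rfl)
  have O0 : pCore p G ≠ ⊤ := fun e => P0 (top_le_iff.1 (e ▸ oP))
  have o1 := hA _ nO O0
  by_cases hC : C[pCore p G] = ⊤
  · have z0 : center G ≠ ⊤ := fun e => O0 (top_le_iff.1 (k2.ge.trans (commutator_le.2 fun a _ b _ => by
      rw [commutatorElement_eq_one_iff_mul_comm.2 (mem_center_iff.1 (e.ge (mem_top b)) a)]; exact one_mem _)))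
    have z1 := k1 _ inferInstance z0
    have z2 : pCore p G ≤ center G := fun a ha => mem_center_iff.2 fun g => (mem_cent.1 (hC.ge (mem_top g)) a ha).symm
    haveI := QuotientGroup.nontrivial_iff.2 z0
    refine .inr ⟨⟨⟨k2⟩, ⟨fun N hN => (em (N.comap (QuotientGroup.mk' _) = ⊤)).symm.imp (fun e => eq_bot_iff.2 fun a ha => ?_)
      fun e => ?_⟩⟩, ?_⟩
    · obtain ⟨a, rfl⟩ := QuotientGroup.mk_surjective a
      exact (QuotientGroup.eq_one_iff a).2 (z2 (k1 _ inferInstance e ha))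
    · exact comap_injective (QuotientGroup.mk'_surjective _) (e.trans (comap_top _).symm)
    · rw [← card_subgroupOf (z1.trans oP)]
      refine (BG.card_le_card fun a ha => (h.center_eq hn).le ?_).trans (h.card_top' hn).le
      exact mem_center_iff.2 fun g => Subtype.ext (mem_center_iff.1 (mem_subgroupOf.1 ha) g)
  haveI := nO.subgroupOf (P : Subgroup G)
  obtain ⟨i, hi, e⟩ := h.eq_γ o1
  have i1 : i + 1 < n := by_contra fun c => hx.1 (o1 (k1 _ inferInstance hC (mem_cent.2 fun a ha =>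
    congrArg Subtype.val (h.central (γ_anti (by omega) (e.le (x := ⟨a, oP ha⟩) ha)) x).symm.eq)))
  refine .inl ⟨x, x.2, cent_part h hn hx fun g y hy e' => ?_⟩
  have c1 : #(pCore p G ⊓ C1[(x : G)]) ≤ p := by
    rw [← card_subgroupOf (inf_le_left.trans oP)]
    refine (BG.card_le_card fun a ha => h.cent_inf_le hx hn ?_).trans (h.card_top' hn).le
    exact ⟨mem_cent1.2 (Subtype.ext (mem_cent1.1 ha.2)), o1 ha.1⟩
  rw [← card_cj g, cj_inf, cj_of_norm (norm_of_normal _ ⊤ (mem_top g)), ← C1_conj, e'] at c1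
  obtain ⟨m, rfl⟩ : ∃ m, n = m + 2 := ⟨n - 2, by omega⟩
  have c2 := (card_map_subtype (γ _ (m + 1))).ge.trans ((BG.card_le_card (by
    rintro _ ⟨u, hu, rfl⟩
    exact ⟨e.ge (γ_anti (by omega) hu), mem_cent1.2 (congrArg Subtype.val (commutatorElement_eq_one_iff_mul_comm.1
      (mem_bot.1 ((h.bot (by omega)).le (γ_le_K2 _ hy u hu)))).symm)⟩)).trans c1)
  rw [h.card_γ (by omega), show m + 2 - m = 2 by omega] at c2
  nlinarith [hp.out.one_lt]

end Cfsg.Agent.Sig
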