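import Cfsg.Agent.Sig.HH4

/-! `p`-length through chains of normal subgroups (`HH.PL`), with the bounds `l_p ≤ ∏ (1 + l_q)` (`HH.PL.prod`) and
`d(G) ≤ ∑ d_p l_p` (`HH.der_sum`). -/

set_option linter.dupNamespace false
set_option linter.unusedSectionVars false
set_option linter.unusedVariables false

namespace Cfsg.Agent.Sig.HH
open Finset Subgroup Cfsg.Agent.BG

universe u
variable {G : Type*} [Group G] {A B C X Y : Subgroup G} {S T : ℕ → Prop} {p q k m : ℕ}

/-- Every element of `B` has an `S`-power in `A`. -/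
def Rel (S : ℕ → Prop) (A B : Subgroup G) : Prop := ∀ x ∈ B, ∃ n, S n ∧ x ^ n ∈ A

theorem Rel.imp (h : Rel S A B) (h' : ∀ n, S n → T n) : Rel T A B := fun x hx =>
  let ⟨n, h1, h2⟩ := h x hx; ⟨n, h' n h1, h2⟩

theorem Rel.star [X.Normal] (h : Rel S A B) : Rel S (A ⊓ Y ⊔ X) (B ⊓ Y ⊔ X) := fun x hx => by
  obtain ⟨b, hb, y, hy, rfl⟩ := mem_sup_of_normal_right.1 hx
  obtain ⟨n, h1, h2⟩ := h b hb.1
  refine ⟨n, h1, mem_sup_of_normal_right.2 ⟨_, ⟨h2, pow_mem hb.2 n⟩, (b ^ n)⁻¹ * (b * y) ^ n, ?_, by group⟩⟩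
  rw [← QuotientGroup.eq, QuotientGroup.mk_pow, QuotientGroup.mk_pow, QuotientGroup.mk_mul_of_mem _ hy]

theorem Rel.inter (h : Rel S A B) (h' : Rel T A B) : Rel (fun n => ∃ a b, S a ∧ T b ∧ n ∣ a ∧ n ∣ b) A B :=
  fun x hx => by
  obtain ⟨a, h1, h2⟩ := h x hx
  obtain ⟨b, h3, h4⟩ := h' x hx
  refine ⟨a.gcd b, ⟨a, b, h1, h3, Nat.gcd_dvd_left .., Nat.gcd_dvd_right ..⟩, ?_⟩
  rw [← zpow_natCast, Nat.gcd_eq_gcd_ab, zpow_add, zpow_mul, zpow_mul, zpow_natCast, zpow_natCast]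
  exact mul_mem (zpow_mem h2 _) (zpow_mem h4 _)

theorem Rel.trans (h : Rel (·.Coprime p) A B) (h' : Rel (·.Coprime p) B C) : Rel (·.Coprime p) A C := fun x hx => by
  obtain ⟨a, h1, h2⟩ := h' x hx
  obtain ⟨b, h3, h4⟩ := h _ h2
  exact ⟨a * b, h1.mul_left h3, pow_mul x a b ▸ h4⟩

theorem Rel.map {H : Type*} [Group H] (f : G →* H) (h : Rel S A B) : Rel S (A.map f) (B.map f) := by
  rintro _ ⟨x, hx, rfl⟩
  obtain ⟨n, h1, h2⟩ := h x hx
  exact ⟨n, h1, _, h2, map_pow ..⟩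

/-- A chain of normal subgroups from `A` to `B` with `p'`, `p`, `p'`, …, `p'`-factors, `k` of them of type `p`. -/
def PL (p : ℕ) : ℕ → Subgroup G → Subgroup G → Prop
  | 0, A, B => Rel (·.Coprime p) A B
  | k + 1, A, B => ∃ C D : Subgroup G, C.Normal ∧ D.Normal ∧ Rel (·.Coprime p) A C ∧ Rel (∃ i, · = p ^ i) C D ∧
      PL p k D B

theorem PL.trans (h : PL p k A B) (h' : PL p m B C) : PL p (m + k) A C := by
  induction k generalizing A with
  | zero =>
    cases m with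
    | zero => exact Rel.trans h h'
    | succ m => exact let ⟨C, D, h1, h2, h3, h4⟩ := h'; ⟨C, D, h1, h2, Rel.trans h h3, h4⟩
  | succ k ih => exact let ⟨C, D, h1, h2, h3, h4, h5⟩ := h; ⟨C, D, h1, h2, h3, h4, ih h5⟩

theorem PL.map {H : Type*} [Group H] {f : G →* H} (hf : Function.Surjective f) (h : PL p k A B) :
    PL p k (A.map f) (B.map f) := by
  induction k generalizing A with
  | zero => exact Rel.map f h
  | succ k ih =>
    exact let ⟨C, D, h1, h2, h3, h4, h5⟩ := h; ⟨_, _, h1.map f hf, h2.map f hf, h3.map f, h4.map f, ih h5⟩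

variable [Finite G] [hp : Fact p.Prime]

theorem rel_ups (j : ℕ) : Rel (·.Coprime p) (upperPSeries p G (2 * j)).1 (upperPSeries p G (2 * j + 1)).1 ∧
    Rel (∃ i, · = p ^ i) (upperPSeries p G (2 * j + 1)).1 (upperPSeries p G (2 * j + 1 + 1)).1 := by
  rw [PLocal.upperPSeries_odd p G (n := 2 * j + 1) (by simp [parity_simps])]
  refine ⟨fun x hx => ?_, fun x hx => ?_⟩
  · rw [PLocal.upperPSeries_even p G (by simp)] at hx
    exact ⟨_, Solv.coprime_card_pPrimeCore p _, (QuotientGroup.eq_one_iff _).1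
      (congrArg Subtype.val (pow_card_eq_one' (x := (⟨_, hx⟩ : pPrimeCore p _))))⟩
  · obtain ⟨i, hi⟩ := Solv.isPGroup_pCore p _ ⟨_, hx⟩
    exact ⟨_, ⟨i, rfl⟩, (QuotientGroup.eq_one_iff _).1 (congrArg Subtype.val hi)⟩

theorem PL.ups (k j : ℕ) : PL p k (upperPSeries p G (2 * j)).1 (upperPSeries p G (2 * (j + k) + 1)).1 := by
  induction k generalizing j with
  | zero => exact (rel_ups j).1
  | succ k ih =>
    exact ⟨_, _, inferInstance, inferInstance, (rel_ups j).1, (rel_ups j).2, by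
      have := ih (j + 1)
      rwa [add_assoc j, add_comm 1 k] at this⟩

theorem PL.le_ups [B.Normal] (h : PL p k A B) {j : ℕ} (hA : A ≤ (upperPSeries p G (2 * j)).1) :
    B ≤ (upperPSeries p G (2 * (j + k) + 1)).1 := by
  have h0 : ∀ {A B : Subgroup G} [B.Normal] {j : ℕ}, Rel (·.Coprime p) A B → A ≤ (upperPSeries p G (2 * j)).1 →
      B ≤ (upperPSeries p G (2 * j + 1)).1 := fun {A B} _ j h hA => by
    rw [PLocal.upperPSeries_even p G (by simp), ← map_le_iff_le_comap]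
    haveI := Normal.map ‹B.Normal› _ (QuotientGroup.mk'_surjective (upperPSeries p G (2 * j)).1)
    refine Solv.le_pPrimeCore (hp.out.coprime_iff_not_dvd.2 fun hd => ?_).symm
    obtain ⟨⟨_, x, hx, rfl⟩, h1⟩ := exists_prime_orderOf_dvd_card' p hd
    obtain ⟨n, h2, h3⟩ := h x hx
    exact hp.out.coprime_iff_not_dvd.1 h2.symm (h1 ▸ orderOf_dvd_of_pow_eq_one
      (Subtype.ext ((QuotientGroup.eq_one_iff _).2 (hA h3))))
  induction k generalizing A j with
  | zero => exact h0 h hA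
  | succ k ih =>
    obtain ⟨C, D, h1, h2, h3, h4, h5⟩ := h
    have := ih h5 (j := j + 1) (by
      rw [mul_add, mul_one, PLocal.upperPSeries_odd p G (n := 2 * j + 1) (by simp [parity_simps]),
        ← map_le_iff_le_comap]
      haveI := h2.map _ (QuotientGroup.mk'_surjective (upperPSeries p G (2 * j + 1)).1)
      refine Solv.le_pCore ?_
      rintro ⟨_, x, hx, rfl⟩
      obtain ⟨_, ⟨i, rfl⟩, h6⟩ := h4 x hx
      exact ⟨i, Subtype.ext ((QuotientGroup.eq_one_iff _).2 (h0 h3 hA h6))⟩)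
    simpa only [add_assoc, add_comm 1 k] using this

theorem plen_iff : PLengthLE p k G ↔ PL p k (⊥ : Subgroup G) ⊤ :=
  ⟨fun h => by have := PL.ups (p := p) (G := G) k 0; rwa [zero_add, h] at this,
    fun h => top_le_iff.1 (by simpa only [zero_add] using h.le_ups (j := 0) bot_le)⟩

theorem plen_of_surj {H : Type*} [Group H] {f : G →* H} (hf : Function.Surjective f) (h : PLengthLE p k G) :
    PLengthLE p k H := by
  haveI := Finite.of_surjective f hf
  simpa only [plen_iff, Subgroup.map_bot, map_top_of_surjective f hf] using (plen_iff.1 h).map hf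

theorem PL.prod {ι : Type*} {q l : ι → ℕ} (hq : ∀ i, (q i).Prime ∧ q i ≠ p) (hl : ∀ i, PL (q i) (l i) (⊥ : Subgroup G) ⊤)
    (s : Finset ι) : ∀ (A B : Subgroup G) [A.Normal] [B.Normal],
      Rel (fun n => n ≠ 0 ∧ ∀ r, r.Prime → r ∣ n → r ≠ p → ∃ i ∈ s, q i = r) A B → PL p (∏ i ∈ s, (1 + l i)) A B := by
  classical
  have r1 : ∀ A : Subgroup G, Rel (·.Coprime p) A A := fun A x hx => ⟨1, by simp, by simpa⟩
  induction s using Finset.induction with
  | empty =>
    exact fun A B _ _ h => ⟨A, B, ‹_›, ‹_›, r1 A, h.imp fun n hn => ⟨_, Nat.eq_prime_pow_of_unique_prime_dvd hn.1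
      fun h1 h2 => by_contra fun h3 => by simpa using hn.2 _ h1 h2 h3⟩, r1 B⟩
  | insert i s hi ih =>
    intro A B _ _ h
    have h0 : ∀ (E F : Subgroup G) [E.Normal] [F.Normal], Rel (·.Coprime (q i)) E F →
        PL p (∏ i ∈ s, (1 + l i)) (E ⊓ B ⊔ A) (F ⊓ B ⊔ A) := fun E F _ _ h1 => by
      refine ih _ _ ((Rel.inter (fun x hx => (h.star (X := A) (Y := ⊤) x (sup_le_sup_right
        (show F ⊓ B ≤ B ⊓ ⊤ by simp) A hx)).imp
        fun n h2 => ⟨h2.1, mem_sup_right (by simpa using h2.2)⟩) h1.star).imp ?_)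
      rintro n ⟨a, b, ⟨h2, h3⟩, h4, h5, h6⟩
      refine ⟨ne_zero_of_dvd_ne_zero h2 h5, fun r h7 h8 h9 => ?_⟩
      obtain ⟨j, hj, rfl⟩ := h3 r h7 (h8.trans h5) h9
      refine ⟨j, (mem_insert.1 hj).resolve_left ?_, rfl⟩
      rintro rfl
      exact h7.coprime_iff_not_dvd.1 h4.symm (h8.trans h6)
    have h1 : ∀ (n : ℕ) (E : Subgroup G) [E.Normal], PL (q i) n E ⊤ →
        PL p ((1 + n) * ∏ i ∈ s, (1 + l i)) (E ⊓ B ⊔ A) (⊤ ⊓ B ⊔ A) := fun n => by
      induction n with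
      | zero => exact fun E _ h1 => by simpa only [add_zero, one_mul] using h0 E ⊤ h1
      | succ n ihn =>
        rintro E _ ⟨C, D, _, _, h1, h2, h3⟩
        rw [← add_assoc, add_mul _ 1, one_mul]
        refine (h0 E C h1).trans (PL.trans (k := 0) (h2.star.imp ?_) (ihn D h3))
        rintro _ ⟨j, rfl⟩
        exact ((Nat.coprime_primes (hq i).1 hp.out).2 (hq i).2).pow_left j
    have h2 := (h1 _ ⊥ (hl i)).trans (m := 0) (C := B) fun x hx => ⟨1, by simp, mem_sup_left (by simpa)⟩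
    rwa [bot_inf_eq, bot_sup_eq, zero_add, ← prod_insert hi (f := fun i => 1 + l i)] at h2

theorem der_sum {ι : Type*} [Fintype ι] {q d : ι → ℕ} (hq : ∀ i, (q i).Prime) (n : ℕ) :
    ∀ (G : Type u) [Group G] [Finite G] [Group.IsSolvable G] (l : ι → ℕ), Nat.card G = n →
      (∀ s, s.Prime → s ∣ Nat.card G → ∃ i, q i = s) → (∀ i, ∀ S : Subgroup G, IsPGroup (q i) S → der (d i) S = ⊥) →
      (∀ i, PLengthLE (q i) (l i) G) → der (∑ i, d i * l i) (⊤ : Subgroup G) = ⊥ := by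
  classical
  induction n using Nat.strong_induction_on with | _ n ih => ?_
  rintro G _ _ _ l rfl h1 h2 h3
  have key : ∀ (N : Subgroup G) [N.Normal] (l : ι → ℕ), N ≠ ⊥ → (∀ i, PLengthLE (q i) (l i) (G ⧸ N)) →
      der (∑ i, d i * l i) ⊤ ≤ N := fun N _ l hN h => by
    have hs := QuotientGroup.mk'_surjective N
    rw [← QuotientGroup.ker_mk' N, ← Subgroup.map_eq_bot_iff, der_map, map_top_of_surjective _ hs]
    refine ih _ ?_ _ l rfl (fun s h4 h5 => h1 s h4 (h5.trans (card_quotient_dvd_card N))) (fun i S hS => ?_) h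
    · rw [card_eq_card_quotient_mul_card_subgroup N]
      exact lt_mul_of_one_lt_right Nat.card_pos ((one_lt_card_iff_ne_bot N).2 hN)
    haveI := Fact.mk (hq i)
    obtain ⟨T, hT, rfl⟩ := PLocal.exists_lift_pgroup hs hS
    rw [← der_map, h2 i T hT, Subgroup.map_bot]
  have hl : ∀ (N : Subgroup G) [N.Normal] i, PLengthLE (q i) (l i) (G ⧸ N) := fun N _ i =>
    haveI := Fact.mk (hq i); plen_of_surj (QuotientGroup.mk'_surjective N) (h3 i)
  rcases subsingleton_or_nontrivial G with _ | _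
  · exact Subsingleton.elim _ _
  obtain ⟨p, hp, h4⟩ := Solv.exists_pCore_ne_bot G
  haveI := Fact.mk hp
  have h5 : p ∣ Nat.card G := (((Solv.isPGroup_pCore p G).card_eq_or_dvd).resolve_left
    (mt card_eq_one.1 h4)).trans (card_subgroup_dvd_card _)
  obtain ⟨i, rfl⟩ := h1 p hp h5
  by_cases h6 : pPrimeCore (q i) G = ⊥
  swap
  · exact eq_bot_iff.2 ((le_inf (key _ l h4 (hl _)) (key _ l h6 (hl _))).trans Solv.pCore_inf_pPrimeCore.le)
  have h7 : pPrimePCore (q i) G = pCore (q i) G := PLocal.pPrimePCore_eq_pCore h6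
  obtain ⟨k, hk⟩ : ∃ k, l i = k + 1 := Nat.exists_eq_succ_of_ne_zero fun e =>
    hp.coprime_iff_not_dvd.1 (PLocal.pLengthLE_zero_iff.1 (e ▸ h3 i)).symm h5
  have h8 := key (pPrimePCore (q i) G) (Function.update l i k) (h7 ▸ h4) fun j => by
    rcases eq_or_ne j i with rfl | e
    · rw [Function.update_self]; exact PLocal.pLengthLE_succ_iff.1 (hk ▸ h3 j)
    · rw [Function.update_of_ne e]; exact hl _ j
  rw [show ∑ j, d j * l j = ∑ j, d j * Function.update l i k j + d i by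
    rw [← add_sum_erase _ _ (mem_univ i), ← add_sum_erase _ (fun j => d j * Function.update l i k j) (mem_univ i),
      Function.update_self, hk, sum_congr rfl (g := fun j => d j * l j) (f := fun j => d j * Function.update l i k j)
      fun j hj => by rw [Function.update_of_ne (ne_of_mem_erase hj)]]
    ring, der_add]
  exact eq_bot_iff.2 ((der_mono (h8.trans h7.le) _).trans (h2 i _ (Solv.isPGroup_pCore _ G)).le)

end Cfsg.Agent.Sig.HH
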