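import Cfsg.Agent.Sig.HH7
import Cfsg.Agent.Sig.PL
import Cfsg.Agent.S3784

/-! Bryukhanova's theorem `l_2 ≤ e_2` (`HH.plen_bry`). -/

set_option linter.dupNamespace false
set_option linter.unusedSectionVars false
set_option linter.unusedVariables false

namespace Cfsg.Agent.Sig.HH
open Module Finset Subgroup Cfsg.Agent.BG
open scoped commutatorElement

universe u
variable {Γ : Type*} [Group Γ] [Finite Γ] {A B D E L M N P Q R T X Y : Subgroup Γ} {a g v w x y : Γ} {p q k m : ℕ}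

theorem three_mod (hA : A ≤ N[N]) (hB : B ≤ N[N]) (hD : D ≤ N[N]) (h1 : ⁅⁅B, D⁆, A⁆ ≤ N) (h2 : ⁅⁅D, A⁆, B⁆ ≤ N) :
    ⁅⁅A, B⁆, D⁆ ≤ N := by
  rw [← quotient_sub1 (comm_subG (comm_subG ‹_› ‹_›) ‹_›), quotientR (comm_subG ‹_› ‹_›) ‹_›, quotientR ‹_› ‹_›] at *
  exact three_subgroup h1 h2

theorem pow_mul_inv_mem (hg : g ∈ N[Y]) (h : w * g⁻¹ ∈ Y) (n : ℕ) : w ^ n * (g ^ n)⁻¹ ∈ Y := by
  induction n with
  | zero => simp
  | succ n ih =>
    have := mul_mem h (conj_mem_of_norm hg ih)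
    rwa [show w * g⁻¹ * (g * (w ^ n * (g ^ n)⁻¹) * g⁻¹) = w ^ (n + 1) * (g ^ (n + 1))⁻¹ by rw [pow_succ', pow_succ']; group]
      at this

theorem comm_cent_of_pm (ab : IsMulCommutative P) (hy : y ∈ N[P]) (hv : v ∈ N[P]) (h2 : v ^ 2 ∈ C[P])
    (h : v ∈ C[P] ∨ P ⊓ C[zpowers v] = ⊥) : ⁅y, v⁆ ∈ C[P] := by
  rcases h with h | h
  · exact commg_subr (norms_cent (zpowers_le.2 hy)) (commutator_mem_commutator (mem_zpowers y) h)
  have k : ∀ u ∈ P, v * u * v⁻¹ = u⁻¹ := fun u hu => eq_inv_of_mul_eq_one_left (mem_bot.1 (h.le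
    ⟨mul_mem (conj_mem_of_norm hv hu) hu, by
      rw [C_zpowers]
      refine mem_cent1.2 ?_
      rw [ab.comm (conj_mem_of_norm hv hu) hu]
      calc _ = (v ^ 2 * u * (v ^ 2)⁻¹) * v * u := by rw [conj_eq_of_cent h2 hu]; group
        _ = v * ((v * u * v⁻¹) * u) := by rw [sq]; group
        _ = _ := by rw [ab.comm (conj_mem_of_norm hv hu) hu]⟩))
  refine mem_cent.2 fun u hu => ?_
  have h1 := k _ (conj_mem_of_norm' hy (inv_mem hu))
  have h4 : v⁻¹ * u * v = u⁻¹ := by rw [← inv_inj, ← k _ (conj_mem_of_norm' hv hu)]; group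
  calc _ = y * (y⁻¹ * u⁻¹ * y)⁻¹ * v * y⁻¹ * v⁻¹ := by rw [commutatorElement_def]; group
    _ = y * v * y⁻¹ * v⁻¹ * (v * u⁻¹ * v⁻¹) := by rw [← h1]; group
    _ = _ := by rw [← h4, commutatorElement_def]; group

theorem norm_of_comm_cent (hv : v ∈ N[M]) (hw : w ∈ N[M]) (h : ⁅v, w⁆ ∈ C[M]) :
    v ∈ N[⁅M, zpowers w⁆] ∧ v ∈ N[M ⊓ C[zpowers w]] := by
  have h1 : zpowers v ≤ N[zpowers w ⊔ C[M]] := zpowers_le.2 (mem_norm_of_cj_le (by
    rw [cj_sup, cj_zpowers, cj_of_norm (cent_norm M hv), show v * w * v⁻¹ = ⁅v, w⁆ * w by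
      rw [commutatorElement_def]; group]
    exact sup_le (zpowers_le.2 (mul_mem (mem_sup_right h) (mem_sup_left (mem_zpowers w)))) le_sup_right))
  have h2 := normsR h1 (zpowers_le.2 hv)
  have h3 := normsI (zpowers_le.2 hv) (norms_cent h1)
  rw [commMG (.inl (norms_cent (zpowers_le.2 hw))) (by rw [commG1.2 le_rfl, norm_bot]; exact le_top), commG1.2 le_rfl,
    sup_bot_eq, commGC] at h2
  rw [cent_sup, inf_comm C[_], ← inf_assoc, inf_eq_left.2 (centsC.1 le_rfl)] at h3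
  exact ⟨zpowers_le.1 h2, zpowers_le.1 h3⟩

theorem fix_aux {G : Type*} [Group G] {a y : G} (h1 : a ^ 2 = 1) (h2 : (a * y⁻¹) ^ 4 = 1) (h3 : y ^ 4 = 1)
    (c : Commute (a * y * a⁻¹) y) : (a * y * a⁻¹) ^ 2 = y ^ 2 := by
  have h4 : (a * y * a⁻¹)⁻¹ * y⁻¹ = (a * y⁻¹) ^ 2 := by
    rw [sq, ← mul_one (a * y * a⁻¹)⁻¹, ← h1, sq]; group
  rw [show 4 = 2 * 2 from rfl, pow_mul, ← h4, c.inv_inv.mul_pow, inv_pow, inv_pow, ← mul_inv_rev, inv_eq_one] at h2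
  rw [eq_inv_of_mul_eq_one_right h2, inv_eq_iff_mul_eq_one, ← pow_add, h3]

variable [hq : Fact q.Prime]

theorem mersenne_one (q2 : q ≠ 2) (h : q ^ m + 1 = 2 ^ (k + 2)) : m = 1 := by
  rcases S3784.result 2 q (k + 2) m Nat.prime_two hq.out (by omega) (Nat.pos_of_ne_zero (by
    rintro rfl; rw [pow_zero, pow_succ, pow_succ] at h; omega)) h.symm with h | h | h
  · exact h.2.1
  · exact (q2 h.1).elim
  · have := h.1; rw [pow_succ] at this; omega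

theorem Refl.cent (h : Refl q m k M x) (hM : IsPGroup q M) (ab : IsMulCommutative M) (q2 : q ≠ 2) :
    x ∈ C[M ⊓ C[zpowers (x ^ 2 ^ k)]] := by
  have yM : zpowers (x ^ 2 ^ k) ≤ N[M] := zpowers_le.2 (pow_mem h.norm _)
  refine centsC.1 (commG1.1 (eq_bot_iff.2 ((le_inf ((commSg _ inf_le_left).trans h.le) ((commg_subl (zpowers_le.2
    (norm_of_comm_cent h.norm (pow_mem h.norm _) ?_).2)).trans inf_le_right)).trans (coprime_abel_cent_TI yM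
    (IsPGroup.coprime_card_of_ne _ _ q2 _ _ hM (pg_zpowers (n := 1) ?_)) ab).le))) (mem_zpowers x)
  · rw [commutatorElement_eq_one_iff_commute.2 (Commute.self_pow _ _)]; exact one_mem _
  · rw [← pow_mul, ← pow_add, h.pw]

theorem refl_comm' {x₁ x₂ : Γ} (hM : IsPGroup q M) (ab : IsMulCommutative M) (q2 : q ≠ 2) (k0 : 0 < k)
    (h6 : q ^ m + 1 = 2 ^ (k + 1)) (hB : IsPGroup 2 B) (nB : B ≤ N[M]) (m₁ : x₁ ∈ B) (m₂ : x₂ ∈ B)
    (h₁ : Refl q m k M x₁) (h₂ : Refl q m k M x₂) :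
    Commute (coset C[M] x₁) (coset C[M] x₂) ∨ coset C[M] x₁ ^ 2 ^ k = coset C[M] x₂ ^ 2 ^ k := by
  obtain ⟨N, hN⟩ : ∃ N, N = B ⊓ C[M] := ⟨_, rfl⟩
  have n1 : B ≤ N[N] := hN ▸ normsI (normG _) (norms_cent nB)
  have n2 : M ≤ N[N] := cents_norm (centsC.1 (hN ▸ inf_le_right))
  have n3 := norms_cent nB
  refine (refl_comm (hM.quo N) (quotient_abelian N ab) q2 k0 h6 (hB.quo N) (quotient_norms _ nB) (by
      refine eq_bot_iff.2 fun b hb => ?_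
      obtain ⟨b, h1, h2, rfl⟩ := mem_quotient_iff.1 hb.1
      refine coset_id (hN ▸ ⟨h1, zpowers_le.1 (cent_of_quo (zpowers_le.2 (nB h1)) (zpowers_le.2 h2) (hN ▸ inf_le_right)
        (coprime_TI (IsPGroup.coprime_card_of_ne _ _ q2 _ _ hM (hB.to_le (hN ▸ inf_le_left)))) ?_)⟩)
      rw [quotient_zpowers h2]
      exact zpowers_le.2 hb.2)
    (mem_quotient (n1 m₁) m₁) (mem_quotient (n1 m₂) m₂) (h₁.quo n2 (n1 m₁)) (h₂.quo n2 (n1 m₂))).imp (fun h => ?_) fun h => ?_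
  · rw [← commutatorElement_eq_one_iff_commute, ← coset_comm (n1 m₁) (n1 m₂),
      coset_eq_one (n1 (der_sub B (commutator_mem_commutator m₁ m₂)))] at h
    rw [← commutatorElement_eq_one_iff_commute, ← coset_comm (n3 m₁) (n3 m₂)]
    exact coset_id (hN ▸ h).2
  · rw [← coset_pow (n1 m₁), ← coset_pow (n1 m₂), coset_eq_iff (pow_mem (n1 m₁) _) (pow_mem (n1 m₂) _)] at h
    rw [← coset_pow (n3 m₁), ← coset_pow (n3 m₂), coset_eq_iff (pow_mem (n3 m₁) _) (pow_mem (n3 m₂) _)]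
    exact (hN ▸ h).2

theorem refl_fix (hM : IsPGroup q M) (ab : IsMulCommutative M) (q2 : q ≠ 2) (h6 : q ^ m + 1 = 2 ^ (k + 2))
    (hB : IsPGroup 2 B) (nB : B ≤ N[M]) (hx : x ∈ B) (hv : v ∈ B) (h : Refl q m (k + 1) M x) (h1 : v ^ 2 ∈ C[M])
    (h2 : (v * (x ^ 2 ^ k)⁻¹) ^ 4 = 1) : ⁅v, x ^ 2 ^ (k + 1)⁆ ∈ C[M] := by
  have n3 := norms_cent nB
  have key := refl_comm' hM ab q2 k.succ_pos h6 hB nB (mul_mem (mul_mem hv hx) (inv_mem hv)) hx (h.conj (nB hv)) h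
  have m := fun n => n3 (pow_mem hx n)
  rw [← coset_eq_one (n3 (der_sub B (commutator_mem_commutator hv (pow_mem hx _)))), coset_comm (n3 hv) (m _),
    commutatorElement_def, mul_inv_eq_one, coset_pow (n3 hx), ← conj_pow]
  rw [coset_mul (mul_mem (n3 hv) (n3 hx)) (inv_mem (n3 hv)), coset_mul (n3 hv) (n3 hx), coset_inv (n3 hv)] at key
  refine key.elim (fun c => ?_) id
  rw [pow_succ, pow_mul, pow_mul, conj_pow]
  refine fix_aux (by rw [← coset_pow (n3 hv), coset_id h1]) ?_ ?_ (by rw [← conj_pow]; exact c.pow_pow _ _)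
  · rw [← coset_pow (n3 hx), ← coset_inv (m _), ← coset_mul (n3 hv) (inv_mem (m _)),
      ← coset_pow (mul_mem (n3 hv) (inv_mem (m _))), h2, coset_one]
  · rw [← pow_mul, show 2 ^ k * 4 = 2 ^ (k + 1 + 1) by ring, ← coset_pow (n3 hx), h.pw, coset_one]

theorem form_pm {K : Subgroup Γ} (q2 : q ≠ 2) (hQ : IsPGroup q Q) (hZ : ⁅Q, Q⁆ ≤ Z[Q]) (qK : Q ≤ N[K])
    (hR : R = cm Q K) (hw : w ∈ N[Q]) (w2 : IsPGroup 2 (zpowers w)) (hc : w ∈ C[Z[Q]]) (vQ : v ∈ N[Q]) (vK : v ∈ N[K])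
    (v2 : IsPGroup 2 (zpowers v)) (vZ : ⁅Z[Q], zpowers v⁆ ≤ K) (hP : P = R ⊔ ⁅Q, zpowers w⁆) (vP : v ∈ N[P])
    (hi : #(P /ᵍ R) ≤ q ^ 2) : ⁅P, zpowers v⁆ ≤ R ∨ P ⊓ C[zpowers v] ≤ R := by
  by_contra! hh
  obtain ⟨c, hc1, hc2⟩ := SetLike.not_le_iff_exists.1 hh.2
  have qR : Q ≤ N[R] := hR ▸ norms_cm (normG Q) qK
  obtain ⟨r1, r2⟩ := (le_cm qK).1 hR.le
  have wQ := zpowers_le.2 hw
  have pQ : P ≤ Q := hP.le.trans (sup_le r1 (commg_subl wQ))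
  have a1 := commg_subl (zpowers_le.2 vP)
  have cP := zpowers_le.2 hc1.1
  have cv : zpowers c ≤ C[zpowers v] := zpowers_le.2 hc1.2
  have vR : zpowers v ≤ N[R] := hR ▸ norms_cm (zpowers_le.2 vQ) (zpowers_le.2 vK)
  have zR : Z[Q] ≤ R := hR ▸ (le_cm qK).2 ⟨inf_le_left, by rw [commG1.2 inf_le_right]; exact bot_le⟩
  have ab : IsMulCommutative (P /ᵍ R) := sub_der1_abelian ((dergS pQ).trans (hZ.trans zR))
  have pP := (hQ.to_le pQ).quo R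
  have k1 : ⁅⁅P, zpowers v⁆, zpowers c⁆ ≤ K := by
    rw [commGC P]
    exact three_mod (zpowers_le.2 vK) (pQ.trans qK) (cP.trans (pQ.trans qK))
      ((commSg _ ((commgSS pQ (cP.trans pQ)).trans hZ)).trans vZ) (by rw [commG1.2 cv, commutator_bot_left]; exact bot_le)
  have k2 : (⁅P, zpowers v⁆ ⊔ zpowers c) /ᵍ R = P /ᵍ R := by
    refine eq_of_card_le (quotientS _ (sup_le a1 cP)) (hi.trans ?_)
    rw [quotientY (a1.trans (pQ.trans qR)) (cP.trans (pQ.trans qR)), card_sup_TI (.inl ((quotientS _ a1).trans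
      (sub_abelian_norm ab (quotientS _ cP)))), sq]
    · exact Nat.mul_le_mul (Nat.le_of_dvd (cardG_pos _) (pgroup_pdiv (pP.to_le (quotientS _ a1))
        (quotient_neq1 (a1.trans (pQ.trans qR)) hh.1))) (Nat.le_of_dvd (cardG_pos _) (pgroup_pdiv
        (pP.to_le (quotientS _ cP)) (quotient_neq1 (cP.trans (pQ.trans qR)) (mt zpowers_le.1 hc2))))
    rw [quotientR (pQ.trans qR) vR]
    exact eq_bot_iff.2 ((inf_le_inf_left _ (quotient_cents _ cv)).trans (coprime_abel_cent_TI (quotient_norms _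
      (zpowers_le.2 vP)) (IsPGroup.coprime_card_of_ne _ _ q2 _ _ pP (v2.quo R)) ab).le)
  have k3 : ⁅R, zpowers c⁆ ≤ K := (commgS _ (cP.trans pQ)).trans r2
  have k4 : ⁅P, zpowers c⁆ ≤ K := (commSg _ ((quotientSK (pQ.trans qR) ((sup_le a1 cP).trans (pQ.trans qR))).1 k2.ge)).trans
    (comm_sup_le (r1.trans qK) ((sup_le a1 cP).trans (pQ.trans qK)) k3 (comm_sup_le (a1.trans (pQ.trans qK))
      (cP.trans (pQ.trans qK)) k1 (by rw [der1_eq_bot.2 (abelian_zpowers c)]; exact bot_le)))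
  have k5 : ⁅⁅zpowers w, Q⁆, Q ⊓ C[zpowers w]⁆ = ⊥ := three_subgroup (commG1.2 (((commgS _ inf_le_left).trans hZ).trans
    (centsC.1 (zpowers_le.2 hc)))) (by rw [commG1.2 inf_le_right, commutator_bot_left])
  refine hc2 (hR.ge (zpowers_le.1 ((le_cm qK).2 ⟨cP.trans pQ, ?_⟩)))
  rw [commGC, ← coprime_cent_prod wQ (IsPGroup.coprime_card_of_ne _ _ q2 _ _ hQ w2) (pgroup_sol hQ)]
  refine comm_sup_le ((commg_subl wQ).trans qK) (inf_le_left.trans qK) ((commSg _ (le_sup_right.trans hP.ge)).trans k4) ?_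
  rw [commGC]
  exact (commSg _ (cP.trans hP.le)).trans (comm_sup_le (r1.trans qK) ((commg_subl wQ).trans qK)
    ((commgS _ inf_le_left).trans r2) (by rw [commGC Q, k5]; exact bot_le))

section Lin
variable {K V : Type*} [Field K] [IsAlgClosed K] [AddCommGroup V] [Module K V] [FiniteDimensional K V]
  {ρ : Γ →* End K V} {U W : Submodule K V} [CharP K 2]

theorem exc_refl (q2 : q ≠ 2) (hQ : IsPGroup q Q) (hZ : ⁅Q, Q⁆ ≤ Z[Q]) (hx : x ∈ N[Q]) {e : ℕ}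
    (hn : x ^ 2 ^ (e + 2) = 1) (hr : (ρ x - 1) ^ (2 ^ (e + 2) - 1) = 0) (hC : x ^ 2 ^ (e + 1) ∈ C[Z[Q]]) (h : Irr ρ Q U)
    (hR : R = cm Q (Q ⊓ Fx ρ U)) (hK : ¬ ⁅Q, zpowers (x ^ 2 ^ (e + 1))⁆ ≤ R) : ∃ j k, e = j + k ∧
      q ^ 1 + 1 = 2 ^ (k + 2) ∧ x ^ 2 ^ j ∈ St ρ U ∧ Refl q 1 (k + 1) (Q /ᵍ R) (coset R (x ^ 2 ^ j)) := by
  have qK : Q ≤ N[Q ⊓ Fx ρ U] := normsI (normG Q) (h.inv.trans St_le_norm_Fx)
  have qR : Q ≤ N[R] := hR ▸ norms_cm (normG Q) qK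
  have yQ : zpowers (x ^ 2 ^ (e + 1)) ≤ N[Q] := zpowers_le.2 (pow_mem hx _)
  have kR : Q ⊓ Fx ρ U ≤ R := hR ▸ (le_cm qK).2 ⟨inf_le_left, commg_subl qK⟩
  have zR : Z[Q] ≤ R := hR ▸ (le_cm qK).2 ⟨inf_le_left, by rw [commG1.2 inf_le_right]; exact bot_le⟩
  obtain ⟨j, k, m, e0, l1, l2, l3, l4, l5⟩ := exc_struct q2 hQ hZ hx hn hr hC h fun h =>
    hK ((le_inf (commg_subl yQ) h).trans kR)
  obtain ⟨k, rfl⟩ := Nat.exists_eq_add_of_le' (Nat.pos_of_ne_zero (n := k) (by rintro rfl; simp at l1))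
  obtain rfl := mersenne_one q2 l2
  have e1 : (x ^ 2 ^ j) ^ 2 ^ (k + 1) = x ^ 2 ^ (e + 1) := by rw [← pow_mul, ← pow_add, e0]
  have zQ := pow_mem hx (2 ^ j)
  have nz : x ^ 2 ^ j ∈ N[R] := hR ▸ zpowers_le.1 (norms_cm (zpowers_le.2 zQ)
    (normsI (zpowers_le.2 zQ) ((zpowers_le.2 l3).trans St_le_norm_Fx)))
  have yR : zpowers (x ^ 2 ^ (e + 1)) ≤ N[R] := zpowers_le.2 (e1 ▸ pow_mem nz _)
  have ab : IsMulCommutative (Q /ᵍ R) := sub_der1_abelian (hZ.trans zR)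
  refine ⟨j, k, by omega, l2, l3, quotient_norms _ (zpowers_le.2 zQ) (mem_quotient nz (mem_zpowers _)), by
      rw [← coset_pow nz, ← pow_mul, ← pow_add, ← add_assoc, ← e0, hn, coset_one], ?_, ?_⟩ <;>
    rw [← coset_pow nz, e1, ← quotient_zpowers (yR (mem_zpowers _)), ← quotientR qR yR]
  · have k1 := commg_subl yQ
    have n1 : zpowers (x ^ 2 ^ j) ≤ N[⁅Q, zpowers (x ^ 2 ^ (e + 1))⁆] := normsR (zpowers_le.2 zQ)
      (cents_norm (zpowers_le.2 (by rw [C_zpowers]; exact mem_cent1.2 (Commute.pow_pow_self x _ _))))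
    refine comm_le_of_elt (sub_abelian_norm ab (quotientS _ k1)) (quotient_norms _ n1 (mem_quotient nz (mem_zpowers _)))
      fun c hc => ?_
    obtain ⟨c, hc', nc, rfl⟩ := mem_quotient_iff.1 hc
    obtain ⟨a, ha, b, hb, rfl⟩ := (mem_sup_norml (inf_le_left.trans (commg_norml Q _))).1
      ((coprime_cent_prod yQ (IsPGroup.coprime_card_of_ne _ _ q2 _ _ hQ (pg_zpowers (n := 1) (by
        rw [pow_one, ← pow_mul, ← pow_succ, hn]))) (pgroup_sol hQ)).ge hc')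
    have b1 := commg_subl (zpowers_le.2 zQ) (commutator_mem_commutator hb.1 (mem_zpowers _))
    have b2 := commg_subl n1 (commutator_mem_commutator ha (mem_zpowers _))
    have b3 := conj_mem_of_norm (qR (k1 ha)) (kR ⟨b1, l4 b hb⟩)
    rw [← coset_comm nc nz, show ⁅a * b, x ^ 2 ^ j⁆ = a * ⁅b, x ^ 2 ^ j⁆ * a⁻¹ * ⁅a, x ^ 2 ^ j⁆ by
      simp only [commutatorElement_def]; group, coset_mul (normG R b3) (qR (k1 b2)), coset_id b3, one_mul]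
    exact mem_quotient (qR (k1 b2)) b2
  · rwa [card_quotient ((commg_subl yQ).trans qR), hR]

theorem exc_pc (q2 : q ≠ 2) (hQ : IsPGroup q Q) (hZ : ⁅Q, Q⁆ ≤ Z[Q]) [Q.Normal] {e : ℕ}
    (hr : ∀ x : Γ, x ^ 2 ^ (e + 2) = 1 → (ρ x - 1) ^ (2 ^ (e + 2) - 1) = 0) (h : Irr ρ Q U)
    (hS : ∀ x : Γ, x ^ 2 ^ (e + 2) = 1 → x ^ 2 ^ (e + 1) ∈ C[Z[Q]] ⊓ N[Q ⊓ Fx ρ U]) (hY : IsPGroup 2 Y)
    (h4 : ∀ y ∈ Y, y ^ 4 = 1) (yK : Y ≤ C[Z[Q]] ⊓ N[Q ⊓ Fx ρ U]) (hR : R = cm Q (Q ⊓ Fx ρ U)) (hg : g ∈ N[Y])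
    (hw : w * g⁻¹ ∈ Y) (g1 : g ^ 2 ^ (e + 2) = 1) (w1 : w ^ 2 ^ (e + 2) = 1) :
    coset R (w ^ 2 ^ (e + 1) * (g ^ 2 ^ (e + 1))⁻¹) ∈ Phi (Y /ᵍ R) ⊔ (Y /ᵍ R ⊓ C[Q /ᵍ R]) := by
  have nQ := fun A => norm_of_normal Q A
  have qK : Q ≤ N[Q ⊓ Fx ρ U] := normsI (normG Q) (h.inv.trans St_le_norm_Fx)
  have nR : N[Q ⊓ Fx ρ U] ≤ N[R] := hR ▸ norms_cm (nQ _) le_rfl
  have qR := qK.trans nR
  have yR := (yK.trans inf_le_right).trans nR
  have zR : Z[Q] ≤ R := hR ▸ (le_cm qK).2 ⟨inf_le_left, by rw [commG1.2 inf_le_right]; exact bot_le⟩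
  have ab : IsMulCommutative (Q /ᵍ R) := sub_der1_abelian (hZ.trans zR)
  have nM : ∀ x ∈ N[R], coset R x ∈ N[Q /ᵍ R] := fun x hx => quotient_norms _ (nQ ⊤) (mem_quotient hx trivial)
  have cM : ∀ x ∈ N[R], ⁅Q, zpowers x⁆ ≤ R → coset R x ∈ C[Q /ᵍ R] := fun x hx h =>
    centsC.1 (quotient_cents2r h) (mem_quotient hx (mem_zpowers x))
  have wY : w ∈ N[Y] := by simpa using mul_mem (normG Y hw) hg
  have m0 := pow_mul_inv_mem hg hw (2 ^ (e + 1))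
  have m1 := mem_quotient (yR m0) m0
  wlog hK : ¬ ⁅Q, zpowers (g ^ 2 ^ (e + 1))⁆ ≤ R generalizing g w
  · by_cases hK' : ⁅Q, zpowers (w ^ 2 ^ (e + 1))⁆ ≤ R
    · refine mem_sup_right ⟨m1, ?_⟩
      rw [coset_mul (nR (hS w w1).2) (inv_mem (nR (hS g g1).2)), coset_inv (nR (hS g g1).2)]
      exact C[Q /ᵍ R].mul_mem (cM _ (nR (hS w w1).2) hK') (inv_mem (cM _ (nR (hS g g1).2) (not_not.1 hK)))
    have m2 := inv_mem m0
    have := inv_mem (this wY (by simpa using inv_mem hw) w1 g1 hg (by simpa using m2)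
      (mem_quotient (yR (by simpa using m2)) (by simpa using m2)) hK')
    rwa [← coset_inv (yR (by simpa using m2)), mul_inv_rev, inv_inv] at this
  obtain ⟨j, k, rfl, l2, l3, l4⟩ := exc_refl q2 hQ hZ (nQ ⊤ trivial) g1 (hr g g1) (hS g g1).1 h hR hK
  have sK : St ρ U ≤ N[Q ⊓ Fx ρ U] := normsI (nQ _) St_le_norm_Fx
  have wK : ∀ i, w ^ 2 ^ (j + i) ∈ N[Q ⊓ Fx ρ U] := fun i => by
    rw [← inv_mul_cancel_right (w ^ _) (g ^ 2 ^ (j + i))]
    exact mul_mem (yK (pow_mul_inv_mem hg hw _)).2 (by rw [pow_add, pow_mul]; exact pow_mem (sK l3) _)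
  have gR := nR (sK l3)
  have wR : w ^ 2 ^ j ∈ N[R] := nR (wK 0)
  have n0 := pow_mul_inv_mem hg hw (2 ^ j)
  have xY : coset R (g ^ 2 ^ j) ∈ N[Y /ᵍ R] := quotient_norms _ (zpowers_le.2 (pow_mem hg _)) (mem_quotient gR (mem_zpowers _))
  have hB : IsPGroup 2 ↥(Y /ᵍ R ⊔ zpowers (coset R (g ^ 2 ^ j))) :=
    pgroup_sup (.inr (zpowers_le.2 xY)) (hY.quo R) (pg_zpowers l4.pw)
  have nB : Y /ᵍ R ⊔ zpowers (coset R (g ^ 2 ^ j)) ≤ N[Q /ᵍ R] := sup_le (quotient_norms _ (nQ _)) (zpowers_le.2 l4.norm)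
  have b1 : coset R (g ^ 2 ^ j) ∈ Y /ᵍ R ⊔ zpowers (coset R (g ^ 2 ^ j)) := mem_sup_right (mem_zpowers _)
  have b2 : coset R (w ^ 2 ^ j) ∈ Y /ᵍ R ⊔ zpowers (coset R (g ^ 2 ^ j)) := by
    rw [← inv_mul_cancel_right (w ^ 2 ^ j) (g ^ 2 ^ j), coset_mul (yR n0) gR]
    exact mul_mem_sup (mem_quotient (yR n0) n0) (mem_zpowers _)
  have e1 : ∀ {z : Γ}, z ^ 2 ^ j ∈ N[R] → ∀ i, coset R (z ^ 2 ^ (j + i)) = coset R (z ^ 2 ^ j) ^ 2 ^ i := fun h i => by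
    rw [pow_add, pow_mul, coset_pow h]
  have n1 := pow_mul_inv_mem hg hw (2 ^ (j + k))
  have n2 := mem_quotient (yR n1) n1
  have n3 := congrArg (coset R) (h4 _ n1)
  have gR' : ∀ i, g ^ 2 ^ (j + i) ∈ N[R] := fun i => by rw [pow_add, pow_mul]; exact pow_mem gR _
  rw [coset_pow (yR n1), coset_one] at n3
  rw [coset_mul (nR (wK _)) (inv_mem (gR' _)), coset_inv (gR' _), e1 gR, e1 wR] at n2 n3
  rw [add_assoc, coset_mul (nR (wK _)) (inv_mem (gR' _)), coset_inv (gR' _), e1 gR, e1 wR] at m1 ⊢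
  suffices H : ⁅coset R (g ^ 2 ^ j) ^ 2 ^ k, coset R (w ^ 2 ^ j) ^ 2 ^ k⁆ ∈ C[Q /ᵍ R] ∨
      coset R (w ^ 2 ^ j) ^ 2 ^ (k + 1) * (coset R (g ^ 2 ^ j) ^ 2 ^ (k + 1))⁻¹ ∈ C[Q /ᵍ R] by
    refine H.elim (fun H => ?_) fun H => mem_sup_right ⟨m1, H⟩
    rw [pow_succ, pow_mul, pow_mul]
    replace xY := pow_mem xY (2 ^ k)
    generalize coset R (g ^ 2 ^ j) ^ 2 ^ k = y, coset R (w ^ 2 ^ j) ^ 2 ^ k = y' at *
    rw [show y' ^ 2 * (y ^ 2)⁻¹ = (y' * y⁻¹) ^ 2 * ((y' * y⁻¹)⁻¹ * ⁅y, y'⁆ * (y' * y⁻¹)) by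
      rw [commutatorElement_def, sq, sq, sq]; group]
    refine mul_mem_sup (pow_mem_Phi (hY.quo R) n2) ⟨conj_mem_of_norm' (normG _ n2) ?_,
      conj_mem_of_norm' (norms_cent (quotient_norms _ (nQ _)) n2) H⟩
    rw [show ⁅y, y'⁆ = y * (y' * y⁻¹) * y⁻¹ * (y' * y⁻¹)⁻¹ by rw [commutatorElement_def]; group]
    exact mul_mem (conj_mem_of_norm xY n2) (inv_mem n2)
  have nC := norms_cent nB
  by_cases hK' : ⁅Q, zpowers (w ^ 2 ^ (j + k + 1))⁆ ≤ R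
  swap
  · obtain ⟨j', k', e0, l2', -, l4'⟩ := exc_refl q2 hQ hZ (nQ ⊤ trivial) w1 (hr w w1) (hS w w1).1 h hR hK'
    obtain rfl : k = k' := by have := Nat.pow_right_injective le_rfl (l2.symm.trans l2'); omega
    obtain rfl : j = j' := by omega
    refine (refl_comm' (hQ.quo R) ab q2 k.succ_pos l2 hB nB b1 b2 l4 l4').imp (fun c => ?_) fun c => ?_
    · rw [← coset_eq_one (nC (der_sub _ (commutator_mem_commutator (pow_mem b1 _) (pow_mem b2 _)))),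
        coset_comm (nC (pow_mem b1 _)) (nC (pow_mem b2 _)), coset_pow (nC b1), coset_pow (nC b2)]
      exact commutatorElement_eq_one_iff_commute.2 (c.pow_pow _ _)
    · rw [← coset_eq_one (nC (mul_mem (pow_mem b2 _) (inv_mem (pow_mem b1 _)))), coset_mul (nC (pow_mem b2 _))
        (inv_mem (nC (pow_mem b1 _))), coset_inv (nC (pow_mem b1 _)), coset_pow (nC b1), coset_pow (nC b2), c,
        mul_inv_cancel]
  left
  have v2 : (coset R (w ^ 2 ^ j) ^ 2 ^ k) ^ 2 ∈ C[Q /ᵍ R] := by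
    rw [← pow_mul, ← pow_succ, ← e1 wR]; exact cM _ (nR (wK _)) hK'
  obtain ⟨f1, f2⟩ := norm_of_comm_cent (nB (pow_mem b2 _)) (nB (pow_mem b1 _))
    (refl_fix (hQ.quo R) ab q2 l2 hB nB b1 (pow_mem b2 (2 ^ k)) l4 v2 n3)
  have hQ' := zpowers_le.2 (nQ ⊤ (mem_top (g ^ 2 ^ (j + (k + 1)))))
  have pR := (commg_subl hQ').trans qR
  have e2 : (R ⊔ ⁅Q, zpowers (g ^ 2 ^ (j + (k + 1)))⁆) /ᵍ R = ⁅Q /ᵍ R, zpowers (coset R (g ^ 2 ^ j) ^ 2 ^ (k + 1))⁆ := by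
    rw [quotientYidl pR, quotientR qR (zpowers_le.2 (gR' _)), quotient_zpowers (gR' _), e1 gR]
  have e3 : zpowers (w ^ 2 ^ (j + k)) /ᵍ R = zpowers (coset R (w ^ 2 ^ j) ^ 2 ^ k) := by
    rw [quotient_zpowers (nR (wK _)), e1 wR]
  have p2 : IsPGroup 2 (zpowers (w ^ 2 ^ (j + k))) := pg_zpowers (n := 2) (by rw [← pow_mul, ← pow_add, w1])
  have vP : zpowers (w ^ 2 ^ (j + k)) ≤ N[R ⊔ ⁅Q, zpowers (g ^ 2 ^ (j + (k + 1)))⁆] := by
    rw [← quotientK pR, ← quotientYidl pR, e2]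
    exact norms_cosetpre (zpowers_le.2 (nR (wK _))) (e3 ▸ zpowers_le.2 f1)
  have pQ : R ⊔ ⁅Q, zpowers (g ^ 2 ^ (j + (k + 1)))⁆ ≤ Q := sup_le ((le_cm qK).1 hR.le).1 (commg_subl hQ')
  have yS : zpowers (g ^ 2 ^ (j + k)) ≤ St ρ U := zpowers_le.2 (by rw [pow_add, pow_mul]; exact pow_mem l3 _)
  have f3 := form_pm q2 hQ hZ qK hR (hQ' (mem_zpowers _)) (pg_zpowers (n := 1) (by rw [← pow_mul, ← pow_add]; exact g1))
    (hS g g1).1 (nQ ⊤ trivial) (wK k) p2 (by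
      refine (commgS _ (zpowers_le.2 ?_ : _ ≤ Y ⊔ zpowers (g ^ 2 ^ (j + k)))).trans ((commGC _ _).le.trans (comm_sup_le
        (yK.trans inf_le_right) (yS.trans sK) (by rw [commG1.2 (yK.trans inf_le_left)]; exact bot_le) ?_))
      · rw [← inv_mul_cancel_right (w ^ _) (g ^ 2 ^ (j + k))]
        exact mul_mem_sup n1 (mem_zpowers _)
      rw [commGC]
      exact le_inf ((commSg _ inf_le_left).trans (commg_subl (nQ _))) (commutator_le.2 fun a ha b hb =>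
        h.comm_fx ha (yS hb))) rfl (vP (mem_zpowers _)) (by rw [e2, ← pow_one q]; exact l4.card)
  have cop := IsPGroup.coprime_card_of_ne _ _ q2 _ _ (hQ.quo R) (hB.to_le (zpowers_le.2 (pow_mem b1 (2 ^ (k + 1)))))
  have hM := zpowers_le.2 (nB (pow_mem b1 (2 ^ (k + 1))))
  rw [← coprime_cent_prod hM cop (pgroup_sol (hQ.quo R)), cent_sup]
  refine ⟨comm_cent_of_pm (abelianS (commg_subl hM) ab) (pow_mem (norm_of_comm_cent l4.norm (pow_mem l4.norm _) (by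
      rw [commutatorElement_eq_one_iff_commute.2 (Commute.self_pow _ _)]; exact one_mem _)).1 _) f1
      (centS (commg_subl hM) v2) (f3.imp (fun f3 => ?_) fun f3 => ?_), commg_subl (norms_cent (zpowers_le.2 f2))
      (commutator_mem_commutator (pow_mem (l4.cent (hQ.quo R) ab q2) _) (mem_zpowers _))⟩
  · exact e2 ▸ centsC.1 (quotient_cents2r f3) (e3 ▸ mem_zpowers _)
  · rw [← e2, ← e3, ← coprime_quotient_cent' (pQ.trans qR) (zpowers_le.2 (nR (wK _))) vP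
      (IsPGroup.coprime_card_of_ne _ _ q2 _ _ (hQ.to_le pQ) p2) (.inl (pgroup_sol p2))]
    exact quotientS1 f3

/-- The elements `w ^ n * (g ^ n)⁻¹` for `2`-elements `w ≡ g` modulo `Y`. -/
def PowDif (e : ℕ) (Y : Subgroup Γ) : Set Γ := {s | ∃ g ∈ N[Y], ∃ w, w * g⁻¹ ∈ Y ∧ (∃ k, g ^ 2 ^ k = 1) ∧
  (∃ k, w ^ 2 ^ k = 1) ∧ w ^ 2 ^ e * (g ^ 2 ^ e)⁻¹ = s}

theorem exc_pc_cent (hρ : ρ.ker = ⊥) (q2 : q ≠ 2) (hQ : IsPGroup q Q) (hZ : ⁅Q, Q⁆ ≤ Z[Q]) [Q.Normal] {e : ℕ}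
    (he : PExp 2 (e + 2) Γ) (hr : ∀ x : Γ, x ^ 2 ^ (e + 2) = 1 → (ρ x - 1) ^ (2 ^ (e + 2) - 1) = 0) (hY : IsPGroup 2 Y)
    (h4 : ∀ y ∈ Y, y ^ 4 = 1) (h1 : Y ≤ closure {s | ∃ x : Γ, x ^ 2 ^ (e + 2) = 1 ∧ x ^ 2 ^ (e + 1) = s})
    (h2 : Y ≤ closure (PowDif (e + 1) Y) ⊔ Phi Y) : Y ≤ C[Q] := by
  obtain ⟨c1, c2⟩ := cast_ne (Γ := Γ) (K := K) q2
  have nQ := fun A => norm_of_normal Q A
  have hl : 2 ^ (e + 2) - 1 < 2 ^ (e + 2) := Nat.sub_lt (pow_pos two_pos _) one_pos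
  have red : ∀ X : Subgroup Γ, Q ≤ N[X] → (∀ U, Irr ρ Q U → X ≤ Fx ρ U) → X = ⊥ := fun X hX h => by_contra fun ne => by
    obtain ⟨U, h1, h2⟩ := exists_irr_nt (ρ := ρ) (c2 hQ) hX (by rwa [hρ, le_bot_iff])
    exact h2 (h U h1)
  have st := fun x h1 U hU => exc_norm (ρ := ρ) (U := U) (c2 hQ) (nQ ⊤ (mem_top x)) h1 (hr x h1) hl hU
  have sZ : ∀ x : Γ, x ^ 2 ^ (e + 2) = 1 → x ^ 2 ^ (e + 1) ∈ C[Z[Q]] := fun x hs => zpowers_le.1 (centsC.1 (commG1.1 (red _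
    (cents_norm (centsC.1 ((commg_subl (norms_center (nQ _))).trans inf_le_right))) fun U hU => by
      obtain ⟨W, l1, l2, l3⟩ := st x hs U hU
      exact (le_inf ((commSg _ inf_le_left).trans (commg_subl (nQ _))) (commutator_le.2 fun a ha b hb =>
        l1.comm_fx ha (zpowers_le.2 l3 hb))).trans (l2.le.trans inf_le_right))))
  have key : ⁅Q, Y⁆ ≤ C[Q] := commG1.1 (red _ (commg_normr _ _) fun U hU => by
    have nK : ∀ x : Γ, x ^ 2 ^ (e + 2) = 1 → x ^ 2 ^ (e + 1) ∈ C[Z[Q]] ⊓ N[Q ⊓ Fx ρ U] := fun x hs => by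
      obtain ⟨W, -, l2, l3⟩ := st x hs U hU
      exact ⟨sZ x hs, l2 ▸ zpowers_le.1 (normsI (nQ _) ((zpowers_le.2 l3).trans St_le_norm_Fx))⟩
    have yK := h1.trans ((closure_le (C[Z[Q]] ⊓ N[Q ⊓ Fx ρ U])).2 (by rintro _ ⟨x, hx, rfl⟩; exact nK x hx))
    have qK : Q ≤ N[Q ⊓ Fx ρ U] := normsI (normG Q) (hU.inv.trans St_le_norm_Fx)
    refine ((le_cm qK).1 ?_).2.trans inf_le_right
    obtain ⟨R, hR⟩ : ∃ R, R = cm Q (Q ⊓ Fx ρ U) := ⟨_, rfl⟩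
    have yR : Y ≤ N[R] := hR ▸ norms_cm (nQ _) (yK.trans inf_le_right)
    have dY : closure (PowDif (e + 1) Y) ≤ Y := (closure_le _).2 (by
      rintro _ ⟨g, hg, w, hw, -, -, rfl⟩; exact pow_mul_inv_mem hg hw _)
    rw [← hR, ← quotient_cents2 (hR ▸ norms_cm (normG Q) qK) yR, centsC, ← inf_eq_left]
    refine Phi_nongen inf_le_left ((quotientS R h2).trans ?_)
    rw [quotientY (dY.trans yR) ((Phi_sub Y).trans yR), quotient_Phi hY yR, sup_comm (_ ⊓ _)]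
    refine sup_le ((sub_quotient_pre (dY.trans yR)).2 ((closure_le _).2 ?_)) le_sup_left
    rintro _ ⟨g, hg, w, hw, ⟨k, g1⟩, ⟨l, w1⟩, rfl⟩
    exact mem_coquo.2 ⟨yR (pow_mul_inv_mem hg hw _), exc_pc q2 hQ hZ hr hU nK hY h4 yK hR hg hw (he g k g1) (he w l w1)⟩)
  refine centsC.1 (commG1.1 ?_)
  rw [← coprime_commGid (nQ _) (IsPGroup.coprime_card_of_ne _ _ q2 _ _ hQ hY)]
  exact commG1.2 (centsC.1 ((h1.trans ((closure_le _).2 (by rintro _ ⟨x, hx, rfl⟩; exact sZ x hx))).trans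
    (centS (le_inf (commg_subl (nQ _)) key))))

end Lin

omit hq in
theorem exc_pc_triv {F V : Type*} [Field F] [CharP F 2] [AddCommGroup V] [Module F V] [FiniteDimensional F V]
    (hG : Group.IsSolvable Γ) (hO : pCore 2 Γ = ⊥) {ρ : Γ →* End F V} (hρ : Function.Injective ρ) {e : ℕ}
    (hr : ∀ (x : Γ) k, x ^ 2 ^ k = 1 → (ρ x - 1) ^ (2 ^ (e + 2) - 1) = 0) (hY : IsPGroup 2 Y)
    (h4 : ∀ y ∈ Y, y ^ 4 = 1) (h2 : Y ≤ closure (PowDif (e + 1) Y) ⊔ Phi Y) : Y = ⊥ := by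
  obtain ⟨d, Φ, hΦ⟩ := exists_bc F V
  have he : PExp 2 (e + 2) Γ := fun x k hx => hρ (by
    rw [map_pow, map_one, ← sub_eq_zero, ← sub_one_pow (K := F), ← Nat.sub_add_cancel (Nat.one_le_two_pow (n := e + 2)),
      pow_succ, hr x k hx, zero_mul])
  have h1 : Y ≤ closure {s | ∃ x : Γ, x ^ 2 ^ (e + 2) = 1 ∧ x ^ 2 ^ (e + 1) = s} := by
    refine inf_eq_left.1 (Phi_nongen inf_le_left (h2.trans (sup_le_sup_right ((closure_le _).2 ?_) _)))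
    rintro _ ⟨g, hg, w, hw, ⟨k, g1⟩, ⟨l, w1⟩, rfl⟩
    exact ⟨pow_mul_inv_mem hg hw _, Subgroup.mul_mem _ (subset_closure ⟨w, he w l w1, rfl⟩)
      (inv_mem (subset_closure ⟨g, he g k g1, rfl⟩))⟩
  have t2 : Y ≤ C[fittingOf ⊤] := centsC.1 (Fitting_le_of_pcore fun q hq _ => by
    haveI := Fact.mk hq
    by_cases q2 : q = 2
    · subst q2; rw [Op_top, hO]; exact bot_le
    by_cases h0 : Op q (⊤ : Subgroup Γ) = ⊥
    · rw [h0]; exact bot_le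
    have pQ := Op_pgroup q (⊤ : Subgroup Γ)
    have nq := (pcore_normal {q} (⊤ : Subgroup Γ)).norm
    obtain ⟨Q, l1, -, l2, l3, -, l4⟩ := critical_odd (by
      obtain ⟨n, hn⟩ := pQ.exists_card_eq
      rw [hn]; exact (hq.odd_of_ne_two q2).pow) pQ h0
    haveI : Q.Normal := normalizer_eq_top_iff.1 (top_le_iff.1 (nq.trans l2))
    exact centsC.1 (l4 _ (le_top.trans nq) (p'group_of_ne hY (Ne.symm q2)) (exc_pc_cent (ρ := Φ.toMonoidHom.comp ρ)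
      ((MonoidHom.ker_eq_bot_iff _).2 (hΦ.comp hρ)) q2 (pQ.to_le l1) ((commgS _ l1).trans l3) he
      (fun x h => by simpa using congrArg Φ (hr x _ h)) hY h4 h1 h2)))
  have t3 := pgroup_sub_Fitting ((le_inf le_top t2).trans (cent_sub_Fitting inferInstance)) hY
  rwa [Op_top, hO, le_bot_iff] at t3

omit hq

theorem PL.comap {G H : Type*} [Group G] [Group H] (f : H →* G) {A B : Subgroup G} (h : PL p k A B) :
    PL p k (A.comap f) (B.comap f) := by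
  have r : ∀ {S : ℕ → Prop} {A B : Subgroup G}, Rel S A B → Rel S (A.comap f) (B.comap f) := fun h x hx =>
    (h _ hx).imp fun n h => ⟨h.1, by rw [mem_comap, map_pow]; exact h.2⟩
  induction k generalizing A with
  | zero => exact r h
  | succ k ih => exact let ⟨C, D, h1, h2, h3, h4, h5⟩ := h; ⟨_, _, h1.comap f, h2.comap f, r h3, r h4, ih h5⟩

theorem PL.inf (h : PL p k A B) (h' : PL p k X Y) : PL p k (A ⊓ X) (B ⊓ Y) := by
  have r : ∀ {S : ℕ → Prop} {A B X Y : Subgroup Γ}, (∀ a b, S a → S b → S (a * b)) → Rel S A B → Rel S X Y →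
      Rel S (A ⊓ X) (B ⊓ Y) := fun hS h h' x hx => by
    obtain ⟨a, h1, h2⟩ := h x hx.1
    obtain ⟨b, h3, h4⟩ := h' x hx.2
    exact ⟨_, hS a b h1 h3, by rw [pow_mul]; exact pow_mem h2 b, by rw [pow_mul']; exact pow_mem h4 a⟩
  induction k generalizing A X with
  | zero => exact r (fun a b => Nat.Coprime.mul_left) h h'
  | succ k ih =>
    obtain ⟨C, D, h1, h2, h3, h4, h5⟩ := h
    obtain ⟨C', D', k1, k2, k3, k4, k5⟩ := h'
    exact ⟨C ⊓ C', D ⊓ D', inferInstance, inferInstance, r (fun a b => Nat.Coprime.mul_left) h3 k3,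
      r (by rintro _ _ ⟨a, rfl⟩ ⟨b, rfl⟩; exact ⟨_, (pow_add ..).symm⟩) h4 k4, ih h5 k5⟩

theorem PL.top (p k : ℕ) : PL p k (⊤ : Subgroup Γ) ⊤ := by
  induction k with
  | zero => exact fun _ _ => ⟨1, by simp, trivial⟩
  | succ k ih => exact ⟨⊤, ⊤, inferInstance, inferInstance, fun _ _ => ⟨1, by simp, trivial⟩,
      fun _ _ => ⟨1, ⟨0, rfl⟩, trivial⟩, ih⟩

theorem exp_four (hY : IsPGroup 2 Y) (h : Phi Y ≤ C[Y]) (hA : A ≤ N[Y]) (h1 : Phi Y ≤ C[A]) (h2 : Y ≤ ⁅Y, A⁆)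
    (hy : y ∈ Y) : y ^ 4 = 1 := by
  have m : ∀ a ∈ Y, ∀ b ∈ Y, (a * b) ^ 4 = a ^ 4 * b ^ 4 := fun a ha b hb => by
    have c1 := h (der1_sub_Phi (pgroup_nil hY) (commutator_mem_commutator (inv_mem ha) hb))
    have c2 := h (pow_mem_Phi hY ha)
    have c3 := h (pow_mem_Phi hY hb)
    have c4 : ⁅a⁻¹, b⁆ ^ 2 = 1 := mul_right_cancel (b := b) (by
      calc _ = a⁻¹ * (a * ⁅a⁻¹, b⁆) * (⁅a⁻¹, b⁆ * b) := by rw [sq]; group
        _ = (a ^ 2)⁻¹ * (b * a ^ 2) := by rw [mem_cent.1 c1 a ha, commutatorElement_def, sq]; group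
        _ = _ := by rw [mem_cent.1 c2 b hb]; group)
    have d1 : Commute (a ^ 2) ⁅a⁻¹, b⁆ := mem_cent.1 c1 _ (pow_mem ha 2)
    have d2 : Commute (a ^ 2 * ⁅a⁻¹, b⁆) (b ^ 2) :=
      mem_cent.1 c3 _ (mul_mem (pow_mem ha 2) (der_sub Y (commutator_mem_commutator (inv_mem ha) hb)))
    rw [show 4 = 2 * 2 from rfl, pow_mul, show (a * b) ^ 2 = a ^ 2 * ⁅a⁻¹, b⁆ * b ^ 2 by
      rw [commutatorElement_def, sq, sq, sq]; group, d2.mul_pow, d1.mul_pow, c4, mul_one, pow_mul, pow_mul]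
  let E : Subgroup Γ :=
    { carrier := {a | a ∈ Y ∧ a ^ 4 = 1}
      mul_mem' := fun h h' => ⟨mul_mem h.1 h'.1, by rw [m _ h.1 _ h'.1, h.2, h'.2, mul_one]⟩
      one_mem' := ⟨one_mem _, one_pow _⟩
      inv_mem' := fun h => ⟨inv_mem h.1, by rw [inv_pow, h.2, inv_one]⟩ }
  refine (h2.trans (commutator_le.2 fun a ha b hb => ?_ : _ ≤ E) hy).2
  have c := conj_mem_of_norm (hA hb) (inv_mem ha)
  have d := mem_cent.1 (h1 (pow_mem_Phi hY (pow_mem ha 2))) b hb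
  rw [show ⁅a, b⁆ = a * (b * a⁻¹ * b⁻¹) by rw [commutatorElement_def]; group]
  refine ⟨mul_mem ha c, ?_⟩
  rw [m _ ha _ c, conj_pow, inv_pow, show 4 = 2 * 2 from rfl, pow_mul, mul_assoc b, ← mul_inv_rev, d]
  group

/-- The statement proved by induction. -/
def Bry (e : ℕ) : Prop := ∀ (G V : Type u) [Group G] [Finite G] [AddCommGroup V] [Module (ZMod 2) V]
  [FiniteDimensional (ZMod 2) V] (ρ : G →* End (ZMod 2) V), Group.IsSolvable G → pCore 2 G = ⊥ → Function.Injective ρ →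
  (∀ (x : G) k, x ^ 2 ^ k = 1 → (ρ x - 1) ^ (2 ^ (e + 1) - 1) = 0) → PLengthLE 2 e G

theorem Bry.min {e : ℕ} (ih : Bry.{u} e) {G : Type u} [Group G] [Finite G] (hG : Group.IsSolvable G) {Y : Subgroup G}
    (h : MinNormal Y ⊤) (hY : IsPGroup 2 Y) (h1 : ∀ (g : G) k, g ^ 2 ^ k = 1 → ∀ v ∈ Y,
      (v * g) ^ 2 ^ (e + 1) = g ^ 2 ^ (e + 1)) : PL 2 e C[Y] ⊤ := by
  have ab : Abelem 2 Y := (trivg_Phi hY).1 ((h.min _ (Phi_sub Y) (norms_Phi h.norm)).resolve_right (Phi_proper h.ne).ne)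
  let σ : G →* End (ZMod 2) (AbV ab) := (abRep ab h.norm).comp ((MonoidHom.id G).codRestrict ⊤ fun _ => trivial)
  have hk : ∀ x, σ x = 1 ↔ x ∈ C[Y] := fun x => abRep_eq_one (hA := h.norm) (a := ⟨x, trivial⟩)
  haveI : C[Y].Normal := NormalIn.normal ⟨le_top, norms_cent h.norm⟩
  have hs := QuotientGroup.mk'_surjective C[Y]
  have := (plen_iff.1 (ih _ _ (QuotientGroup.lift C[Y] σ fun x => (hk x).2) inferInstance ?_
    ((injective_iff_map_eq_one _).2 fun x hx => ?_) fun x k hx => ?_)).comap (QuotientGroup.mk' _)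
  · rwa [MonoidHom.comap_bot, QuotientGroup.ker_mk', comap_top] at this
  · obtain ⟨T, hT, e⟩ := PLocal.exists_lift_pgroup hs (Solv.isPGroup_pCore 2 _)
    have n := norm_of_normal ((pCore 2 (G ⧸ C[Y])).comap (QuotientGroup.mk' _)) ⊤
    rw [← e, comap_map_eq, QuotientGroup.ker_mk'] at n
    have := (h.min _ inf_le_left (normsI h.norm (norms_cent n))).resolve_left (by
      rw [cent_sup, inf_comm C[T], ← inf_assoc, inf_eq_left.2 (centsC.1 le_rfl)]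
      exact pgroup_cent_ne_bot hT hY (le_top.trans h.norm) h.ne)
    rw [← e, Subgroup.map_eq_bot_iff, QuotientGroup.ker_mk']
    exact le_sup_left.trans (centsC.1 (inf_eq_left.1 this))
  · obtain ⟨g, rfl⟩ := hs x
    exact (QuotientGroup.eq_one_iff _).2 ((hk g).1 hx)
  obtain ⟨T, hT, e'⟩ := PLocal.exists_lift_pgroup hs (pg_zpowers hx)
  obtain ⟨g, hg, rfl⟩ := e'.ge (mem_zpowers x)
  obtain ⟨n, hn⟩ := hT ⟨g, hg⟩
  have m : ∀ (v : AbV ab) (m : ℕ), (v.val * g) ^ m = ((∑ i ∈ range m, σ g ^ i) v).val * g ^ m := fun v m => by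
    induction m with
    | zero => simp [AbV.val_zero]
    | succ m ih =>
      rw [pow_succ, ih, sum_range_succ, LinearMap.add_apply, AbV.val_add, ← map_pow,
        show (σ (g ^ m) v).val = g ^ m * v.val * (g ^ m)⁻¹ from rfl]
      group
  ext1 v
  have := m v (2 ^ (e + 1))
  rw [h1 g n (congrArg Subtype.val hn) _ v.val_mem, geom_eq (K := ZMod 2), right_eq_mul] at this
  exact AbV.val_eq_one.1 this

theorem Bry.claim {e : ℕ} (ih : Bry.{u} e) {G : Type u} [Group G] [Finite G] (hG : Group.IsSolvable G) {T : Subgroup G}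
    (hT : IsPGroup 2 T) [T.Normal] (hP : ∀ Y ≤ T, (∀ y ∈ Y, y ^ 4 = 1) → Y ≤ closure (PowDif (e + 1) Y) ⊔ Phi Y → Y = ⊥) :
    ∃ D : Subgroup G, D.Normal ∧ PL 2 e D ⊤ ∧ ∀ d ∈ D, PiElt {2}ᶜ d → d ∈ C[T] := by
  obtain ⟨D, -, ⟨h1, h2⟩, h3⟩ := mingroup_exists (P := fun D : Subgroup G => D.Normal ∧ PL 2 e D ⊤)
    ⟨inferInstance, PL.top 2 e⟩
  refine ⟨D, h1, h2, ?_⟩
  obtain ⟨K, hK⟩ : ∃ K, K = closure {d | d ∈ D ∧ PiElt {2}ᶜ d} := ⟨_, rfl⟩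
  have nK : ⊤ ≤ N[K] := hK ▸ norms_closure fun g _ d hd => ⟨h1.conj_mem _ hd.1 g, p_eltJ.2 hd.2⟩
  suffices T ≤ C[K] from fun d hd h => centsC.1 this (hK ▸ subset_closure ⟨hd, h⟩)
  by_contra ne
  obtain ⟨Y, yT, ⟨nY, h4⟩, h5⟩ := mingroup_exists (P := fun Y : Subgroup G => ⊤ ≤ N[Y] ∧ ¬ Y ≤ C[K])
    ⟨norm_of_normal T ⊤, ne⟩
  replace h5 : ∀ X, ⊤ ≤ N[X] → X < Y → X ≤ C[K] := fun X h h' => by_contra fun ne => h'.ne (h5 X ⟨h, ne⟩ h'.le)
  have hY := hT.to_le yT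
  have y0 : Y ≠ ⊥ := by rintro rfl; exact h4 bot_le
  have h6 : ⁅Y, K⁆ = Y := by_contra fun ne => h4 (centsC.1 (hK.le.trans ((closure_le _).2 fun d hd => by
    have := zpowers_le.2 (hK.ge (subset_closure hd))
    have l := commg_subl (le_top.trans nY : K ≤ _)
    exact zpowers_le.1 (stable_factor_cent (this.trans (centsC.1 (h5 _ (normsR nY nK) (lt_of_le_of_ne l ne))))
      (commgS _ this) (pnat_coprime (IsPGroup.pi (hY.to_le l)) (p_elt_zpowers.2 hd.2))))))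
  have h7 := h5 _ (norms_Phi nY) (Phi_proper y0)
  have h8 : Phi Y ≤ C[Y] := by
    rw [← commG1', ← h6]
    nth_rewrite 2 [h6]
    exact three_subgroup (by rw [commG1'.2 h7, commutator_bot_left])
      (commG1.2 ((commg_subl (Phi_normal Y).norm).trans h7))
  have dY : closure (PowDif (e + 1) Y) ≤ Y := (closure_le _).2 (by
    rintro _ ⟨g, hg, w, hw, -, -, rfl⟩; exact pow_mul_inv_mem hg hw _)
  obtain ⟨W, w1, w2⟩ := chief_factor_exists' (M := ⊤) (V := closure (PowDif (e + 1) Y) ⊔ Phi Y) ⟨le_top, normsY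
    (norms_closure (by
      rintro c - _ ⟨g, hg, w, hw, ⟨k, g1⟩, ⟨l, w1⟩, rfl⟩
      exact ⟨c * g * c⁻¹, nY trivial, c * w * c⁻¹, by simpa [mul_assoc] using conj_mem_of_norm (nY (mem_top c)) hw,
        ⟨k, by simp [g1]⟩, ⟨l, by simp [w1]⟩, by rw [conj_pow, conj_pow]; group⟩)) (norms_Phi nY)⟩ ⟨le_top, nY⟩
    (lt_of_le_of_ne (sup_le dY (Phi_sub Y)) fun e => y0 (hP Y yT (fun y => exp_four hY h8 (le_top.trans nY) h7 h6.ge) e.ge))
  let f : G →* Quo W := (qmk W).comp ((MonoidHom.id G).codRestrict _ fun x => w2.nV (mem_top x))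
  have hf : ∀ x, f x = coset W x := fun x => (coset_eq (w2.nV trivial)).symm
  have hs : Function.Surjective f := fun x => let ⟨y, hy⟩ := qmk_surj W x; ⟨y, hy⟩
  have w3 := chief_factor_minnormal w2
  rw [← top_le_iff.1 w2.nV, quotient_norm_top] at w3
  have h9 := (ih.min (Group.isSolvable_of_surjective hs) w3 (hY.quo W) fun x k hx v hv => ?_).comap f
  · haveI : C[Y /ᵍ W].Normal := NormalIn.normal ⟨le_top, norms_cent w3.norm⟩
    have := inf_eq_left.1 (h3 _ ⟨inferInstance, by simpa using h2.inf h9⟩ inf_le_left)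
    refine w2.lt.not_ge (h6.ge.trans ((quotient_cents2 (le_top.trans w2.nV) (le_top.trans w2.nV)).1 (centsC.1 fun x hx => ?_)))
    obtain ⟨x, hx', -, rfl⟩ := mem_quotient_iff.1 hx
    exact hf x ▸ this ((hK.le.trans ((closure_le _).2 fun _ h => h.1)) hx')
  obtain ⟨S, hS, e'⟩ := PLocal.exists_lift_pgroup hs (pg_zpowers hx)
  obtain ⟨g, hg, rfl⟩ := e'.ge (mem_zpowers x)
  obtain ⟨v, hv', -, rfl⟩ := mem_quotient_iff.1 hv
  rw [← hf, ← map_mul, ← mul_inv_eq_one, ← map_pow, ← map_pow, ← map_inv, ← map_mul, hf]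
  exact coset_id (w1 (mem_sup_left (subset_closure ⟨g, nY trivial, v * g, by simpa, (hS ⟨g, hg⟩).imp fun _ =>
    congrArg Subtype.val, (pgroup_sup (.inr (le_top.trans nY)) hY hS ⟨_, mul_mem_sup hv' hg⟩).imp fun _ =>
    congrArg Subtype.val, rfl⟩)))

theorem bry (e : ℕ) : Bry.{u} e := by
  induction e with
  | zero => exact fun G V _ _ _ _ _ ρ _ _ hρ h => PLocal.pLengthLE_zero_iff.2 ((Nat.prime_two.coprime_iff_not_dvd).2
      (PExp.not_dvd fun x k hx => hρ (by simpa [sub_eq_zero] using h x k hx))).symm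
  | succ e ih => ?_
  intro G V _ _ _ _ _ ρ hG hO hρ hr
  have sol : Group.IsSolvable (⊤ : Subgroup G) := inferInstance
  have nX := pseries2_normal {2}ᶜ {2} (⊤ : Subgroup G)
  obtain ⟨T, hT⟩ := Sylow_exists 2 (Opp 2 (⊤ : Subgroup G))
  haveI := (normalG T).subgroupOf
  obtain ⟨D, h1, h2, h3⟩ := ih.claim (G := N[T]) inferInstance (T := T.subgroupOf N[T]) hT.pg.comap_subtype
    fun Y yT h4 h => by
      have hY := hT.pg.comap_subtype.to_le yT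
      refine (map_eq_bot_iff_of_injective _ (subtype_injective _)).1 (exc_pc_triv hG hO hρ hr (hY.map _)
        (by rintro _ ⟨y, hy, rfl⟩; rw [← map_pow, h4 y hy, map_one]) ((map_mono h).trans ?_))
      rw [Subgroup.map_sup, MonoidHom.map_closure]
      refine sup_le_sup (closure_mono ?_) (map_le_iff_le_comap.2 ((Phi_min hY).2
        ⟨map_le_iff_le_comap.1 ((map_commutator ..).le.trans (der1_sub_Phi (pgroup_nil (hY.map _)))), fun x hx =>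
          pow_mem_Phi (hY.map _) (mem_map_of_mem _ hx)⟩))
      rintro _ ⟨_, ⟨g, hg, w, hw, g1, w1, rfl⟩, rfl⟩
      exact ⟨g, norms_map _ le_rfl (mem_map_of_mem _ hg), w, mem_map_of_mem _ hw, g1.imp fun _ => congrArg Subtype.val,
        w1.imp fun _ => congrArg Subtype.val, rfl⟩
  have nY := (pcore_normal {2}ᶜ (⊤ : Subgroup G)).norm
  have fr : Opp 2 ⊤ ⊔ N[T] = ⊤ := top_inf_eq N[T] ▸ Frattini_arg nX hT
  have key : D.map N[T].subtype ≤ Opp 2 ⊤ := by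
    refine (sub_pseries2 le_top).2 (pcore_max ⟨quotientS _ le_top, ?_⟩ (pgroup_of_elts fun z hz => ?_))
    · replace fr : ⊤ ≤ Op' 2 ⊤ ⊔ N[T] :=
        fr.ge.trans (sup_le ((Opp_sdprod hT).sup.ge.trans (sup_le_sup_left (normG T) _)) le_sup_right)
      exact (quotientS _ fr).trans ((quotientYidl (le_top.trans nY)).le.trans (quotient_norms _ (normal_map_subtype h1).norm))
    obtain ⟨_, ⟨z, hz', rfl⟩, nz, rfl⟩ := mem_quotient_iff.1 hz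
    have c := h3 _ (constt_mem _ hz') (p_elt_constt _ _)
    rw [cent_subgroupOf (normG T), mem_subgroupOf] at c
    rw [← consttC {2} z, coe_subtype, Subgroup.coe_mul, coset_mul (nY trivial) (nY trivial), coset_id (mem_normal_Hall (pHall_Op'_Opp 2 ⊤)
      ((pcore_normal _ _).subl (pcore_sub_pseries2 _ _ _) le_top) (solvable_p_constrained sol hT ⟨trivial, c⟩)
      ((p_elt_constt _ z).of_dvd (by simp))), mul_one, coset_eq (nY trivial)]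
    exact PiNat.of_dvd (p_elt_constt _ z) ((orderOf_map_dvd _ _).trans (by simp))
  rw [Opp_top] at key fr
  have hs : Function.Surjective ((QuotientGroup.mk' (pPrimePCore 2 G)).comp N[T].subtype) := fun x => by
    obtain ⟨x, rfl⟩ := QuotientGroup.mk'_surjective _ x
    obtain ⟨a, ha, b, hb, rfl⟩ := mem_sup_of_normal_left.1 (fr.ge (mem_top x))
    exact ⟨⟨b, hb⟩, by simp [(QuotientGroup.eq_one_iff a).2 ha]⟩
  have := h2.map hs
  rw [map_top_of_surjective _ hs, ← Subgroup.map_map, (Subgroup.map_eq_bot_iff _).2 (by rwa [QuotientGroup.ker_mk'])] at this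
  exact PLocal.pLengthLE_succ_iff.2 (plen_iff.2 this)

theorem plen_bry {G : Type u} [Group G] [Finite G] (hG : Group.IsSolvable G) {e : ℕ} (h : PExp 2 e G) :
    PLengthLE 2 e G := by
  cases e with
  | zero => exact PLocal.pLengthLE_zero_iff.2 ((Nat.prime_two.coprime_iff_not_dvd).2 h.not_dvd).symm
  | succ e =>
    obtain ⟨H, _, _, f, hf, h1, h3⟩ := exists_frame (PLocal.pSolv_of_isSolvable (p := 2) (G := G))
    haveI := Group.isSolvable_of_surjective hf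
    exact plen_frame hf h3 (bry e _ _ h1.rep inferInstance (Solv.pCore_quotient_pCore 2 H) h1.inj
      fun x k hx => h1.exc (h.of_surj hf) hx)

end Cfsg.Agent.Sig.HH
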