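import Cfsg.Agent.BG.Base6
import Cfsg.Agent.S0205

/-! `2`-solvable groups are solvable (`HH.sol_of_pSolv_two`), by the odd order theorem. -/

set_option linter.dupNamespace false

namespace Cfsg.Agent.Sig.HH
open Subgroup Cfsg.Agent.BG

theorem sol_of_pSolv_two {G : Type*} [Group G] [Finite G] (hG : IsPSolvable 2 G) : Group.IsSolvable G := by
  obtain ⟨n, H, h0, h1, h2, h3, h4⟩ := hG
  have : ∀ i, Group.IsSolvable (H i) := fun i => by
    induction i using Fin.induction with
    | zero => exact h0 ▸ solvable_bot
    | succ i ih =>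
      have n := norm_of_normal (H i.castSucc) (H i.succ)
      refine series_sol ⟨h2 i.castSucc_le_succ, n⟩ ih ((h4 i).elim (fun ⟨m, h⟩ => ?_) fun h => ?_)
      · exact pgroup_sol (pgroup_of_card ((card_quotient n).trans h))
      · exact S0205.result (card_quotient n ▸ Nat.coprime_two_right.1 h)
  exact isog_sol (isog_symm isog_top) (h1 ▸ this (Fin.last n))

end Cfsg.Agent.Sig.HH
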