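import Cfsg.Agent.Sig.DL2

/-! Bryukhanova's theorem `l_2 ≤ d_2` (`HH.plen_der_two`). -/

set_option linter.dupNamespace false
set_option linter.unusedSectionVars false
set_option linter.unusedVariables false

namespace Cfsg.Agent.Sig.HH
open Subgroup Cfsg.Agent.BG
open scoped commutatorElement

universe u
variable {Γ : Type*} [Group Γ] [Finite Γ] {A B D E F H K L M N P Q S T U V W X Y : Subgroup Γ} {a b e g x y z : Γ}
  {p q k m n d : ℕ}

/-- The subgroup generated by the `[Y, D, D', …]` for `2`-subgroups `D` of `N_M(Y)`. -/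
def ChS (n : ℕ) (M Y : Subgroup Γ) : Subgroup Γ := sSup {X | ∃ D ≤ M ⊓ N[Y], IsPGroup 2 D ∧ ch n Y D = X}

theorem der_cent [Fact q.Prime] (hV : Abelem 2 V) (hQ : IsPGroup q Q) (q2 : q ≠ 2) (hZ : ⁅Q, Q⁆ ≤ Z[Q]) (hn : Q ≤ N[V])
    (mV : M ≤ N[V]) (mQ : M ≤ N[Q]) (h : ∀ D ≤ M, IsPGroup 2 D → ch (d + 2) V D = ⊥) (hY : IsPGroup 2 Y) (yM : Y ≤ M)
    (h2 : Y ≤ ChS (d + 1) M Y ⊔ Phi Y) : ⁅Q, Y⁆ ≤ C[V] := by
  refine cent_of_min hV.pg hV.abelian hQ q2 hn (commg_subl (yM.trans mQ)) (commg_norml _ _) fun U hU mU => ?_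
  obtain ⟨K, hK⟩ : ∃ K, K = Q ⊓ C[U] := ⟨_, rfl⟩
  have : Y ⊓ coquo K C[Q /ᵍ K] = Y := Phi_nongen inf_le_left (h2.trans (sup_le (sSup_le ?_) le_sup_right))
  · have l := inf_eq_left.1 this
    have n := l.trans (cosetpre_norm _)
    exact ((quotient_cents2 (hK ▸ normsI (normG Q) (norms_cent mU.norm)) n).1 (centsC.1 ((sub_quotient_pre n).2 l))).trans
      (hK.le.trans inf_le_right)
  rintro _ ⟨D, h3, h4, rfl⟩
  have h5 := pgroup_sup (.inl (h3.trans inf_le_right)) h4 hY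
  have h6 := sup_le (h3.trans inf_le_left) yM
  have h7 := sup_le (h3.trans inf_le_right) (normG Y)
  refine (ch_mono le_rfl (le_sup_left (b := Y))).trans ((ch_succ' ..).le.trans ((commSg _ (le_inf (ch_le h7)
    (ch_le_der le_sup_right le_rfl))).trans (commutator_le.2 fun y hy b hb => ?_)))
  obtain ⟨i, k, W, e, k1, k2, k3⟩ := comp_reduce hV hQ q2 hZ hn hU mU hK h5 (h6.trans mV) (h6.trans mQ) (h _ h6 h5)
  have m := commutator_mem_commutator hy.2 hb
  have m' := commg_subl ((der_le d).trans h7) (commutator_mem_commutator hy.1 hb)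
  rcases k with _ | k
  · obtain rfl : i = d + 1 := by omega
    exact mem_sup_left ⟨m', mem_coquo.2 ⟨k1 m, commG1'.1 (k2.eq_bot (commg_subl k2.EP) (commg_norml _ _) le_rfl k2.ne
      ((commgS _ (commG1'.1 k3)).trans (commg_subr (norms_cent k2.PW)))) (mem_quotient (k1 m) m)⟩⟩
  obtain rfl : d = i + k := by omega
  rw [der_add] at hy hb
  have n1 := (der_le k).trans k1
  have := k2.ham k3 (der_quo k1 k ▸ mem_quotient (n1 hy.2) hy.2) (der_quo k1 k ▸ mem_quotient (n1 hb) hb)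
  have n2 := comm_subG n1 n1 (commutator_mem_commutator hy.2 hb)
  rw [← coset_comm (n1 hy.2) (n1 hb), ← coset_pow (n1 hy.2), ← coset_mul n2 (pow_mem (n1 hy.2) 2)] at this
  refine this.elim (fun c => mem_sup_left ⟨m', mem_coquo.2 ⟨n2, c⟩⟩) fun c => ?_
  simpa using mul_mem_sup (show _ ∈ Y ⊓ _ from ⟨Y.mul_mem m' (pow_mem hy.1 2), mem_coquo.2
    ⟨mul_mem n2 (pow_mem (n1 hy.2) 2), c⟩⟩) (inv_mem (pow_mem_Phi hY hy.1))

theorem der_triv (hV : Abelem 2 V) (hM : Group.IsSolvable M) (hO : Op 2 M = ⊥) (mV : M ≤ N[V]) (hf : M ⊓ C[V] = ⊥)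
    (h : ∀ D ≤ M, IsPGroup 2 D → ch (d + 2) V D = ⊥) (hY : IsPGroup 2 Y) (yM : Y ≤ M)
    (h2 : Y ≤ ChS (d + 1) M Y ⊔ Phi Y) : Y = ⊥ := by
  have t2 : Y ≤ C[fittingOf M] := centsC.1 (Fitting_le_of_pcore fun q hq _ => by
    haveI := Fact.mk hq
    by_cases q2 : q = 2
    · subst q2; rw [hO]; exact bot_le
    by_cases h0 : Op q M = ⊥
    · rw [h0]; exact bot_le
    have pQ := Op_pgroup q M
    have nq := pcore_normal {q} M
    obtain ⟨Q, l1, -, l2, l3, -, l4⟩ := critical_odd (by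
      obtain ⟨n, hn⟩ := pQ.exists_card_eq
      rw [hn]; exact (hq.odd_of_ne_two q2).pow) pQ h0
    have l5 := l1.trans nq.le
    exact centsC.1 (l4 _ (yM.trans nq.norm) (p'group_of_ne hY (Ne.symm q2)) (commG1'.1 (eq_bot_iff.2 ((le_inf
      (comm_subG l5 yM) (der_cent hV (pQ.to_le l1) q2 ((commgS _ l1).trans l3) (l5.trans mV) mV (nq.norm.trans l2) h hY yM
      h2)).trans hf.le)))))
  exact eq_bot_iff.2 ((pgroup_sub_Fitting ((le_inf yM t2).trans (cent_sub_Fitting hM)) hY).trans hO.le)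

theorem pl_step (hG : Group.IsSolvable Γ) (h : ∀ T, SylowIn 2 T (Opp 2 (⊤ : Subgroup Γ)) → ∀ Y : Subgroup N[T],
    Y ≤ T.subgroupOf N[T] → ⊤ ≤ N[Y] → Y ≠ ⊥ → ∃ W < Y, ∃ D : Subgroup N[T], D.Normal ∧ PL 2 d D ⊤ ∧ ⁅Y, D⁆ ≤ W) :
    PLengthLE 2 (d + 1) Γ := by
  have sol : Group.IsSolvable (⊤ : Subgroup Γ) := inferInstance
  have nX := pseries2_normal {2}ᶜ {2} (⊤ : Subgroup Γ)
  obtain ⟨T, hT⟩ := Sylow_exists 2 (Opp 2 (⊤ : Subgroup Γ))
  haveI := (normalG T).subgroupOf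
  obtain ⟨D, -, ⟨h1, h2⟩, h0⟩ := mingroup_exists (P := fun D : Subgroup N[T] => D.Normal ∧ PL 2 d D ⊤)
    ⟨inferInstance, PL.top 2 d⟩
  obtain ⟨K, hK⟩ : ∃ K, K = closure {d | d ∈ D ∧ PiElt {2}ᶜ d} := ⟨_, rfl⟩
  have nK : ⊤ ≤ N[K] := hK ▸ norms_closure fun g _ d hd => ⟨h1.conj_mem _ hd.1 g, p_eltJ.2 hd.2⟩
  have h3 : T.subgroupOf N[T] ≤ C[K] := by
    by_contra ne
    obtain ⟨Y, yT, ⟨nY, h4⟩, h5⟩ := mingroup_exists (P := fun Y : Subgroup N[T] => ⊤ ≤ N[Y] ∧ ¬ Y ≤ C[K])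
      ⟨norm_of_normal _ ⊤, ne⟩
    obtain ⟨W, w1, D', w2, w3, w4⟩ := h T hT Y yT nY (by rintro rfl; exact h4 bot_le)
    have l := commg_subl (le_top.trans nY : K ≤ _)
    have l' := ((commgS _ ((hK.le.trans ((closure_le _).2 fun _ h => h.1)).trans (inf_eq_left.1 (h0 _
      ⟨inferInstance, by simpa using h2.inf w3⟩ inf_le_left)))).trans w4).trans_lt w1
    refine h4 (centsC.1 (hK.le.trans ((closure_le _).2 fun d hd => ?_)))
    have := zpowers_le.2 (hK.ge (subset_closure hd))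
    exact zpowers_le.1 (stable_factor_cent (this.trans (centsC.1 (by_contra fun c => l'.ne (h5 _ ⟨normsR nY nK, c⟩ l))))
      (commgS _ this) (pnat_coprime (IsPGroup.pi (hT.pg.comap_subtype.to_le (l.trans yT))) (p_elt_zpowers.2 hd.2)))
  have nY := (pcore_normal {2}ᶜ (⊤ : Subgroup Γ)).norm
  have fr : Opp 2 ⊤ ⊔ N[T] = ⊤ := top_inf_eq N[T] ▸ Frattini_arg nX hT
  have key : D.map N[T].subtype ≤ Opp 2 ⊤ := by
    refine (sub_pseries2 le_top).2 (pcore_max ⟨quotientS _ le_top, ?_⟩ (pgroup_of_elts fun z hz => ?_))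
    · replace fr : ⊤ ≤ Op' 2 ⊤ ⊔ N[T] :=
        fr.ge.trans (sup_le ((Opp_sdprod hT).sup.ge.trans (sup_le_sup_left (normG T) _)) le_sup_right)
      exact (quotientS _ fr).trans ((quotientYidl (le_top.trans nY)).le.trans (quotient_norms _ (normal_map_subtype h1).norm))
    obtain ⟨_, ⟨z, hz', rfl⟩, nz, rfl⟩ := mem_quotient_iff.1 hz
    have c := centsC.1 h3 (hK.ge (subset_closure ⟨constt_mem _ hz', p_elt_constt _ _⟩))
    rw [cent_subgroupOf (normG T), mem_subgroupOf] at c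
    rw [← consttC {2} z, coe_subtype, Subgroup.coe_mul, coset_mul (nY trivial) (nY trivial), coset_id (mem_normal_Hall
      (pHall_Op'_Opp 2 ⊤) ((pcore_normal _ _).subl (pcore_sub_pseries2 _ _ _) le_top)
      (solvable_p_constrained sol hT ⟨trivial, c⟩) ((p_elt_constt _ z).of_dvd (by simp))), mul_one, coset_eq (nY trivial)]
    exact PiNat.of_dvd (p_elt_constt _ z) ((orderOf_map_dvd _ _).trans (by simp))
  rw [Opp_top] at key fr
  have hs : Function.Surjective ((QuotientGroup.mk' (pPrimePCore 2 Γ)).comp N[T].subtype) := fun x => by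
    obtain ⟨x, rfl⟩ := QuotientGroup.mk'_surjective _ x
    obtain ⟨a, ha, b, hb, rfl⟩ := mem_sup_of_normal_left.1 (fr.ge (mem_top x))
    exact ⟨⟨b, hb⟩, by simp [(QuotientGroup.eq_one_iff a).2 ha]⟩
  have := h2.map hs
  rw [map_top_of_surjective _ hs, ← Subgroup.map_map, (Subgroup.map_eq_bot_iff _).2 (by rwa [QuotientGroup.ker_mk'])] at this
  exact PLocal.pLengthLE_succ_iff.2 (plen_iff.2 this)

/-- The statement proved by induction. -/
def Der (d : ℕ) : Prop := ∀ (G X : Type u) [Group G] [Finite G] [Group X] [Finite X] (ι : G →* X) (V : Subgroup X),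
  Group.IsSolvable G → pCore 2 G = ⊥ → Abelem 2 V → Function.Injective ι → ι.range ≤ N[V] → ι.range ⊓ C[V] = ⊥ →
  (∀ D ≤ ι.range, IsPGroup 2 D → ch (d + 1) V D = ⊥) → PLengthLE 2 d G

open SemidirectProduct in
theorem Der.sect (ih : Der.{u} d) {G : Type u} [Group G] [Finite G] (hG : Group.IsSolvable G) {V N : Subgroup G} [V.Normal]
    [N.Normal] (hV : Abelem 2 V) (hN : N = C[V]) (hO : pCore 2 (G ⧸ N) = ⊥)
    (h : ∀ D : Subgroup G, IsPGroup 2 D → ch (d + 1) V D = ⊥) : PLengthLE 2 d (G ⧸ N) := by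
  let φ : G ⧸ N →* MulAut V := QuotientGroup.lift N MulAut.conjNormal fun x hx => MulEquiv.ext fun v =>
    Subtype.ext (conj_eq_of_cent (hN ▸ hx) v.2)
  haveI : Finite (V ⋊[φ] (G ⧸ N)) := Finite.of_equiv _ SemidirectProduct.equivProd.symm
  have c : ∀ (g : G) (v : V), (inr (g : G ⧸ N) * inl v * (inr (g : G ⧸ N))⁻¹ : V ⋊[φ] (G ⧸ N)) =
      inl (MulAut.conjNormal g v) := fun g v => by rw [← map_inv, ← inl_aut]; rfl
  have hs := QuotientGroup.mk'_surjective N
  refine ih _ _ (inr : _ →* V ⋊[φ] (G ⧸ N)) (mim inl V) inferInstance hO (morphim_abelem _ hV) inr_injective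
    (le_norm_iff.2 ?_) (eq_bot_iff.2 ?_) fun D h1 h2 => ?_
  · rintro _ ⟨g, rfl⟩ v hv
    obtain ⟨g, rfl⟩ := hs g
    obtain ⟨v, -, rfl⟩ := mem_mim.1 hv
    exact c g v ▸ mem_mim_of _ (SetLike.coe_mem _)
  · rintro _ ⟨⟨g, rfl⟩, h⟩
    obtain ⟨g, rfl⟩ := hs g
    rw [(QuotientGroup.eq_one_iff g).2 (hN ▸ mem_cent.2 fun v hv => ?_) |> fun e => show QuotientGroup.mk' N g = 1 from e,
      map_one]
    · exact one_mem _
    have := c g ⟨v, hv⟩
    rw [show inr (g : G ⧸ N) * inl (⟨v, hv⟩ : V) = _ from (mem_cent.1 h _ (mem_mim_of ⟨v, hv⟩ hv)).symm] at this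
    exact eq_mul_inv_iff_mul_eq.1 (congrArg Subtype.val (inl_injective ((mul_inv_cancel_right _ _).symm.trans this)))
  obtain ⟨D, h3, e⟩ := PLocal.exists_lift_pgroup hs (h2.comap_of_injective _ inr_injective)
  have k : ∀ n (A B : Subgroup G), A ≤ V → ch n (mim inl A) (B.map (inr.comp (QuotientGroup.mk' N))) ≤
      mim (inl : V →* V ⋊[φ] (G ⧸ N)) (ch n A B) := fun n => by
    induction n with
    | zero => exact fun _ _ _ => le_rfl
    | succ n ih =>
      refine fun A B l => (ch_mono (commutator_le.2 ?_) (map_commutator ..).ge).trans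
        (ih _ _ ((commSg _ l).trans (commg_subl (norm_of_normal V B))))
      rintro a ha _ ⟨b, hb, rfl⟩
      obtain ⟨a, ha', rfl⟩ := mem_mim.1 ha
      rw [show ⁅_, _⁆ = inl a * (inr (b : G ⧸ N) * inl a⁻¹ * (inr (b : G ⧸ N))⁻¹) by
        rw [commutatorElement_def, map_inv]; simp only [mul_assoc]; rfl, c, ← map_mul]
      exact mem_mim_of _ (by simpa [commutatorElement_def, mul_assoc] using commutator_mem_commutator (H₂ := B) ha' hb)
  rw [← map_comap_eq_self h1, ← e, Subgroup.map_map, eq_bot_iff]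
  exact (k _ V D le_rfl).trans (by rw [h D h3, morphim_bot])

theorem Der.min (ih : Der.{u} d) {G : Type u} [Group G] [Finite G] (hG : Group.IsSolvable G) {Y : Subgroup G}
    (h : MinNormal Y ⊤) (hY : IsPGroup 2 Y) (h1 : ∀ D : Subgroup G, IsPGroup 2 D → ch (d + 1) Y D = ⊥) :
    PL 2 d C[Y] ⊤ := by
  have ab : Abelem 2 Y := (trivg_Phi hY).1 ((h.min _ (Phi_sub Y) (norms_Phi h.norm)).resolve_right (Phi_proper h.ne).ne)
  haveI : C[Y].Normal := NormalIn.normal ⟨le_top, norms_cent h.norm⟩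
  haveI : Y.Normal := NormalIn.normal ⟨le_top, h.norm⟩
  have := (plen_iff.1 (ih.sect hG ab rfl ?_ h1)).comap (QuotientGroup.mk' _)
  · rwa [MonoidHom.comap_bot, QuotientGroup.ker_mk', comap_top] at this
  obtain ⟨T, hT, e⟩ := PLocal.exists_lift_pgroup (QuotientGroup.mk'_surjective C[Y]) (Solv.isPGroup_pCore 2 _)
  have n := norm_of_normal ((pCore 2 (G ⧸ C[Y])).comap (QuotientGroup.mk' _)) ⊤
  rw [← e, comap_map_eq, QuotientGroup.ker_mk'] at n
  have := (h.min _ inf_le_left (normsI h.norm (norms_cent n))).resolve_left (by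
    rw [cent_sup, inf_comm C[T], ← inf_assoc, inf_eq_left.2 (centsC.1 le_rfl)]
    exact pgroup_cent_ne_bot hT hY (le_top.trans h.norm) h.ne)
  rw [← e, Subgroup.map_eq_bot_iff, QuotientGroup.ker_mk']
  exact le_sup_left.trans (centsC.1 (inf_eq_left.1 this))

theorem der_all (d : ℕ) : Der.{u} d := by
  induction d with
  | zero =>
    refine fun G X _ _ _ _ ι V _ _ _ hι _ hf h => PLocal.pLengthLE_zero_iff.2 ((Nat.prime_two.coprime_iff_not_dvd).2
      (PExp.not_dvd fun x k hx => hι ?_)).symm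
    have l : zpowers (ι x) ≤ ι.range := zpowers_le.2 ⟨x, rfl⟩
    simpa using hf.le ⟨l (mem_zpowers _), commG1'.1 (h _ l (pg_zpowers (n := k) (by rw [← map_pow, hx, map_one])))
      (mem_zpowers _)⟩
  | succ d ih => ?_
  intro G X _ _ _ _ ι V hG hO hV hι hn hf h
  refine pl_step hG fun T hT Y yT nY y0 => ?_
  have hY := hT.pg.comap_subtype.to_le yT
  have l : ChS (d + 1) ⊤ Y ≤ Y := sSup_le (by rintro _ ⟨D, h, -, rfl⟩; exact ch_le (h.trans inf_le_right))
  obtain ⟨W, w1, w2⟩ := chief_factor_exists' (M := ⊤) (V := ChS (d + 1) ⊤ Y ⊔ Phi Y) ⟨le_top, normsY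
    (norms_sSup_of_perm (by
      rintro c - _ ⟨D, -, h, rfl⟩
      exact ⟨cj c D, le_inf le_top (le_top.trans nY), IsPGroup.cj h c, by
        rw [cj_def c (ch ..), ch_map, ← cj_def, ← cj_def, cj_of_norm (nY trivial)]⟩)) (norms_Phi nY)⟩ ⟨le_top, nY⟩
    (lt_of_le_of_ne (sup_le l (Phi_sub Y)) fun e => y0 (by
      have hj : Function.Injective (ι.comp N[T].subtype) := hι.comp (subtype_injective _)
      have r : ∀ D : Subgroup N[T], D.map (ι.comp N[T].subtype) ≤ ι.range := fun D => by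
        rintro _ ⟨x, -, rfl⟩; exact ⟨x, rfl⟩
      refine (map_eq_bot_iff_of_injective _ hj).1 (der_triv hV (isog_sol ⟨ι.ofInjective hι⟩ hG) (by
        rw [ι.range_eq_map, Op, pcore_map_inj hι, ← Op, Op_top, hO, Subgroup.map_bot]) hn hf h (hY.map _) (r Y)
        ((map_mono e.ge).trans ?_))
      rw [Subgroup.map_sup]
      refine sup_le_sup (map_le_iff_le_comap.2 (sSup_le ?_)) (map_le_iff_le_comap.2 ((Phi_min hY).2
        ⟨map_le_iff_le_comap.1 ((map_commutator ..).le.trans (der1_sub_Phi (pgroup_nil (hY.map _)))), fun x hx => by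
          rw [mem_comap, map_pow]; exact pow_mem_Phi (hY.map _) (mem_map_of_mem _ hx)⟩))
      rintro _ ⟨D, h1, h2, rfl⟩
      exact map_le_iff_le_comap.1 (le_sSup ⟨_, le_inf (r D) (norms_map _ (h1.trans inf_le_right)), h2.map _,
        (ch_map _).symm⟩)))
  let f : N[T] →* Quo W := (qmk W).comp ((MonoidHom.id _).codRestrict _ fun x => w2.nV (mem_top x))
  have hf : ∀ x, f x = coset W x := fun x => (coset_eq (w2.nV trivial)).symm
  have hs : Function.Surjective f := fun x => let ⟨y, hy⟩ := qmk_surj W x; ⟨y, hy⟩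
  have hm : ∀ A : Subgroup N[T], A.map f = A /ᵍ W := fun A => Subgroup.ext fun x => by
    simp only [mem_map, mem_quotient_iff, hf, w2.nV (mem_top _), true_and]
  have w3 := chief_factor_minnormal w2
  rw [← top_le_iff.1 w2.nV, quotient_norm_top] at w3
  haveI : C[Y /ᵍ W].Normal := NormalIn.normal ⟨le_top, norms_cent w3.norm⟩
  refine ⟨W, w2.lt, _, inferInstance, (ih.min (Group.isSolvable_of_surjective hs) w3 (hY.quo W) fun D hD => ?_).comap f,
    (quotient_cents2 (le_top.trans w2.nV) (le_top.trans w2.nV)).1 (centsC.1 ((hm _).ge.trans (map_comap_le _ _)))⟩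
  obtain ⟨D, h1, rfl⟩ := PLocal.exists_lift_pgroup hs hD
  rw [← hm, ← ch_map, hm]
  refine quotientS1 (le_trans (le_sSup ?_) (le_sup_left.trans w1))
  exact ⟨D, le_inf le_top (le_top.trans nY), h1, rfl⟩

theorem plen_der_two {G : Type u} [Group G] [Finite G] (hG : Group.IsSolvable G)
    (h : ∀ S : Subgroup G, IsPGroup 2 S → der d S = ⊥) : PLengthLE 2 d G := by
  cases d with
  | zero => exact PLocal.pLengthLE_zero_iff.2 ((Nat.prime_two.coprime_iff_not_dvd).2 (PExp.not_dvd fun x k hx => by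
      simpa using (h _ (pg_zpowers hx)).le (mem_zpowers x))).symm
  | succ d =>
    obtain ⟨H, _, _, f, hf, h1, h3⟩ := exists_frame (PLocal.pSolv_of_isSolvable (p := 2) (G := G))
    refine plen_frame hf h3 ((der_all d).sect (Group.isSolvable_of_surjective hf) h1.ab
      (le_antisymm h1.ab.cent h1.cent) (Solv.pCore_quotient_pCore 2 H) fun D hD => ?_)
    obtain ⟨S, hS, e⟩ := PLocal.exists_lift_pgroup hf (pgroup_sup (.inl (norm_of_normal _ D)) hD h1.ab.pg)
    exact eq_bot_iff.2 ((ch_le_der le_sup_right le_sup_left).trans (by rw [← e, ← der_map, h S hS, Subgroup.map_bot]))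

end Cfsg.Agent.Sig.HH
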