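import Cfsg.Agent.PLocal.Quad
import Cfsg.Agent.FTC.Tate
import Cfsg.Agent.BG.S1c
import Cfsg.Agent.Transfer.Alperin

/-! Sylow subgroups with abelianisation of order `p ^ 2` in groups that are not almost simple (`Ab2.main`, `Ab2.thm`). -/

set_option linter.dupNamespace false
set_option linter.unusedSectionVars false
set_option linter.unusedVariables false

namespace Cfsg.Agent.Sig.Ab2

open Subgroup Cfsg Cfsg.Agent.Transfer Cfsg.Agent.BG
open scoped commutatorElement Pointwise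

variable {G : Type*} [Group G] [Finite G] {p : ℕ} [hp : Fact p.Prime] {P Q R L N S : Subgroup G}

theorem der_le_of_gen {x : G} (hn : x ∈ N[R]) {W : Subgroup G} (h0 : R ≤ N[W]) (h1 : x ∈ N[W])
    (h2 : ⁅R, R⁆ ≤ W) (h3 : ⁅R, zpowers x⁆ ≤ W) : ⁅R ⊔ zpowers x, R ⊔ zpowers x⁆ ≤ W := by
  have h1' := zpowers_le.2 h1
  refine comm_sup_le h0 h1' ?_ ?_ <;> rw [commGC] <;> refine comm_sup_le h0 h1' ?_ ?_
  · exact h2
  · rwa [commGC]
  · exact h3
  · rw [PLocal.comm_eq_bot_iff.2 (abelian_iff.1 inferInstance)]; exact bot_le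

theorem cyc (hP : IsPGroup p P) (hR : R ≤ P) (hn : P ≤ N[R]) (h : (R ⊔ ⁅P, P⁆).relIndex P ∣ p) :
    ⁅P, P⁆ ≤ R := by
  have hE : R ⊔ ⁅P, P⁆ ≤ P := sup_le hR (der_sub P)
  have hΦ := der1_sub_Phi (pgroup_nil hP)
  rcases (Nat.dvd_prime hp.out).1 h with e | e
  · rw [relIndex_eq_one] at e
    rw [Phi_nongen hR (e.trans (sup_le_sup_left hΦ _))]
    exact der_sub P
  · obtain ⟨x, hx, hx'⟩ : ∃ x ∈ P, x ∉ R ⊔ ⁅P, P⁆ := by
      by_contra! hc
      rw [relIndex_eq_one.2 hc] at e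
      exact hp.out.one_lt.ne e
    have h1 : (R ⊔ ⁅P, P⁆ ⊔ zpowers x).relIndex P ∣ p := e ▸ relIndex_dvd_of_le_left _ le_sup_left
    have h2 := relIndex_mul_relIndex _ _ _ (le_sup_left : R ⊔ ⁅P, P⁆ ≤ R ⊔ ⁅P, P⁆ ⊔ zpowers x)
      (sup_le hE (zpowers_le.2 hx))
    rcases (Nat.dvd_prime hp.out).1 h1 with e1 | e1
    · rw [relIndex_eq_one, sup_right_comm] at e1
      have h3 := Phi_nongen (sup_le hR (zpowers_le.2 hx)) (e1.trans (sup_le_sup_left hΦ _))
      rw [← h3]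
      exact der_le_of_gen (hn hx) (normG _) (hn hx) (der_sub R) (commg_subl (zpowers_le.2 (hn hx)))
    · rw [e1, e, mul_eq_right₀ hp.out.ne_zero, relIndex_eq_one] at h2
      exact absurd (h2 (mem_sup_right (mem_zpowers x))) hx'

theorem idx (hP : IsPGroup p P) (hR : R ≤ P) (hn : P ≤ N[R]) (h : ¬ R ≤ ⁅P, P⁆)
    (hD : (⁅P, P⁆).relIndex P = p ^ 2) : ⁅P, P⁆ ≤ R ∧ R.relIndex P ∣ p := by
  have h2 := relIndex_mul_relIndex _ _ _ (le_sup_right : ⁅P, P⁆ ≤ R ⊔ ⁅P, P⁆) (sup_le hR (der_sub P))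
  rw [hD] at h2
  obtain ⟨i, hi, e⟩ := (Nat.dvd_prime_pow hp.out).1 (Dvd.intro_left _ h2)
  have h3 : (R ⊔ ⁅P, P⁆).relIndex P ∣ p := by
    rw [e]
    have : i ≠ 2 := by
      rintro rfl
      rw [e, mul_eq_right₀ (pow_ne_zero _ hp.out.ne_zero), relIndex_eq_one] at h2
      exact h (le_sup_left.trans h2)
    simpa using pow_dvd_pow p (show i ≤ 1 by omega)
  have h4 := cyc hP hR hn h3
  exact ⟨h4, by rwa [sup_eq_left.2 h4] at h3⟩

theorem cls (H : Subgroup G) (x : G) :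
    #H = Nat.card (Set.range fun h : H => ⁅(h : G), x⁆) * #(H ⊓ C1[x]) := by
  have hf : Setoid.ker (fun h : H => ⁅(h : G), x⁆) = QuotientGroup.leftRel ((H ⊓ C1[x]).subgroupOf H) := by
    ext a b
    rw [Setoid.ker_def, QuotientGroup.leftRel_apply, mem_subgroupOf, mem_inf, mem_cent1]
    simp only [commutatorElement_def, coe_mul, coe_inv]
    constructor
    · intro h
      refine ⟨H.mul_mem (H.inv_mem a.2) b.2, ?_⟩
      have h' : (a : G) * x * (a : G)⁻¹ = b * x * (b : G)⁻¹ := by simpa using h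
      calc (a : G)⁻¹ * b * x = (a : G)⁻¹ * (b * x * (b : G)⁻¹) * b := by group
        _ = x * ((a : G)⁻¹ * b) := by rw [← h']; group
    · rintro ⟨-, h⟩
      calc (a : G) * x * (a : G)⁻¹ * x⁻¹ = a * (x * ((a : G)⁻¹ * b)) * (b : G)⁻¹ * x⁻¹ := by group
        _ = b * x * (b : G)⁻¹ * x⁻¹ := by rw [← h]; group
  rw [← Nat.card_congr (Setoid.quotientKerEquivRange _), hf,
    ← Nat.card_congr (subgroupOfEquivOfLe (inf_le_left : H ⊓ C1[x] ≤ H)).toEquiv]
  exact card_eq_card_quotient_mul_card_subgroup _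

theorem cls_le {x : G} (hx : x ∈ P) : (⁅P, P⁆).relIndex P ≤ #(P ⊓ C1[x]) := by
  have h1 := cls P x
  have h2 : Nat.card (Set.range fun h : P => ⁅(h : G), x⁆) ≤ #⁅P, P⁆ :=
    Nat.card_mono (Set.toFinite _) (by rintro _ ⟨h, rfl⟩; exact commutator_mem_commutator h.2 hx)
  rw [← Solv.card_mul_relIndex (der_sub P)] at h1
  exact Nat.le_of_mul_le_mul_left (h1.le.trans (Nat.mul_le_mul_right _ h2)) Nat.card_pos

theorem cent_card (hQ : Q ≤ P) (hn : P ≤ N[Q]) (hc : IsMulCommutative Q) (hi : Q.relIndex P = p)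
    (hD : (⁅P, P⁆).relIndex P = p ^ 2) {x : G} (hx : x ∈ P) (hx' : x ∉ Q) : #(P ⊓ C1[x]) = p ^ 2 := by
  refine le_antisymm ?_ (hD ▸ cls_le hx)
  have h1 : (Q ⊔ zpowers x).relIndex P ∣ p := hi ▸ relIndex_dvd_of_le_left _ le_sup_left
  have h2 := relIndex_mul_relIndex _ _ _ (le_sup_left : Q ≤ Q ⊔ zpowers x) (sup_le hQ (zpowers_le.2 hx))
  have h3 : P = Q ⊔ zpowers x := by
    rcases (Nat.dvd_prime hp.out).1 h1 with e1 | e1
    · exact le_antisymm (relIndex_eq_one.1 e1) (sup_le hQ (zpowers_le.2 hx))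
    · rw [e1, hi, mul_eq_right₀ hp.out.ne_zero, relIndex_eq_one] at h2
      exact absurd (h2 (mem_sup_right (mem_zpowers x))) hx'
  have h4 : ⁅P, P⁆ ≤ ⁅Q, zpowers x⁆ := by
    rw [h3]
    exact der_le_of_gen (hn hx) (commg_norml _ _) (commg_normr _ _ (mem_zpowers x))
      ((PLocal.comm_eq_bot_iff.2 (abelian_iff.1 hc)).le.trans bot_le) le_rfl
  have h5 := PLocal.card_eq_card_centralizer_mul hc (hn hx)
  have h6 := Solv.card_mul_relIndex (der_sub P)
  have h7 := Solv.card_mul_relIndex hQ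
  have h8 : #(Q ⊓ C[zpowers x]) ≤ p := by
    have h9 : #⁅P, P⁆ ≤ #⁅Q, zpowers x⁆ := card_le_of_le h4
    rw [hD, ← h7, hi, h5, pow_two, ← mul_assoc] at h6
    have := Nat.eq_of_mul_eq_mul_right hp.out.pos h6
    refine Nat.le_of_mul_le_mul_right (c := #⁅P, P⁆) ?_ Nat.card_pos
    rw [mul_comm p, this]
    exact Nat.mul_le_mul_left _ h9
  have h9 : (P ⊓ C1[x]) ⊓ Q = Q ⊓ C[zpowers x] := by
    rw [C_zpowers, inf_right_comm, inf_eq_right.2 hQ]
  rw [← Solv.card_mul_relIndex (inf_le_left : (P ⊓ C1[x]) ⊓ Q ≤ _), h9, pow_two, ← h9, inf_relIndex_left]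
  refine Nat.mul_le_mul (h9 ▸ h8) (hi ▸ relIndex_le_of_le_right inf_le_left (hi ▸ hp.out.ne_zero))

theorem tate (P : Sylow p G) (hn : (P : Subgroup G) ≤ N[L]) (h : (P : Subgroup G) ⊓ L ≤ ⁅(P : Subgroup G), (P : Subgroup G)⁆) :
    HasNormalPComplement p L := by
  have hT := isSylowIn_of_sylow_le P (le_sup_right : (P : Subgroup G) ≤ L ⊔ P)
  haveI : (L.subgroupOf (L ⊔ P)).Normal := (normal_subgroupOf_iff_le_normalizer le_sup_left).2 (sup_le (normG _) hn)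
  refine (hasNormalPComplement_congr (subgroupOfEquivOfLe (le_sup_left : L ≤ L ⊔ P))).1
    (FTC.hasNormalPComplement_of_inf_le_frattini hT.toSylow _ fun x hx => ?_)
  refine der1_sub_Phi (pgroup_nil hT.toSylow.2) ?_
  have h1 := h ⟨hx.2, hx.1⟩
  have e : ⁅(P : Subgroup G), (P : Subgroup G)⁆ = (⁅(hT.toSylow : Subgroup (L ⊔ P : Subgroup G)),
      (hT.toSylow : Subgroup (L ⊔ P : Subgroup G))⁆).map (L ⊔ P : Subgroup G).subtype := by
    rw [map_commutator]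
    have : (hT.toSylow : Subgroup (L ⊔ P : Subgroup G)).map (L ⊔ P : Subgroup G).subtype = P :=
      map_subgroupOf_eq_of_le le_sup_right
    rw [this]
  rw [e] at h1
  obtain ⟨y, hy, e'⟩ := h1
  exact Subtype.ext e' ▸ hy

theorem trf {P : Type*} [Group P] [Finite P] {Q : Subgroup P} {A : Type*} [CommGroup A] (φ : Q →* A) {g : P}
    (hg : g ∈ Q) (h : ∀ y ∉ Q, ∀ (k : ℕ) (h' : y⁻¹ * g ^ k * y ∈ Q), φ ⟨_, h'⟩ = 1) :
    MonoidHom.transfer φ g = φ ⟨g, hg⟩ := by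
  classical
  haveI := Fintype.ofFinite (Quotient (MulAction.orbitRel (zpowers g) (P ⧸ Q)))
  have hfix : ∀ y ∈ Q, g • (y : P ⧸ Q) = y := fun y hy => by
    rw [MulAction.Quotient.smul_coe, QuotientGroup.eq, smul_eq_mul]
    exact mul_mem (inv_mem (mul_mem hg hy)) hy
  have hone : ∀ y : P, y ∈ Q ↔ (y : P ⧸ Q) = ((1 : P) : P ⧸ Q) := fun y => by
    rw [QuotientGroup.eq, mul_one, inv_mem_iff]
  let q₀ : Quotient (MulAction.orbitRel (zpowers g) (P ⧸ Q)) := Quotient.mk _ ((1 : P) : P ⧸ Q)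
  have h0 : q₀.out = ((1 : P) : P ⧸ Q) := by
    obtain ⟨⟨_, k, rfl⟩, e⟩ := Quotient.mk_out (s := MulAction.orbitRel (zpowers g) (P ⧸ Q)) ((1 : P) : P ⧸ Q)
    rw [← e]
    show (g ^ k) • ((1 : P) : P ⧸ Q) = _
    rw [MulAction.Quotient.smul_coe, ← hone, smul_eq_mul, mul_one]
    exact zpow_mem hg k
  rw [MonoidHom.transfer_eq_prod_quotient_orbitRel_zpowers_quot, Finset.prod_eq_single q₀]
  · have h1 : q₀.out.out ∈ Q := (hone _).2 (by rw [QuotientGroup.out_eq', h0])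
    have h2 : Function.minimalPeriod (g • ·) q₀.out = 1 := by
      rw [Function.minimalPeriod_eq_one_iff_isFixedPt, h0]
      exact hfix 1 (one_mem _)
    simp only [h2, pow_one]
    have : (⟨q₀.out.out⁻¹ * g * q₀.out.out, mul_mem (mul_mem (inv_mem h1) hg) h1⟩ : Q) =
        (⟨_, h1⟩ : Q)⁻¹ * ⟨g, hg⟩ * ⟨_, h1⟩ := rfl
    rw [this, map_mul, map_mul, map_inv, mul_right_comm, inv_mul_cancel, one_mul]
  · intro q _ hq
    refine h _ (fun h1 => hq ?_) _ _
    rw [hone, QuotientGroup.out_eq'] at h1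
    rw [← Quotient.out_eq q, h1]
  · simp

theorem min_pi (hN : MinNormal N ⊤) (hS : MinNormal S N) (hSN : S ≤ N) {π : Set ℕ} (h : PiGrp π S) :
    PiGrp π N := by
  rcases hN.min _ (pcore_sub π N) (norms_pcore π hN.norm) with e | e
  · exact absurd (eq_bot_iff.2 (e ▸ pcore_max ⟨hSN, hS.norm⟩ h)) hS.ne
  · exact e ▸ pcore_pgroup π N

theorem min_cj (hN : MinNormal N ⊤) (hS : MinNormal S N) (hSN : S ≤ N) (g : G) : cj g S = S ∨ cj g S ≤ C[S] := by
  have hn : N ≤ N[cj g S] := by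
    rw [← cj_of_norm (hN.norm (mem_top g)), N_cj]
    exact cj_mono g hS.norm
  rcases hS.min _ (inf_le_right : cj g S ⊓ S ≤ S) (normsI hn hS.norm) with e | e
  · have h1 : cj g S ≤ N := cj_le_of_norm (hN.norm (mem_top g)) hSN
    exact .inr (commG1.1 (eq_bot_iff.2 (e ▸ le_inf (commg_subl (hSN.trans hn)) (commg_subr (h1.trans hS.norm)))))
  · exact .inl (eq_of_le_of_card_ge (inf_eq_right.1 e) (card_cj g S).le).symm

theorem min_gen (hN : MinNormal N ⊤) (hS : MinNormal S N) (hSN : S ≤ N) {K : Subgroup G}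
    (h : ∀ g, cj g S ≤ K) : N ≤ K := by
  haveI : N.Normal := NormalIn.normal ⟨le_top, hN.norm⟩
  rcases hN.min (normalClosure (S : Set G)) (normalClosure_le_normal hSN) (norm_of_normal _ _) with e | e
  · exact absurd (eq_bot_iff.2 (e ▸ le_normalClosure)) hS.ne
  · rw [← e, normalClosure, closure_le]
    intro x hx
    obtain ⟨a, ha, hc⟩ := Group.mem_conjugatesOfSet_iff.1 hx
    obtain ⟨g, rfl⟩ := isConj_iff.1 hc
    exact h g (conj_mem_cj g ha)

theorem gen_of_idx (hQ : Q ≤ P) (hi : Q.relIndex P = p) {x : G} (hx : x ∈ P) (hx' : x ∉ Q) :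
    P = Q ⊔ zpowers x := by
  have h1 : (Q ⊔ zpowers x).relIndex P ∣ p := hi ▸ relIndex_dvd_of_le_left _ le_sup_left
  have h2 := relIndex_mul_relIndex _ _ _ (le_sup_left : Q ≤ Q ⊔ zpowers x) (sup_le hQ (zpowers_le.2 hx))
  rcases (Nat.dvd_prime hp.out).1 h1 with e1 | e1
  · exact le_antisymm (relIndex_eq_one.1 e1) (sup_le hQ (zpowers_le.2 hx))
  · rw [e1, hi, mul_eq_right₀ hp.out.ne_zero, relIndex_eq_one] at h2
    exact absurd (h2 (mem_sup_right (mem_zpowers x))) hx'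

open scoped IsMulCommutative in
theorem wr {Q₁ : Subgroup G} (hP : IsPGroup p P) (hQ : Q ≤ P) (hR : R ≤ Q) (hn : Q ≤ N[R]) (hQ1 : Q₁ ≤ Q)
    (hs : Q ≤ Q₁ ⊔ R) (hD : ⁅P, P⁆ ≤ Q) (hi : (⁅P, P⁆).relIndex Q = p)
    (hc : ∀ y ∈ P, y ∉ Q → ∀ g ∈ Q₁, y⁻¹ * g * y ∈ R) : ⁅Q, Q⁆ ≤ R := by
  obtain ⟨u, hu, hu'⟩ : ∃ u ∈ Q, u ∉ ⁅P, P⁆ := by
    by_contra! h
    rw [relIndex_eq_one.2 h] at hi
    exact hp.out.one_lt.ne hi
  have hg := gen_of_idx hD hi hu hu'
  let Q' := Q.subgroupOf P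
  let ι : Q' →* G := P.subtype.comp Q'.subtype
  let E := (R ⊔ ⁅Q, Q⁆).comap ι
  have hnE : Q ≤ N[R ⊔ ⁅Q, Q⁆] := normsY hn (commg_norml _ _)
  haveI : E.Normal := ⟨fun x hx g => by
    have := conj_mem_of_norm (hnE g.2) (mem_comap.1 hx)
    exact this⟩
  haveI : IsMulCommutative (Q' ⧸ E) := Normal.quotient_commutative_iff_commutator_le.2
    (commutator_le.2 fun a _ b _ => mem_sup_right (commutator_mem_commutator (H₁ := Q) (H₂ := Q) a.2 b.2))
  let φ : Q' →* Q' ⧸ E := QuotientGroup.mk' E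
  let V := MonoidHom.transfer φ
  have h1 : ∀ g (hg : g ∈ Q₁), V ⟨g, hQ (hQ1 hg)⟩ = φ ⟨⟨g, hQ (hQ1 hg)⟩, hQ1 hg⟩ := fun g hg =>
    trf φ _ fun y hy k h' => (QuotientGroup.eq_one_iff _).2 (mem_sup_left (hc y y.2 hy _ (pow_mem hg k)))
  have h2 : ∀ g (hg : g ∈ Q), V ⟨g, hQ hg⟩ ∈ zpowers (V ⟨u, hQ hu⟩) := fun g hg' => by
    have : Q ≤ ((zpowers (V ⟨u, hQ hu⟩)).comap V).map P.subtype := by
      rw [hg]
      refine sup_le ?_ (zpowers_le.2 ⟨⟨u, hQ hu⟩, mem_zpowers _, rfl⟩)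
      rw [← map_subtype_commutator]
      refine map_mono fun x hx => ?_
      rw [mem_comap, show V x = 1 from Abelianization.commutator_subset_ker V hx]
      exact one_mem _
    obtain ⟨y, hy, e⟩ := this hg'
    rwa [show (⟨g, hQ hg'⟩ : P) = y from Subtype.ext e.symm]
  obtain ⟨w, hw⟩ := QuotientGroup.mk'_surjective E (V ⟨u, hQ hu⟩)
  have h3 : Q ≤ R ⊔ zpowers (ι w) ⊔ ⁅Q, Q⁆ := by
    refine hs.trans (sup_le (fun g hg => ?_) (le_sup_left.trans le_sup_left))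
    obtain ⟨i, e⟩ := h2 g (hQ1 hg)
    rw [h1 g hg, ← hw] at e
    have h4 : (w ^ i)⁻¹ * ⟨⟨g, hQ (hQ1 hg)⟩, hQ1 hg⟩ ∈ E := QuotientGroup.eq.1 (by
      rw [← QuotientGroup.mk'_apply, map_zpow]; exact e)
    have h5 : (ι w ^ i)⁻¹ * g ∈ R ⊔ ⁅Q, Q⁆ := by
      have := mem_comap.1 h4
      rwa [map_mul, map_inv, map_zpow] at this
    rw [sup_right_comm, show g = ι w ^ i * ((ι w ^ i)⁻¹ * g) by group]
    exact mul_mem (mem_sup_right (zpow_mem (mem_zpowers _) i)) (mem_sup_left h5)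
  have hwQ : ι w ∈ Q := w.2
  have h6 := Phi_nongen (sup_le hR (zpowers_le.2 hwQ))
    (h3.trans (sup_le_sup_left (der1_sub_Phi (pgroup_nil (hP.to_le hQ))) _))
  rw [← h6]
  exact der_le_of_gen (hn hwQ) (normG _) (hn hwQ) (der_sub R) (commg_subl (zpowers_le.2 (hn hwQ)))

theorem syl_prod {Q₁ K : Subgroup G} (h1 : IsSylowIn p Q₁ S) (h2 : IsSylowIn p R K) (hc : K ≤ C[S])
    (h0 : S ⊓ K = ⊥) (hQ : IsPGroup p Q) (hle : Q ≤ S ⊔ K) (h3 : Q₁ ⊔ R ≤ Q) : Q ≤ Q₁ ⊔ R := by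
  have e1 := Solv.card_sup_mul_card_inf (cents_norm hc)
  have e2 := Solv.card_sup_mul_card_inf (cents_norm ((h2.le.trans hc).trans (centS h1.le)))
  rw [h0, card_bot, mul_one] at e1
  rw [eq_bot_iff.2 ((inf_le_inf h1.le h2.le).trans h0.le), card_bot, mul_one] at e2
  have e3 := Solv.card_mul_relIndex h1.le
  have e4 := Solv.card_mul_relIndex h2.le
  have e5 := Solv.card_mul_relIndex (h3.trans hle)
  have e6 : (Q₁ ⊔ R).relIndex (S ⊔ K) = Q₁.relIndex S * R.relIndex K := by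
    refine Nat.eq_of_mul_eq_mul_left (Nat.card_pos (α := (Q₁ ⊔ R : Subgroup G))) ?_
    rw [e5, e1, e2, ← e3, ← e4]; ring
  have h4 : IsSylowIn p (Q₁ ⊔ R) (S ⊔ K) := ⟨h3.trans hle, hQ.to_le h3, by
    rw [e6, hp.out.dvd_mul, not_or]; exact ⟨h1.2.2, h2.2.2⟩⟩
  exact (eq_of_le_of_card_ge h3 (h4.card_le hQ hle)).ge

theorem main (hO : pPrimeCore p G = ⊥)
    (hnas : ¬ ∃ S : Subgroup G, S.Normal ∧ IsSimpleGroup S ∧ ¬ IsMulCommutative S ∧ C[S] = ⊥)
    (hN : MinNormal N ⊤) (P : Sylow p G) (hc : (⁅(P : Subgroup G), (P : Subgroup G)⁆).normalCore = ⊥)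
    (hD : (⁅(P : Subgroup G), (P : Subgroup G)⁆).relIndex P = p ^ 2) :
    #(P : Subgroup G) = p ^ 2 ∨ (IsMulCommutative ((P : Subgroup G) ⊓ N : Subgroup G) ∧
      ((P : Subgroup G) ⊓ N).relIndex P = p) := by
  haveI : N.Normal := NormalIn.normal ⟨le_top, hN.norm⟩
  have hO' : ∀ K : Subgroup G, K.Normal → PiGrp {p}ᶜ K → K = ⊥ := fun K _ h =>
    eq_bot_iff.2 (hO ▸ Op'_top (G := G) p ▸ pcore_max ⟨le_top, norm_of_normal _ _⟩ h)
  have npc : ∀ K : Subgroup G, HasNormalPComplement p K → Op' p K = ⊥ → IsPGroup p K := fun K h e => by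
    have h1 := hasNormalPComplement_iff_coprime_card_pResidual.1 h
    have h2 : (pResidual p K).map K.subtype ≤ Op' p K := pcore_max ⟨map_subtype_le _, (normG K).trans (char_norm _)⟩
      ((p'nat_coprime hp.out).2 (by rw [card_map_of_injective K.subtype_injective]; exact h1))
    rw [e, le_bot_iff, map_eq_bot_iff_of_injective _ K.subtype_injective] at h2
    exact pResidual_eq_bot_iff.1 h2
  have nD : ∀ K : Subgroup G, K.Normal → K ≠ ⊥ → ¬ (P : Subgroup G) ⊓ K ≤ ⁅(P : Subgroup G), (P : Subgroup G)⁆ :=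
    fun K _ h0 h => by
    have h1 := npc K (tate P (norm_of_normal _ _) h)
      (hO' _ (NormalIn.normal ⟨le_top, norms_pcore _ (norm_of_normal _ _)⟩) (pcore_pgroup _ _))
    have h2 : K ≤ P := h1.le_sylow_of_normal P
    exact h0 (eq_bot_iff.2 (hc ▸ normal_le_normalCore.2 ((le_inf h2 le_rfl).trans h)))
  have ab : ⁅(P : Subgroup G), (P : Subgroup G)⁆ = ⊥ → #(P : Subgroup G) = p ^ 2 := fun e => by
    rwa [e, relIndex_bot_left] at hD
  have small : ∀ K L : Subgroup G, (P : Subgroup G) ≤ N[K] → (P : Subgroup G) ≤ N[L] → K ⊓ L = ⊥ →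
      ¬ (P : Subgroup G) ⊓ K ≤ ⁅(P : Subgroup G), (P : Subgroup G)⁆ →
      ¬ (P : Subgroup G) ⊓ L ≤ ⁅(P : Subgroup G), (P : Subgroup G)⁆ → #(P : Subgroup G) = p ^ 2 :=
    fun K L h1 h2 h3 h4 h5 => ab (eq_bot_iff.2 (h3 ▸ le_inf
      ((idx P.2 inf_le_left (normsI (normG _) h1) h4 hD).1.trans inf_le_right)
      ((idx P.2 inf_le_left (normsI (normG _) h2) h5 hD).1.trans inf_le_right)))
  obtain ⟨i1, i2⟩ := idx P.2 inf_le_left (normsI (normG _) (norm_of_normal _ _)) (nD N inferInstance hN.ne) hD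
  have fin : IsMulCommutative ((P : Subgroup G) ⊓ N : Subgroup G) → #(P : Subgroup G) = p ^ 2 ∨
      (IsMulCommutative ((P : Subgroup G) ⊓ N : Subgroup G) ∧ ((P : Subgroup G) ⊓ N).relIndex P = p) := fun h => by
    rcases (Nat.dvd_prime hp.out).1 i2 with e | e
    · exact .inl (ab (commG1.2 (abelian_iff.1 (abelianS (relIndex_eq_one.1 e) h))))
    · exact .inr ⟨h, e⟩
  by_cases hs : Group.IsSolvable N
  · obtain ⟨r, -, h⟩ := minnormal_solvable hN le_rfl hs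
    exact fin (abelianS inf_le_right h.1)
  have noab : ∀ W ≤ N, N ≤ N[W] → IsMulCommutative W → W = ⊥ := fun W h1 h2 h3 => by
    by_contra h0
    obtain ⟨S, hS, h4⟩ := minnormal_exists h0 h2
    obtain ⟨r, hr, h⟩ := minnormal_solvable hS h4 (abelian_sol h3)
    haveI := Fact.mk hr
    exact hs (pgroup_sol (PiNat.pg (min_pi hN hS (h4.trans h1) (IsPGroup.pi h.pg))))
  have key : ∀ W ≤ N, N ≤ N[W] → (P : Subgroup G) ≤ N[W] → W ≠ ⊥ →
      ¬ (P : Subgroup G) ⊓ W ≤ ⁅(P : Subgroup G), (P : Subgroup G)⁆ := fun W h1 h2 h3 h0 h => by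
    obtain ⟨S, hS, h4⟩ := minnormal_exists h0 h2
    have h5 := hasNormalPComplement_of_le (tate P h3 h) h4
    rcases hS.min _ (pcore_sub {p}ᶜ S) (norms_pcore _ hS.norm) with e | e
    · exact hs (pgroup_sol (PiNat.pg (min_pi hN hS (h4.trans h1) (IsPGroup.pi (npc S h5 e)))))
    · exact hN.ne (hO' N inferInstance (min_pi hN hS (h4.trans h1) (e ▸ pcore_pgroup _ S)))
  obtain ⟨S, hS, hSN⟩ := minnormal_exists hN.ne (normG N)
  have hZ : S ⊓ (N ⊓ C[S]) = ⊥ := noab _ (inf_le_left.trans hSN)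
    (normsI hS.norm (normsI (normG _) (norms_cent hS.norm)))
    (abelianS (inf_le_inf_left _ inf_le_right) (center_abelian S))
  have hsup : N ≤ S ⊔ N ⊓ C[S] := min_gen hN hS hSN fun g => (min_cj hN hS hSN g).elim
    (fun e => e.le.trans le_sup_left) fun e => (le_inf (cj_le_of_norm (hN.norm (mem_top g)) hSN) e).trans le_sup_right
  let M := ⨆ y : P, cj (y : G) S
  have hMN : M ≤ N := iSup_le fun y => cj_le_of_norm (hN.norm (mem_top _)) hSN
  have hSM : S ≤ M := le_iSup_of_le 1 (by simp)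
  have nM1 : N ≤ N[M] := le_norm_of_cj_le fun g hg => cj_le_iff.2 (iSup_le fun y => cj_le_iff.1 (by
    have : N ≤ N[cj (y : G) S] := by
      rw [← cj_of_norm (hN.norm (mem_top (y : G))), N_cj]
      exact cj_mono _ hS.norm
    rw [cj_of_norm (this hg)]
    exact le_iSup (fun y : P => cj (y : G) S) y))
  have nM2 : (P : Subgroup G) ≤ N[M] := le_norm_of_cj_le fun g hg => cj_le_iff.2 (iSup_le fun y => cj_le_iff.1 (by
    rw [← cj_mul]
    exact le_iSup (fun y : P => cj (y : G) S) (⟨g, hg⟩ * y)))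
  by_cases hM : N ⊓ C[M] = ⊥
  swap
  · refine .inl (small M (N ⊓ C[M]) nM2 (normsI (norm_of_normal _ _) (norms_cent nM2)) (noab _
      (inf_le_left.trans hMN) (normsI nM1 (normsI (normG _) (norms_cent nM1)))
      (abelianS (inf_le_inf_left _ inf_le_right) (center_abelian M)))
      (key M hMN nM1 nM2 fun e => hS.ne (eq_bot_iff.2 (e ▸ hSM)))
      (key _ inf_le_left (normsI (normG _) (norms_cent nM1)) (normsI (norm_of_normal _ _) (norms_cent nM2)) hM))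
  by_cases hPS : (P : Subgroup G) ≤ N[S]
  · have e1 : M = S := le_antisymm (iSup_le fun y => (cj_of_norm (hPS y.2)).le) hSM
    rw [e1] at hM
    rw [hM, sup_bot_eq] at hsup
    obtain rfl := le_antisymm hSN hsup
    by_cases h0 : C[S] = ⊥
    · refine absurd ⟨S, inferInstance, ?_, fun h => hs (abelian_sol h), h0⟩ hnas
      haveI := (nontrivial_iff_ne_bot S).2 hS.ne
      refine ⟨fun K _ => (hS.min (K.map S.subtype) (map_subtype_le K) ?_).imp (fun e => ?_) fun e => ?_⟩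
      · exact le_norm_iff.2 (by
          rintro g hg _ ⟨k, hk, rfl⟩
          exact ⟨_, Normal.conj_mem inferInstance k hk ⟨g, hg⟩, rfl⟩)
      · exact (map_eq_bot_iff_of_injective _ S.subtype_injective).1 e
      · exact map_injective S.subtype_injective (by rw [e, ← MonoidHom.range_eq_map, range_subtype])
    · exact .inl (small S C[S] hPS (norms_cent hPS) hM (nD S inferInstance hS.ne) (nD _ inferInstance h0))
  have i3 : ((P : Subgroup G) ⊓ N).relIndex P = p := ((Nat.dvd_prime hp.out).1 i2).resolve_left fun e =>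
    hPS (((relIndex_eq_one.1 e).trans inf_le_right).trans hS.norm)
  have i4 := relIndex_mul_relIndex _ _ _ i1 (inf_le_left : (P : Subgroup G) ⊓ N ≤ P)
  rw [i3, hD, pow_two] at i4
  have hQ := isSylowIn_sylow_inf_normal P N
  have nC : N ≤ N[N ⊓ C[S]] := normsI (normG _) (norms_cent hS.norm)
  have h7 := wr (Q₁ := (P : Subgroup G) ⊓ N ⊓ S) (R := (P : Subgroup G) ⊓ N ⊓ (N ⊓ C[S])) P.2 inf_le_left
    inf_le_left (normsI (normG _) (inf_le_right.trans nC)) inf_le_left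
    (syl_prod (hQ.inf_of_le_normalizer hSN hS.norm) (hQ.inf_of_le_normalizer inf_le_left nC) inf_le_right hZ
      hQ.2.1 (inf_le_right.trans hsup) (sup_le inf_le_left inf_le_left)) i1
    (Nat.eq_of_mul_eq_mul_right hp.out.pos i4) fun y hy hy' g hg => by
      have h8 : y⁻¹ * g * y ∈ N := conj_mem_of_norm' (hN.norm (mem_top y)) hg.1.2
      refine ⟨⟨(P : Subgroup G).mul_mem ((P : Subgroup G).mul_mem ((P : Subgroup G).inv_mem hy) hg.1.1) hy, h8⟩, h8, ?_⟩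
      refine ((min_cj hN hS hSN y⁻¹).resolve_left fun e => hPS ?_) (by simpa using conj_mem_cj y⁻¹ hg.2)
      rw [gen_of_idx inf_le_left i3 hy hy']
      exact sup_le (inf_le_right.trans hS.norm) (zpowers_le.2 (by
        simpa using inv_mem (mem_norm_of_cj_le e.le)))
  refine fin (abelian_iff.2 (commG1.1 (eq_bot_iff.2 (hM ▸ le_inf ((der_sub _).trans inf_le_right) ?_))))
  rw [le_centralizer_iff]
  refine iSup_le fun y => ?_
  have h9 : (y : G) ∈ N[⁅(P : Subgroup G) ⊓ N, (P : Subgroup G) ⊓ N⁆] :=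
    norms_der (normsI (normG _) (norm_of_normal _ _)) y.2
  rw [← cj_of_norm h9, C_cj]
  exact cj_mono _ (le_centralizer_iff.1 (h7.trans (inf_le_right.trans inf_le_right)))

theorem exists_cj (P : Sylow p G) {x : G} (hx : IsPGroup p (zpowers x)) :
    ∃ g, g * x * g⁻¹ ∈ (P : Subgroup G) ∧
      #((P : Subgroup G) ⊓ C1[g * x * g⁻¹] : Subgroup G) = p ^ (#C1[x]).factorization p := by
  obtain ⟨T, hT, h1⟩ := Sylow_superset (zpowers_le.2 (cent1_self x)) hx
  obtain ⟨g, -, h2⟩ := Sylow_Jsub (sylowIn_top P) le_top hT.pg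
  refine ⟨g, h2 (conj_mem_cj g (h1 (mem_zpowers x))), ?_⟩
  have h3 := pHallJ g hT
  rw [← C1_conj] at h3
  rw [Hall_max h3 (le_inf h2 h3.le) inf_le_right (IsPGroup.pi (P.2.to_le inf_le_left)), card_cj, card_Sylow hT]

theorem thm (P : Sylow p G) (hbig : p ^ 2 ∣ Nat.card G) (hO : pPrimeCore p G = ⊥)
    (hc : (⁅(P : Subgroup G), (P : Subgroup G)⁆).normalCore = ⊥)
    (hnas : ¬ ∃ S : Subgroup G, S.Normal ∧ IsSimpleGroup S ∧ ¬ IsMulCommutative S ∧ C[S] = ⊥) :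
    (⁅(P : Subgroup G), (P : Subgroup G)⁆).relIndex (P : Subgroup G) = p ^ 2 ↔
      ∃ x : G, (∃ k : ℕ, orderOf x = p ^ k) ∧ (#C1[x]).factorization p = 2 := by
  have hP : #(P : Subgroup G) = p ^ (Nat.card G).factorization p := P.card_eq_multiplicity
  have h2 : 2 ≤ (Nat.card G).factorization p :=
    (hp.out.pow_dvd_iff_le_factorization Nat.card_pos.ne').1 hbig
  constructor
  · intro hD
    have h0 : (⊤ : Subgroup G) ≠ ⊥ := fun e => by
      have : Nat.card G = 1 := by rw [← card_top, e, card_bot]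
      simp [this] at h2
    obtain ⟨N, hN, -⟩ := minnormal_exists h0 (normG _)
    haveI : N.Normal := NormalIn.normal ⟨le_top, hN.norm⟩
    rcases main hO hnas hN P hc hD with h | ⟨h1, h3⟩
    · refine ⟨1, ⟨0, by simp⟩, ?_⟩
      rw [cent1_one, card_top]
      exact Nat.pow_right_injective hp.out.two_le (hP.symm.trans h)
    have cc : ∀ y ∈ (P : Subgroup G), y ∉ N → #((P : Subgroup G) ⊓ C1[y] : Subgroup G) = p ^ 2 := fun y hy hy' =>
      cent_card inf_le_left (normsI (normG _) (norm_of_normal _ _)) h1 h3 hD hy fun h => hy' h.2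
    obtain ⟨x, hx, hx'⟩ : ∃ x ∈ (P : Subgroup G), x ∉ N := by
      by_contra! h
      rw [relIndex_eq_one.2 (le_inf le_rfl h)] at h3
      exact hp.out.one_lt.ne h3
    have hz : IsPGroup p (zpowers x) := P.2.to_le (zpowers_le.2 hx)
    obtain ⟨g, h4, h5⟩ := exists_cj P hz
    refine ⟨x, by simpa using IsPGroup.iff_card.1 hz, Nat.pow_right_injective hp.out.two_le ?_⟩
    exact h5.symm.trans (cc _ h4 fun h => hx' (by simpa [mul_assoc] using Normal.conj_mem inferInstance _ h g⁻¹))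
  · rintro ⟨x, ⟨k, hk⟩, h⟩
    obtain ⟨g, h4, h5⟩ := exists_cj P (x := x) (IsPGroup.iff_card.2 ⟨k, by simpa using hk⟩)
    have h6 := cls_le h4
    rw [h5, h] at h6
    obtain ⟨i, -, e⟩ := (Nat.dvd_prime_pow hp.out).1
      (hP ▸ Dvd.intro_left _ (Solv.card_mul_relIndex (der_sub (P : Subgroup G))))
    rw [e, Nat.pow_le_pow_iff_right hp.out.one_lt] at h6
    rw [e]
    congr 1
    by_contra hi
    have h7 := cyc P.2 bot_le (norm_of_normal _ _) (by
      rw [bot_sup_eq, e]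
      simpa using pow_dvd_pow p (show i ≤ 1 by omega))
    rw [le_bot_iff.1 h7, relIndex_bot_left, hP] at e
    have := Nat.pow_right_injective hp.out.two_le e
    omega

end Cfsg.Agent.Sig.Ab2
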