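import Cfsg.Agent.Sig.HH8

/-! The chain `[V, E, E', E'', …]` (`HH.ch`), homogeneous components (`HH.Hc`) and the configuration `HH.Cf` of a
`2`-group acting on a `q`-group of class two whose centre is semiregular on a module (`HH.comp_reduce`). -/

set_option linter.dupNamespace false
set_option linter.unusedSectionVars false
set_option linter.unusedVariables false

namespace Cfsg.Agent.Sig.HH
open Subgroup Cfsg.Agent.BG
open scoped commutatorElement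

universe u
variable {Γ : Type*} [Group Γ] {A B D E F K L M N P Q S U V W X Y : Subgroup Γ} {a g v w x y z : Γ} {p q k m n : ℕ}
  {Ω Ω' : Set (Subgroup Γ)}

/-- `ch n V E = [V, E, E', …, E^(n-1)]`. -/
def ch : ℕ → Subgroup Γ → Subgroup Γ → Subgroup Γ
  | 0, V, _ => V
  | n + 1, V, E => ch n ⁅V, E⁆ ⁅E, E⁆

theorem der_succ' (n : ℕ) (E : Subgroup Γ) : der (n + 1) E = der n ⁅E, E⁆ := by rw [add_comm, der_add]; rfl

theorem ch_mono (h : V ≤ W) (h' : E ≤ F) : ch n V E ≤ ch n W F := by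
  induction n generalizing V W E F with
  | zero => exact h
  | succ n ih => exact ih (commgSS h h') (dergS h')

theorem ch_le (h : E ≤ N[V]) : ch n V E ≤ V := by
  induction n generalizing V E with
  | zero => exact le_rfl
  | succ n ih => exact (ih ((der_sub E).trans (commg_normr V E))).trans (commg_subl h)

theorem ch_succ' (n : ℕ) (V E : Subgroup Γ) : ch (n + 1) V E = ⁅ch n V E, der n E⁆ := by
  induction n generalizing V E with
  | zero => rfl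
  | succ n ih => rw [ch, ih, der_succ']; rfl

theorem ch_sup (ab : IsMulCommutative W) (hA : A ≤ W) (hB : B ≤ W) (hE : E ≤ N[W]) :
    ch n (A ⊔ B) E ≤ ch n A E ⊔ ch n B E := by
  induction n generalizing A B E with
  | zero => exact le_rfl
  | succ n ih =>
    have h1 := (commSg E hA).trans (commg_subl hE)
    have h2 := (commSg E hB).trans (commg_subl hE)
    have h3 := sub_abelian_norm ab (sup_le h1 h2)
    exact (ch_mono (comm_sup_le (hA.trans h3) (hB.trans h3) le_sup_left le_sup_right) le_rfl).trans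
      (ih h1 h2 ((der_sub E).trans hE))

theorem ch_map {H : Type*} [Group H] (f : Γ →* H) : (ch n V E).map f = ch n (V.map f) (E.map f) := by
  induction n generalizing V E with
  | zero => rfl
  | succ n ih => rw [ch, ih, map_commutator, map_commutator, ch]

theorem ch_quo (hV : V ≤ N[N]) (hE : E ≤ N[N]) : ch n V E /ᵍ N = ch n (V /ᵍ N) (E /ᵍ N) := by
  induction n generalizing V E with
  | zero => rfl
  | succ n ih => rw [ch, ih (comm_subG hV hE) (comm_subG hE hE), quotientR hV hE, quotientR hE hE, ch]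

theorem der_quo (hE : E ≤ N[N]) (n : ℕ) : der n E /ᵍ N = der n (E /ᵍ N) := by
  induction n with
  | zero => rfl
  | succ n ih => rw [der, quotient_der ((der_le n).trans hE), ih, der]

theorem ch_le_der (hV : V ≤ S) (hE : E ≤ S) : ch n V E ≤ der n S := by
  induction n with
  | zero => exact hV
  | succ n ih => rw [ch_succ']; exact commgSS ih (der_mono hE n)

/-- The sum of the irreducible `Q`-submodules of `V` whose kernel is in `Ω`. -/
def Hc (V Q : Subgroup Γ) (Ω : Set (Subgroup Γ)) : Subgroup Γ := sSup {U | U ≤ V ∧ MinNormal U Q ∧ Q ⊓ C[U] ∈ Ω}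

theorem Hc_le : Hc V Q Ω ≤ V := sSup_le fun _ h => h.1

theorem norm_Hc : Q ≤ N[Hc V Q Ω] := norms_sSup fun _ h => h.2.1.norm

theorem cj_Hc (hV : g ∈ N[V]) (hQ : g ∈ N[Q]) (h : ∀ K ∈ Ω, cj g K ∈ Ω') : cj g (Hc V Q Ω) ≤ Hc V Q Ω' := by
  rw [Hc, cj_sSup]
  refine sSup_le_sSup ?_
  rintro _ ⟨U, ⟨h1, h2, h3⟩, rfl⟩
  refine ⟨cj_le_of_norm hV h1, ⟨mt cj_eq_bot.1 h2.ne, by rw [N_cj, ← cj_of_norm hQ]; exact cj_mono g h2.norm,
    fun X h4 h5 => ?_⟩, by rw [C_cj, ← cj_of_norm hQ, ← cj_inf]; exact h _ h3⟩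
  exact (h2.min _ (le_cj_iff.1 h4) (by rw [N_cj, ← cj_of_norm (inv_mem hQ)]; exact cj_mono _ h5)).imp cj_eq_bot.1
    fun e => by rw [← e, cj_cj_inv]

variable [Finite Γ]

theorem norms_Hc (hV : A ≤ N[V]) (hQ : A ≤ N[Q]) (h : ∀ g ∈ A, ∀ K ∈ Ω, cj g K ∈ Ω) : A ≤ N[Hc V Q Ω] :=
  fun g hg => mem_norm_of_cj_le (cj_Hc (hV hg) (hQ hg) (h g hg))

theorem ntrick (ab : IsMulCommutative W) (hN : N ≤ W) (h : ⁅W, A⁆ ≤ N) (h1 : P ≤ N[W]) (h2 : P ≤ N[N]) :
    ⁅W, ⁅P, A⁆⁆ ≤ N := by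
  rw [commGC, commGC P]
  exact three_mod (norm_of_commg_subl ((commSg _ hN).trans h)) h2 (sub_abelian_norm ab hN)
    ((commSg _ (commg_subr h1)).trans h) ((commSg _ h).trans (commg_subl h2))

variable [hq : Fact q.Prime]

theorem mem_of_le_Hc (hV : Abelem 2 V) (hQ : IsPGroup q Q) (q2 : q ≠ 2) (hn : Q ≤ N[V]) (hU : U ≤ Hc V Q Ω)
    (mU : MinNormal U Q) : Q ⊓ C[U] ∈ Ω := by
  obtain ⟨W, h1, h2⟩ := Maschke_abelem hV (p'group_of_ne hQ q2) (hU.trans Hc_le) hn mU.norm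
  obtain ⟨U', ⟨h3, h4, h5⟩, h6⟩ : ∃ U' ∈ {U | U ≤ V ∧ MinNormal U Q ∧ Q ⊓ C[U] ∈ Ω}, ¬ U' ≤ W := by
    by_contra! h
    exact mU.ne (eq_bot_iff.2 ((le_inf le_rfl (hU.trans (sSup_le h))).trans h1.inf.le))
  have nW := sub_abelian_norm hV.abelian h1.ler
  have k : ∀ {U₁ U₂}, U₁ ≤ V → V ≤ U₁ ⊔ W → U₂ ≤ V → U₂ ⊓ W = ⊥ → Q ≤ N[U₂] → Q ⊓ C[U₁] ≤ Q ⊓ C[U₂] :=
    fun a b c d e => le_inf inf_le_left (commG1'.1 (eq_bot_iff.2 ((le_inf (commg_subl (inf_le_left.trans e))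
      ((commSg _ (c.trans b)).trans (comm_sup_le (a.trans nW) (normG W) (by rw [commG1'.2 inf_le_right]; exact bot_le)
      (commg_subl (inf_le_left.trans h2))))).trans d.le)))
  have h7 := (h4.min _ inf_le_left (normsI h4.norm h2)).resolve_right (mt inf_eq_left.1 h6)
  have h8 := (mU.min _ inf_le_right (normsI (normsY h4.norm h2) mU.norm)).resolve_left fun e => h6 (by
    have := group_modr (A := U) (B := W) (H := U' ⊔ W) (.inl (h1.lel.trans nW)) le_sup_right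
    rw [e, bot_sup_eq, h1.sup, inf_eq_left.2 (sup_le h3 h1.ler)] at this
    exact le_sup_left.trans this.le)
  rwa [← le_antisymm (k h3 (h1.sup.ge.trans (sup_le (inf_eq_right.1 h8) le_sup_right)) h1.lel h1.inf mU.norm)
    (k h1.lel h1.sup.ge h3 h7 h4.norm)]

theorem cent_of_min (hV : IsPGroup 2 V) (ab : IsMulCommutative V) (hQ : IsPGroup q Q) (q2 : q ≠ 2) (hn : Q ≤ N[V])
    (hX : X ≤ Q) (nX : Q ≤ N[X]) (h : ∀ U ≤ V, MinNormal U Q → X ≤ C[U]) : X ≤ C[V] := by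
  by_contra ne
  obtain ⟨U, h1, h2⟩ := minnormal_exists (mt commG1'.1 ne) (normsR hn nX)
  exact h1.ne (eq_bot_iff.2 ((le_inf h2 (centsC.1 (h U (h2.trans (commg_subl (hX.trans hn))) h1))).trans
    (coprime_abel_cent_TI (hX.trans hn) (IsPGroup.coprime_card_of_ne _ _ q2.symm _ _ hV (hQ.to_le hX)) ab).le))

theorem perm (hV : Abelem 2 V) (hQ : IsPGroup q Q) (q2 : q ≠ 2) (hn : Q ≤ N[V]) (h0 : Hc V Q {K} ≠ ⊥) (n : ℕ) :
    ∀ {E W : Subgroup Γ}, IsPGroup 2 E → E ≤ N[V] → E ≤ N[Q] → Hc V Q {K} ≤ W → W ≤ V → E ≤ N[W] → ch n W E = ⊥ →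
      ∃ i k, n = i + k + 1 ∧ der i E ≤ N[K] ∧ ch (k + 1) (Hc V Q {K}) (der i E) = ⊥ := by
  induction n with
  | zero => exact fun _ _ _ h _ _ e => (h0 (eq_bot_iff.2 (h.trans e.le))).elim
  | succ n ih => ?_
  intro E W hE eV eQ h1 h2 h3 h4
  by_cases h : E ≤ N[K]
  · exact ⟨0, n, by omega, h, eq_bot_iff.2 ((ch_mono h1 le_rfl).trans h4.le)⟩
  obtain ⟨F, f1, f2⟩ := maxSub_exists (inf_lt_left.2 h)
  have f3 := (der1_sub_Phi (pgroup_nil hE)).trans (Phi_sub_max f2)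
  obtain ⟨s, s1, s2⟩ := SetLike.exists_of_lt f2.lt
  have l := f2.lt.le
  have n1 : F ≤ N[Hc V Q {L | ∃ e ∈ F, cj e K = L}] := norms_Hc (l.trans eV) (l.trans eQ) (by
    rintro g hg _ ⟨e, he, rfl⟩; exact ⟨_, mul_mem hg he, cj_mul ..⟩)
  have n2 : F ≤ N[Hc V Q {L | ∃ e ∈ E, e ∉ F ∧ cj e K = L}] := norms_Hc (l.trans eV) (l.trans eQ) (by
    rintro g hg _ ⟨e, he, he', rfl⟩
    exact ⟨_, mul_mem (l hg) he, mt (F.mul_mem_cancel_left hg).1 he', cj_mul ..⟩)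
  have n3 := f3.trans (normsI (l.trans h3) n1)
  obtain ⟨i, k, e, h5, h6⟩ := ih (hE.to_le (der_sub E)) ((der_sub E).trans eV) ((der_sub E).trans eQ)
    (W := W ⊓ Hc V Q {L | ∃ e ∈ F, cj e K = L})
    (le_inf h1 (sSup_le_sSup fun U h => ⟨h.1, h.2.1, 1, one_mem _, (cj_one K).trans h.2.2.symm⟩))
    (inf_le_left.trans h2) n3 (by_contra fun ne => by
      have t : ch n (W ⊓ Hc V Q {L | ∃ e ∈ F, cj e K = L}) ⁅E, E⁆ ≤ Hc V Q {L | ∃ e ∈ E, e ∉ F ∧ cj e K = L} := by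
        refine (ch_mono (W := ⁅W, E⁆ ⊔ _) (fun v hv => ?_) le_rfl).trans ((ch_sup hV.abelian ((commg_subl h3).trans h2)
          Hc_le ((der_sub E).trans eV)).trans (sup_le (h4.le.trans bot_le) (ch_le (f3.trans n2))))
        rw [show v = ⁅v, s⁆ * (s * v * s⁻¹) by rw [commutatorElement_def]; group]
        refine mul_mem_sup (commutator_mem_commutator hv.1 s1) (cj_Hc (eV s1) (eQ s1) ?_ (conj_mem_cj s hv.2))
        rintro _ ⟨e, he, rfl⟩
        exact ⟨_, mul_mem s1 (l he), mt (F.mul_mem_cancel_right he).1 s2, cj_mul ..⟩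
      obtain ⟨U, u1, u2⟩ := minnormal_exists (M := Q) (fun e => ne (eq_bot_iff.2 ((le_inf ((ch_le n3).trans inf_le_right)
          t).trans e.le))) (normsI norm_Hc norm_Hc)
      obtain ⟨e, he, k1⟩ := mem_of_le_Hc hV hQ q2 hn (u2.trans inf_le_left) u1
      obtain ⟨e', he', k2, k3⟩ := mem_of_le_Hc hV hQ q2 hn (u2.trans inf_le_right) u1
      exact k2 ((F.mul_mem_cancel_left (inv_mem he)).1 (f1 ⟨E.mul_mem (inv_mem (l he)) he', mem_norm.2 (by
        rw [cj_mul, k3, ← k1, cj_inv_cj])⟩)))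
  exact ⟨i + 1, k, by omega, der_succ' i E ▸ h5, der_succ' i E ▸ h6⟩

/-- A `2`-group `E` and a `q`-group `P` of class two acting on `W`, with `Z(P)` semiregular and centralized by `E`. -/
structure Cf (q : ℕ) (W P E : Subgroup Γ) : Prop where
  q2 : q ≠ 2
  ab : Abelem 2 W
  ne : W ≠ ⊥
  pP : IsPGroup q P
  pE : IsPGroup 2 E
  cl : ⁅P, P⁆ ≤ Z[P]
  PW : P ≤ N[W]
  EW : E ≤ N[W]
  EP : E ≤ N[P]
  EZ : E ≤ C[Z[P]]
  reg : Semiregular W Z[P]

theorem comp_reduce (hV : Abelem 2 V) (hQ : IsPGroup q Q) (q2 : q ≠ 2) (hZ : ⁅Q, Q⁆ ≤ Z[Q]) (hn : Q ≤ N[V]) (hU : U ≤ V)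
    (mU : MinNormal U Q) (hK : K = Q ⊓ C[U]) (hE : IsPGroup 2 E) (eV : E ≤ N[V]) (eQ : E ≤ N[Q]) (h : ch n V E = ⊥) :
    ∃ i k W, n = i + k + 1 ∧ der i E ≤ N[K] ∧ Cf q W (Q /ᵍ K) (der i E /ᵍ K) ∧ ch (k + 1) W (der i E /ᵍ K) = ⊥ := by
  have h0 : U ≤ Hc V Q {K} := le_sSup ⟨hU, mU, hK.symm⟩
  obtain ⟨i, k, rfl, h1, h2⟩ := perm hV hQ q2 hn (fun e => mU.ne (eq_bot_iff.2 (h0.trans e.le))) n hE eV eQ Hc_le le_rfl eV h
  have h3 : Hc V Q {K} ≤ C[K] := sSup_le fun U h => centsC.1 (h.2.2.ge.trans inf_le_right)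
  have h4 : der i E ≤ N[Hc V Q {K}] := norms_Hc ((der_le i).trans eV) ((der_le i).trans eQ) (by
    rintro g hg _ rfl; exact cj_of_norm (h1 hg))
  have qK : Q ≤ N[K] := hK ▸ normsI (normG Q) (norms_cent mU.norm)
  have cop : ∀ {A B}, A ≤ V → B ≤ Q → (#A).Coprime #B := fun h h' =>
    IsPGroup.coprime_card_of_ne _ _ q2.symm _ _ (hV.pg.to_le h) (hQ.to_le h')
  have ab := quotient_abelem K (abelemS (Hc_le (Q := Q) (Ω := {K})) hV)
  have ne := quotient_neq1 (cents_norm h3) fun e => mU.ne (eq_bot_iff.2 ((le_inf hU (h0.trans e)).trans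
    (coprime_TI (cop le_rfl (hK.le.trans inf_le_left))).le))
  have PW := quotient_norms K (norm_Hc (V := V) (Q := Q) (Ω := {K}))
  have reg : Semiregular (Hc V Q {K} /ᵍ K) Z[Q /ᵍ K] := fun z hz z1 => by
    obtain ⟨z, z2, z3, rfl⟩ := mem_quotient_iff.1 hz.1
    have z4 := zpowers_le.2 z2
    rw [← C_zpowers, ← quotient_zpowers z3, ← coprime_quotient_cent' (cents_norm h3) (z4.trans qK) (z4.trans norm_Hc)
      (cop Hc_le z4) (.inl (pgroup_sol (hQ.to_le z4)))]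
    refine quotientS1 (le_trans (le_of_eq (by_contra fun ne => ?_)) bot_le)
    obtain ⟨U', u1, u2⟩ := minnormal_exists (M := Q) ne (by
      rw [← inf_eq_left.2 h3, inf_assoc, ← cent_sup]
      refine normsI norm_Hc (norms_cent (norm_of_commg_subl (comm_sup_le (normsG le_sup_left)
        (normsG le_sup_right) ((commg_subl qK).trans le_sup_left) (le_trans ?_ le_sup_left))))
      rw [← quotient_cents2 (z4.trans qK) qK, quotient_zpowers z3]
      exact zpowers_le.2 hz.2)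
    exact z1 (coset_id ((mem_of_le_Hc hV hQ q2 hn (u2.trans inf_le_left) u1).le
      ⟨z2, centsC.1 (u2.trans inf_le_right) (mem_zpowers z)⟩))
  have cl : ⁅Q /ᵍ K, Q /ᵍ K⁆ ≤ Z[Q /ᵍ K] := (quotient_der qK).ge.trans ((quotientS K hZ).trans (morphim_center _ _))
  have EW := quotient_norms K h4
  have EP := quotient_norms K ((der_le i).trans eQ)
  have pE := (hE.to_le (der_le i)).quo K
  replace h2 : ch (k + 1) (Hc V Q {K} /ᵍ K) (der i E /ᵍ K) = ⊥ := by rw [← ch_quo (cents_norm h3) h1, h2, quotient_bot]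
  by_cases EZ : der i E /ᵍ K ≤ C[Z[Q /ᵍ K]]
  · exact ⟨i, k, _, rfl, h1, ⟨q2, ab, ne, hQ.quo K, pE, cl, PW, EW, EP, EZ, reg⟩, h2⟩
  have pP := hQ.quo K
  have e := quotient_der h1
  generalize Hc V Q {K} /ᵍ K = W, der i E /ᵍ K = F at *
  have zW := inf_le_left.trans PW (a := Z[Q /ᵍ K])
  have cz : ∀ {B}, B ≤ Z[Q /ᵍ K] → (#W).Coprime #B := fun h =>
    IsPGroup.coprime_card_of_ne _ _ q2.symm _ _ ab.pg (pP.to_le (h.trans inf_le_left))
  have cyc : IsCyclic Z[Q /ᵍ K] := by_contra fun h => ne (eq_bot_iff.2 (coprime_abelian_gen_cent1 (center_abelian _) h zW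
    (cz le_rfl) fun a ha a1 => (reg a ha a1).le))
  have c1 := der1_cent_cyclic cyc (norms_center EP)
  obtain ⟨N, n1, ⟨n2, n3⟩, n4⟩ := maxgroup_exists (P := fun N => N ≤ W ∧ ch k N ⁅F, F⁆ = ⊥) ⟨commg_subl EW, h2⟩
  have x1 := commg_subl (norms_center EP)
  have n5 : W ≤ N := by
    have := coprime_cent_prod (x1.trans zW) (cz x1) (pgroup_sol ab.pg)
    rw [cent_semiregular reg x1 (mt commG1'.1 EZ), sup_bot_eq] at this
    refine this.ge.trans (ntrick ab.abelian n2 n1 zW fun z hz => mem_norm_of_cj_le (le_sup_right.trans (n4 _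
      ⟨sup_le n2 (cj_le_of_norm (zW hz) n2), eq_bot_iff.2 ((ch_sup ab.abelian n2 (cj_le_of_norm (zW hz) n2)
        ((der_sub F).trans EW)).trans (sup_le n3.le ?_))⟩ le_sup_left).le))
    rw [← cj_of_cent (centsC.1 c1 hz), cj_def, cj_def, ← ch_map, n3, Subgroup.map_bot]
  replace n3 := eq_bot_iff.2 ((ch_mono n5 le_rfl).trans n3.le)
  obtain ⟨k, rfl⟩ := Nat.exists_eq_add_of_le' (Nat.pos_of_ne_zero (n := k) (by rintro rfl; exact ne n3))
  rw [← e] at n3 c1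
  exact ⟨i + 1, k, W, by omega, (der_sub _).trans h1, ⟨q2, ab, ne, pP, pE.to_le (e.le.trans (der_sub F)), cl, PW,
    e.le.trans ((der_sub F).trans EW), e.le.trans ((der_sub F).trans EP), c1, reg⟩, n3⟩

theorem abel_cent (hV : Abelem 2 V) (hL : IsPGroup q L) (q2 : q ≠ 2) (ab : IsMulCommutative L) (hn : L ≤ N[V])
    (hE : IsPGroup 2 E) (eV : E ≤ N[V]) (eL : E ≤ N[L]) (h : ch 2 V E = ⊥) : ⁅L, ⁅E, E⁆⁆ ≤ C[V] := by
  have x1 := commg_subl ((der_sub E).trans eL)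
  refine cent_of_min hV.pg hV.abelian hL q2 hn x1 (sub_abelian_norm ab x1) fun U hU mU => ?_
  obtain ⟨i, k, W, e, h1, h2, -⟩ := comp_reduce hV hL q2 (by rw [der1_eq_bot.2 ab]; exact bot_le) hn hU mU rfl hE eV eL h
  have h3 : ⁅E, E⁆ ≤ der i E := by
    obtain rfl | rfl : i = 0 ∨ i = 1 := by omega
    exacts [der_sub E, le_rfl]
  have h4 := h2.EZ
  rw [center_eq_of_abelian (quotient_abelian _ ab), centsC, quotient_cents2 (sub_abelian_norm ab inf_le_left) h1] at h4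
  exact (commgS _ h3).trans (h4.trans inf_le_right)

namespace Cf

theorem cop (h : Cf q W P E) (hA : A ≤ P) (hB : IsPGroup 2 B) : (#A).Coprime #B :=
  IsPGroup.coprime_card_of_ne _ _ h.q2 _ _ (h.pP.to_le hA) hB

theorem eq_bot (h : Cf q W P E) (hX : X ≤ P) (nX : P ≤ N[X]) (hV : V ≤ W) (h0 : V ≠ ⊥) (hc : X ≤ C[V]) : X = ⊥ :=
  TI_center_nil (pgroup_nil h.pP) ⟨hX, nX⟩ (by_contra fun ne => h0 (eq_bot_iff.2 ((le_inf hV (centsC.1
    (inf_le_left.trans hc))).trans (cent_semiregular h.reg inf_le_right ne).le)))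

theorem prod (h : Cf q W P E) (hA : A ≤ E) : ⁅P, A⁆ ⊔ (P ⊓ C[A]) = P :=
  coprime_cent_prod (hA.trans h.EP) (h.cop le_rfl (h.pE.to_le hA)) (pgroup_sol h.pP)

theorem comm (h : Cf q W P E) (hA : A ≤ E) : ⁅P, A⁆ ≤ C[P ⊓ C[A]] := commG1.1 (by
  rw [commGC P]
  exact three_subgroup (commG1.2 (((commgS _ inf_le_left).trans h.cl).trans (centsC.1 (hA.trans h.EZ))))
    (by rw [commG1.2 inf_le_right, commutator_bot_left]))

theorem norm_cent (h : Cf q W P E) (hA : A ≤ E) : P ≤ N[P ⊓ C[A]] :=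
  (h.prod hA).ge.trans (sup_le (cents_norm (h.comm hA)) (normG _))

theorem sub (h : Cf q W P E) (h1 : V ≤ W) (h0 : V ≠ ⊥) (h2 : Q ≤ P) (h3 : P ≤ Q ⊔ C[Q]) (h4 : F ≤ E) (n1 : Q ≤ N[V])
    (n2 : F ≤ N[V]) (n3 : F ≤ N[Q]) : Cf q V Q F :=
  have hZ : Z[Q] ≤ Z[P] := le_inf (inf_le_left.trans h2) (centsC.1 (h3.trans (sup_le (le_cent_center Q)
    (centS inf_le_left))))
  ⟨h.q2, abelemS h1 h.ab, h0, h.pP.to_le h2, h.pE.to_le h4, le_inf (der_sub Q) ((dergS h2).trans (h.cl.trans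
    (inf_le_right.trans (centS h2)))), n1, n2, n3, h4.trans (h.EZ.trans (centS hZ)), semiregularS h1 hZ h.reg⟩

theorem subc (h : Cf q W P E) (hA : A ≤ E) (h1 : V ≤ W) (h0 : V ≠ ⊥) (h4 : F ≤ E) (n1 : P ⊓ C[A] ≤ N[V]) (n2 : F ≤ N[V])
    (n3 : F ≤ N[A]) : Cf q V (P ⊓ C[A]) F :=
  h.sub h1 h0 inf_le_left ((h.prod hA).ge.trans (sup_le (le_sup_of_le_right (h.comm hA)) le_sup_left)) h4 n1 n2
    (normsI (h4.trans h.EP) (norms_cent n3))

theorem faith (h : Cf q W P E) (hf : E ⊓ C[P] = ⊥) (hx : x ∈ E) (hc : x ∈ C[W]) : x = 1 :=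
  have e := zpowers_le.2 hx
  mem_bot.1 (hf.le ⟨hx, zpowers_le.1 (commG1'.1 (h.eq_bot (commg_subl (e.trans h.EP)) (commg_norml _ _) le_rfl h.ne
    ((commgS _ (zpowers_le.2 hc)).trans (commg_subr (norms_cent h.PW)))))⟩)

theorem gen (h : Cf q W P E) (hA : A ≤ E) (h0 : ¬ A ≤ C[P]) (hV : V ≤ W) (n1 : P ≤ N[V]) (hg : g ∈ C[P])
    (h1 : g ∈ C[⁅V, A⁆]) (n2 : A ≤ N[V]) : g ∈ C[V] := by
  have x1 := commg_subl (hA.trans h.EP)
  have pV := h.ab.pg.to_le hV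
  have := coprime_cent_prod (x1.trans n1) (h.cop x1 pV).symm (pgroup_sol pV)
  rw [show V ⊓ C[⁅P, A⁆] = ⊥ from by_contra fun ne => h0 (commG1'.1 (h.eq_bot x1 (commg_norml _ _)
    (inf_le_left.trans hV) ne (centsC.1 inf_le_right))), sup_bot_eq] at this
  exact le_cent1_iff.1 (this.ge.trans ((ntrick (abelianS hV h.ab.abelian) inf_le_left (le_inf (commg_subl n2)
    (le_cent1_iff.2 h1)) n1 (normsI n1 (norms_cent1 (le_cent1_iff.2 hg)))).trans inf_le_right))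

theorem quo (h : Cf q W P E) (h0 : P ≠ ⊥) (hN : N = E ⊓ C[P]) :
    Cf q ((W ⊓ C[N]) /ᵍ N) (P /ᵍ N) (E /ᵍ N) ∧ E /ᵍ N ⊓ C[P /ᵍ N] = ⊥ ∧ E ≤ N[N] ∧ P ≤ N[N] := by
  have n1 : E ≤ N[N] := hN ▸ normsI (normG _) (norms_cent h.EP)
  have c2 : P ≤ C[N] := centsC.1 (hN ▸ inf_le_right)
  have n2 := cents_norm c2
  have pN := h.pE.to_le (hN.le.trans inf_le_left)
  have t := coprime_TI (h.cop le_rfl pN)
  have e := quotient_TI_subcent n2 n2 (normG P) t
  have n3 : W ⊓ C[N] ≤ N[N] := cents_norm inf_le_right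
  have n4 : P ≤ N[W ⊓ C[N]] := normsI h.PW (norms_cent n2)
  refine ⟨⟨h.q2, quotient_abelem _ (abelemS inf_le_left h.ab), quotient_neq1 n3 fun l => h0 (h.eq_bot le_rfl (normG _)
    inf_le_left (pgroup_cent_ne_bot pN h.ab.pg (hN.le.trans (inf_le_left.trans h.EW)) h.ne)
    (c2.trans (centS l))), h.pP.quo N, h.pE.quo N, (quotient_der n2).ge.trans ((quotientS N h.cl).trans e.le),
    quotient_norms _ n4, quotient_norms _ (normsI h.EW (norms_cent n1)), quotient_norms _ h.EP,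
    e ▸ quotient_cents _ h.EZ, fun z hz z1 => ?_⟩, eq_bot_iff.2 fun b hb => ?_, n1, n2⟩
  · obtain ⟨z, z2, z3, rfl⟩ := mem_quotient_iff.1 (e.ge hz)
    have z4 := zpowers_le.2 z2.1
    rw [← C_zpowers, ← quotient_zpowers z3, ← coprime_quotient_cent' n3 (z4.trans n2) (z4.trans n4)
      (h.cop z4 (h.ab.pg.to_le inf_le_left)).symm (.inl (pgroup_sol (h.pP.to_le z4))), C_zpowers]
    exact quotientS1 ((inf_le_inf_right _ inf_le_left).trans ((h.reg z z2 (by rintro rfl; exact z1 (coset_one _))).le.trans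
      bot_le))
  obtain ⟨b, h1, h2, rfl⟩ := mem_quotient_iff.1 hb.1
  refine coset_id (hN ▸ ⟨h1, zpowers_le.1 (cent_of_quo (zpowers_le.2 (h.EP h1)) (zpowers_le.2 h2) (centsC.1 c2) t ?_)⟩)
  rw [quotient_zpowers h2]
  exact zpowers_le.2 hb.2

end Cf

end Cfsg.Agent.Sig.HH
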