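import Cfsg.Agent.Sig.DL1

/-! The exceptional case of `[W, E, E'] = 1` (`HH.Cf.q8`: `E` acts like `Q₈`) and the absence of exceptional cases
at higher levels (`HH.Cf.high`); summary `HH.Cf.ham`. -/

set_option linter.dupNamespace false
set_option linter.unusedSectionVars false
set_option linter.unusedVariables false

namespace Cfsg.Agent.Sig.HH
open Subgroup Cfsg.Agent.BG
open scoped commutatorElement

universe u
variable {Γ : Type*} [Group Γ] {A B D E F H K L M N P Q S U V W X Y : Subgroup Γ} {a b e g r s t v w x y z : Γ}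
  {p q k m n : ℕ}

theorem mem_zp2 (h : z ^ 2 = 1) : t ∈ zpowers z ↔ t = 1 ∨ t = z := by
  refine ⟨?_, by rintro (rfl | rfl) <;> simp⟩
  rintro ⟨k, rfl⟩
  obtain ⟨m, rfl | rfl⟩ := Int.even_or_odd' k <;> simp [zpow_add, zpow_mul, zpow_two, ← sq, h]

theorem exists_pow_invol (h : y ^ 2 ^ n = 1) (h1 : y ≠ 1) : ∃ i, y ^ 2 ^ i ≠ 1 ∧ (y ^ 2 ^ i) ^ 2 = 1 := by
  induction n with
  | zero => exact (h1 (by simpa using h)).elim
  | succ n ih => exact (em _).elim ih fun e => ⟨n, e, by rwa [← pow_mul, ← pow_succ]⟩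

theorem sq_cent (ab : Abelem 2 W) (hx : x ∈ N[W]) (h : x ∈ C[⁅W, zpowers x⁆]) : x ^ 2 ∈ C[W] := mem_cent.2 fun w hw => by
  have m := commutator_mem_commutator (inv_mem hw) (mem_zpowers x)
  have h1 := ab.pow (commg_subl (zpowers_le.2 hx) m)
  calc w * x ^ 2 = w * ⁅w⁻¹, x⁆ ^ 2 * x ^ 2 := by rw [h1, mul_one]
    _ = w * ⁅w⁻¹, x⁆ * (⁅w⁻¹, x⁆ * x) * x := by rw [sq, sq]; group
    _ = _ := by rw [mem_cent.1 h _ m, commutatorElement_def, sq]; group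

theorem comm_of_comm_eq (h : ⁅a, e⁆ = ⁅a, b⁆) : Commute a (b⁻¹ * e) := by
  rw [commute_iff_eq, show a * (b⁻¹ * e) = a * b⁻¹ * a⁻¹ * ⁅a, e⁆ * e * a by rw [commutatorElement_def]; group, h,
    commutatorElement_def]
  group

variable [Finite Γ]

theorem not_cyclic (ht : t ∈ F) (hz : z ∈ F) (t2 : t ^ 2 = 1) (z2 : z ^ 2 = 1) (t1 : t ≠ 1) (z1 : z ≠ 1) (h : t ≠ z) :
    ¬ IsCyclic F := fun hc => ((mem_zp2 z2).1 ((eq_subG_cyclic hc (zpowers_le.2 ht) (zpowers_le.2 hz) (by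
  rw [Nat.card_zpowers, Nat.card_zpowers, orderOf_eq_prime t2 t1, orderOf_eq_prime z2 z1])).le (mem_zpowers t))).elim t1 h

/-- `S` is a quaternion group with involution `z`. -/
structure Q8L (S : Subgroup Γ) (z : Γ) : Prop where
  zS : z ∈ Z[S]
  z1 : z ≠ 1
  z2 : z ^ 2 = 1
  uniq : ∀ y ∈ S, y ^ 2 = 1 → y ∈ zpowers z
  der : ⁅S, S⁆ ≤ zpowers z
  cen : ∀ y ∈ Z[S], y ^ 2 = 1

theorem Q8L.sq (h : Q8L S z) (hy : y ∈ S) (h1 : y ∉ zpowers z) : y ^ 2 = z := by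
  refine ((mem_zp2 h.z2).1 (h.uniq _ (pow_mem hy 2) (h.cen _ ⟨pow_mem hy 2, mem_cent.2 fun b hb => ?_⟩))).resolve_left
    (mt (h.uniq y hy) h1)
  have c := h.der (commutator_mem_commutator hb hy)
  have c1 := mem_cent.1 ((zpowers_le.2 h.zS.2) c) y hy
  have c2 : ⁅b, y⁆ ^ 2 = 1 := by rcases (mem_zp2 h.z2).1 c with e | e <;> simp [e, h.z2]
  calc b * y ^ 2 = ⁅b, y⁆ * (y * ⁅b, y⁆) * y * b := by rw [commutatorElement_def, _root_.sq]; group
    _ = ⁅b, y⁆ ^ 2 * y ^ 2 * b := by rw [c1, _root_.sq, _root_.sq]; group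
    _ = _ := by rw [c2, one_mul]

theorem cent_mem (hE : IsPGroup 2 E) (hz : z ∈ Z[E]) (z2 : z ^ 2 = 1) (hu : ∀ y ∈ E, y ^ 2 = 1 → y ∈ zpowers z)
    (ha : a ∈ E) (hb : b ∈ E) (h : ¬ Commute a b) (a2 : a ^ 2 ∈ zpowers z) (he : e ∈ E) (h1 : Commute a e)
    (h2 : Commute b e) : e ∈ zpowers z := by
  have k : ∀ y ∈ E, y ^ 2 = 1 → Commute y b := fun y hy h => (mem_cent.1 (zpowers_le.2 hz.2 (hu y hy h)) b hb).symm
  refine hu e he (by_contra fun ne => h ?_)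
  obtain ⟨n, hn⟩ := hE ⟨e, he⟩
  obtain ⟨i, h3, h4⟩ := exists_pow_invol (n := n) (by
    rw [← pow_mul, mul_comm, pow_mul, show e ^ 2 ^ n = 1 from congrArg Subtype.val hn, one_pow]) ne
  replace h4 := ((mem_zp2 z2).1 (hu _ (pow_mem (pow_mem he _) _) h4)).resolve_left h3
  have := k _ (mul_mem ha (pow_mem he (2 ^ i))) (by
    rw [(h1.pow_right _).mul_pow, ((mem_zp2 z2).1 a2).resolve_left (mt (k a ha) h), ← pow_mul, mul_comm _ 2, pow_mul, h4,
      ← sq, z2])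
  simpa using this.mul_left (h2.symm.pow_left (2 ^ i)).inv_left

theorem q8_mem (hE : IsPGroup 2 E) (hz : z ∈ Z[E]) (z1 : z ≠ 1) (z2 : z ^ 2 = 1)
    (hu : ∀ y ∈ E, y ^ 2 = 1 → y ∈ zpowers z) (ha : a ∈ E) (hb : b ∈ E) (h : ⁅a, b⁆ = z) (a2 : a ^ 2 = z) (he : e ∈ E)
    (h1 : ⁅a, e⁆ ∈ zpowers z) (h2 : ⁅b, e⁆ ∈ zpowers z) :
    e ∈ zpowers z ∨ a⁻¹ * e ∈ zpowers z ∨ b⁻¹ * e ∈ zpowers z ∨ (a * b)⁻¹ * e ∈ zpowers z := by
  have k : ∀ c ∈ E, ⁅a, e⁆ = ⁅a, c⁆ → ⁅b, e⁆ = ⁅b, c⁆ → c⁻¹ * e ∈ zpowers z := fun c hc h1 h2 =>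
    cent_mem hE hz z2 hu ha hb (fun c => z1 (h ▸ commutatorElement_eq_one_iff_commute.2 c)) (a2 ▸ mem_zpowers _)
      (mul_mem (inv_mem hc) he) (comm_of_comm_eq h1) (comm_of_comm_eq h2)
  have h' : ⁅b, a⁆ = z := by rw [← commutatorElement_inv, h, inv_eq_iff_mul_eq_one, ← sq, z2]
  rcases (mem_zp2 z2).1 h1 with h1 | h1 <;> rcases (mem_zp2 z2).1 h2 with h2 | h2
  · exact .inl (by simpa using k 1 (one_mem _) (by simp [h1]) (by simp [h2]))
  · exact .inr (.inl (k a ha (by simp [h1]) (h2.trans h'.symm)))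
  · exact .inr (.inr (.inl (k b hb (h1.trans h.symm) (by simp [h2]))))
  refine .inr (.inr (.inr (k _ (mul_mem ha hb) ?_ ?_)))
  · rw [h1, show ⁅a, a * b⁆ = a * ⁅a, b⁆ * a⁻¹ by simp only [commutatorElement_def]; group, h, mem_cent.1 hz.2 a ha]
    group
  · rw [h2, ← h']; simp only [commutatorElement_def]; group

theorem q8l_mk (hS : IsPGroup 2 S) (hz : z ∈ Z[S]) (z1 : z ≠ 1) (z2 : z ^ 2 = 1)
    (hu : ∀ y ∈ S, y ^ 2 = 1 → y ∈ zpowers z) (hd : ⁅S, S⁆ ≤ zpowers z) (h0 : ⁅S, S⁆ ≠ ⊥) : Q8L S z := by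
  have zc := hd.trans (zpowers_le.2 hz.2)
  have cyc : IsCyclic Z[S] := (pgroup_rank1_cyclic (hS.to_le inf_le_left) (.inr (center_abelian S))).1
    (p_rank_le fun _ n A h => (Nat.pow_le_pow_iff_right one_lt_two).1 (h.card ▸ (card_le_card fun y hy =>
      hu y (h.le hy).1 (h.abelem.pow hy)).trans (by rw [Nat.card_zpowers, orderOf_eq_prime z2 z1, pow_one])))
  have s : ∀ y ∈ S, zpowers (y ^ 2) ≤ Z[S] := fun y hy => zpowers_le.2 ⟨pow_mem hy 2, mem_cent.2 fun b hb => by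
    have c := commutator_mem_commutator hb hy
    have c2 : ⁅b, y⁆ ^ 2 = 1 := by rcases (mem_zp2 z2).1 (hd c) with e | e <;> simp [e, z2]
    calc b * y ^ 2 = ⁅b, y⁆ * (y * ⁅b, y⁆) * y * b := by rw [commutatorElement_def, sq]; group
      _ = ⁅b, y⁆ ^ 2 * y ^ 2 * b := by rw [mem_cent.1 (zc c) y hy, sq, sq]; group
      _ = _ := by rw [c2, one_mul]⟩
  obtain ⟨a, ha, b, hb, h1⟩ : ∃ a ∈ S, ∃ b ∈ S, ¬ Commute a b := by
    by_contra! h
    exact h0 (commG1.2 (le_cent_iff.2 h))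
  wlog h2 : #(zpowers (b ^ 2)) ∣ #(zpowers (a ^ 2)) generalizing a b
  · obtain ⟨i, hi⟩ := (hS.to_le ((s a ha).trans inf_le_left)).exists_card_eq
    obtain ⟨j, hj⟩ := (hS.to_le ((s b hb).trans inf_le_left)).exists_card_eq
    rw [hi, hj] at h2
    exact this b hb a ha (fun c => h1 c.symm) (by
      rw [hi, hj]; exact pow_dvd_pow _ (le_of_not_ge (mt (pow_dvd_pow _) h2)))
  obtain ⟨k, hk⟩ := cardSg_cyclic cyc (s b hb) (s a ha) h2 (mem_zpowers _)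
  have m := zpow_mem ha k
  refine ⟨hz, z1, z2, hu, hd, fun y hy => ?_⟩
  have := cent_mem hS hz z2 hu (mul_mem hb (inv_mem m)) ha (fun c => h1 (by
      simpa using (c.mul_left (Commute.zpow_self a k)).symm)) (by
      have e : b ^ 2 = (a ^ k) ^ 2 := by rw [← hk, sq, sq]; exact (Commute.refl a).mul_zpow k
      rw [show (b * (a ^ k)⁻¹) ^ 2 = b ^ 2 * ⁅b⁻¹, (a ^ k)⁻¹⁆ * ((a ^ k) ^ 2)⁻¹ by rw [commutatorElement_def, sq, sq, sq]; group,
        mem_cent.1 (zc (commutator_mem_commutator (inv_mem hb) (inv_mem m))) _ (pow_mem hb 2), e, mul_inv_cancel_right]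
      exact hd (commutator_mem_commutator (inv_mem hb) (inv_mem m))) hy.1 (mem_cent.1 hy.2 _ (mul_mem hb (inv_mem m)))
      (mem_cent.1 hy.2 _ ha)
  rcases (mem_zp2 z2).1 this with e | e <;> simp [e, z2]

theorem small (hH : IsPGroup 2 H) (h1 : ∀ e ∈ H, ∀ e' ∈ H, e ∉ K → e' ∉ K → e * e' ∈ K) (hs : s ∈ H) (s1 : s ∉ K)
    (ha : a ∈ C[H]) (a1 : a ≠ 1) (a2 : a ^ 2 = 1) (b1 : b ≠ 1) (b2 : b ^ 2 = 1) (ab : b ≠ a) (ha' : a ∈ ⁅H, H⁆)
    (hb : b ∈ ⁅H, H⁆) (h2 : ⁅H, H⁆ ≤ K ⊓ C1[b])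
    (h3 : ∀ e ∈ H, e ∈ K → e ∈ C1[b] → e = 1 ∨ e = a ∨ e = b ∨ e = a * b) : False := by
  have l := der_sub H
  have d : ∀ e ∈ H, e ∈ K → e ∈ C1[b] → e ∈ ⁅H, H⁆ := fun e h h' h'' => by
    rcases h3 e h h' h'' with rfl | rfl | rfl | rfl
    exacts [one_mem _, ha', hb, mul_mem ha' hb]
  have k1 : ∀ e ∈ H, e ∉ C1[b] → e * b * e⁻¹ = a * b := fun e he h => by
    have m := (der_normal H).conj_mem he hb
    rcases h3 _ (l m) (h2 m).1 (h2 m).2 with c | c | c | c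
    · exact (b1 (by simpa using c)).elim
    · rw [mul_inv_eq_iff_eq_mul, ← mem_cent.1 ha e he, mul_right_inj] at c; exact (ab c).elim
    · exact (h (mem_cent1.2 (mul_inv_eq_iff_eq_mul.1 c))).elim
    · exact c
  have k2 : ∀ e ∈ H, ∀ e' ∈ H, e ∉ C1[b] → e' ∉ C1[b] → e * e' ∈ C1[b] := fun e he e' he' h h' => mem_cent1.2 (by
    calc e * e' * b = e * (e' * b * e'⁻¹) * e' := by group
      _ = e * a * e⁻¹ * (e * b * e⁻¹) * e * e' := by rw [k1 e' he' h']; group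
      _ = a ^ 2 * b * (e * e') := by rw [k1 e he h, mem_cent.1 ha e he, sq]; group
      _ = _ := by rw [a2, one_mul])
  obtain ⟨r, hr, s, hs, c1, c2, c3⟩ : ∃ r ∈ H, ∃ s ∈ H, Commute s ⁅s, r⁆ ∧ Commute s (r ^ 2) ∧
      H ≤ closure {r, s} ⊔ ⁅H, H⁆ := by
    by_cases h : H ⊓ K ≤ C1[b]
    · refine ⟨1, one_mem _, s, hs, by simp, by simp, fun e he => ?_⟩
      by_cases h' : e ∈ K
      · exact mem_sup_right (d e he h' (h ⟨he, h'⟩))
      have m := h1 e he s hs h' s1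
      simpa using mul_mem (mem_sup_right (d _ (mul_mem he hs) m (h ⟨mul_mem he hs, m⟩)))
        (inv_mem (mem_sup_left (subset_closure (by simp) : s ∈ closure {1, s})))
    obtain ⟨r, ⟨r1, r2⟩, r3⟩ := SetLike.not_le_iff_exists.1 h
    wlog s2 : s ∈ C1[b] generalizing s
    · exact this (mul_mem hs r1) (mt (K.mul_mem_cancel_right r2).1 s1) (k2 s hs r r1 s2 r3)
    have c : ∀ e ∈ H, e ∈ K → e ∈ C1[b] → Commute s e := fun e h h' h'' => by
      have c1 : Commute s a := mem_cent.1 ha s hs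
      have c2 : Commute s b := mem_cent1.1 s2
      rcases h3 e h h' h'' with rfl | rfl | rfl | rfl
      exacts [Commute.one_right s, c1, c2, c1.mul_right c2]
    have m := commutator_mem_commutator hs r1
    have k3 : ∀ e ∈ H, e ∈ K → e ∈ closure {r, s} ⊔ ⁅H, H⁆ := fun e he h' => by
      by_cases h'' : e ∈ C1[b]
      · exact mem_sup_right (d e he h' h'')
      simpa using mul_mem (mem_sup_right (d _ (mul_mem he r1) (mul_mem h' r2) (k2 e he r r1 h'' r3)))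
        (inv_mem (mem_sup_left (subset_closure (by simp) : r ∈ closure {r, s})))
    refine ⟨r, r1, s, hs, c _ (l m) (h2 m).1 (h2 m).2, c _ (pow_mem r1 2) (pow_mem r2 2) (sq r ▸ k2 r r1 r r1 r3 r3),
      fun e he => (em _).elim (k3 e he) fun h' => ?_⟩
    simpa using mul_mem (k3 _ (mul_mem he hs) (h1 e he s hs h' s1))
      (inv_mem (mem_sup_left (subset_closure (by simp) : s ∈ closure {r, s})))
  have e := Phi_nongen ((closure_le H).2 (by rintro _ (rfl | rfl) <;> assumption))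
    (c3.trans (sup_le_sup_left (der1_sub_Phi (pgroup_nil hH)) _))
  refine not_cyclic hb ha' b2 a2 b1 a1 ab (cyclicS (B := zpowers ⁅s, r⁆) ?_ inferInstance)
  rw [← e]
  refine comm_closure_le ((closure_le _).2 ?_) ?_
  · refine Set.insert_subset (mem_norm_of_cj_le ?_) (Set.singleton_subset_iff.2 (cent1_le_norm_zpowers _ (mem_cent1.2 c1)))
    rw [cj_zpowers, zpowers_le, show r * ⁅s, r⁆ * r⁻¹ = r * s * r⁻¹ * (r ^ 2 * s⁻¹ * (r ^ 2)⁻¹) by
      rw [commutatorElement_def, sq]; group, c2.inv_left.symm.eq, mul_inv_cancel_right, ← commutatorElement_def,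
      ← commutatorElement_inv s r]
    exact inv_mem (mem_zpowers _)
  have := inv_mem (mem_zpowers ⁅s, r⁆)
  rw [commutatorElement_inv] at this
  rintro _ (rfl | rfl) _ (rfl | rfl)
  exacts [by simp, this, mem_zpowers _, by simp]

variable [hq : Fact q.Prime]

theorem Cf.four (h : Cf q W P E) (ht : t ∈ E) (hz : z ∈ E) (c : Commute t z) (t2 : t ^ 2 = 1) (z2 : z ^ 2 = 1)
    (t1 : t ≠ 1) (z1 : z ≠ 1) (tz : t ≠ z) (h1 : P ⊓ C[zpowers t] ≤ L) (h2 : P ⊓ C[zpowers z] ≤ L)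
    (h3 : P ⊓ C[zpowers (t * z)] ≤ L) : P ≤ L := by
  have l := sup_le (zpowers_le.2 ht) (zpowers_le.2 hz)
  have c' : zpowers t ≤ C[zpowers z] := zpowers_le.2 (C_zpowers z ▸ mem_cent1.2 c)
  refine coprime_abelian_gen_cent1 (abelianY (abelian_zpowers t) (abelian_zpowers z) c') (not_cyclic
    (mem_sup_left (mem_zpowers t)) (mem_sup_right (mem_zpowers z)) t2 z2 t1 z1 tz) (l.trans h.EP)
    (h.cop le_rfl (h.pE.to_le l)) fun a ha a1 => ?_
  obtain ⟨b, hb, e, he, rfl⟩ := (mem_sup_normr (cents_norm c')).1 ha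
  rw [← C_zpowers]
  rcases (mem_zp2 t2).1 hb with rfl | rfl <;> rcases (mem_zp2 z2).1 he with rfl | rfl <;> simp_all

theorem Cf.q8 (h : Cf q W P E) (hf : E ⊓ C[P] = ⊥) (hc : ch 2 W E = ⊥) (hz : z ∈ ⁅E, E⁆) (z1 : z ≠ 1) : Q8L E z := by
  replace hc : ⁅W, E⁆ ≤ C[⁅E, E⁆] := commG1.1 hc
  obtain ⟨y, ⟨y1, y2⟩, y3, y4⟩ := exists_central h.pE (der_normal E) fun e => z1 (mem_bot.1 (e.le hz))
  rw [pow_one] at y4
  have yE := zpowers_le.2 y2.1
  have k : ∀ a ∈ E, a ≠ 1 → P ⊓ C[zpowers a] ≤ C[zpowers y] := fun a ha a1 => by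
    have aE := zpowers_le.2 ha
    have x1 := commg_subl (normsI (yE.trans h.EP) (norms_cent (cents_norm ((zpowers_le.2 y2.2).trans (centS aE)))))
    exact commG1.1 (h.eq_bot (x1.trans inf_le_left) ((h.prod aE).ge.trans (sup_le (cents_norm ((h.comm aE).trans (centS x1)))
      (commg_norml _ _))) (commg_subl (aE.trans h.EW)) (fun e => a1 (h.faith hf ha (commG1'.1 e (mem_zpowers a))))
      ((commgS _ (centsC.1 (((commgS _ aE).trans hc).trans (centS (zpowers_le.2 y1))))).trans (commg_subr (norms_cent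
      (normsR (inf_le_left.trans h.PW) (cents_norm inf_le_right))))))
  have u : ∀ t ∈ E, t ^ 2 = 1 → t ∈ zpowers y := fun t ht t2 => by
    by_contra ne
    rw [mem_zp2 y4, not_or] at ne
    exact y3 (mem_bot.1 (hf.le ⟨y2.1, centsC.1 (h.four ht y2.1 (mem_cent.1 y2.2 t ht) t2 y4 ne.1 y3 ne.2 (k t ht ne.1)
      inf_le_right (k _ (mul_mem ht y2.1) fun e => ne.2 (by rw [eq_inv_of_mul_eq_one_left e, inv_eq_iff_mul_eq_one, ← sq, y4])))
      (mem_zpowers y)⟩))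
  have d : ⁅E, E⁆ ≤ zpowers y := fun a ha => u a (der_sub E ha) (h.faith hf (pow_mem (der_sub E ha) 2)
    (sq_cent h.ab (h.EW (der_sub E ha)) (centsC.1 ((commgS _ (zpowers_le.2 (der_sub E ha))).trans hc) ha)))
  obtain rfl := ((mem_zp2 y4).1 (d hz)).resolve_left z1
  exact q8l_mk h.pE y2 y3 y4 u d fun e => z1 (mem_bot.1 (e.le hz))

/-- The faithful case with a central involution `z` inverting `P / Z(P)`. -/
structure Mc (q : ℕ) (W P E : Subgroup Γ) (z : Γ) : Prop extends Cf q W P E where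
  hf : E ⊓ C[P] = ⊥
  zZ : z ∈ Z[E]
  z1 : z ≠ 1
  z2 : z ^ 2 = 1
  zP : P ⊓ C[zpowers z] ≤ Z[P]

theorem Mc.nz (h : Mc q W P E z) (ht : t ∈ E) (t2 : t ^ 2 = 1) (t1 : t ∉ zpowers z) : z ∉ C[P ⊓ C[zpowers t]] := fun c => by
  rw [mem_zp2 h.z2, not_or] at t1
  have m := zpowers_le.2 (mul_mem ht h.zZ.1)
  have l := h.zP.trans (centsC.1 (m.trans h.EZ))
  have := mem_bot.1 (h.hf.le ⟨m (mem_zpowers _), centsC.1 (h.four ht h.zZ.1 (mem_cent.1 h.zZ.2 t ht) t2 h.z2 t1.1 h.z1 t1.2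
    ((le_inf inf_le_left (centsC.1 (zpowers_le.2 c))).trans l) l inf_le_right) (mem_zpowers _)⟩)
  exact t1.2 (by rw [eq_inv_of_mul_eq_one_left this, inv_eq_iff_mul_eq_one, ← sq, h.z2])

theorem Mc.uniq (h : Mc q W P E z) (hS : S ≤ E) (hc : ch 2 W S = ⊥) (hz : z ∈ ⁅S, S⁆) (hr : r ∈ E) (r2 : r ^ 2 = 1) :
    r ∈ zpowers z := by
  by_contra ne
  have zE := zpowers_le.2 h.zZ.1
  have zc := zpowers_le.2 h.zZ.2
  have odd : ∀ a ∈ P, z * a * z⁻¹ = a⁻¹ → a ∈ C[zpowers z] → a = 1 := fun a ha h1 h2 => by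
    rw [mem_cent.1 h2 z (mem_zpowers z), mul_inv_cancel_right, eq_inv_iff_mul_eq_one, ← sq] at h1
    exact mem_bot.1 ((coprime_TI (h.cop le_rfl (pg_zpowers (n := 1) h1))).le ⟨ha, mem_zpowers a⟩)
  have c0 : ⁅W, zpowers z⁆ ≤ C[S] := commG1.1 (by
    rw [commGC W]
    exact three_subgroup (eq_bot_iff.2 ((commgS _ (zpowers_le.2 hz)).trans hc.le))
      (by rw [commG1'.2 (zc.trans (centS hS)), commutator_bot_left]))
  have k : ∀ a ∈ P, a ≠ 1 → z * a * z⁻¹ = a⁻¹ → W ⊓ C1[a] ≤ C[zpowers z] := fun a ha a1 h1 => by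
    by_contra ne
    have v1 : ⁅W ⊓ C1[a], zpowers z⁆ ≤ W ⊓ C1[a] := commg_subl (normsI (zE.trans h.EW) (C_zpowers a ▸ norms_cent
      (zpowers_le.2 (mem_norm_of_cj_le (by rw [cj_zpowers, h1, zpowers_inv])))))
    have v2 := (commSg _ (inf_le_left (b := C1[a]))).trans c0
    have v0 := mt commG1.1 ne
    generalize ⁅W ⊓ C1[a], zpowers z⁆ = V at v1 v2 v0
    have ab : IsMulCommutative ↥(P ⊓ C[V]) := der1_eq_bot.1 (by_contra fun ne => v0 (eq_bot_iff.2 ((le_inf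
      (v1.trans inf_le_left) (centsC.1 ((der_sub _).trans inf_le_right))).trans (cent_semiregular h.reg
      ((dergS inf_le_left).trans h.cl) ne).le)))
    have n := normsI (hS.trans h.EP) (norms_cent (cents_norm (centsC.1 v2)))
    have := abel_cent h.ab (h.pP.to_le inf_le_left) h.q2 ab (inf_le_left.trans h.PW) (h.pE.to_le hS) (hS.trans h.EW) n hc
    replace := (le_inf ((commg_subl ((der_sub S).trans n)).trans inf_le_left) this).trans (h.eq_bot inf_le_left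
      (normsI (normG P) (norms_cent h.PW)) le_rfl h.ne inf_le_right).le
    exact a1 (odd a ha h1 (centS (zpowers_le.2 hz) (commG1.1 (le_bot_iff.1 this)
      ⟨ha, le_cent1_iff.1 (v1.trans inf_le_right)⟩)))
  have inv : ∀ X : Subgroup Γ, zpowers z ≤ N[X] → ¬ X ≤ C[zpowers z] → ∃ x ∈ X, x ≠ 1 ∧ ∀ a ∈ zpowers x,
      z * a * z⁻¹ = a⁻¹ := fun X h1 h2 => by
    obtain ⟨p, p1, p2⟩ := SetLike.not_le_iff_exists.1 h2
    refine ⟨⁅p, z⁆, commg_subl h1 (commutator_mem_commutator p1 (mem_zpowers z)), fun e => p2 (C_zpowers z ▸ mem_cent1.2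
      (commutatorElement_eq_one_iff_mul_comm.1 e)), ?_⟩
    rintro _ ⟨k, rfl⟩
    rw [← conj_zpow, ← inv_zpow, commutatorElement_inv, commutatorElement_def, commutatorElement_def,
      show z⁻¹ = z by rw [inv_eq_iff_mul_eq_one, ← sq, h.z2]]
    congr 1
    calc _ = z * p * z * p⁻¹ * z ^ 2 := by rw [sq]; group
      _ = _ := by rw [h.z2, mul_one]
  have rE := zpowers_le.2 hr
  have zr := cents_norm (zc.trans (centS rE))
  have x0 := commg_subl (rE.trans h.EP)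
  obtain ⟨x, x1, x2, x3⟩ := inv ⁅P, zpowers r⁆ (normsR (zE.trans h.EP) zr) fun c => ne (by
    rw [mem_bot.1 (h.hf.le ⟨hr, zpowers_le.1 (coprime_commGG1P (rE.trans h.EP) (h.cop le_rfl (h.pE.to_le rE)) (commG1.2
      ((le_inf x0 c).trans (h.zP.trans (centsC.1 (rE.trans h.EZ))))))⟩)]
    exact one_mem _)
  obtain ⟨y, y1, y2, y3⟩ := inv (P ⊓ C[zpowers r]) (normsI (zE.trans h.EP) (norms_cent zr))
    fun c => h.nz hr r2 ne (centsC.1 c (mem_zpowers z))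
  have c := centSS (zpowers_le.2 y1) (zpowers_le.2 x1) (h.comm rE)
  have l := sup_le (zpowers_le.2 (x0 x1)) (zpowers_le.2 y1.1)
  refine h.z1 (h.faith h.hf h.zZ.1 (centsC.1 (coprime_abelian_gen_cent1 (abelianY (abelian_zpowers x) (abelian_zpowers y) c)
    (fun cy => ?_) (l.trans h.PW) (h.cop l h.ab.pg).symm fun a ha a1 => k a (l ha) a1 ?_) (mem_zpowers z)))
  · refine (cyclic_pgroup_dprod_trivg (h.pP.to_le l) cy le_sup_left le_sup_right (eq_bot_iff.2 fun a ha => odd a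
      (l (mem_sup_left ha.1)) (x3 a ha.1) (centsC.1 (zE.trans h.EZ) ⟨l (mem_sup_left ha.1), ?_⟩))).elim
      (mt zpowers_eq_bot.1 x2) (mt zpowers_eq_bot.1 y2)
    rw [← h.prod rE, cent_sup]
    exact ⟨centsC.1 (h.comm rE) (zpowers_le.2 y1 ha.2), h.comm rE (zpowers_le.2 x1 ha.1)⟩
  obtain ⟨a, ha', b, hb, rfl⟩ := (mem_sup_normr (cents_norm c)).1 ha
  rw [← conj_mul, x3 a ha', y3 b hb, ← mul_inv_rev, mem_cent.1 (c ha') b hb]

/-- `⟨t, z⟩` is a normal four-subgroup of `E`. -/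
structure Fe (E : Subgroup Γ) (z t : Γ) : Prop where
  tE : t ∈ E
  t2 : t ^ 2 = 1
  tz : t ∉ zpowers z
  comm : ∀ e ∈ E, ⁅t, e⁆ ∈ zpowers z

omit hq in
theorem der_cent_of (hz : z ∈ C[E]) (h : ∀ e ∈ E, ⁅t, e⁆ ∈ zpowers z) (ht : t ∈ E) : ⁅E, E⁆ ≤ C[zpowers t] := by
  have c : ⁅zpowers t, E⁆ ≤ C[E] := ((commGC _ _).le.trans (comm_le_of_elt (cents_norm (centsC.1 (zpowers_le.2 hz)))
    (cents_norm (centsC.1 (zpowers_le.2 hz)) ht) fun e he => by
      rw [← commutatorElement_inv]; exact inv_mem (h e he))).trans (zpowers_le.2 hz)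
  exact commG1.1 (three_subgroup (commG1.2 ((commGC _ _).le.trans c)) (commG1.2 c))

omit hq in
theorem Fe.conj (f : Fe E z t) (z2 : z ^ 2 = 1) (hs : s ∈ E) (s1 : s ∉ C[zpowers t]) : s * t * s⁻¹ = t * z := by
  rw [← ((mem_zp2 z2).1 (f.comm s hs)).resolve_left fun e => s1 (C_zpowers t ▸ mem_cent1.2
    (commutatorElement_eq_one_iff_mul_comm.1 e).symm), commutatorElement_def, ← one_mul (s * t * s⁻¹), ← f.t2,
    show t⁻¹ = t by rw [inv_eq_iff_mul_eq_one, ← sq, f.t2], sq]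
  group

omit hq in
theorem exists_central_mod (hE : IsPGroup 2 E) (hA : A ⊴ E) (hN : E ≤ N[N]) (h : ¬ A ≤ N) :
    ∃ a ∈ A, a ∉ N ∧ a ^ 2 ∈ N ∧ ∀ e ∈ E, ⁅a, e⁆ ∈ N := by
  obtain ⟨z, hz, z1, z2⟩ := exists_central (hE.quo N) (quotient_normal N hA) (quotient_neq1 (hA.le.trans hN) h)
  obtain ⟨a, ha, na, rfl⟩ := mem_quotient_iff.1 hz.1
  refine ⟨a, ha, mt coset_id z1, (coset_eq_one (pow_mem na _)).1 (by rwa [coset_pow na]), fun e he =>
    (coset_eq_one (hN (der_sub E (commutator_mem_commutator (hA.le ha) he)))).1 ?_⟩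
  rw [coset_comm na (hN he), commutatorElement_eq_one_iff_mul_comm]
  exact (mem_cent.1 hz.2.2 _ (mem_quotient (hN he) he)).symm

namespace Mc

theorem mul (h : Mc q W P E z) (f : Fe E z t) : Fe E z (t * z) :=
  ⟨mul_mem f.tE h.zZ.1, by rw [(show Commute t z from mem_cent.1 h.zZ.2 t f.tE).mul_pow, f.t2, h.z2, mul_one],
    mt ((zpowers z).mul_mem_cancel_right (mem_zpowers z)).1 f.tz, fun e he => by
      rw [show ⁅t * z, e⁆ = t * (z * e) * z⁻¹ * t⁻¹ * e⁻¹ by rw [commutatorElement_def]; group, ← mem_cent.1 h.zZ.2 e he]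
      simpa [commutatorElement_def, mul_assoc] using f.comm e he⟩

theorem TI (h : Mc q W P E z) (f : Fe E z t) (hx : x ∈ E) (h1 : x ∈ C[P ⊓ C[zpowers t]])
    (h2 : x ∈ C[P ⊓ C[zpowers (t * z)]]) : x = 1 :=
  have := not_or.1 (mt (mem_zp2 h.z2).2 f.tz)
  mem_bot.1 (h.hf.le ⟨hx, le_cent1_iff.1 (h.four f.tE h.zZ.1 (mem_cent.1 h.zZ.2 t f.tE) f.t2 h.z2 this.1 h.z1 this.2
    (le_cent1_iff.2 h1) (h.zP.trans (le_cent1_iff.2 (h.EZ hx))) (le_cent1_iff.2 h2))⟩)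

theorem cf1 (h : Mc q W P E z) (f : Fe E z t) : Cf q ⁅W, zpowers t⁆ (P ⊓ C[zpowers t]) (E ⊓ C[zpowers t]) :=
  have e := zpowers_le.2 f.tE
  h.subc e (commg_subl (e.trans h.EW)) (fun c => f.tz (by
    rw [h.faith h.hf f.tE (commG1'.1 c (mem_zpowers t))]; exact one_mem _)) inf_le_left
    (normsR (inf_le_left.trans h.PW) (cents_norm inf_le_right)) (normsR (inf_le_left.trans h.EW) (cents_norm inf_le_right))
    (cents_norm inf_le_right)

theorem ch1 (h : Mc q W P E z) (f : Fe E z t) (hc : ch (n + 1) W E = ⊥) : ch n ⁅W, zpowers t⁆ ⁅E, E⁆ = ⊥ :=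
  eq_bot_iff.2 ((ch_mono (commgS _ (zpowers_le.2 f.tE)) le_rfl).trans hc.le)

theorem q8 (h : Mc q W P E z) (f : Fe E z t) (hc : ch 3 W E = ⊥) (hz : z ∈ der 2 E)
    (hN : N = E ⊓ C[zpowers t] ⊓ C[P ⊓ C[zpowers t]]) : E ⊓ C[zpowers t] ≤ N[N] ∧ Q8L (⁅E, E⁆ /ᵍ N) (coset N z) ∧
      ∀ r ∈ (E ⊓ C[zpowers t]) /ᵍ N, r ^ 2 = 1 → r ∈ zpowers (coset N z) := by
  have nz := h.nz f.tE f.t2 f.tz
  obtain ⟨c, hf, n1, n2⟩ := (h.cf1 f).quo (fun e => nz (by rw [e, cent_bot]; trivial)) hN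
  have d := le_inf (der_sub E) (der_cent_of h.zZ.2 f.comm f.tE)
  have z0 := d (der_sub _ hz)
  have z1 : coset N z ≠ 1 := fun e => nz (hN ▸ (coset_eq_one (n1 z0)).1 e).2
  have z3 : coset N z ∈ ⁅⁅E, E⁆ /ᵍ N, ⁅E, E⁆ /ᵍ N⁆ := quotient_der (d.trans n1) ▸ mem_quotient (n1 z0) hz
  have l := quotientS N d
  have c1 : ch 2 ((⁅W, zpowers t⁆ ⊓ C[N]) /ᵍ N) (⁅E, E⁆ /ᵍ N) = ⊥ := by
    rw [← ch_quo (cents_norm inf_le_right) (d.trans n1)]
    exact quotientS1 ((ch_mono inf_le_left le_rfl).trans ((h.ch1 f hc).le.trans bot_le))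
  refine ⟨n1, (c.sub le_rfl c.ne le_rfl le_sup_left l c.PW (l.trans c.EW) (l.trans c.EP)).q8
    (eq_bot_iff.2 ((inf_le_inf_right _ l).trans hf.le)) c1 z3 z1, fun r => Mc.uniq ⟨c, hf,
      morphim_center _ _ (mem_quotient (n1 z0) ⟨z0, centS inf_le_left h.zZ.2⟩), z1, by
        rw [← coset_pow (n1 z0), h.z2, coset_one], ?_⟩ l c1 z3⟩
  have z4 := zpowers_le.2 z0
  rw [← quotient_zpowers (n1 z0), ← coprime_quotient_cent' n2 (z4.trans n1) (z4.trans (h.cf1 f).EP)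
    (h.cop inf_le_left (pg_zpowers (n := 1) h.z2)) (.inr (pgroup_sol (h.cf1 f).pP))]
  exact (quotientS _ (le_inf inf_le_left (((inf_le_inf_right _ inf_le_left).trans h.zP).trans
    (inf_le_right.trans (centS inf_le_left))))).trans (morphim_center _ _)

theorem alpha (h : Mc q W P E z) (f : Fe E z t) (hc : ch 3 W E = ⊥) (hz : z ∈ der 2 E) (hN : N ≤ E ⊓ C[P ⊓ C[zpowers t]]) :
    ⁅E, E⁆ ≤ C[⁅⁅W, N⁆, zpowers z⁆] ∧ ∀ g ∈ C[P ⊓ C[zpowers t]], g ∈ C[⁅⁅W, N⁆, zpowers z⁆] → g ∈ C[⁅W, N⁆] := by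
  have l := hN.trans inf_le_left
  have zc := zpowers_le.2 h.zZ.2
  have zt := cents_norm (zc.trans (centS (zpowers_le.2 f.tE)))
  refine ⟨commG1'.1 ?_, fun g h1 h2 => (h.subc (zpowers_le.2 f.tE) le_rfl h.ne (zpowers_le.2 h.zZ.1)
    (inf_le_left.trans h.PW) (zpowers_le.2 (h.EW h.zZ.1)) zt).gen le_rfl (mt zpowers_le.1 (h.nz f.tE f.t2 f.tz))
    (commg_subl (l.trans h.EW)) (normsR (inf_le_left.trans h.PW) (cents_norm (centsC.1 (hN.trans inf_le_right)))) h1 h2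
    (normsR (zpowers_le.2 (h.EW h.zZ.1)) (cents_norm (zc.trans (centS l))))⟩
  rw [commGC _ (zpowers z)]
  exact three_subgroup (eq_bot_iff.2 ((commgSS (commSg _ (commgS _ l)) (zpowers_le.2 hz)).trans hc.le))
    (by rw [commG1'.2 (zc.trans (centS (der_sub E))), commutator_bot_left])

theorem beta (h : Mc q W P E z) (f : Fe E z t) (hc : ch 3 W E = ⊥) (hz : z ∈ der 2 E) (ht : t ∈ ⁅E, E⁆) (hs : s ∈ E)
    (s1 : s ∉ C[zpowers t]) : E ⊓ C[zpowers t] ⊓ C[P ⊓ C[zpowers t]] = zpowers t := by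
  refine le_antisymm (fun n hn => ?_) (zpowers_le.2 ⟨⟨f.tE, (abelian_zpowers t).cent (mem_zpowers t)⟩,
    centsC.1 inf_le_right (mem_zpowers t)⟩)
  have f' := h.mul f
  have zc := zpowers_le.2 h.zZ.2
  have e1 := f.conj h.z2 hs s1
  obtain ⟨N, hN⟩ : ∃ N, N = E ⊓ C[zpowers (t * z)] ⊓ C[P ⊓ C[zpowers (t * z)]] := ⟨_, rfl⟩
  have n1 : s * n⁻¹ * s⁻¹ ∈ N := by
    have := conj_mem_cj s (inv_mem hn)
    rwa [cj_inf, cj_inf, ← C_cj, ← C_cj, cj_inf, ← C_cj, cj_zpowers, e1, cj_of_mem hs, cj_of_norm (h.EP hs), ← hN] at this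
  have l1 : zpowers n ⊔ zpowers t ≤ E ⊓ C[P ⊓ C[zpowers t]] :=
    sup_le (zpowers_le.2 ⟨hn.1.1, hn.2⟩) (zpowers_le.2 ⟨f.tE, centsC.1 inf_le_right (mem_zpowers t)⟩)
  have l2 : N ≤ E ⊓ C[P ⊓ C[zpowers (t * z)]] := hN ▸ inf_le_inf_right _ inf_le_left
  obtain ⟨a1, a2⟩ := h.alpha f hc hz l1
  obtain ⟨b1, b2⟩ := h.alpha f' hc hz l2
  have c1 := a2 t (centsC.1 inf_le_right (mem_zpowers t)) (a1 ht)
  have c2 := b2 _ (centsC.1 inf_le_right (mem_zpowers _)) (b1 (mul_mem ht (der_sub _ hz)))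
  have c3 : N ≤ C[⁅W, zpowers (t * z)⁆] := commG1'.1 (by
    rw [commGC W]
    exact three_subgroup (commG1'.2 (zpowers_le.2 c2)) (by
      rw [commG1.2 (hN.le.trans (inf_le_left.trans inf_le_right)), commutator_bot_left]))
  have w1 := commg_subl ((l1.trans inf_le_left).trans h.EW)
  have c4 : ⁅⁅W, zpowers n ⊔ zpowers t⁆, zpowers z⁆ ≤ ⁅W, zpowers (t * z)⁆ := by
    have w2 := commg_subl (zpowers_le.2 (h.EW f'.tE))
    refine comm_le_of_elt (w1.trans (sub_abelian_norm h.ab.abelian w2)) (normsR (zpowers_le.2 (h.EW h.zZ.1))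
      (cents_norm (zc.trans (centS (zpowers_le.2 f'.tE)))) (mem_zpowers z)) fun v hv => ?_
    rw [show ⁅v, z⁆ = ⁅v, t * z⁆ by
      rw [mem_cent.1 h.zZ.2 t f.tE, commutatorElement_def, commutatorElement_def, mul_inv_rev,
        show v * (z * t) * v⁻¹ * (t⁻¹ * z⁻¹) = v * z * (t * v⁻¹) * t⁻¹ * z⁻¹ by group, ← mem_cent.1 c1 _ (inv_mem hv)]
      group]
    exact commutator_mem_commutator (w1 hv) (mem_zpowers _)
  have c5 := a2 n hn.2 (by
    simpa [commutatorElement_def, mul_assoc] using mul_mem (a1 (commutator_mem_commutator hn.1.1 hs))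
      (inv_mem (centS c4 (c3 n1))))
  have n2 := h.faith h.hf (pow_mem hn.1.1 2) (sq_cent h.ab (h.EW hn.1.1) (centS (commgS _ le_sup_left) c5))
  obtain ⟨m1, -, m2⟩ := h.q8 f' hc hz hN
  have m3 : n ∈ E ⊓ C[zpowers (t * z)] := ⟨hn.1.1, centS (zpowers_le.2 (mul_mem_sup (mem_zpowers t) (mem_zpowers z)))
    (by rw [cent_sup]; exact ⟨hn.1.2, centsC.1 zc hn.1.1⟩)⟩
  have m4 : z ∈ E ⊓ C[zpowers (t * z)] := ⟨h.zZ.1, centS (zpowers_le.2 f'.tE) h.zZ.2⟩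
  have z2 : coset N z ^ 2 = 1 := by rw [← coset_pow (m1 m4), h.z2, coset_one]
  rcases (mem_zp2 z2).1 (m2 _ (mem_quotient (m1 m3) m3) (by rw [← coset_pow (m1 m3), n2, coset_one])) with e | e
  · rw [h.TI f hn.1.1 hn.2 (l2 ((coset_eq_one (m1 m3)).1 e)).2]; exact one_mem _
  have := h.TI f (mul_mem (inv_mem hn.1.1) f.tE) (mul_mem (inv_mem hn.2) (l1 (mem_sup_right (mem_zpowers t))).2) (by
    rw [show n⁻¹ * t = n⁻¹ * z * (t * z)⁻¹ * t ^ 2 by rw [sq]; group, f.t2, mul_one]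
    exact mul_mem (l2 ((coset_eq_iff (m1 m3) (m1 m4)).1 e)).2 (inv_mem (centsC.1 inf_le_right (mem_zpowers _))))
  exact inv_mul_eq_one.1 this ▸ mem_zpowers _

theorem no_three (h : Mc q W P E z) (hc : ch 3 W E = ⊥) (hz : z ∈ der 2 E) (f₀ : Fe E z r)
    (nc : ∀ t, Fe E z t → ¬ E ≤ C[zpowers t]) : False := by
  have zc := zpowers_le.2 h.zZ.2
  have na : ∀ F : Subgroup Γ, IsMulCommutative F → ¬ ⁅E, E⁆ ≤ F := fun F h1 h2 =>
    h.z1 (mem_bot.1 ((der1_eq_bot.2 (abelianS h2 h1)).le hz))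
  obtain ⟨t, t0, t1, t2, t3⟩ := exists_central_mod h.pE (der_normal E) (cents_norm (centsC.1 zc)) (na _ inferInstance)
  have tE := der_sub E t0
  have d := le_inf (der_sub E) (der_cent_of h.zZ.2 t3 tE)
  have f : Fe E z t := ⟨tE, ((mem_zp2 h.z2).1 t2).resolve_right fun e => by
    obtain ⟨m1, m2, -⟩ := h.q8 f₀ hc hz rfl
    have m := m1 ⟨tE, der_cent_of h.zZ.2 f₀.comm f₀.tE t0⟩
    have := m2.cen _ (morphim_center _ _ (mem_quotient m ⟨t0, zpowers_le.1 (centsC.1 (d.trans inf_le_right))⟩))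
    exact m2.z1 (by rwa [← coset_pow m, e] at this), t1, t3⟩
  obtain ⟨s, hs, s1⟩ := SetLike.not_le_iff_exists.1 (nc t f)
  obtain ⟨m1, m2, m3⟩ := h.q8 f hc hz (h.beta f hc hz t0 hs s1).symm
  have z0 := d (der_sub _ hz)
  obtain ⟨F, hF⟩ : ∃ F, F = zpowers t ⊔ zpowers z := ⟨_, rfl⟩
  have ab : IsMulCommutative F := hF ▸ abelianY inferInstance inferInstance (centsC.1 (zpowers_le.2 z0.2))
  have nF : E ≤ N[F] := norm_of_commg_subl (hF ▸ comm_sup_le (normsG le_sup_left) (normsG le_sup_right)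
    ((commGC _ _).le.trans ((comm_le_of_elt (cents_norm (centsC.1 zc)) (cents_norm (centsC.1 zc) tE) fun e he => by
      rw [← commutatorElement_inv]; exact inv_mem (t3 e he)).trans le_sup_right)) (by rw [commG1.2 zc]; exact bot_le))
  have l : F ≤ E ⊓ C[zpowers t] := hF ▸ sup_le (zpowers_le.2 (d t0)) (zpowers_le.2 z0)
  have mF : ∀ {x}, x ∈ E ⊓ C[zpowers t] → (x ∈ F ↔ coset (zpowers t) x ∈ zpowers (coset (zpowers t) z)) := fun hx => by
    rw [hF, ← quotientK (zpowers_le.2 (m1 z0)), quotient_zpowers (m1 z0), mem_coquo, and_iff_right (m1 hx)]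
  have mK : ∀ {x}, x ∈ E → (coset F x ∈ (E ⊓ C[zpowers t]) /ᵍ F ↔ x ∈ C[zpowers t]) := fun hx =>
    ⟨fun h => ((quotientGK ⟨l, inf_le_left.trans nF⟩).le (mem_coquo.2 ⟨nF hx, h⟩)).2, fun h => mem_quotient (nF hx) ⟨hx, h⟩⟩
  obtain ⟨a, a0, a1, a2, a3⟩ := exists_central_mod h.pE (der_normal E) nF (na F ab)
  have q := fun x (hx : x ∈ ⁅E, E⁆) => mem_quotient (m1 (d hx)) hx
  have a4 := m2.sq (q a a0) (mt (mF (d a0)).2 a1)
  obtain ⟨b, b0, b1⟩ : ∃ b ∈ ⁅E, E⁆, ⁅coset (zpowers t) a, coset (zpowers t) b⁆ = coset (zpowers t) z := by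
    by_contra! c
    refine m2.z1 (a4 ▸ m2.cen _ ⟨q a a0, mem_cent.2 fun b hb => ?_⟩)
    obtain ⟨b, hb', -, rfl⟩ := mem_quotient_iff.1 hb
    exact (commutatorElement_eq_one_iff_mul_comm.1 (((mem_zp2 m2.z2).1 (m2.der (commutator_mem_commutator (q a a0)
      hb))).resolve_right (c b hb'))).symm
  have b2 : ∀ c ∈ ⁅E, E⁆, Commute (coset (zpowers t) a) (coset (zpowers t) c) → c⁻¹ * b ∉ F := fun c c0 c1 c2 => by
    rw [mF (d (mul_mem (inv_mem c0) b0)), coset_mul (inv_mem (m1 (d c0))) (m1 (d b0)), coset_inv (m1 (d c0))] at c2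
    have : Commute _ _ := mem_cent.1 (zpowers_le.2 m2.zS.2 c2) _ (q a a0)
    exact m2.z1 (b1 ▸ commutatorElement_eq_one_iff_commute.2 (by simpa using c1.mul_right this))
  have b3 : b ∉ F := by simpa using b2 1 (one_mem _) (by simp [coset_one])
  have aE := der_sub E a0
  have bE := der_sub E b0
  have cm : ∀ x ∈ E, coset F x ∈ C1[coset F b] ↔ ⁅b, x⁆ ∈ F := fun x hx => by
    rw [← coset_eq_one (nF (der_sub E (commutator_mem_commutator bE hx))), coset_comm (nF bE) (nF hx), mem_cent1,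
      commutatorElement_eq_one_iff_mul_comm, eq_comm]
  have cz : ∀ {x y}, x ∈ E ⊓ C[zpowers t] → y ∈ E ⊓ C[zpowers t] → (⁅x, y⁆ ∈ F ↔ ⁅coset (zpowers t) x, coset (zpowers t) y⁆ ∈
      zpowers (coset (zpowers t) z)) := fun hx hy => by
    rw [mF (der_sub _ (commutator_mem_commutator hx hy)), coset_comm (m1 hx) (m1 hy)]
  refine small (K := (E ⊓ C[zpowers t]) /ᵍ F) (a := coset F a) (b := coset F b) (h.pE.quo F) ?_ (mem_quotient (nF hs) hs)
    (mt (mK hs).1 s1) (mem_cent.2 fun e hx => ?_) (mt (coset_eq_one (nF aE)).1 a1) (by rw [← coset_pow (nF aE), coset_id a2])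
    (mt (coset_eq_one (nF bE)).1 b3) ?_ (fun e => b2 a a0 (Commute.refl _) ((coset_eq_iff (nF aE) (nF bE)).1 e.symm))
    (quotient_der nF ▸ mem_quotient (nF aE) a0) (quotient_der nF ▸ mem_quotient (nF bE) b0)
    (quotient_der nF ▸ le_inf (quotientS _ d) fun e hx => ?_) fun e hx h1 h2 => ?_
  · intro e hx e' hx' h1 h2
    obtain ⟨e, he, -, rfl⟩ := mem_quotient_iff.1 hx
    obtain ⟨e', he', -, rfl⟩ := mem_quotient_iff.1 hx'
    rw [← coset_mul (nF he) (nF he'), mK (mul_mem he he'), C_zpowers, mem_cent1, ← mul_inv_eq_iff_eq_mul]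
    calc _ = e * (e' * t * e'⁻¹) * e⁻¹ := by group
      _ = e * t * e⁻¹ * (e * z) * e⁻¹ := by rw [f.conj h.z2 he' (mt (mK he').2 h2)]; group
      _ = t * z ^ 2 := by rw [f.conj h.z2 he (mt (mK he).2 h1), mem_cent.1 h.zZ.2 e he, sq]; group
      _ = _ := by rw [h.z2, mul_one]
  · obtain ⟨e, he, -, rfl⟩ := mem_quotient_iff.1 hx
    rw [eq_comm, ← commutatorElement_eq_one_iff_mul_comm, ← coset_comm (nF aE) (nF he), coset_id (a3 e he)]
  · rw [← coset_pow (nF bE), coset_id ((mF (pow_mem (d b0) 2)).2 (by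
      rw [coset_pow (m1 (d b0)), m2.sq (q b b0) (mt (mF (d b0)).2 b3)]; exact mem_zpowers _))]
  · obtain ⟨e, he, -, rfl⟩ := mem_quotient_iff.1 hx
    exact (cm e (der_sub E he)).2 ((cz (d b0) (d he)).2 (m2.der (commutator_mem_commutator (q b b0) (q e he))))
  obtain ⟨e, he, -, rfl⟩ := mem_quotient_iff.1 hx
  have e0 : e ∈ E ⊓ C[zpowers t] := ⟨he, (mK he).1 h1⟩
  have k : ∀ c ∈ ⁅E, E⁆, (coset (zpowers t) c)⁻¹ * coset (zpowers t) e ∈ zpowers (coset (zpowers t) z) →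
      coset F e = coset F c := fun c hc h => ((coset_eq_iff (nF (der_sub E hc)) (nF he)).2 ((mF (mul_mem (inv_mem (d hc))
      e0)).2 (by rwa [coset_mul (inv_mem (m1 (d hc))) (m1 e0), coset_inv (m1 (d hc))]))).symm
  refine (q8_mem ((h.pE.to_le inf_le_left).quo _) (morphim_center _ _ (mem_quotient (m1 z0) ⟨z0, centS inf_le_left h.zZ.2⟩))
    m2.z1 m2.z2 m3 (quotientS _ d (q a a0)) (quotientS _ d (q b b0)) b1 a4 (mem_quotient (m1 e0) e0)
    ((cz (d a0) e0).1 (a3 e he)) ((cz (d b0) e0).1 ((cm e he).1 h2))).imp (fun h => coset_id ((mF e0).2 h))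
    (Or.imp (k a a0) (Or.imp (k b b0) fun h => ?_))
  rw [← coset_mul (nF aE) (nF bE)]
  exact k _ (mul_mem a0 b0) (by rwa [coset_mul (m1 (d a0)) (m1 (d b0))])

end Mc

theorem Cf.high (j n : ℕ) : ∀ {X : Type u} [Group X] [Finite X] {W P E : Subgroup X}, #P < n → Cf q W P E →
    ch (j + 3) W E = ⊥ → der (j + 2) E ≤ C[P] := by
  induction j using Nat.strong_induction_on generalizing n with | _ j ihj => ?_
  induction n with
  | zero => exact fun h => (Nat.not_lt_zero _ h).elim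
  | succ n ih => ?_
  suffices key : ∀ {X : Type u} [Group X] [Finite X] {W P E : Subgroup X}, #P ≤ n → Cf q W P E → E ⊓ C[P] = ⊥ →
      ch (j + 3) W E = ⊥ → der (j + 2) E = ⊥ by
    intro X _ _ W P E hn h hc
    by_cases h0 : P = ⊥
    · rw [h0, cent_bot]; exact le_top
    obtain ⟨c, hf, n1, n2⟩ := h.quo h0 rfl
    have := key ((leq_quotient _ _).trans (Nat.le_of_lt_succ hn)) c hf (by
      rw [← ch_quo (cents_norm inf_le_right) n1]
      exact quotientS1 ((ch_mono inf_le_left le_rfl).trans (hc.le.trans bot_le)))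
    rw [← der_quo n1, quotient_sub1 ((der_le _).trans n1)] at this
    exact this.trans inf_le_right
  intro X _ _ W P E hn h hf hc
  by_contra ne
  obtain ⟨z, ⟨z0, zZ⟩, z1, z2⟩ := exists_central h.pE ⟨der_le _, norms_der' (normG E) _⟩ ne
  rw [pow_one] at z2
  have zE := zpowers_le.2 zZ.1
  have zc := zpowers_le.2 zZ.2
  have x0 := commg_subl (zE.trans h.EP)
  have h1 : ⁅P, zpowers z⁆ = P := by_contra fun e => z1 (mem_bot.1 (hf.le ⟨zZ.1, zpowers_le.1 (coprime_commGG1P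
    (zE.trans h.EP) (h.cop le_rfl (h.pE.to_le zE)) (commG1'.2 (zpowers_le.2 (ih ((proper_card (lt_of_le_of_ne x0 e)).trans_le hn)
    (h.sub le_rfl h.ne x0 ((h.prod zE).ge.trans (sup_le_sup_left (centsC.1 (h.comm zE)) _)) le_rfl (x0.trans h.PW) h.EW
    (normsR h.EP (cents_norm (centsC.1 zc)))) hc z0))))⟩))
  have m : Mc q W P E z := ⟨h, hf, zZ, z1, z2, le_inf inf_le_left (centsC.1 (h1.ge.trans (h.comm zE)))⟩
  obtain ⟨t, f⟩ : ∃ t, Fe E z t := by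
    obtain ⟨A, hA⟩ := SCN_exists (pgroup_nil h.pE)
    have ab := SCN_abelian hA
    have pA := h.pE.to_le hA.le
    obtain ⟨t, t0, t1, -, t3⟩ := exists_central_mod h.pE (hA.normal.Ohm 2) (cents_norm (centsC.1 zc)) fun l => by
      have cy := (pgroup_rank1_cyclic pA (.inr ab)).1 (p_rank_Ohm1 2 A ▸ (p_rankS 2 l).trans (p_rank_cyclic 2 inferInstance))
      have l2 := (le_inf (der_sub E) (der1_cent_cyclic cy hA.norm)).trans hA.eq.le
      rw [add_comm, der_add] at ne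
      exact ne (eq_bot_iff.2 ((der_le _).trans (der1_eq_bot.2 (abelianS l2 ab)).le))
    exact ⟨t, hA.le (Ohm_sub 2 A t0), ((mem_Ohm1_abelian ab).1 t0).2, t1, t3⟩
  rcases j with _ | j
  · refine m.no_three hc z0 f fun t f l => m.nz f.tE f.t2 f.tz (ih ((proper_card (inf_lt_left.2 fun c => f.tz ?_)).trans_le hn)
      (h.subc (zpowers_le.2 f.tE) le_rfl h.ne le_rfl (inf_le_left.trans h.PW) h.EW (cents_norm l)) hc z0)
    rw [mem_bot.1 (hf.le ⟨f.tE, centsC.1 c (mem_zpowers t)⟩)]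
    exact one_mem _
  have c := m.cf1 f
  have d := le_inf (der_sub E) (der_cent_of zZ.2 f.comm f.tE)
  exact m.nz f.tE f.t2 f.tz (ihj j j.lt_succ_self _ (Nat.lt_succ_self _) (c.sub le_rfl c.ne le_rfl le_sup_left d c.PW
    (d.trans c.EW) (d.trans c.EP)) (m.ch1 f hc) (der_succ' _ E ▸ z0))

theorem Cf.ham (h : Cf q W P E) (hc : ch (k + 2) W E = ⊥) (hy : y ∈ der k E) (hb : b ∈ der k E) :
    ⁅y, b⁆ ∈ C[P] ∨ ⁅y, b⁆ * y ^ 2 ∈ C[P] := by
  have m := commutator_mem_commutator hy hb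
  rcases k with _ | k
  swap
  · exact .inl (Cf.high k _ (Nat.lt_succ_self _) h hc m)
  refine or_iff_not_imp_left.2 fun ne => ?_
  obtain ⟨c, hf, n1, n2⟩ := h.quo (fun e => ne (by rw [e, cent_bot]; trivial)) rfl
  have m' := n1 (der_sub E m)
  have h8 := c.q8 hf (by
    rw [← ch_quo (cents_norm inf_le_right) n1]
    exact quotientS1 ((ch_mono inf_le_left le_rfl).trans (hc.le.trans bot_le))) (quotient_der n1 ▸ mem_quotient m' m)
    fun e => ne ((coset_eq_one m').1 e).2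
  refine ((coset_eq_one (mul_mem m' (pow_mem (n1 hy) 2))).1 ?_).2
  rw [coset_mul m' (pow_mem (n1 hy) 2), coset_pow (n1 hy), h8.sq (mem_quotient (n1 hy) hy) fun e => h8.z1 ?_, ← sq, h8.z2]
  rw [coset_comm (n1 hy) (n1 hb), commutatorElement_eq_one_iff_mul_comm]
  exact (mem_cent.1 (zpowers_le.2 h8.zS.2 e) _ (mem_quotient (n1 hb) hb)).symm

end Cfsg.Agent.Sig.HH
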