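import Cfsg.Agent.Sig.HH3
import Cfsg.Agent.PLocal.Qd

/-! Consequences of Theorem B: `l_p ≤ d_p` for odd `p` (`HH.plen_der`), and `C_p ≀ C_p` is involved when `l_p ≥ 2` in
the non-exceptional case (`HH.Frame.wreath`). -/

set_option linter.dupNamespace false
set_option linter.unusedSectionVars false
set_option linter.unusedVariables false

namespace Cfsg.Agent.Sig.HH
open Module Finset Subgroup Cfsg.Agent.BG
open scoped commutatorElement

universe u
variable {Γ : Type*} [Group Γ] {A B K Q S T X : Subgroup Γ} {x : Γ} {p q : ℕ}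

/-- The preimage in `Q` of `Z(Q / K)`. -/
def cm (Q K : Subgroup Γ) : Subgroup Γ := Q ⊓ coquo K C[Q /ᵍ K]

theorem le_cm (h : Q ≤ N[K]) : X ≤ cm Q K ↔ X ≤ Q ∧ ⁅X, Q⁆ ≤ K := le_inf_iff.trans (and_congr_right fun h1 => by
  rw [← sub_quotient_pre (h1.trans h), quotient_cents2 (h1.trans h) h])

theorem norms_cm (h : A ≤ N[Q]) (h' : A ≤ N[K]) : A ≤ N[cm Q K] :=
  normsI h (norms_cosetpre h' (norms_cent (quotient_norms _ h)))

theorem mem_cm (h : Q ≤ N[K]) (hx : x ∈ Q) (h' : ∀ y ∈ Q, ⁅x, y⁆ ∈ K) : x ∈ cm Q K :=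
  ⟨hx, mem_coquo.2 ⟨h hx, fun c hc => by
    obtain ⟨y, hy, ny, rfl⟩ := mem_quotient_iff.1 hc
    rw [eq_comm, ← commutatorElement_eq_one_iff_mul_comm, ← coset_comm (h hx) ny]
    exact coset_id (h' y hy)⟩⟩

/-- The derived series of a subgroup. -/
def der : ℕ → Subgroup Γ → Subgroup Γ
  | 0, S => S
  | n + 1, S => ⁅der n S, der n S⁆

theorem der_map {H : Type*} [Group H] (f : Γ →* H) (S : Subgroup Γ) : ∀ n, (der n S).map f = der n (S.map f)
  | 0 => rfl
  | n + 1 => by rw [der, der, map_commutator, der_map f S n]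

theorem der_top : ∀ n, der n (⊤ : Subgroup Γ) = derivedSeries Γ n
  | 0 => rfl
  | n + 1 => by rw [der, der_top n, derivedSeries_succ]

theorem der_eq_bot {n : ℕ} : derivedSeries S n = ⊥ ↔ der n S = ⊥ := by
  rw [← map_eq_bot_iff_of_injective _ S.subtype_injective, ← der_top, der_map, ← MonoidHom.range_eq_map, range_subtype]

theorem der_mono (h : S ≤ T) : ∀ n, der n S ≤ der n T
  | 0 => h
  | n + 1 => commutator_mono (der_mono h n) (der_mono h n)

theorem der_le : ∀ n, der n S ≤ S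
  | 0 => le_rfl
  | n + 1 => (der_sub _).trans (der_le n)

theorem norms_der' (h : A ≤ N[S]) : ∀ n, A ≤ N[der n S]
  | 0 => h
  | n + 1 => normsR (norms_der' h n) (norms_der' h n)

theorem der_add (S : Subgroup Γ) (m : ℕ) : ∀ n, der (m + n) S = der n (der m S)
  | 0 => rfl
  | n + 1 => by rw [← add_assoc, der, der, der_add S m n]

variable [Finite Γ] [hp : Fact p.Prime]

theorem exists_central (hB : IsPGroup p B) (hA : A ⊴ B) (h : A ≠ ⊥) : ∃ z ∈ A ⊓ Z[B], z ≠ 1 ∧ z ^ p ^ 1 = 1 := by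
  obtain ⟨z, hz, h1⟩ := BG.Cauchy hp.out (pgroup_pdiv (hB.to_le (inf_le_left.trans hA.le))
    (meet_center_nil (pgroup_nil hB) hA h))
  exact ⟨z, hz, fun e => hp.out.ne_one (by rw [← h1, e, orderOf_one]), by rw [pow_one, ← h1, pow_orderOf_eq_one]⟩

theorem Irr.norm_ker {K V : Type*} [Field K] [IsAlgClosed K] [AddCommGroup V] [Module K V] [FiniteDimensional K V]
    {ρ : Γ →* End K V} {U : Submodule K V} {φ : End K V} (h : Irr ρ Q U) (h1 : ∀ g ∈ Q, φ * ρ g = ρ g * φ)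
    (h2 : U.map φ ≠ ⊥) (hx : x ∈ N[Q]) (h3 : x ∈ St ρ (U.map φ)) : x ∈ N[Q ⊓ Fx ρ U] := by
  have : Q ⊓ Fx ρ U = Q ⊓ Fx ρ (U.map φ) := Subgroup.ext fun g => and_congr_right fun hg =>
    (Fx_of_map h.inv h1 (h.map (one_mem _) (by simpa using h1) h2).2 hg).symm
  rw [this]
  exact zpowers_le.1 (normsI (zpowers_le.2 hx) (zpowers_le.2 (St_le_norm_Fx h3)))

theorem der_eq_bot_of_quad {F V : Type*} [Field F] [CharP F p] [AddCommGroup V] [Module F V] [FiniteDimensional F V]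
    (h2 : p ≠ 2) (hG : IsPSolvable p Γ) (hO : pCore p Γ = ⊥) {ρ : Γ →* End F V} (hρ : Function.Injective ρ)
    (hB : IsPGroup p B) (h1 : ∀ a ∈ ⁅B, B⁆, (ρ a - 1) ^ 2 = 0)
    (h3 : ∀ a ∈ ⁅B, B⁆, ∀ b ∈ B, (ρ a - 1) * (ρ b - 1) ^ 2 = 0) : ⁅B, B⁆ = ⊥ := by
  by_contra h0
  obtain ⟨z, hz, z1, zp⟩ := exists_central hB (der_normal B) h0
  obtain ⟨d, Φ, hΦ⟩ := exists_bc F V
  obtain ⟨q, hq, hqp, Q, -, hQ, Q0, k1, k2, k3, k5, k4⟩ := exists_min hG hO hB (zpowers_le.2 hz.2.1)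
    (cents_norm (centsC.1 (zpowers_le.2 hz.2.2))) (by rwa [Ne, zpowers_eq_bot])
  haveI := Fact.mk hq
  obtain ⟨c1, c2⟩ := cast_ne (Γ := Γ) (K := AlgebraicClosure F) hqp
  set σ := Φ.toMonoidHom.comp ρ with hσ
  obtain ⟨U, h4, h5⟩ := exists_irr_nt (ρ := σ) (c2 hQ) (normG Q) (by
    rwa [(MonoidHom.ker_eq_bot_iff _).2 (hΦ.comp hρ), le_bot_iff])
  have p3 : 2 < p := hp.out.two_le.lt_of_ne' h2
  obtain ⟨k, h6, h7, h8, W, h9, h10, h11, h12⟩ := core (n := 0) (c2 hQ) (k1 hz.2.1) zp (by simpa using k2)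
    (by rw [pow_zero, pow_one, ← C_zpowers, k3]; exact k4.trans inf_le_right) h4 h5 (r := 2)
    (by simpa [hσ] using congrArg Φ (h1 z hz.1)) (by simpa)
  obtain rfl : k = 1 := le_antisymm h7 (Nat.pos_of_ne_zero (by rintro rfl; simp at h6))
  simp only [zero_add, tsub_self, pow_zero, pow_one, one_mul] at h8 h11 h12
  obtain rfl : p = 3 := by omega
  obtain ⟨l, hl⟩ := hQ.exists_card_eq
  obtain ⟨m, hm⟩ := dim_pow c1 l hl h9
  obtain rfl : q = 2 := (Nat.prime_dvd_prime_iff_eq hq Nat.prime_two).1 (by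
    rw [show 2 = q ^ m by omega]; exact dvd_pow_self q (by rintro rfl; rw [pow_zero] at hm; omega))
  have nK : B ≤ N[Q ⊓ Fx σ W] := fun b hb => by
    obtain ⟨e, he⟩ := exists_proj h9.inv (c2 hQ)
    by_cases h : ∃ i, 0 < i ∧ i < 3 ∧ ∃ u ∈ W, e (σ (b ^ i) u) ≠ 0
    · obtain ⟨i, i0, i3, h⟩ := h
      obtain ⟨φ, k6, k7, -, k8⟩ := eigen h9 he (pow_mem (k1 hb) i) le_top (fun _ _ => trivial) h
      obtain ⟨j, hj⟩ := hB ⟨b, hb⟩
      exact mem_of_pow_mem_coprime (congrArg Subtype.val hj)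
        ((Nat.coprime_of_lt_prime i0.ne' i3 Nat.prime_three).symm.pow_right j) (h9.norm_ker k6 k7 (pow_mem (k1 hb) i) k8)
    push Not at h
    refine absurd (fun g hg => (h10 g hg).1 (commg_subr (h9.inv.trans St_le_norm_Fx)
      (commgS _ (zpowers_le.2 fun u hu => ?_) (k2.ge hg)))) h5
    have := proj_pow (b := 2) h he.id (sub_mem (h11 u hu) hu) 0 (by norm_num)
    have e1 : (σ b - 1) ^ 2 * (σ z - 1) = 0 := by
      rw [(((Commute.map (mem_cent.1 hz.2.2 b hb) σ).sub_left (Commute.one_left _)).sub_right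
        (Commute.one_right _)).pow_left 2]
      simpa [hσ] using congrArg Φ (h3 z hz.1 b hb)
    have e2 : ((σ b - 1) ^ 2 : End _ _) (σ z u - u) = 0 := LinearMap.congr_fun e1 u
    rw [e2] at this
    simpa [sub_eq_zero] using this.symm
  have qK : Q ≤ N[Q ⊓ Fx σ W] := normsI (normG Q) (h9.inv.trans St_le_norm_Fx)
  have zR : Z[Q] ≤ cm Q (Q ⊓ Fx σ W) := (le_cm qK).2 ⟨inf_le_left, by rw [commG1.2 inf_le_right]; exact bot_le⟩
  have qR := norms_cm (normG Q) qK
  have bR := norms_cm k1 nK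
  have i4 := h9.index_le (c2 hQ) (R := cm Q (Q ⊓ Fx σ W))
    (fun g hg h => mem_cm qK hg fun y hy => ⟨der_sub Q (commutator_mem_commutator hg hy), h y hy⟩)
    (by rw [commG1.2 ((k5.ge.trans k4).trans inf_le_right)]; exact bot_le)
  obtain ⟨a, ha⟩ := (hQ.quo (cm Q (Q ⊓ Fx σ W))).exists_card_eq
  have := charf'_abelem2_abelian ((quotient_abelem_iff qR).2 ⟨(k5.ge.trans k4).trans zR,
    fun x hx => zR (k4 (pow_mem_Phi hQ hx))⟩) (by
      rw [ha]
      refine pow_dvd_pow _ ((Nat.pow_le_pow_iff_right one_lt_two).1 ?_)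
      rwa [← ha, card_quotient qR, ← congrArg (· ^ 2) (show finrank (AlgebraicClosure F) W = 2 by omega)])
    (quotient_norms _ k1) (quotient_odd _ (pnat_odd.1 (p'group_of_ne hB h2))) (quotient_pgroup _ (p'group_of_ne hB h2))
  rw [← quotient_der bR, quotient_cents2 ((der_sub B).trans bR) qR, commGC] at this
  have := h9.finrank_one (((le_cm qK).1 (k2.ge.trans ((commgS _ (zpowers_le.2 hz.1)).trans this))).2.trans inf_le_right)
  omega

theorem Frame.val_sub (h : Frame p Γ) (g : Γ) (v : AbV h.ab) : ((h.rep g - 1) v).val = ⁅g, v.val⁆ := by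
  rw [LinearMap.sub_apply, AbV.val_sub, h.val_rep, commutatorElement_def]
  rfl

theorem plen_der (h2 : p ≠ 2) {G : Type u} [Group G] [Finite G] (hG : IsPSolvable p G) {d : ℕ}
    (h : ∀ S : Subgroup G, IsPGroup p S → der d S = ⊥) : PLengthLE p d G := by
  refine plen_ind (fun n G _ => ∀ S : Subgroup G, IsPGroup p S → der n S = ⊥) (fun n G H _ _ _ f hf h S hS => ?_)
    (fun G _ _ h e => ?_) (fun n G _ _ hF h S₀ hS₀ => ?_) d G hG h
  · obtain ⟨T, hT, rfl⟩ := PLocal.exists_lift_pgroup hf hS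
    rw [← der_map, h T hT, Subgroup.map_bot]
  · obtain ⟨P, hP⟩ := Sylow_exists p (⊤ : Subgroup G)
    exact Sylow_ne_bot hP (by rwa [card_top]) (h P hP.pg)
  have hf := QuotientGroup.mk'_surjective (pCore p G)
  have hk := QuotientGroup.ker_mk' (pCore p G)
  have hS := hS₀.comap_of_ker_isPGroup _ ((Solv.isPGroup_pCore p G).to_le hk.le)
  have hV : pCore p G ≤ S₀.comap (QuotientGroup.mk' (pCore p G)) := hk.ge.trans (ker_le_comap _ _)
  rw [← map_comap_eq_self_of_surjective hf S₀]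
  generalize S₀.comap (QuotientGroup.mk' (pCore p G)) = S at hS hV
  have hA : IsMulCommutative (der n S) := der1_eq_bot.1 (h S hS)
  obtain _ | n := n
  · exact (Subgroup.map_eq_bot_iff _).2 (((sub_abelian_cent hA hV).trans hF.cent).trans hk.ge)
  have k : ∀ n, ∀ g ∈ der n S, ∀ v : AbV hF.ab, ((hF.rep g - 1) v).val ∈ der n S := fun n g hg v => by
    rw [hF.val_sub]
    exact commg_subl (hV.trans (norms_der' (normG S) n)) (commutator_mem_commutator hg v.val_mem)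
  have k' : ∀ g ∈ der (n + 1) S, ∀ v : AbV hF.ab, v.val ∈ der (n + 1) S → (hF.rep g - 1) v = 0 := fun g hg v hv => by
    rw [← AbV.val_eq_one, hF.val_sub, commutatorElement_eq_one_iff_mul_comm]
    exact hA.comm hg hv
  refine der_eq_bot_of_quad h2 (PLocal.pSolv_quotient hF.sol _) (Solv.pCore_quotient_pCore p G) hF.inj
    ((hS.map _).to_le (der_le n)) (fun a ha => ?_) fun a ha b hb => ?_ <;> rw [← der_map, ← map_commutator] at ha <;>
    obtain ⟨a, ha, rfl⟩ := ha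
  · exact LinearMap.ext fun v => k' a ha _ (k (n + 1) a ha v)
  · rw [← der_map] at hb
    obtain ⟨b, hb, rfl⟩ := hb
    refine LinearMap.ext fun v => k' a ha _ ?_
    rw [sq, End.mul_apply]
    exact (hF.val_sub b _).symm ▸ commutator_mem_commutator hb (k n b hb v)

/-- The description of `C_p ≀ C_p` used in `S3787`. -/
def IsWr (p : ℕ) (W : Type*) [Group W] : Prop :=
  ∃ (B : Subgroup W) (t : W), B.Normal ∧ IsMulCommutative B ∧ (∀ b ∈ B, b ^ p = 1) ∧ Nat.card B = p ^ p ∧ orderOf t = p ∧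
    t ∉ B ∧ Nat.card W = p ^ (p + 1) ∧ Nat.card ↥(B ⊓ Subgroup.centralizer ({t} : Set W)) = p

theorem isWr_of {W : Type*} [Group W] {j : W →* Γ} (hj : Function.Injective j) {t : Γ} (hB : Abelem p B)
    (hc : #B = p ^ p) (hn : t ∈ N[B]) (h1 : t ∉ B) (h2 : t ^ p = 1) (h3 : #(B ⊓ C1[t]) = p)
    (hr : j.range = B ⊔ zpowers t) : IsWr p W := by
  obtain ⟨s, rfl⟩ := hr.ge (mem_sup_right (mem_zpowers t))
  have h4 : orderOf (j s) = p := orderOf_eq_prime h2 fun e => h1 (e ▸ one_mem _)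
  have h5 : ∀ X ≤ B, #(X.comap j) = #X := fun X hX => by
    rw [← card_map_of_injective hj, map_comap_eq_self ((hX.trans le_sup_left).trans hr.ge)]
  haveI := hB.abelian
  refine ⟨B.comap j, s, ⟨fun b hb g => ?_⟩, comap_injective_isMulCommutative B hj, fun b hb => hj ?_,
    (h5 B le_rfl).trans hc, (orderOf_injective j hj s).symm.trans h4, h1, ?_, ?_⟩
  · rw [mem_comap, map_mul, map_mul, map_inv]
    exact conj_mem_of_norm (sup_le (normG B) (zpowers_le.2 hn) (hr.le ⟨g, rfl⟩)) hb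
  · rw [map_pow, map_one, (abelemP.1 hB).2 _ hb]
  · rw [Nat.card_congr (MonoidHom.ofInjective hj).toEquiv, hr, card_sup_TI (.inr (zpowers_le.2 hn)), hc, Nat.card_zpowers,
      h4, pow_succ]
    rw [inf_comm]
    exact prime_TI (by rw [Nat.card_zpowers, h4]; exact hp.out) (zpowers_le.not.2 h1)
  · rw [← h3, ← h5 _ inf_le_left]
    congr 3
    ext x
    simp only [Subgroup.mem_inf, mem_comap, mem_cent1, ← map_mul, hj.eq_iff]

theorem Frame.wreath (h : Frame p Γ) {g : Γ} (hg : g ∉ pCore p Γ) (h1 : g ^ p ∈ pCore p Γ)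
    (h2 : (h.rep g - 1) ^ (p - 1) ≠ 0) : ∃ (W : Type) (_ : Group W) (_ : Finite W), IsWr p W ∧
      PLocal.Involves (pCore p Γ ⊔ zpowers g) W := by
  obtain ⟨m, rfl⟩ : ∃ m, p = m + 1 := ⟨p - 1, (Nat.sub_add_cancel hp.out.pos).symm⟩
  obtain ⟨n, hn⟩ : ∃ n, n = h.rep g - 1 := ⟨_, rfl⟩
  have h3 : n ^ (m + 1) = 0 := by
    have := sub_one_pow (K := ZMod (m + 1)) 1 (h.rep g)
    rwa [pow_one, ← map_pow, ← QuotientGroup.mk_pow, (QuotientGroup.eq_one_iff _).2 h1, map_one, sub_self, ← hn] at this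
  rw [← hn, Nat.add_sub_cancel] at h2
  obtain ⟨v, hv⟩ : ∃ v, (n ^ m) v ≠ 0 := by simpa [LinearMap.ext_iff] using h2
  obtain ⟨f, hf⟩ := Projective.exists_dual_eq_one (ZMod (m + 1)) hv
  let Ψ := LinearMap.pi fun i : Fin (m + 1) => f.comp (n ^ (i : ℕ))
  have hΨ : ∀ w, w ∈ LinearMap.ker Ψ ↔ ∀ i, f ((n ^ i) w) = 0 := fun w => ⟨fun e i => by
    by_cases l : i < m + 1
    · exact congrFun e ⟨i, l⟩
    · rw [pow_eq_zero_of_le (not_lt.1 l) h3, LinearMap.zero_apply, map_zero], fun e => funext fun i => e i⟩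
  have h4 : LinearMap.range Ψ = ⊤ := by
    let Θ : (Fin (m + 1) → ZMod (m + 1)) →ₗ[ZMod (m + 1)] AbV h.ab :=
      Fintype.linearCombination _ fun j : Fin (m + 1) => (n ^ (j : ℕ)) v
    refine LinearMap.range_eq_top.2 (Function.Surjective.of_comp (g := Θ) (LinearMap.injective_iff_surjective.1
      ((injective_iff_map_eq_zero (Ψ ∘ₗ Θ)).2 fun c hc => funext fun j => ?_)))
    induction j using Fin.strong_induction_on with | _ j ih => ?_
    have := (hΨ _).1 hc (m - j)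
    rw [Fintype.linearCombination_apply, map_sum, map_sum, sum_eq_single j (fun i _ hij => ?_) (by simp), map_smul,
      map_smul, ← End.mul_apply, ← pow_add, Nat.sub_add_cancel (Nat.lt_succ_iff.1 j.2), hf] at this
    · simpa using this
    rcases lt_or_gt_of_ne hij with l | l
    · rw [ih i l, Pi.zero_apply, zero_smul, map_zero, map_zero]
    · rw [map_smul, ← End.mul_apply, ← pow_add, pow_eq_zero_of_le (by have := j.2; rw [Fin.lt_def] at l; omega) h3,
        LinearMap.zero_apply, smul_zero, map_zero]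
  have h5 : ∀ w, n w ∈ LinearMap.ker Ψ → w - f w • (n ^ m) v ∈ LinearMap.ker Ψ := fun w hw => (hΨ _).2 fun i => by
    obtain _ | i := i
    · simp [hf]
    · rw [map_sub, map_smul, ← End.mul_apply _ (n ^ m), ← pow_add, pow_eq_zero_of_le (n := i + 1 + m) (by omega) h3,
        pow_succ, End.mul_apply]
      simpa using (hΨ _).1 hw i
  set U := AbV.toSub (LinearMap.ker Ψ)
  have hU : U ≤ pCore (m + 1) Γ := AbV.toSub_le _
  have vU := sub_abelian_norm h.ab.abelian hU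
  have gU : g ∈ N[U] := mem_norm_of_cj_le (by
    rintro _ ⟨_, hx, rfl⟩
    obtain ⟨w, hw, rfl⟩ := AbV.mem_toSub.1 hx
    refine AbV.mem_toSub.2 ⟨n w + w, add_mem ((hΨ _).2 fun i => ?_) hw, by simp [hn, h.val_rep]⟩
    rw [← End.mul_apply, ← pow_succ, (hΨ _).1 hw])
  set c := -f (AbV.mk h.ab _ h1) • v
  have tU := mul_mem (vU c.val_mem) gU
  have e1 : pCore (m + 1) Γ ⊔ zpowers (c.val * g) = pCore (m + 1) Γ ⊔ zpowers g := le_antisymm
    (sup_le le_sup_left (zpowers_le.2 (mul_mem_sup c.val_mem (mem_zpowers g)))) (sup_le le_sup_left (zpowers_le.2 (by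
      simpa using mul_mem_sup (inv_mem c.val_mem) (mem_zpowers (c.val * g)))))
  have nD := sup_le vU (zpowers_le.2 gU)
  have k : ∀ w : AbV h.ab, coset U w.val ∈ C1[coset U (c.val * g)] ↔ n w ∈ LinearMap.ker Ψ := fun w => by
    rw [mem_cent1_comm, mem_cent1, ← commutatorElement_eq_one_iff_mul_comm, ← coset_comm tU (vU w.val_mem),
      coset_eq_one (nD (comm_subG (le_sup_right.trans e1.le) le_sup_left
        (commutator_mem_commutator (mem_zpowers _) w.val_mem))), ← h.val_sub, QuotientGroup.mk_mul,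
      (QuotientGroup.eq_one_iff _).2 c.val_mem, one_mul, ← hn, AbV.val_mem_toSub]
  have nv : (n ^ m) v ∉ LinearMap.ker Ψ := fun e => by simpa [hf] using (hΨ _).1 e 0
  let E : Shrink.{0} ((pCore (m + 1) Γ ⊔ zpowers g) /ᵍ U) ≃* (pCore (m + 1) Γ ⊔ zpowers g) /ᵍ U := Shrink.mulEquiv
  refine ⟨_, inferInstance, Finite.of_equiv _ E.symm.toEquiv, isWr_of (j := (Subgroup.subtype _).comp E.toMonoidHom)
    ((subtype_injective _).comp E.injective) (t := coset U (c.val * g)) (quotient_abelem U h.ab) ?_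
    (quotient_norms U (norm_of_normal _ ⊤) (mem_quotient tU trivial)) (fun e => hg ?_) ?_ ?_ ?_,
    ⟨_, le_rfl, E.symm.toMonoidHom.comp (mrest (qmk U) nD), E.symm.surjective.comp (mrest_surj _ _)⟩⟩
  · have := card_mul_quotient ⟨hU, vU⟩
    rw [AbV.card_toSub_eq_pow, AbV.card_eq_pow h.ab, ← Ψ.finrank_range_add_finrank_ker, h4, finrank_top, finrank_fin_fun,
      pow_add, mul_comm] at this
    exact Nat.eq_of_mul_eq_mul_right (pow_pos hp.out.pos _) this
  · rw [← zpowers_le, ← quotient_zpowers tU, quotientSGK (zpowers_le.2 tU) hU, zpowers_le] at e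
    simpa using mul_mem (inv_mem c.val_mem) e
  · have := h.mul_pow' g c 1
    rw [pow_one, ← hn, Nat.add_sub_cancel] at this
    rw [← coset_pow tU, this]
    refine coset_id (AbV.mem_toSub.2 ⟨_, h5 (AbV.mk h.ab _ h1) ?_, ?_⟩)
    · rw [show n (AbV.mk h.ab _ h1) = 0 from AbV.val_eq_one.1 (by
        rw [hn, h.val_sub, AbV.val_mk, commutatorElement_eq_one_iff_mul_comm, ← pow_succ, ← pow_succ'])]
      exact zero_mem _
    · rw [sub_eq_neg_add, AbV.val_add, AbV.val_mk, map_smul, neg_smul]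
  · have e2 : pCore (m + 1) Γ /ᵍ U ⊓ C1[coset U (c.val * g)] = zpowers (coset U ((n ^ m) v).val) := by
      refine le_antisymm (fun x hx => ?_) (zpowers_le.2 ⟨mem_quotient (vU (AbV.val_mem _)) (AbV.val_mem _), (k _).2 (by
        rw [← End.mul_apply, ← pow_succ', h3]; exact zero_mem _)⟩)
      obtain ⟨y, hy, -, rfl⟩ := mem_quotient_iff.1 hx.1
      have := AbV.val_mem_toSub.2 (h5 _ ((k (AbV.mk h.ab y hy)).1 hx.2))
      rw [sub_eq_neg_add, AbV.val_add, AbV.val_neg, AbV.val_mk, ← coset_eq_iff (vU (AbV.val_mem _)) (vU hy),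
        AbV.val_smul, coset_pow (vU (AbV.val_mem _))] at this
      exact this ▸ pow_mem (mem_zpowers _) _
    rw [e2, Nat.card_zpowers]
    refine orderOf_eq_prime ?_ fun e => nv (AbV.val_mem_toSub.1 ((coset_eq_one (vU (AbV.val_mem _))).1 e))
    rw [← coset_pow (vU (AbV.val_mem _)), (abelemP.1 h.ab).2 _ (AbV.val_mem _), coset_one]
  · rw [← quotient_zpowers tU, ← quotientY vU (zpowers_le.2 tU), e1, MonoidHom.range_comp,
      MonoidHom.range_eq_top.2 E.surjective, ← MonoidHom.range_eq_map, range_subtype]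

end Cfsg.Agent.Sig.HH
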