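import Cfsg.Agent.Sig.HH4
import Cfsg.Agent.BG.S3Gen

/-! Exceptional elements (odd `p`): if all elements `h` of a `p`-subgroup `D` of exponent `p ^ (e + 1)` of a `p`-solvable
linear group with `O_p = 1` satisfy `(h - 1) ^ (p ^ (e + 1) - 1) = 0`, then their `p ^ e`-th powers commute
(`HH.exc_comm`); hence `l_p ≤ 2 e_p` (`HH.plen_two_exp`). -/

set_option linter.dupNamespace false
set_option linter.unusedSectionVars false
set_option linter.unusedVariables false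

namespace Cfsg.Agent.Sig.HH
open Module Finset Subgroup Cfsg.Agent.BG
open scoped commutatorElement

universe u
variable {Γ : Type*} [Group Γ] [Finite Γ] {A B D L M N Q : Subgroup Γ} {a w x y : Γ} {p q : ℕ}

theorem comm_closure_le {S : Set Γ} (h : closure S ≤ N[N]) (h' : ∀ a ∈ S, ∀ b ∈ S, ⁅a, b⁆ ∈ N) :
    ⁅closure S, closure S⁆ ≤ N := by
  rw [← quotient_cents2 h h, sub_quotient_pre h, closure_le]
  refine fun a ha => mem_coquo.2 ⟨h (subset_closure ha), le_cent1_iff.1 ?_⟩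
  rw [sub_quotient_pre h, closure_le]
  refine fun b hb => mem_coquo.2 ⟨h (subset_closure hb), mem_cent1.2 ?_⟩
  rw [← commutatorElement_eq_one_iff_mul_comm, ← coset_comm (h (subset_closure hb)) (h (subset_closure ha))]
  exact coset_id (h' b hb a ha)

section Lin
variable {K V : Type*} [Field K] [IsAlgClosed K] [AddCommGroup V] [Module K V] [FiniteDimensional K V]
  {ρ : Γ →* End K V} {U W : Submodule K V}

theorem two_dim [Nontrivial V] {b c : End K V} {α β γ δ : K} (hb : (b - α • 1) * (b - β • 1) = 0)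
    (hc : (c - γ • 1) * (c - δ • 1) = 0) :
    ∃ W : Submodule K V, W ≠ ⊥ ∧ finrank K W ≤ 2 ∧ (∀ u ∈ W, b u ∈ W) ∧ ∀ u ∈ W, c u ∈ W := by
  wlog h : LinearMap.ker (b - α • 1) ≠ ⊥ generalizing α β
  · refine this (α := β) (β := α) (by rw [← hb]; simp only [sub_mul, mul_sub, smul_mul_assoc, mul_smul_comm, one_mul,
      mul_one, smul_sub, smul_smul, mul_comm α β]; abel) fun e => ?_
    obtain ⟨v, hv⟩ := exists_ne (0 : V)
    exact hv (e.le ((not_not.1 h).le (LinearMap.congr_fun hb v :)))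
  haveI := Submodule.nontrivial_iff_ne_bot.2 h
  obtain ⟨t, ht⟩ := End.exists_eigenvalue (((b - β • 1) * (c - δ • 1)).restrict
    (p := LinearMap.ker (b - α • 1)) (q := LinearMap.ker (b - α • 1)) fun v _ =>
      LinearMap.mem_ker.2 (by simpa only [End.mul_apply, LinearMap.zero_apply] using LinearMap.congr_fun hb _))
  obtain ⟨⟨v, h1⟩, h2, h3⟩ := ht.exists_hasEigenvector
  have h4 : (b - β • 1) ((c - δ • 1) v) = t • v := congrArg Subtype.val (End.mem_eigenspace_iff.1 h2)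
  have h5 : (c - γ • 1) ((c - δ • 1) v) = 0 := LinearMap.congr_fun hc v
  generalize hu : (c - δ • 1) v = u at h4 h5
  simp only [LinearMap.mem_ker, LinearMap.sub_apply, LinearMap.smul_apply, End.one_apply, sub_eq_iff_eq_add,
    zero_add] at h1 h4 h5 hu
  have m1 : v ∈ Submodule.span K {v, u} := Submodule.subset_span (by simp)
  have m2 : u ∈ Submodule.span K {v, u} := Submodule.subset_span (by simp)
  refine ⟨Submodule.span K {v, u}, fun e => h3 (Subtype.ext (e.le m1)), ?_, fun z hz => ?_, fun z hz => ?_⟩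
  · classical
    exact (finrank_span_le_card _).trans (by rw [Set.toFinset_insert, Set.toFinset_singleton]; exact card_le_two)
  all_goals
    obtain ⟨r, s, rfl⟩ := Submodule.mem_span_pair.1 hz
    simp only [map_add, map_smul, h1, h4, h5, hu]
    generalize Submodule.span K {v, u} = X at m1 m2
  · exact add_mem (X.smul_mem _ (X.smul_mem _ m1)) (X.smul_mem _ (add_mem (X.smul_mem _ m1) (X.smul_mem _ m2)))
  · exact add_mem (X.smul_mem _ (add_mem m2 (X.smul_mem _ m1))) (X.smul_mem _ (X.smul_mem _ m2))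

theorem Irr.fx_of_fix (h : Irr ρ Q U) (hx : x ∈ St ρ U) (hc : ∀ g ∈ Q, ⁅x, g⁆ ∈ Fx ρ U) (hW : W ≤ U) (h0 : W ≠ ⊥)
    (h1 : x ∈ Fx ρ W) : x ∈ Fx ρ U := by
  obtain ⟨c, hc⟩ := h.scalar hx hc
  have e : ∀ u ∈ U, ρ x u = c • u := fun u hu => congrArg Subtype.val (LinearMap.congr_fun hc ⟨u, hu⟩)
  obtain ⟨u, hu, u0⟩ := W.exists_mem_ne_zero_of_ne_bot h0
  obtain rfl : c = 1 := smul_left_injective K u0 (by simpa [h1 u hu] using (e u (hW hu)).symm)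
  exact fun u hu => (e u hu).trans (one_smul _ _)

theorem Irr.comm_fx (h : Irr ρ Q U) (hx : x ∈ Q ⊓ C[Q]) (hy : y ∈ St ρ U) : ⁅x, y⁆ ∈ Fx ρ U := by
  obtain ⟨c, hc⟩ := h.scalar (h.inv hx.1) fun g hg => by
    rw [commutatorElement_eq_one_iff_mul_comm.2 (mem_cent.1 hx.2 g hg).symm]; exact one_mem _
  have e : ∀ g, g = x → ∀ u ∈ U, ρ g u = c • u := by
    rintro _ rfl u hu; exact congrArg Subtype.val (LinearMap.congr_fun hc ⟨u, hu⟩)
  intro u hu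
  have h1 := inv_mem (h.inv hx.1) _ (inv_mem hy u hu)
  rw [commutatorElement_def, map_mul, map_mul, map_mul, End.mul_apply, End.mul_apply, End.mul_apply, e x rfl _ (hy _ h1),
    ← map_smul, ← e x rfl _ h1]
  simp only [← End.mul_apply, ← map_mul, mul_inv_cancel_left, mul_inv_cancel, map_one, End.one_apply]

theorem comm_fx_of_one (h : finrank K U = 1) : ⁅St ρ U, St ρ U⁆ ≤ Fx ρ U := commutator_le.2 fun a ha b hb u hu => by
  have : res ρ U ⁅(⟨a, ha⟩ : St ρ U), (⟨b, hb⟩ : St ρ U)⁆ = 1 := by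
    obtain ⟨c, hc, -⟩ := LinearMap.existsUnique_eq_smul_id_of_finrank_eq_one h (res ρ U ⟨a, ha⟩)
    have e : ∀ g, res ρ U ⟨a, ha⟩ * g = g * res ρ U ⟨a, ha⟩ := fun g => by rw [hc]; ext; simp
    rw [commutatorElement_def, map_mul, map_mul, map_mul, e, mul_assoc (res ρ U _), ← map_mul, mul_inv_cancel, map_one,
      mul_one, ← map_mul, mul_inv_cancel, map_one]
  exact congrArg Subtype.val (LinearMap.congr_fun this ⟨u, hu⟩)

variable [hp : Fact p.Prime]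

theorem quad_comm (h2 : p ≠ 2) (h0 : (p : K) ≠ 0) (hL : IsPGroup p Γ) {y₁ y₂ a₁ a₂ : Γ} (c₁ : Commute w y₁)
    (c₂ : Commute w y₂) (m₁ : a₁ ∈ zpowers w) (m₂ : a₂ ∈ zpowers w) (h₁ : (ρ (y₁ * a₁) - 1) * (ρ y₁ - 1) = 0)
    (h₂ : (ρ (y₂ * a₂) - 1) * (ρ y₂ - 1) = 0) : ρ ⁅y₁, y₂⁆ = 1 := by
  set L := closure {y₁, y₂, w} with e
  have k1 : y₁ ∈ L := subset_closure (by simp)
  have k2 : y₂ ∈ L := subset_closure (by simp)
  have k3 : w ∈ L := subset_closure (by simp)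
  have k4 : zpowers w ≤ C[L] := centsC.1 ((closure_le _).2 (by
    rw [C_zpowers]
    rintro _ (rfl | rfl | rfl) <;> exact mem_cent1.2 (by first | exact c₁.eq.symm | exact c₂.eq.symm | rfl)))
  obtain ⟨n, hn⟩ := (hL.to_subgroup L).exists_card_eq
  suffices ⁅L, L⁆ ≤ ρ.ker from this (commutator_mem_commutator k1 k2)
  by_contra h
  obtain ⟨U, h3, h4⟩ := exists_irr_nt (ρ := ρ) (Q := L) (by rw [hn, Nat.cast_pow]; exact pow_ne_zero _ h0)
    (der_normal L).2 h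
  haveI := Submodule.nontrivial_iff_ne_bot.2 h3.ne
  have key : ∀ {y a : Γ} (hy : y ∈ L), a ∈ zpowers w → (ρ (y * a) - 1) * (ρ y - 1) = 0 → ∃ α : K,
      (res ρ U ⟨y, h3.inv hy⟩ - α • 1) * (res ρ U ⟨y, h3.inv hy⟩ - (1 : K) • 1) = 0 := fun {y a} hy ha h => by
    obtain ⟨c, hc⟩ := h3.scalar (inv_mem (h3.inv (zpowers_le.2 k3 ha))) fun g hg => by
      rw [commutatorElement_eq_one_iff_mul_comm.2 (mem_cent.1 (inv_mem (k4 ha)) g hg).symm]; exact one_mem _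
    refine ⟨c, LinearMap.ext fun u => Subtype.ext ?_⟩
    have e1 := congrArg (ρ a⁻¹) (LinearMap.congr_fun h u)
    have e2 := congrArg Subtype.val (LinearMap.congr_fun hc (res ρ U ⟨y, h3.inv hy⟩ u - u))
    rw [mem_cent.1 (k4 ha) y hy] at e1
    simp only [End.mul_apply, LinearMap.sub_apply, End.one_apply, map_mul, map_sub, LinearMap.smul_apply, one_smul,
      Submodule.coe_sub, Submodule.coe_smul, res_apply, LinearMap.zero_apply, map_zero, Submodule.coe_zero] at e1 e2 ⊢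
    simp only [← End.mul_apply, ← map_mul, inv_mul_cancel_left] at e1 e2 ⊢
    rw [← e1, sub_sub_sub_comm, sub_sub_sub_comm _ _ _ (ρ a⁻¹ u), e2]
  obtain ⟨α, h5⟩ := key k1 m₁ h₁
  obtain ⟨β, h6⟩ := key k2 m₂ h₂
  obtain ⟨W, h7, h8, h9, h10⟩ := two_dim h5 h6
  obtain ⟨c, hc⟩ := h3.scalar (h3.inv k3) fun g hg => by
    rw [commutatorElement_eq_one_iff_mul_comm.2 (mem_cent.1 (k4 (mem_zpowers w)) g hg).symm]; exact one_mem _
  have h11 := (h3.min (W.map U.subtype) (U.map_subtype_le W) ((closure_le _).2 (by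
    rintro _ (rfl | rfl | rfl) _ ⟨u, hu, rfl⟩
    exacts [⟨_, h9 u hu, rfl⟩, ⟨_, h10 u hu, rfl⟩,
      ⟨_, W.smul_mem c hu, (congrArg Subtype.val (LinearMap.congr_fun hc u)).symm⟩]))).resolve_left
    fun e => h7 (Submodule.map_injective_of_injective U.injective_subtype (e.trans (Submodule.map_bot _).symm))
  obtain ⟨m, hm⟩ := dim_pow h0 n hn h3
  rw [← Submodule.finrank_map_subtype_eq, h11, hm] at h8
  obtain rfl : m = 0 := by_contra fun h => absurd ((Nat.le_self_pow h p).trans h8) (by have := hp.out.two_le; omega)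
  exact h4 ((commutator_mono h3.inv h3.inv).trans (comm_fx_of_one hm))

variable [CharP K p]

theorem core' (h0 : (#Q : K) ≠ 0) (hx : x ∈ N[Q]) {n : ℕ} (hn : x ^ p ^ (n + 1) = 1)
    (hQ : ⁅Q, zpowers (x ^ p ^ n)⁆ = Q) (h : Irr ρ Q U) (hC : ∀ g ∈ Q ⊓ C1[x ^ p ^ n], ∀ g' ∈ Q, ⁅g, g'⁆ ∈ Fx ρ U)
    (hU : ¬ Q ≤ Fx ρ U) {r : ℕ} (hr : (ρ x - 1) ^ r = 0) (hl : r < p ^ (n + 1)) :
    ∃ j k, n = j + k ∧ 2 < p ^ (k + 1) ∧ p ^ j * (p ^ (k + 1) - 1) ≤ r ∧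
      ∃ W, Irr ρ Q W ∧ (∀ g ∈ Q, g ∈ Fx ρ W ↔ g ∈ Fx ρ U) ∧ x ^ p ^ j ∈ St ρ W ∧ finrank K W + 1 = p ^ (k + 1) := by
  obtain ⟨φ, h1, h2, j, h3, h4, h5⟩ := exists_stab h0 hx hn h
  obtain ⟨h6, h7⟩ := h.map (one_mem _) (by simpa using h1) h2
  have h8 := fun g (hg : g ∈ Q) => Fx_of_map h.inv h1 h7 hg
  have pj := pow_pos hp.out.pos j
  obtain ⟨k, rfl⟩ : ∃ k, n = j + k := Nat.exists_eq_add_of_le (Nat.lt_succ_iff.1 (h3.lt_of_ne fun e => h2 (eq_bot_iff.2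
    fun u hu => by simpa [e, Nat.div_eq_of_lt hl] using h5 r hr u hu)))
  have e : (x ^ p ^ j) ^ p ^ k = x ^ p ^ (j + k) := by rw [← pow_mul, ← pow_add]
  obtain ⟨h9, h10, h11⟩ := crit' (k := k) h0 (pow_mem hx _) (by rw [← pow_mul, ← pow_add, ← add_assoc, hn]) h6 h4
    (fun g hg hg' g' hg'' => (h8 _ (der_sub Q (commutator_mem_commutator hg hg''))).2 (hC g ⟨hg, e ▸ hg'⟩ g' hg''))
    (fun h => hU fun g hg => (h8 g hg).1 (commg_subr (h6.inv.trans St_le_norm_Fx)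
      (commgS _ (zpowers_le.2 (e ▸ pow_mem h _)) (hQ.ge hg)))) (h5 r hr)
    ((Nat.div_lt_iff_lt_mul pj).2 (by rwa [← pow_add, add_comm (k + 1)]))
  refine ⟨j, k, rfl, h11, ?_, _, h6, h8, h4, h9⟩
  rw [← h10, Nat.add_sub_cancel]
  exact Nat.mul_div_le _ _

end Lin

variable [hp : Fact p.Prime]

theorem quad_grp [hq : Fact q.Prime] (h2 : p ≠ 2) (hqp : q ≠ p) (hM : Abelem q M) (hB : IsPGroup p B) (hn : B ≤ N[M])
    {y₁ y₂ a₁ a₂ : Γ} (hw : w ∈ B) (k₁ : y₁ ∈ B) (k₂ : y₂ ∈ B) (c₁ : Commute w y₁) (c₂ : Commute w y₂)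
    (m₁ : a₁ ∈ zpowers w) (m₂ : a₂ ∈ zpowers w) (h₁ : ⁅M, zpowers y₁⁆ ≤ C1[y₁ * a₁])
    (h₂ : ⁅M, zpowers y₂⁆ ≤ C1[y₂ * a₂]) : ⁅y₁, y₂⁆ ∈ C[M] := by
  obtain ⟨d, Φ, hΦ⟩ := exists_bc (ZMod q) (AbV hM)
  have key : ∀ {y a : Γ} (hy : y ∈ B) (ha : a ∈ zpowers w), ⁅M, zpowers y⁆ ≤ C1[y * a] →
      (⟨a, zpowers_le.2 hw ha⟩ : B) ∈ zpowers (⟨w, hw⟩ : B) ∧
      ((Φ.toMonoidHom.comp (abRep hM hn)) (⟨y, hy⟩ * ⟨a, zpowers_le.2 hw ha⟩) - 1) *
        ((Φ.toMonoidHom.comp (abRep hM hn)) ⟨y, hy⟩ - 1) = 0 := fun {y a} hy ha h => by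
    refine ⟨let ⟨i, hi⟩ := ha; ⟨i, Subtype.ext hi⟩, ?_⟩
    have : (abRep hM hn (⟨y, hy⟩ * ⟨a, zpowers_le.2 hw ha⟩) - 1) * (abRep hM hn ⟨y, hy⟩ - 1) = 0 :=
      LinearMap.ext fun v => sub_eq_zero.2 (abRep_apply_eq_self.2 (h (by
        rw [commutator_comm]
        convert commutator_mem_commutator (mem_zpowers y) v.mem using 1
        rw [LinearMap.sub_apply, sub_eq_add_neg, AbV.val_add, AbV.val_neg, val_abRep]; rfl)))
    simpa using congrArg Φ this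
  obtain ⟨l₁, e₁⟩ := key k₁ m₁ h₁
  obtain ⟨l₂, e₂⟩ := key k₂ m₂ h₂
  exact abRep_eq_one.1 (hΦ ((quad_comm h2 (cast_ne (Γ := Γ) hqp.symm).1 hB (Subtype.ext c₁.eq) (Subtype.ext c₂.eq)
    l₁ l₂ e₁ e₂).trans (map_one Φ).symm))

theorem cent_of_small (h2 : p ≠ 2) {k m : ℕ} (hM : IsPGroup 2 M) (hx : x ∈ N[M]) (hw : w ∈ N[M]) (hc : Commute w x)
    (h1 : x ^ p ^ (k + 1) = 1) (h3 : w ^ p = 1) (h4 : M ⊓ C1[x ^ p ^ k] = ⊥) (h5 : M ⊓ C1[w] = ⊥)
    (h6 : 2 ^ m + 1 = p ^ (k + 1)) (h7 : #M ≤ (2 ^ m) ^ 2) : ∃ a ∈ zpowers w, M ≤ C1[x ^ p ^ k * a] := by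
  set y := x ^ p ^ k with hy
  by_cases h0 : M = ⊥
  · exact ⟨1, one_mem _, h0 ▸ bot_le⟩
  by_cases h8 : y ∈ zpowers w
  · exact ⟨_, inv_mem h8, by simp⟩
  have y1 : y ≠ 1 := fun e => h8 (e ▸ one_mem _)
  have yp : y ^ p = 1 := by rw [hy, ← pow_mul, ← pow_succ, h1]
  have oy := orderOf_eq_prime yp y1
  have ow := orderOf_eq_prime h3 fun e => h0 (by simpa [e] using h5)
  have cy : Commute w y := hc.pow_right _
  have nwy : zpowers w ≤ C[zpowers y] := zpowers_le.2 (by rw [C_zpowers]; exact mem_cent1.2 cy)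
  have pE : IsPGroup p ↥(zpowers y ⊔ zpowers w) := pgroup_sup (.inr (cents_norm nwy))
    (pg_zpowers (n := 1) (by rwa [pow_one])) (pg_zpowers (n := 1) (by rwa [pow_one]))
  by_contra! h9
  refine h0 (eq_bot_iff.2 (coprime_abelian_gen_cent1 (A := zpowers y ⊔ zpowers w)
    (abelianY inferInstance inferInstance (centsC.1 nwy)) (fun h => h8 ?_) (sup_le (zpowers_le.2 (pow_mem hx _)) (zpowers_le.2 hw))
    (IsPGroup.coprime_card_of_ne _ _ h2.symm _ _ hM pE) fun z hz z1 => le_bot_iff.2 (by_contra fun h10 => ?_)))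
  · exact (eq_subG_cyclic h le_sup_left le_sup_right (by rw [Nat.card_zpowers, Nat.card_zpowers, oy, ow])).le
      (mem_zpowers y)
  have xz : x ∈ C1[z] := mem_cent1.2 (mem_cent.1 (centsC.1 (sup_le (zpowers_le.2 (pow_mem ?_ _)) (zpowers_le.2 ?_) :
    _ ≤ C[zpowers x]) (mem_zpowers x)) z hz).symm
  rotate_left
  · rw [C_zpowers]; exact mem_cent1.2 rfl
  · rw [C_zpowers]; exact mem_cent1.2 hc
  have h11 := regular_norm_dvd_pred (K := M ⊓ C1[z]) (H := zpowers x)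
    (normsI (zpowers_le.2 hx) ((zpowers_le.2 xz).trans (normG _)))
    (semiregular_of_prime fun X hX h => by
      rw [eq_subG_cyclic inferInstance hX (zpowers_le.2 (pow_mem (mem_zpowers x) (p ^ k))) (by
        rw [Nat.card_zpowers, ← hy, oy]; exact (Nat.prime_dvd_prime_iff_eq h hp.out).1 (h.dvd_of_dvd_pow
          ((card_dvd_of_le hX).trans (by rw [Nat.card_zpowers]; exact orderOf_dvd_of_pow_eq_one h1)))), C_zpowers]
      exact eq_bot_iff.2 ((inf_le_inf_right _ inf_le_left).trans h4.le))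
  obtain ⟨s, hs⟩ := (hM.to_le (inf_le_left : M ⊓ C1[z] ≤ M)).exists_card_eq
  rw [Nat.card_zpowers, orderOf_eq_prime_pow y1 h1, ← h6, hs] at h11
  have m0 : 0 < m := Nat.pos_of_ne_zero fun e => h2 ((Nat.prime_dvd_prime_iff_eq hp.out Nat.prime_two).1 (by
    rw [show 2 = p ^ (k + 1) by rw [← h6, e]; rfl]; exact dvd_pow_self _ k.succ_ne_zero))
  have h12 : M ≤ C1[z] := inf_eq_left.1 (eq_of_le_of_card_ge inf_le_left (h7.trans (by
    rw [hs, ← pow_mul, mul_comm]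
    exact Nat.pow_le_pow_right two_pos (Nat.le_of_dvd (Nat.pos_of_ne_zero fun e => h10 (card_eq_one.1 (by
      rw [hs, e, pow_zero]))) (two_mul_dvd_of_fermat m0 h11)))))
  obtain ⟨u, hu, b, hb, rfl⟩ := (mem_sup_norml (cents_norm nwy)).1 hz
  have gen : ∀ {a b : Γ}, orderOf a = p → b ∈ zpowers a → b ≠ 1 → ∃ n : ℕ, b ^ n = a := fun {a b} ha hb h =>
    mem_powers_iff_mem_zpowers.2 (by_contra fun h' => h (mem_bot.1 ((prime_TI (A := zpowers a) (B := zpowers b)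
      (by rw [Nat.card_zpowers, ha]; exact hp.out) (mt zpowers_le.1 h')).le ⟨hb, mem_zpowers b⟩)))
  rw [le_cent1_iff] at h12
  by_cases u1 : u = 1
  · obtain ⟨n, hn⟩ := gen ow hb (by simpa [u1] using z1)
    rw [u1, one_mul] at h12
    exact h0 (by rw [← h5, inf_eq_left.2 (le_cent1_iff.2 (hn ▸ pow_mem h12 n))])
  obtain ⟨n, hn⟩ := gen oy hu u1
  refine h9 _ (pow_mem hb n) (le_cent1_iff.2 ?_)
  rw [← hn, ← Commute.mul_pow (mem_cent.1 (nwy hb) u hu)]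
  exact pow_mem h12 n

section Lin
variable {K V : Type*} [Field K] [IsAlgClosed K] [AddCommGroup V] [Module K V] [FiniteDimensional K V]
  {ρ : Γ →* End K V} {U W : Submodule K V} [CharP K p]

theorem exc_norm (h0 : (#Q : K) ≠ 0) (hx : x ∈ N[Q]) {e r : ℕ} (hn : x ^ p ^ (e + 1) = 1) (hr : (ρ x - 1) ^ r = 0)
    (hl : r < p ^ (e + 1)) (h : Irr ρ Q U) : ∃ W, Irr ρ Q W ∧ Q ⊓ Fx ρ W = Q ⊓ Fx ρ U ∧ x ^ p ^ e ∈ St ρ W := by
  obtain ⟨φ, h1, h2, j, h3, h4, h5⟩ := exists_stab h0 hx hn h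
  obtain ⟨h6, h7⟩ := h.map (one_mem _) (by simpa using h1) h2
  obtain ⟨k, rfl⟩ : ∃ k, e = j + k := Nat.exists_eq_add_of_le (Nat.lt_succ_iff.1 (h3.lt_of_ne fun e => h2 (eq_bot_iff.2
    fun u hu => by simpa [e, Nat.div_eq_of_lt hl] using h5 r hr u hu)))
  exact ⟨_, h6, Subgroup.ext fun g => and_congr_right (Fx_of_map h.inv h1 h7), by
    rw [pow_add, pow_mul]; exact pow_mem h4 _⟩

theorem exc_step [hq : Fact q.Prime] (h2 : p ≠ 2) (hqp : q ≠ p) (hQ : IsPGroup q Q) (hZ : ⁅Q, Q⁆ ≤ Z[Q])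
    (hx : x ∈ N[Q]) (hw : w ∈ N[Q]) (hc : Commute w x) (hw1 : w ^ p = 1) (hC : Q ⊓ C1[w] ≤ C[Q]) {e r : ℕ}
    (hn : x ^ p ^ (e + 1) = 1) (hr : (ρ x - 1) ^ r = 0) (hl : r < p ^ (e + 1)) (h : Irr ρ Q U)
    (hy : x ^ p ^ e ∈ St ρ U) (wK : w ∈ N[Q ⊓ Fx ρ U]) (hK : ¬ ⁅Q, zpowers (x ^ p ^ e)⁆ ≤ Q ⊓ Fx ρ U) :
    ¬ ⁅Q, Q⁆ ≤ Q ⊓ Fx ρ U ∧ ∃ a ∈ zpowers w,
      ⁅⁅Q, zpowers (x ^ p ^ e)⁆, zpowers (x ^ p ^ e * a)⁆ ≤ cm Q (Q ⊓ Fx ρ U) := by
  obtain ⟨c1, c2⟩ := cast_ne (Γ := Γ) (K := K) hqp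
  set y := x ^ p ^ e with ey
  have yQ : zpowers y ≤ N[Q] := zpowers_le.2 (pow_mem hx _)
  have cop : ∀ {z : Γ} {P : Subgroup Γ}, z ^ p = 1 → P ≤ Q → (#P).Coprime #(zpowers z) := fun hz hP =>
    IsPGroup.coprime_card_of_ne _ _ hqp _ _ (hQ.to_le hP) (pg_zpowers (n := 1) (by rwa [pow_one]))
  have yp : y ^ p = 1 := by rw [ey, ← pow_mul, ← pow_succ, hn]
  have k1 := commg_subl yQ
  have k2 := coprime_commGid yQ (cop yp le_rfl)
  have k3 := coprime_cent_prod yQ (cop yp le_rfl) (pgroup_sol hQ)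
  have k4 : ∀ {z}, z ∈ N[Q] → Commute z y → z ∈ N[⁅Q, zpowers y⁆] := fun hz h => zpowers_le.1
    (normsR (zpowers_le.2 hz) (cents_norm (zpowers_le.2 (by rw [C_zpowers]; exact mem_cent1.2 h))))
  have k5 := commg_norml Q (zpowers y)
  have qK : Q ≤ N[Q ⊓ Fx ρ U] := normsI (normG Q) (h.inv.trans St_le_norm_Fx)
  have yK : zpowers y ≤ N[Q ⊓ Fx ρ U] := normsI yQ ((zpowers_le.2 hy).trans St_le_norm_Fx)
  have k6 : ⁅⁅Q, zpowers y⁆, Q ⊓ C[zpowers y]⁆ ≤ Q ⊓ Fx ρ U := PLocal.three_subgroups qK yK (inf_le_left.trans qK)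
    (by rw [commG1.2 (centsC.1 inf_le_right), Subgroup.commutator_bot_left]; exact bot_le)
    ((commSg _ ((commSg _ inf_le_left).trans hZ)).trans (le_inf ((commSg _ inf_le_left).trans k1)
      (commutator_le.2 fun a ha b hb => h.comm_fx ha (zpowers_le.2 hy hb))))
  generalize ⁅Q, zpowers y⁆ = P at *
  obtain ⟨W₀, l1, l2⟩ := exists_irr (k1.trans h.inv) h.ne
  have l0 : Fx ρ U ≤ Fx ρ W₀ := fun g hg u hu => hg u (l1 hu)
  have l3 : ∀ g ∈ P, (∀ g' ∈ P, ⁅g, g'⁆ ∈ Fx ρ W₀) → g ∈ cm Q (Q ⊓ Fx ρ U) := fun g hg h' =>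
    mem_cm qK (k1 hg) fun z hz => by
      obtain ⟨a, ha, c, hc, rfl⟩ := (mem_sup_norml (inf_le_left.trans k5)).1 (k3.ge hz)
      have z1 := hZ (commutator_mem_commutator (k1 hg) (k1 ha))
      rw [show ⁅g, a * c⁆ = ⁅g, a⁆ * (a * ⁅g, c⁆ * a⁻¹) by simp only [commutatorElement_def]; group]
      refine mul_mem ⟨z1.1, h.fx_of_fix (h.inv z1.1) (fun b hb => ?_) l1 l2.ne (h' a ha)⟩
        ((mem_normalizer_iff.1 (qK (k1 ha)) _).1 (k6 (commutator_mem_commutator hg hc)))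
      rw [commutatorElement_eq_one_iff_mul_comm.2 (mem_cent.1 z1.2 b hb).symm]
      exact one_mem _
  have l4 : ¬ P ≤ Fx ρ W₀ := fun h' => hK fun g hg => ⟨k1 hg, h.fx_of_fix (h.inv (k1 hg)) (fun b hb =>
    (((le_cm qK).1 le_rfl).2 (commutator_mem_commutator (l3 g hg fun g' hg' =>
      h' (der_sub P (commutator_mem_commutator hg hg'))) hb)).2) l1 l2.ne (h' hg)⟩
  have pP := hQ.to_le k1
  obtain ⟨j, k, rfl, l5, -, W, l6, l7, l8, l9⟩ := core' (c2 pP) (k4 hx (Commute.self_pow x _)) hn k2 l2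
    (fun g hg g' hg' => l0 (k6 (by
      rw [commutator_comm]; exact commutator_mem_commutator ⟨k1 hg.1, C_zpowers y ▸ hg.2⟩ hg')).2) l4 hr hl
  refine ⟨fun h' => by
    have := l6.finrank_one fun g hg => (l7 g (der_sub P hg)).2 (l0 (h' (commutator_mono k1 k1 hg)).2)
    omega, ?_⟩
  obtain ⟨n, hn'⟩ := pP.exists_card_eq
  obtain ⟨m, hm⟩ := dim_pow c1 n hn' l6
  obtain rfl : q = 2 := (Nat.prime_dvd_prime_iff_eq Nat.prime_two hq.out).1 (Nat.prime_two.dvd_of_dvd_pow (n := m) (by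
    have := ((hp.out.odd_of_ne_two h2).pow (n := k + 1))
    rw [← l9, hm, Nat.odd_add_one, Nat.not_odd_iff_even] at this
    exact this.two_dvd)) |>.symm
  have pW : P ≤ N[P ⊓ Fx ρ W] := normsI (normG P) (l6.inv.trans St_le_norm_Fx)
  have l10 : ∀ g ∈ P, (∀ g' ∈ P, ⁅g, g'⁆ ∈ Fx ρ W) → g ∈ cm Q (Q ⊓ Fx ρ U) := fun g hg h' =>
    l3 g hg fun g' hg' => (l7 _ (der_sub P (commutator_mem_commutator hg hg'))).1 (h' g' hg')
  have l11 := l6.index_le (c2 pP) l10 (by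
    rw [commG1.2 ((((commutator_mono k1 k1).trans hZ).trans inf_le_right).trans (centS k1))]; exact bot_le)
  have l12 : cm P (P ⊓ Fx ρ W) = P ⊓ cm Q (Q ⊓ Fx ρ U) := le_antisymm
    (fun g hg => ⟨hg.1, l10 g hg.1 fun g' hg' => (((le_cm pW).1 le_rfl).2 (commutator_mem_commutator hg hg')).2⟩)
    fun g hg => mem_cm pW hg.1 fun g' hg' => have := der_sub P (commutator_mem_commutator hg.1 hg')
      ⟨this, (l7 _ this).2 (l0 (((le_cm qK).1 le_rfl).2 (commutator_mem_commutator hg.2 (k1 hg'))).2)⟩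
  have x1 := k4 (pow_mem hx (p ^ j)) (Commute.pow_pow_self x _ _)
  have w1 := k4 hw (hc.pow_right _)
  have x2 : x ^ p ^ j ∈ N[P ⊓ cm Q (Q ⊓ Fx ρ U)] := l12 ▸ zpowers_le.1 (norms_cm (zpowers_le.2 x1)
    (normsI (zpowers_le.2 x1) ((zpowers_le.2 l8).trans St_le_norm_Fx)))
  have w2 : w ∈ N[P ⊓ cm Q (Q ⊓ Fx ρ U)] := zpowers_le.1 (normsI (zpowers_le.2 w1)
    (norms_cm (zpowers_le.2 hw) (zpowers_le.2 wK)))
  have p2 : P ≤ N[P ⊓ cm Q (Q ⊓ Fx ρ U)] := l12 ▸ norms_cm (normG P) pW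
  have y2 : (x ^ p ^ j) ^ p ^ k = y := by rw [ey, ← pow_mul, ← pow_add]
  have l13 : ∀ {z}, z ^ p = 1 → z ∈ N[P ⊓ cm Q (Q ⊓ Fx ρ U)] → P ⊓ C[zpowers z] ≤ cm Q (Q ⊓ Fx ρ U) →
      P /ᵍ (P ⊓ cm Q (Q ⊓ Fx ρ U)) ⊓ C1[coset _ z] = ⊥ := fun hz h1 h3 => by
    rw [← C_zpowers, ← quotient_zpowers h1, ← coprime_quotient_cent inf_le_left (zpowers_le.2 h1) (cop hz
      (inf_le_left.trans k1)) (.inl inferInstance)]
    exact quotientS1 (le_inf inf_le_left h3)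
  obtain ⟨_, ⟨i, rfl⟩, ha⟩ := cent_of_small (k := k) (m := m) h2 (pP.quo (P ⊓ cm Q (Q ⊓ Fx ρ U)))
    (quotient_norms _ (zpowers_le.2 x1) (mem_quotient x2 (mem_zpowers _)))
    (quotient_norms _ (zpowers_le.2 w1) (mem_quotient w2 (mem_zpowers _)))
    (by rw [Commute, SemiconjBy, ← coset_mul w2 x2, ← coset_mul x2 w2, (hc.pow_right _).eq])
    (by rw [← coset_pow x2, ← pow_mul, ← pow_add, ← add_assoc, hn, coset_one])
    (by rw [← coset_pow w2, hw1, coset_one])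
    (by
      rw [← coset_pow x2, y2]
      exact l13 yp (y2 ▸ pow_mem x2 _) fun g hg => l3 g hg.1 fun g' hg' => l0 (k6 (by
        rw [commutator_comm]; exact commutator_mem_commutator ⟨k1 hg.1, hg.2⟩ hg')).2)
    (l13 hw1 w2 fun g hg => (le_cm qK).2 ⟨inf_le_left, by rw [commG1.2 inf_le_right]; exact bot_le⟩
      ⟨k1 hg.1, hC ⟨k1 hg.1, C_zpowers w ▸ hg.2⟩⟩)
    (hm ▸ l9) (by rwa [card_quotient p2, inf_relIndex_left, ← hm])
  have a2 := mul_mem (pow_mem x2 (p ^ k)) (zpow_mem w2 i)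
  refine ⟨w ^ i, zpow_mem (mem_zpowers w) i, le_trans ?_ (inf_le_right (a := P))⟩
  rw [← y2, ← quotient_cents2 p2 (zpowers_le.2 a2), quotient_zpowers a2, C_zpowers, coset_mul (pow_mem x2 _)
    (zpow_mem w2 i), coset_pow x2]
  convert ha using 4
  rw [coset_eq (zpow_mem w2 i), coset_eq w2]
  exact map_zpow _ (⟨w, w2⟩ : N[_]) i

end Lin

theorem exc_comm {F V : Type*} [Field F] [CharP F p] [AddCommGroup V] [Module F V] [FiniteDimensional F V]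
    (h2 : p ≠ 2) (hG : IsPSolvable p Γ) (hO : pCore p Γ = ⊥) {ρ : Γ →* End F V} (hρ : Function.Injective ρ)
    (hD : IsPGroup p D) {e : ℕ} (h1 : ∀ h ∈ D, h ^ p ^ (e + 1) = 1)
    (h3 : ∀ h ∈ D, (ρ h - 1) ^ (p ^ (e + 1) - 1) = 0) (hx : x ∈ D) (hy : y ∈ D) : ⁅x ^ p ^ e, y ^ p ^ e⁆ = 1 := by
  set S := (· ^ p ^ e) '' (D : Set Γ) with hS
  have BD : closure S ≤ D := (closure_le _).2 (by rintro _ ⟨a, ha, rfl⟩; exact pow_mem ha _)
  have nB : D ≤ N[closure S] := fun g hg => mem_norm_of_cj_le (by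
    rw [cj, MonoidHom.map_closure, closure_le]
    rintro _ ⟨_, ⟨a, ha, rfl⟩, rfl⟩
    exact subset_closure ⟨_, mul_mem (mul_mem hg ha) (inv_mem hg), by simp⟩)
  suffices ⁅closure S, closure S⁆ = ⊥ from mem_bot.1 (this.le (commutator_mem_commutator
    (subset_closure ⟨x, hx, rfl⟩) (subset_closure ⟨y, hy, rfl⟩)))
  by_contra h0
  obtain ⟨w, hw, w1, wp⟩ := exists_central hD ⟨(der_sub _).trans BD, normsR nB nB⟩ h0
  obtain ⟨d, Φ, hΦ⟩ := exists_bc F V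
  obtain ⟨q, hq, hqp, Q, -, hQ, Q0, k1, k2, k3, k5, k4⟩ := exists_min hG hO hD (zpowers_le.2 hw.2.1)
    (cents_norm (centsC.1 (zpowers_le.2 hw.2.2))) (by rwa [Ne, zpowers_eq_bot])
  haveI := Fact.mk hq
  obtain ⟨c1, c2⟩ := cast_ne (Γ := Γ) (K := AlgebraicClosure F) hqp
  set σ := Φ.toMonoidHom.comp ρ with hσ
  obtain ⟨U, h4, h5⟩ := exists_irr_nt (ρ := σ) (c2 hQ) (normG Q) (by
    rwa [(MonoidHom.ker_eq_bot_iff _).2 (hΦ.comp hρ), le_bot_iff])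
  have hl : p ^ (e + 1) - 1 < p ^ (e + 1) := Nat.sub_lt (pow_pos hp.out.pos _) one_pos
  have hr : ∀ h ∈ D, (σ h - 1) ^ (p ^ (e + 1) - 1) = 0 := fun h hh => by simpa [hσ] using congrArg Φ (h3 h hh)
  have nK : closure S ≤ N[Q ⊓ Fx σ U] := (closure_le _).2 (by
    rintro _ ⟨a, ha, rfl⟩
    obtain ⟨W, -, l2, l3⟩ := exc_norm (c2 hQ) (k1 ha) (h1 a ha) (hr a ha) hl h4
    exact l2 ▸ zpowers_le.1 (normsI (zpowers_le.2 (pow_mem (k1 ha) _)) ((zpowers_le.2 l3).trans St_le_norm_Fx)))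
  have key : ∀ y ∈ S, ¬ ⁅Q, zpowers y⁆ ≤ Q ⊓ Fx σ U → ¬ ⁅Q, Q⁆ ≤ Q ⊓ Fx σ U ∧ ∃ a ∈ zpowers w,
      ⁅⁅Q, zpowers y⁆, zpowers (y * a)⁆ ≤ cm Q (Q ⊓ Fx σ U) := by
    rintro _ ⟨a, ha, rfl⟩
    obtain ⟨W, l1, l2, l3⟩ := exc_norm (c2 hQ) (k1 ha) (h1 a ha) (hr a ha) hl h4
    rw [← l2]
    exact exc_step h2 hqp hQ (k5.ge.trans k4) (k1 ha) (k1 hw.2.1) (mem_cent.1 hw.2.2 a ha).symm (by simpa using wp)
      (by rw [← C_zpowers, k3]; exact k4.trans inf_le_right) (h1 a ha) (hr a ha) hl l1 l3 (l2 ▸ nK (der_sub _ hw.1))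
  have qK : Q ≤ N[Q ⊓ Fx σ U] := normsI (normG Q) (h4.inv.trans St_le_norm_Fx)
  have l1 : ¬ ⁅Q, Q⁆ ≤ Q ⊓ Fx σ U := fun h => h5 ((k2.ge.trans ((commgS _ (zpowers_le.2 (der_sub _ hw.1))).trans (by
    rw [← quotient_cents2 qK nK, centsC, sub_quotient_pre nK, closure_le]
    refine fun y hy => (sub_quotient_pre ?_).1 (centsC.1 ((quotient_cents2 qK ?_).2
      (by_contra fun h' => (key y hy h').1 h))) (mem_zpowers y) <;>
      exact zpowers_le.2 (nK (subset_closure hy))))).trans inf_le_right)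
  have zR : Z[Q] ≤ cm Q (Q ⊓ Fx σ U) := (le_cm qK).2 ⟨inf_le_left, by rw [commG1.2 inf_le_right]; exact bot_le⟩
  have kR : Q ⊓ Fx σ U ≤ cm Q (Q ⊓ Fx σ U) := (le_cm qK).2 ⟨inf_le_left, commg_subl qK⟩
  have qR := norms_cm (normG Q) qK
  have bR := norms_cm (BD.trans k1) nK
  have l2 := fun h => l1 ((le_cm qK).1 h).2
  generalize cm Q (Q ⊓ Fx σ U) = R at *
  have wB := der_sub _ hw.1
  have key' : ∀ y ∈ S, ∃ a ∈ zpowers (coset R w), ⁅Q /ᵍ R, zpowers (coset R y)⁆ ≤ C1[coset R y * a] := fun y hy => by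
    have yR := bR (subset_closure hy)
    rw [← quotient_zpowers yR, ← quotientR qR (zpowers_le.2 yR), ← quotient_zpowers (bR wB)]
    by_cases h : ⁅Q, zpowers y⁆ ≤ Q ⊓ Fx σ U
    · exact ⟨1, one_mem _, by rw [quotientS1 (h.trans kR)]; exact bot_le⟩
    obtain ⟨-, a, ha, h⟩ := key y hy h
    have aR := zpowers_le.2 (bR wB) ha
    refine ⟨_, mem_quotient aR ha, ?_⟩
    rw [← coset_mul yR aR, ← C_zpowers, ← quotient_zpowers (mul_mem yR aR)]
    exact quotient_cents2r h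
  have cw : ∀ y ∈ S, Commute (coset R w) (coset R y) := fun y hy => by
    rw [Commute, SemiconjBy, ← coset_mul (bR wB) (bR (subset_closure hy)), ← coset_mul (bR (subset_closure hy)) (bR wB),
      mem_cent.1 hw.2.2 y (BD (subset_closure hy))]
  have nC : closure S ≤ N[coquo R C[Q /ᵍ R]] := norms_cosetpre bR (norms_cent (quotient_norms _ (BD.trans k1)))
  have l3 := comm_closure_le nC fun a ha b hb => by
    have ma := bR (subset_closure ha)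
    have mb := bR (subset_closure hb)
    obtain ⟨a₁, m₁, n₁⟩ := key' a ha
    obtain ⟨a₂, m₂, n₂⟩ := key' b hb
    refine mem_coquo.2 ⟨der_sub _ (commutator_mem_commutator ma mb), ?_⟩
    rw [coset_comm ma mb]
    exact quad_grp h2 hqp ((quotient_abelem_iff qR).2 ⟨(k5.ge.trans k4).trans zR,
      fun x hx => zR (k4 (pow_mem_Phi hQ hx))⟩) ((hD.to_le BD).quo R) (quotient_norms _ (BD.trans k1))
      (mem_quotient (bR wB) wB) (mem_quotient ma (subset_closure ha)) (mem_quotient mb (subset_closure hb))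
      (cw a ha) (cw b hb) m₁ m₂ n₁ n₂
  refine l2 (k2.ge.trans ?_)
  rw [← quotient_cents2 qR (zpowers_le.2 (bR wB)), centsC, sub_quotient_pre (zpowers_le.2 (bR wB))]
  exact zpowers_le.2 (l3 hw.1)

theorem Frame.pow_comm (h2 : p ≠ 2) (h : Frame p Γ) {e : ℕ} (he : PExp p (e + 1) Γ) {D : Subgroup (Γ ⧸ pCore p Γ)}
    (hD : IsPGroup p D) {x y : Γ ⧸ pCore p Γ} (hx : x ∈ D) (hy : y ∈ D) : ⁅x ^ p ^ e, y ^ p ^ e⁆ = 1 :=
  have k : ∀ z ∈ D, ∃ k, z ^ p ^ k = 1 := fun z hz => (hD ⟨z, hz⟩).imp fun _ hk => congrArg Subtype.val hk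
  exc_comm h2 (PLocal.pSolv_quotient h.sol _) (Solv.pCore_quotient_pCore p Γ) h.inj hD
    (fun z hz => (k z hz).elim (he.of_surj (QuotientGroup.mk'_surjective _) z))
    (fun z hz => (k z hz).elim fun _ => h.exc he) hx hy

theorem Frame.mem_of_comm (h2 : p ≠ 2) (h : Frame p Γ) {e : ℕ} {g : Γ} (h1 : g ^ p ^ (e + 1) ∈ pCore p Γ)
    (h3 : ∀ v ∈ pCore p Γ, ⁅(v * g) ^ p ^ e, g ^ p ^ e⁆ = 1) : g ^ p ^ e ∈ pCore p Γ := by
  by_contra h4
  have p3 : 2 < p := hp.out.two_le.lt_of_ne' h2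
  have pe := pow_pos hp.out.pos e
  obtain ⟨k, k1, k2, k3, -⟩ := h.thmB (x := g) (n := e) (r := p ^ e + (p ^ e - 1))
    ((QuotientGroup.eq_one_iff _).2 h1) (mt (QuotientGroup.eq_one_iff _).1 h4) (LinearMap.ext fun v => by
      rw [pow_add, sub_one_pow (K := ZMod p), End.mul_apply, ← map_pow, ← QuotientGroup.mk_pow, LinearMap.zero_apply,
        ← AbV.val_eq_one, h.val_sub, commutatorElement_eq_one_iff_mul_comm]
      have := commutatorElement_eq_one_iff_mul_comm.1 (h3 _ v.val_mem)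
      rw [h.mul_pow', ← mul_assoc] at this
      exact (mul_right_cancel this).symm) (by rw [pow_succ]; have := Nat.mul_le_mul_left (p ^ e) p3; omega)
  obtain ⟨k, rfl⟩ := Nat.exists_eq_add_of_le' k1
  obtain ⟨j, rfl⟩ := Nat.exists_eq_add_of_le (Nat.le_of_succ_le_succ k2)
  rw [show k + j + 1 - (k + 1) = j by omega, Nat.mul_sub_one, ← pow_add, show j + (k + 1) = k + j + 1 by ring,
    pow_succ] at k3
  have := Nat.mul_le_mul_left (p ^ (k + j)) p3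
  have := Nat.pow_le_pow_right hp.out.pos (Nat.le_add_left j k)
  omega

theorem plen_two_exp (h2 : p ≠ 2) (e : ℕ) : ∀ (G : Type u) [Group G] [Finite G], IsPSolvable p G → PExp p e G →
    PLengthLE p (2 * e) G := by
  induction e with
  | zero => exact fun G _ _ _ h => PLocal.pLengthLE_zero_iff.2 ((hp.out.coprime_iff_not_dvd).2 h.not_dvd).symm
  | succ e ih =>
    intro G _ _ hG h
    obtain ⟨H, _, _, f, hf, h1, h3⟩ := exists_frame hG
    obtain ⟨L, _, _, f', hf', h4, h5⟩ := exists_frame (PLocal.pSolv_quotient h1.sol (pCore p H))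
    have h6 := h.of_surj hf
    have h7 := (h6.of_surj (QuotientGroup.mk'_surjective _)).of_surj hf'
    refine plen_frame hf h3 (plen_frame hf' h5 (ih _ (PLocal.pSolv_quotient h4.sol _) fun x k hx => ?_))
    obtain ⟨g, rfl⟩ := QuotientGroup.mk_surjective x
    obtain ⟨D, hD, e'⟩ := PLocal.exists_lift_pgroup hf'
      (pgroup_sup (.inr (norm_of_normal _ _)) (Solv.isPGroup_pCore p L) (pg_zpowers (h4.pelt hx)))
    refine (QuotientGroup.eq_one_iff _).2 (h4.mem_of_comm h2 (by rw [h7 g _ (h4.pelt hx)]; exact one_mem _)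
      fun v hv => ?_)
    obtain ⟨a, ha, e1⟩ := e'.ge (mul_mem_sup hv (mem_zpowers g))
    obtain ⟨b, hb, e2⟩ := e'.ge (mem_sup_right (mem_zpowers g))
    rw [← e1, ← e2, ← map_pow, ← map_pow, ← map_commutatorElement, h1.pow_comm h2 h6 hD ha hb, map_one]

end Cfsg.Agent.Sig.HH
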