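import Cfsg.Agent.Sig.HH5

/-! Exceptional elements for `p = 2`: a `2`-element `x` with `[M, x] = [M, x ^ 2 ^ k]` small acts like a reflection
(`HH.refl_comm`, `HH.refl_Phi`), the structure of an exceptional element on a constituent (`HH.exc_struct`), and
Gross's theorems `HH.exc_mem` and `l_2 ≤ 2 e_2 - 1` (`HH.plen_gross`). -/

set_option linter.dupNamespace false
set_option linter.unusedSectionVars false
set_option linter.unusedVariables false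

namespace Cfsg.Agent.Sig.HH
open Module Finset Subgroup Cfsg.Agent.BG
open scoped commutatorElement

universe u
variable {Γ : Type*} [Group Γ] [Finite Γ] {A B D E L M N P Q T X Y : Subgroup Γ} {a g v w x y : Γ} {p q k m : ℕ}

theorem sq_le_of_dvd {s : ℕ} (hq : 1 < q) (hs : 0 < s) (h : q ^ m + 1 ∣ q ^ s - 1) : (q ^ m) ^ 2 ≤ q ^ s := by
  have h1 := Nat.one_lt_pow hs.ne' hq
  have h2 := Nat.le_of_dvd (by omega) h
  obtain ⟨t, rfl⟩ := Nat.exists_eq_add_of_le ((Nat.pow_le_pow_iff_right hq).1 (show q ^ m ≤ q ^ s by omega))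
  have h3 : q ^ m + 1 ∣ q ^ t + 1 := (Nat.dvd_add_right h).1 ⟨q ^ t, by rw [pow_add] at h1 ⊢; rw [add_mul]; omega⟩
  rw [sq, pow_add]
  exact Nat.mul_le_mul_left _ (Nat.le_of_succ_le_succ (Nat.le_of_dvd (Nat.succ_pos _) h3))

theorem comm_le_of_gen {S : Set Γ} (hT : T ≤ N[Y]) (hS : closure S ≤ N[Y]) (h : ∀ v ∈ T, ∀ s ∈ S, ⁅v, s⁆ ∈ Y) :
    ⁅T, closure S⁆ ≤ Y := by
  rw [commutator_comm, ← quotient_cents2 hS hT, sub_quotient_pre hS, closure_le]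
  refine fun s hs => mem_coquo.2 ⟨hS (subset_closure hs), fun c hc => ?_⟩
  obtain ⟨v, hv, nv, rfl⟩ := mem_quotient_iff.1 hc
  rw [← commutatorElement_eq_one_iff_mul_comm, ← coset_comm nv (hS (subset_closure hs))]
  exact coset_id (h v hv s hs)

theorem comm_le_of_elt (hT : T ≤ N[Y]) (hx : x ∈ N[Y]) (h : ∀ v ∈ T, ⁅v, x⁆ ∈ Y) : ⁅T, zpowers x⁆ ≤ Y := by
  rw [zpowers_eq_closure]
  exact comm_le_of_gen hT (by rwa [← zpowers_eq_closure, zpowers_le]) (by rintro v hv _ rfl; exact h v hv)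

variable [hq : Fact q.Prime]

theorem refl_min (hM : IsPGroup q M) (ab : IsMulCommutative M) (q2 : q ≠ 2) (hx : x ∈ N[M]) (h1 : x ^ 2 ^ (k + 1) = 1)
    (h6 : q ^ m + 1 = 2 ^ (k + 1)) (hX : X ≤ ⁅M, zpowers (x ^ 2 ^ k)⁆) (hn : x ∈ N[X]) (h0 : X ≠ ⊥) :
    (q ^ m) ^ 2 ≤ #X := by
  have yM : zpowers (x ^ 2 ^ k) ≤ N[M] := zpowers_le.2 (pow_mem hx _)
  have yp : (x ^ 2 ^ k) ^ 2 = 1 := by rw [← pow_mul, ← pow_succ, h1]
  have h4 := coprime_abel_cent_TI yM (IsPGroup.coprime_card_of_ne _ _ q2 _ _ hM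
    (pg_zpowers (n := 1) (by rwa [pow_one]))) ab
  have y1 : x ^ 2 ^ k ≠ 1 := fun e => h0 (by simpa [e] using hX)
  have h11 := regular_norm_dvd_pred (K := X) (H := zpowers x) (zpowers_le.2 hn)
    (semiregular_of_prime fun Z hZ h => by
      rw [eq_subG_cyclic inferInstance hZ (zpowers_le.2 (pow_mem (mem_zpowers x) (2 ^ k))) (by
        rw [Nat.card_zpowers, orderOf_eq_prime yp y1]
        exact (Nat.prime_dvd_prime_iff_eq h Nat.prime_two).1 (h.dvd_of_dvd_pow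
          ((card_dvd_of_le hZ).trans (by rw [Nat.card_zpowers]; exact orderOf_dvd_of_pow_eq_one h1))))]
      exact eq_bot_iff.2 ((inf_le_inf_right _ hX).trans h4.le))
  obtain ⟨s, hs⟩ := (hM.to_le (hX.trans (commg_subl yM))).exists_card_eq
  rw [Nat.card_zpowers, orderOf_eq_prime_pow y1 h1, ← h6, hs] at h11
  exact hs ▸ sq_le_of_dvd hq.out.one_lt (Nat.pos_of_ne_zero fun e => h0 (card_eq_one.1 (by rw [hs, e, pow_zero]))) h11

/-- `x` acts on `M` like a reflection of order `2 ^ (k + 1) = q ^ m + 1`. -/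
structure Refl (q m k : ℕ) (M : Subgroup Γ) (x : Γ) : Prop where
  norm : x ∈ N[M]
  pw : x ^ 2 ^ (k + 1) = 1
  le : ⁅M, zpowers x⁆ ≤ ⁅M, zpowers (x ^ 2 ^ k)⁆
  card : #⁅M, zpowers (x ^ 2 ^ k)⁆ ≤ (q ^ m) ^ 2

theorem Refl.conj (h : Refl q m k M x) (hv : v ∈ N[M]) : Refl q m k M (v * x * v⁻¹) := by
  have e : ∀ z, ⁅M, zpowers (v * z * v⁻¹)⁆ = cj v ⁅M, zpowers z⁆ := fun z => by
    rw [cj_comm, cj_of_norm hv, cj_zpowers]
  refine ⟨mul_mem (mul_mem hv h.norm) (inv_mem hv), by rw [conj_pow, h.pw]; simp, ?_, ?_⟩ <;> rw [conj_pow, e]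
  · rw [e]; exact cj_mono _ h.le
  · rw [card_cj]; exact h.card

theorem Refl.quo (h : Refl q m k M x) (hM : M ≤ N[N]) (hx : x ∈ N[N]) : Refl q m k (M /ᵍ N) (coset N x) := by
  have e : ∀ z ∈ N[N], ⁅M /ᵍ N, zpowers (coset N z)⁆ = ⁅M, zpowers z⁆ /ᵍ N := fun z hz => by
    rw [quotientR hM (zpowers_le.2 hz), quotient_zpowers hz]
  refine ⟨quotient_norms _ (zpowers_le.2 h.norm) (mem_quotient hx (mem_zpowers x)), by
    rw [← coset_pow hx, h.pw, coset_one], ?_, ?_⟩ <;> rw [← coset_pow hx, e _ (pow_mem hx _)]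
  · rw [e _ hx]; exact quotientS _ h.le
  · exact (leq_quotient _ _).trans h.card

theorem Refl.inv (h : Refl q m k M x) (hM : IsPGroup q M) (ab : IsMulCommutative M) (q2 : q ≠ 2)
    (hu : v ∈ ⁅M, zpowers (x ^ 2 ^ k)⁆) : x ^ 2 ^ k * v * (x ^ 2 ^ k)⁻¹ = v⁻¹ := by
  have yM : zpowers (x ^ 2 ^ k) ≤ N[M] := zpowers_le.2 (pow_mem h.norm _)
  have yp : (x ^ 2 ^ k) ^ 2 = 1 := by rw [← pow_mul, ← pow_succ, h.pw]
  have h4 := coprime_abel_cent_TI yM (IsPGroup.coprime_card_of_ne _ _ q2 _ _ hM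
    (pg_zpowers (n := 1) (by rwa [pow_one]))) ab
  have h5 := conj_mem_of_norm (commg_normr M _ (mem_zpowers _)) hu
  have h6 := mem_cent.1 (sub_abelian_cent ab (commg_subl yM) (commg_subl yM hu)) _ h5
  generalize x ^ 2 ^ k = s at *
  refine eq_inv_of_mul_eq_one_left (mem_bot.1 (h4.le ⟨mul_mem h5 hu, ?_⟩))
  rw [C_zpowers]
  refine mem_cent1.2 ?_
  conv_lhs => rw [h6]
  calc _ = s ^ 2 * v * (s ^ 2)⁻¹ * s * v := by rw [yp]; group
    _ = _ := by rw [sq]; group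

theorem refl_comm {x₁ x₂ : Γ} (hM : IsPGroup q M) (ab : IsMulCommutative M) (q2 : q ≠ 2) (k0 : 0 < k)
    (h6 : q ^ m + 1 = 2 ^ (k + 1)) (hB : IsPGroup 2 B) (hn : B ≤ N[M]) (hf : B ⊓ C[M] = ⊥) (m₁ : x₁ ∈ B) (m₂ : x₂ ∈ B)
    (h₁ : Refl q m k M x₁) (h₂ : Refl q m k M x₂) : Commute x₁ x₂ ∨ x₁ ^ 2 ^ k = x₂ ^ 2 ^ k := by
  wlog e : B = closure {x₁, x₂} generalizing B
  · have l : closure {x₁, x₂} ≤ B := (closure_le _).2 (by rintro _ (rfl | rfl) <;> assumption)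
    exact this (hB.to_le l) (l.trans hn) (eq_bot_iff.2 ((inf_le_inf_right _ l).trans hf.le))
      (subset_closure (by simp)) (subset_closure (by simp)) rfl
  by_contra! hc
  have nZ : B ≤ N[Z[B]] := (center_normal B).norm
  obtain ⟨z, hz, z1, z2⟩ := exists_central (hB.quo Z[B]) (normal_refl _) fun h => hc.1
    (mem_cent.1 ((quotient_sub1 nZ).1 h m₂).2 _ m₁)
  obtain ⟨a, ha, na, rfl⟩ := mem_quotient_iff.1 hz.1
  have a1 : ∀ b ∈ B, ⁅a, b⁆ ∈ Z[B] := fun b hb => (coset_eq_one (nZ (der_sub B (commutator_mem_commutator ha hb)))).1 (by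
    rw [coset_comm na (nZ hb), commutatorElement_eq_one_iff_mul_comm]
    exact (mem_cent.1 hz.2.2 _ (mem_quotient (nZ hb) hb)).symm)
  have a2 : a ^ 2 ∈ Z[B] := (coset_eq_one (pow_mem na _)).1 (by rwa [coset_pow na])
  have a3 : ¬ (⁅a, x₁⁆ = 1 ∧ ⁅a, x₂⁆ = 1) := fun h => z1 (coset_id ⟨ha, le_cent1_iff.1 (e.le.trans ((closure_le _).2 (by
    rintro _ (rfl | rfl) <;> exact mem_cent1.2 (commutatorElement_eq_one_iff_mul_comm.1 (by simp [h])).symm)))⟩)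
  clear z1 z2 hz
  wlog a4 : ⁅a, x₁⁆ ≠ 1 generalizing x₁ x₂
  · exact this h₂ h₁ m₂ m₁ (e.trans (by rw [Set.pair_comm])) ⟨fun h => hc.1 h.symm, hc.2.symm⟩ (by tauto) (by tauto)
  obtain ⟨z, hz⟩ : ∃ z, z = ⁅a, x₁⁆ := ⟨_, rfl⟩
  have zZ : z ∈ Z[B] := hz ▸ a1 _ m₁
  have e1 : a * x₁ * a⁻¹ = z * x₁ := by rw [hz, commutatorElement_def]; group
  have z2 : z ^ 2 = 1 := by
    have h1 : a ^ 2 * x₁ * (a ^ 2)⁻¹ = x₁ := by rw [← mem_cent.1 a2.2 _ m₁]; group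
    have h2 : a * z * a⁻¹ = z := by rw [mem_cent.1 zZ.2 _ ha]; group
    refine mul_right_cancel (b := x₁) ?_
    calc z ^ 2 * x₁ = a * z * a⁻¹ * (a * x₁ * a⁻¹) := by rw [h2, e1, sq, mul_assoc]
      _ = a * (z * x₁) * a⁻¹ := by group
      _ = a * (a * x₁ * a⁻¹) * a⁻¹ := by rw [e1]
      _ = 1 * x₁ := by rw [one_mul]; nth_rewrite 2 [← h1]; rw [sq]; group
  have e2 : a * x₁ ^ 2 ^ k * a⁻¹ = x₁ ^ 2 ^ k := by
    obtain ⟨k, rfl⟩ := Nat.exists_eq_add_of_le' k0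
    rw [← conj_pow, e1, Commute.mul_pow (mem_cent.1 zZ.2 _ m₁).symm, pow_succ' 2 k, pow_mul z, z2, one_pow, one_mul]
  have nP : ∀ {x}, x ∈ B → ⁅M, zpowers (x ^ 2 ^ k)⁆ ≤ M ∧ x ∈ N[⁅M, zpowers (x ^ 2 ^ k)⁆] := fun {x} h =>
    ⟨commg_subl (zpowers_le.2 (pow_mem (hn h) _)), zpowers_le.1 (normsR (zpowers_le.2 (hn h))
      (sub_abelian_norm (inferInstanceAs (IsMulCommutative (zpowers x))) (zpowers_le.2 (pow_mem (mem_zpowers x) _))))⟩
  have zB : zpowers z ≤ B := zpowers_le.2 zZ.1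
  have nz : B ≤ N[zpowers z] := cents_norm (centsC.1 (zpowers_le.2 zZ.2))
  have l1 : ⁅M, zpowers z⁆ ≤ ⁅M, zpowers (x₁ ^ 2 ^ k)⁆ := by
    have := (h₁.conj (hn ha)).le
    rw [conj_pow, e2, e1] at this
    refine (commgS M (zpowers_le.2 ?_ : _ ≤ zpowers (z * x₁) ⊔ zpowers x₁)).trans ?_
    · simpa using mul_mem (mem_sup_left (mem_zpowers (z * x₁))) (inv_mem (mem_sup_right (mem_zpowers x₁)))
    have nM := sub_abelian_norm ab (nP m₁).1
    have n1 := zpowers_le.2 (nP m₁).2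
    have n2 : zpowers (z * x₁) ≤ N[⁅M, zpowers (x₁ ^ 2 ^ k)⁆] := normsR (zpowers_le.2 (hn (mul_mem zZ.1 m₁)))
      (cents_norm (zpowers_le.2 (by
        rw [C_zpowers]
        exact mul_mem (mem_cent1.2 (mem_cent.1 zZ.2 _ (pow_mem m₁ _)).symm) (mem_cent1.2 (Commute.self_pow _ _)))))
    rw [← quotient_cents2 nM (sup_le n2 n1), quotientY n2 n1]
    exact le_cent_sup (quotient_cents2r this) (quotient_cents2r h₁.le)
  have cz := IsPGroup.coprime_card_of_ne _ _ q2 _ _ hM (hB.to_le zB)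
  have l2 : ⁅M, zpowers z⁆ = ⁅M, zpowers (x₁ ^ 2 ^ k)⁆ := eq_of_le_of_card_ge l1 (h₁.card.trans
    (refl_min hM ab q2 h₁.norm h₁.pw h6 l1 (normsR hn nz m₁) fun h => a4 (hz ▸ mem_bot.1
      (hf.le ⟨zZ.1, centsC.1 (commG1.1 h) (mem_zpowers z)⟩))))
  have l3 := coprime_cent_prod (zB.trans hn) cz (pgroup_sol hM)
  have l4 := coprime_abel_cent_TI (zB.trans hn) cz ab
  have l5 : B ≤ N[⁅M, zpowers z⁆] := normsR hn nz
  have l6 : ∀ {x}, x ∈ B → ⁅M, zpowers x⁆ ≤ ⁅M, zpowers z⁆ → x ∈ C[M ⊓ C[zpowers z]] := fun {x} hx h =>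
    centsC.1 (commG1.1 (eq_bot_iff.2 ((le_inf ((commSg _ inf_le_left).trans h) ((commg_subl ((zpowers_le.2 hx).trans
      (normsI hn (norms_cent nz)))).trans inf_le_right)).trans l4.le))) (mem_zpowers x)
  have l7 : ∀ {b}, b ∈ B → b ∈ C[⁅M, zpowers z⁆] → b ∈ C[M ⊓ C[zpowers z]] → b = 1 := fun hb h h' =>
    mem_bot.1 (hf.le ⟨hb, by rw [← l3, cent_sup]; exact ⟨h, h'⟩⟩)
  have l8 := l6 m₁ (l2 ▸ h₁.le)
  by_cases l9 : ⁅M, zpowers (x₂ ^ 2 ^ k)⁆ ⊓ ⁅M, zpowers z⁆ = ⊥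
  · have : x₂ ∈ C[⁅M, zpowers z⁆] := centsC.1 (commG1.1 (eq_bot_iff.2 ((le_inf ((commSg _ (l2 ▸ (nP m₁).1)).trans h₂.le)
      (commg_subl ((zpowers_le.2 m₂).trans l5))).trans l9.le))) (mem_zpowers x₂)
    refine hc.1 (commutatorElement_eq_one_iff_commute.1 (l7 (der_sub B (commutator_mem_commutator m₁ m₂))
      (commg_subr (norms_cent ((zpowers_le.2 m₁).trans l5)) (commutator_mem_commutator (mem_zpowers _) this))
      (commg_subl (norms_cent ((zpowers_le.2 m₂).trans (normsI hn (norms_cent nz))))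
        (commutator_mem_commutator l8 (mem_zpowers _)))))
  have l10 := refl_min hM ab q2 h₂.norm h₂.pw h6 inf_le_left (zpowers_le.1 (normsI (zpowers_le.2 (nP m₂).2)
    ((zpowers_le.2 m₂).trans l5))) l9
  have l11 : ⁅M, zpowers (x₂ ^ 2 ^ k)⁆ = ⁅M, zpowers z⁆ := (eq_of_le_of_card_ge inf_le_left (h₂.card.trans l10)).symm.trans
    (eq_of_le_of_card_ge inf_le_right ((l2 ▸ h₁.card).trans l10))
  refine hc.2 (inv_mul_eq_one.1 (l7 (mul_mem (inv_mem (pow_mem m₁ _)) (pow_mem m₂ _)) (mem_cent.2 fun u hu => ?_)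
    (mul_mem (inv_mem (pow_mem l8 _)) (pow_mem (l6 m₂ (l11 ▸ h₂.le)) _))))
  have := (h₁.inv hM ab q2 (l2 ▸ hu)).trans (h₂.inv hM ab q2 (l11 ▸ hu)).symm
  calc _ = (x₁ ^ 2 ^ k)⁻¹ * (x₁ ^ 2 ^ k * u * (x₁ ^ 2 ^ k)⁻¹) * x₂ ^ 2 ^ k := by group
    _ = _ := by rw [this]; group

theorem refl_Phi (hM : IsPGroup q M) (ab : IsMulCommutative M) (q2 : q ≠ 2) (k0 : 0 < k)
    (h6 : q ^ m + 1 = 2 ^ (k + 1)) (hT : IsPGroup 2 T) (hx : x ∈ N[T]) (hn : T ≤ N[M]) (h : Refl q m k M x)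
    (hv : v ∈ T) : ⁅v, x ^ 2 ^ k⁆ ∈ Phi T ⊔ (T ⊓ C[M]) := by
  have hB : IsPGroup 2 ↥(T ⊔ zpowers x) := pgroup_sup (.inr (zpowers_le.2 hx)) hT (pg_zpowers h.pw)
  have nB : T ⊔ zpowers x ≤ N[M] := sup_le hn (zpowers_le.2 h.norm)
  obtain ⟨N, hN⟩ : ∃ N, N = (T ⊔ zpowers x) ⊓ C[M] := ⟨_, rfl⟩
  have n1 : T ⊔ zpowers x ≤ N[N] := hN ▸ normsI (normG _) (norms_cent nB)
  have n2 : M ≤ N[N] := cents_norm (centsC.1 (hN ▸ inf_le_right))
  have nx : x ∈ N[N] := n1 (mem_sup_right (mem_zpowers x))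
  have nT := le_sup_left.trans n1
  have nv := nT hv
  have vx : ∀ n, ⁅v, x ^ n⁆ ∈ T := fun n =>
    commg_subl (zpowers_le.2 hx) (commutator_mem_commutator hv (pow_mem (mem_zpowers x) n))
  have m2 := mem_quotient nx (mem_sup_right (mem_zpowers x) : x ∈ T ⊔ zpowers x)
  have m1 := mem_quotient nv (mem_sup_left hv : v ∈ T ⊔ zpowers x)
  have key := refl_comm (hM.quo N) (quotient_abelian N ab) q2 k0 h6 (hB.quo N) (quotient_norms _ nB) (by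
      refine eq_bot_iff.2 fun b hb => ?_
      obtain ⟨b, h1, h2, rfl⟩ := mem_quotient_iff.1 hb.1
      refine coset_id (hN ▸ ⟨h1, zpowers_le.1 (cent_of_quo (zpowers_le.2 (nB h1)) (zpowers_le.2 h2) (hN ▸ inf_le_right)
        (coprime_TI (IsPGroup.coprime_card_of_ne _ _ q2 _ _ hM (hB.to_le (hN ▸ inf_le_left)))) ?_)⟩)
      rw [quotient_zpowers h2]
      exact zpowers_le.2 hb.2)
    (mul_mem (mul_mem m1 m2) (inv_mem m1)) m2
    ((h.quo n2 nx).conj (quotient_norms _ hn (mem_quotient nv hv))) (h.quo n2 nx)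
  have : coset N ⁅v, x ^ 2 ^ k⁆ ∈ Phi T /ᵍ N := by
    rw [coset_comm nv (pow_mem nx _), coset_pow nx, commutatorElement_def, ← conj_pow]
    rcases key with r | r
    · obtain ⟨k, rfl⟩ := Nat.exists_eq_add_of_le' k0
      rw [← inv_pow, ← r.inv_right.mul_pow, ← commutatorElement_def, ← coset_comm nv nx, ← coset_pow
        (nT (by simpa using vx 1)), pow_succ, pow_mul]
      have := pow_mem_Phi hT (pow_mem (by simpa using vx 1 : ⁅v, x⁆ ∈ T) (2 ^ k))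
      exact mem_quotient (nT (Phi_sub T this)) this
    · rw [r, mul_inv_cancel]; exact one_mem _
  obtain ⟨b, h1, h2, h3⟩ := mem_quotient_iff.1 this
  rw [coset_eq_iff h2 (nT (vx _))] at h3
  rw [← mul_inv_cancel_left b ⁅v, _⁆]
  exact mul_mem_sup h1 ⟨T.mul_mem (T.inv_mem (Phi_sub T h1)) (vx _), (hN ▸ h3).2⟩

theorem odd_cent_of_Phi [Fact p.Prime] (hT : IsPGroup p T) (hn : T ≤ N[M]) (hA : A ≤ N[T]) (hAM : A ≤ N[M])
    (h : ⁅T, A⁆ ≤ Phi T ⊔ (T ⊓ C[M])) (hE : E ≤ A) (hc : (#T).Coprime #E) : ⁅T, E⁆ ≤ C[M] := by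
  have n1 : T ≤ N[T ⊓ C[M]] := normsI (normG _) (norms_cent hn)
  have n2 : E ≤ N[T ⊓ C[M]] := hE.trans (normsI hA (norms_cent hAM))
  refine le_trans ?_ (inf_le_right (a := T))
  rw [← quotient_cents2 n1 n2, centsC]
  refine coprime_cent_Phi (quotient_norms _ (hE.trans hA)) (coprime_morph _ hc) ?_
  rw [← quotientR n1 n2, ← quotient_Phi hT n1, ← quotientYidr ((Phi_sub T).trans n1)]
  exact quotientS _ ((commgS _ hE).trans h)

section Lin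
variable {K V : Type*} [Field K] [IsAlgClosed K] [AddCommGroup V] [Module K V] [FiniteDimensional K V]
  {ρ : Γ →* End K V} {U W : Submodule K V} [hp : Fact p.Prime] [CharP K p]

theorem exists_stab2 (h0 : (#Q : K) ≠ 0) (hx : x ∈ N[Q]) {n : ℕ} (hn : x ^ p ^ n = 1) (h : Irr ρ Q U) :
    ∃ φ : End K V, (∀ g ∈ Q, φ * ρ g = ρ g * φ) ∧ U.map φ ≠ ⊥ ∧ ∃ j ≤ n, x ^ p ^ j ∈ St ρ (U.map φ) ∧
      ∀ ψ : End K V, (∀ g ∈ Q, ψ * ρ g = ρ g * ψ) → ∀ u ∈ U.map φ, ∀ b < p ^ j, ((ρ x - 1) ^ b) (ψ u) = 0 →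
        ψ u = 0 := by
  classical
  have ex : ∃ j, ∃ φ : End K V, (∀ g ∈ Q, φ * ρ g = ρ g * φ) ∧ U.map φ ≠ ⊥ ∧ x ^ p ^ j ∈ St ρ (U.map φ) :=
    ⟨n, 1, by simp, by simpa [End.one_eq_id] using h.ne, hn ▸ one_mem _⟩
  obtain ⟨φ, h1, h2, h3⟩ := Nat.find_spec ex
  refine ⟨φ, h1, h2, _, Nat.find_min' ex ⟨1, by simp, by simpa [End.one_eq_id] using h.ne, hn ▸ one_mem _⟩, h3,
    fun ψ hψ u hu b hb hr => by_contra fun ne => ?_⟩
  have h4 := (((h.map (one_mem _) (by simpa using h1) h2).1).map (one_mem _) (by simpa using hψ)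
    fun e => ne (e.le ⟨u, hu, rfl⟩)).1
  obtain ⟨e, he⟩ := exists_proj h4.inv h0
  have h6 := proj_pow (ρ := ρ) (x := x) (n := p ^ Nat.find ex) (b := b)
    (fun i hi hi' u hu => by_contra fun ne => ?_) he.id ⟨u, hu, rfl⟩ 0 (by rwa [zero_add])
  · rw [hr, if_pos rfl, map_zero, map_zero] at h6
    exact ne ((smul_eq_zero.1 h6.symm).resolve_left (pow_ne_zero _ (neg_ne_zero.2 one_ne_zero)))
  obtain ⟨χ, k1, k2, -, k3⟩ := eigen h4 he (pow_mem hx i) le_top (fun _ _ => trivial) ⟨u, hu, ne⟩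
  obtain ⟨j, i', k4, rfl⟩ := Nat.exists_eq_pow_mul_and_not_dvd hi.ne' p hp.out.ne_one
  rw [← Submodule.map_comp, ← Submodule.map_comp] at k2 k3
  refine Nat.find_min ex (m := j) ((Nat.pow_lt_pow_iff_right hp.out.one_lt).1
    ((Nat.le_of_dvd hi (dvd_mul_right _ _)).trans_lt hi')) ⟨χ * ψ * φ, fun g hg => by
      rw [mul_assoc, h1 g hg, ← mul_assoc, mul_assoc χ, hψ g hg, ← mul_assoc, k1 g hg]; simp only [mul_assoc], k2,
      mem_of_pow_mem_coprime (m := p ^ n) (by rw [← pow_mul, mul_comm, pow_mul, hn, one_pow])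
      (((Nat.Prime.coprime_iff_not_dvd hp.out).2 k4).symm.pow_right n) (by rw [← pow_mul]; exact k3)⟩

theorem pow_sub_mem (hy : y ∈ St ρ W) {u : V} (hu : u ∈ W) (s : ℕ) : ((ρ y - 1) ^ s) u ∈ W := by
  induction s with
  | zero => exact hu
  | succ a ih => rw [pow_succ']; exact sub_mem (hy _ ih) ih

theorem exc_comm_end (h : Irr ρ P W) (hy : y ∈ St ρ W) (hn : y ∈ N[P]) {k s : ℕ} (h1 : y ^ p ^ k = 1)
    (hs : s + 2 = p ^ k) (ind : ∀ ψ : End K V, (∀ g ∈ P, ψ * ρ g = ρ g * ψ) → ∀ u ∈ W, ∀ v,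
      ((ρ y - 1) ^ (s + 1)) v = ψ u → ψ u = 0) (hne : ¬ ∀ u ∈ W, ((ρ y - 1) ^ s) u = 0) {φ : End K V}
    (hφ : ∀ g ∈ P, φ * ρ g = ρ g * φ) : ∀ u ∈ W, ρ y (φ u) = φ (ρ y u) := by
  obtain ⟨C, hC⟩ : ∃ C : End K (End K V), C = LinearMap.mulLeft K (ρ y) * LinearMap.mulRight K (ρ y⁻¹) := ⟨_, rfl⟩
  have c1 : ∀ φ, (C - 1) φ = ρ y * φ * ρ y⁻¹ - φ := fun φ => by simp [hC, mul_assoc]
  have c2 : ∀ φ u, ρ y (φ u) = φ (ρ y u) + (C - 1) φ (ρ y u) := fun φ u => by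
    simp only [c1, LinearMap.sub_apply, End.mul_apply, add_sub_cancel]
    rw [← End.mul_apply (ρ y⁻¹), ← map_mul, inv_mul_cancel, map_one, End.one_apply]
  have c3 : ∀ φ : End K V, (∀ g ∈ P, φ * ρ g = ρ g * φ) → ∀ g ∈ P, (C - 1) φ * ρ g = ρ g * (C - 1) φ := fun φ h g hg => by
    rw [c1, sub_mul, mul_sub, h g hg, mul_assoc, ← map_mul, show y⁻¹ * g = y⁻¹ * g * y * y⁻¹ by group, map_mul,
      ← mul_assoc, mul_assoc _ φ, h _ (conj_mem_of_norm' hn hg), ← mul_assoc, ← map_mul, ← mul_assoc (ρ g),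
      ← mul_assoc (ρ g), ← map_mul]
    congr 4
    group
  have c4 : ∀ φ : End K V, (∀ g ∈ P, φ * ρ g = ρ g * φ) → (∀ u ∈ W, (C - 1) ((C - 1) φ) u = 0) →
      ∀ u ∈ W, (C - 1) φ u = 0 := fun φ hφ h2 => by
    have hψ := c3 φ hφ
    have d1 := c2 φ
    have d2 : ∀ u ∈ W, ρ y ((C - 1) φ u) = (C - 1) φ (ρ y u) := fun u hu => by rw [c2, h2 _ (hy u hu), add_zero]
    generalize (C - 1) φ = ψ at *
    by_contra ne
    have inj := (h.map (one_mem _) (by simpa using hψ) fun e => ne fun u hu => e.le ⟨u, hu, rfl⟩).2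
    have d3 : ∀ t, ∀ u ∈ W, ((ρ y - 1) ^ (t + 1)) (φ u) =
        φ (((ρ y - 1) ^ (t + 1)) u) + ((t + 1 : ℕ) : K) • ψ (ρ y (((ρ y - 1) ^ t) u)) := fun t u hu => by
      induction t with
      | zero => simp [d1]; abel
      | succ t ih =>
        have m := hy _ (pow_sub_mem hy hu t)
        rw [pow_succ', End.mul_apply, ih, End.mul_apply (ρ y - 1) (_ ^ (t + 1)), pow_succ' _ t, End.mul_apply]
        simp only [LinearMap.sub_apply, map_add, map_sub, map_smul, End.one_apply, d1, d2 _ m]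
        push_cast
        module
    refine hne fun u hu => ?_
    have d4 := ind 1 (by simp) _ (pow_sub_mem hy hu (s + 1)) u rfl
    have d5 := d3 s u hu
    rw [End.one_apply] at d4
    rw [d4, map_zero, zero_add, ← map_smul] at d5
    have d6 := inj _ (W.smul_mem _ (hy _ (pow_sub_mem hy hu s))) (ind ψ hψ _ (W.smul_mem _ (hy _ (pow_sub_mem hy hu s))) _ d5)
    have d7 : ((s + 1 : ℕ) : K) = -1 := by
      rw [eq_neg_iff_add_eq_zero, ← Nat.cast_succ, Nat.succ_eq_add_one, add_assoc, one_add_one_eq_two, hs, Nat.cast_pow, CharP.cast_eq_zero, zero_pow]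
      rintro rfl; simp at hs
    rw [d7, neg_one_smul, neg_eq_zero] at d6
    simpa [← End.mul_apply, ← map_mul, ← mul_assoc] using congrArg (ρ y⁻¹) d6
  have c5 : ∀ i : ℕ, ∀ φ : End K V, (∀ g ∈ P, φ * ρ g = ρ g * φ) → (∀ u ∈ W, ((C - 1) ^ (i + 1) : End K (End K V)) φ u = 0) →
      ∀ u ∈ W, (C - 1) φ u = 0 := fun i => by
    induction i with
    | zero => exact fun φ _ h => by simpa using h
    | succ i ih => exact fun φ hφ h => c4 φ hφ (ih _ (c3 φ hφ) (by rwa [pow_succ] at h))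
  intro u hu
  rw [c2, c5 (s + 1) φ hφ (fun u hu => by
    rw [hs, sub_one_pow (K := K), hC, (LinearMap.commute_mulLeft_right _ _).mul_pow, LinearMap.pow_mulLeft,
      LinearMap.pow_mulRight, ← map_pow, ← map_pow, inv_pow, h1]
    simp) _ (hy u hu), add_zero]

theorem exists_inv (h0 : (#P : K) ≠ 0) (h : Irr ρ P W) {φ : End K V} (hφ : ∀ g ∈ P, φ * ρ g = ρ g * φ)
    (h2 : W.map φ ≠ ⊥) : ∃ ψ : End K V, (∀ g ∈ P, ψ * ρ g = ρ g * ψ) ∧ (∀ v, ψ v ∈ W) ∧ ∀ u ∈ W, ψ (φ u) = u := by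
  obtain ⟨h3, h4⟩ := h.map (one_mem _) (by simpa using hφ) h2
  obtain ⟨e, he⟩ := exists_proj h3.inv h0
  obtain ⟨ψ, hψ⟩ := Module.projective_lifting_property (φ.submoduleMap W) (e.codRestrict _ he.mem)
    (φ.submoduleMap_surjective W)
  have k : ∀ v, φ (ψ v) = e v := fun v => congrArg Subtype.val (LinearMap.congr_fun hψ v)
  refine ⟨W.subtype ∘ₗ ψ, fun g hg => LinearMap.ext fun v => sub_eq_zero.1 (h4 _ (sub_mem (ψ _).2 (h.inv hg _ (ψ _).2)) ?_),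
    fun v => (ψ v).2, fun u hu => sub_eq_zero.1 (h4 _ (sub_mem (ψ _).2 hu) ?_)⟩
  · rw [map_sub, sub_eq_zero]
    show φ (ψ (ρ g v)) = (φ * ρ g) (ψ v)
    rw [hφ g hg, k, End.mul_apply, k, ← End.mul_apply, he.comm g hg, End.mul_apply]
  · rw [map_sub, sub_eq_zero]
    exact (k _).trans (he.id _ ⟨u, hu, rfl⟩)

theorem exc_struct (hqp : q ≠ p) (hQ : IsPGroup q Q) (hZ : ⁅Q, Q⁆ ≤ Z[Q]) (hx : x ∈ N[Q]) {e : ℕ}
    (hn : x ^ p ^ (e + 1) = 1) (hr : (ρ x - 1) ^ (p ^ (e + 1) - 1) = 0) (hC : x ^ p ^ e ∈ C[Z[Q]]) (h : Irr ρ Q U)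
    (hK : ¬ ⁅Q, zpowers (x ^ p ^ e)⁆ ≤ Fx ρ U) : ∃ j k m, e = j + k ∧ 2 < p ^ (k + 1) ∧ q ^ m + 1 = p ^ (k + 1) ∧
      x ^ p ^ j ∈ St ρ U ∧ (∀ c ∈ Q ⊓ C[zpowers (x ^ p ^ e)], ⁅c, x ^ p ^ j⁆ ∈ Fx ρ U) ∧
      (cm Q (Q ⊓ Fx ρ U)).relIndex ⁅Q, zpowers (x ^ p ^ e)⁆ ≤ (q ^ m) ^ 2 := by
  obtain ⟨c1, c2⟩ := cast_ne (Γ := Γ) (K := K) hqp
  set y := x ^ p ^ e with ey
  have yQ : zpowers y ≤ N[Q] := zpowers_le.2 (pow_mem hx _)
  have yp : y ^ p = 1 := by rw [ey, ← pow_mul, ← pow_succ, hn]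
  have cop := IsPGroup.coprime_card_of_ne _ _ hqp _ _ hQ (pg_zpowers (n := 1) (by rwa [pow_one]))
  have k1 := commg_subl yQ
  have k2 := coprime_commGid yQ cop
  have k3 := coprime_cent_prod yQ cop (pgroup_sol hQ)
  have k4 : x ∈ N[⁅Q, zpowers y⁆] := zpowers_le.1 (normsR (zpowers_le.2 hx) (cents_norm (zpowers_le.2 (by
    rw [C_zpowers]; exact mem_cent1.2 (Commute.self_pow x _)))))
  have k5 := commg_norml Q (zpowers y)
  have qK : Q ≤ N[Q ⊓ Fx ρ U] := normsI (normG Q) (h.inv.trans St_le_norm_Fx)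
  have k6 : Q ⊓ C[zpowers y] ≤ C[⁅Q, zpowers y⁆] := centsC.1 (commG1.1 (le_bot_iff.1 (PLocal.three_subgroups (norm_of_normal _ _)
    (norm_of_normal _ _) (norm_of_normal _ _)
    (by rw [commG1.2 (centsC.1 inf_le_right), Subgroup.commutator_bot_left])
    ((commSg _ ((commSg _ inf_le_left).trans hZ)).trans (commG1.2 (centsC.1 (zpowers_le.2 hC))).le))))
  generalize ⁅Q, zpowers y⁆ = P at *
  have k7 : ∀ c ∈ Q ⊓ C[zpowers y], ∀ g ∈ P, ρ c * ρ g = ρ g * ρ c := fun c hc g hg => by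
    rw [← map_mul, ← map_mul, mem_cent.1 (k6 hc) g hg]
  obtain ⟨W₀, l1, l2⟩ := exists_irr (k1.trans h.inv) h.ne
  have l0 : Fx ρ U ≤ Fx ρ W₀ := fun g hg u hu => hg u (l1 hu)
  have l3 : ∀ g ∈ P, (∀ g' ∈ P, ⁅g, g'⁆ ∈ Fx ρ W₀) → g ∈ cm Q (Q ⊓ Fx ρ U) := fun g hg h' =>
    mem_cm qK (k1 hg) fun z hz => by
      obtain ⟨a, ha, c, hc, rfl⟩ := (mem_sup_norml (inf_le_left.trans k5)).1 (k3.ge hz)
      have z1 := hZ (commutator_mem_commutator (k1 hg) (k1 ha))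
      rw [show ⁅g, a * c⁆ = ⁅g, a⁆ * (a * ⁅g, c⁆ * a⁻¹) by simp only [commutatorElement_def]; group,
        commutatorElement_eq_one_iff_mul_comm.2 (mem_cent.1 (k6 hc) g hg), mul_one, mul_inv_cancel, mul_one]
      refine ⟨z1.1, h.fx_of_fix (h.inv z1.1) (fun b hb => ?_) l1 l2.ne (h' a ha)⟩
      rw [commutatorElement_eq_one_iff_mul_comm.2 (mem_cent.1 z1.2 b hb).symm]
      exact one_mem _
  have l4 : ¬ P ≤ Fx ρ W₀ := fun h' => hK fun g hg => h.fx_of_fix (h.inv (k1 hg)) (fun b hb =>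
    (((le_cm qK).1 le_rfl).2 (commutator_mem_commutator (l3 g hg fun g' hg' =>
      h' (der_sub P (commutator_mem_commutator hg hg'))) hb)).2) l1 l2.ne (h' hg)
  have pP := hQ.to_le k1
  obtain ⟨φ, h1, h2, j, h3, h4, h5⟩ := exists_stab2 (c2 pP) k4 hn l2
  obtain ⟨h6, h7⟩ := l2.map (one_mem _) (by simpa using h1) h2
  have h8 := fun g (hg : g ∈ P) => Fx_of_map l2.inv h1 h7 hg
  have pj := pow_pos hp.out.pos j
  obtain ⟨k, rfl⟩ : ∃ k, e = j + k := Nat.exists_eq_add_of_le (Nat.lt_succ_iff.1 (h3.lt_of_ne fun e' => h2 (eq_bot_iff.2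
    fun u hu => h5 1 (by simp) u hu (p ^ (e + 1) - 1) (e' ▸ Nat.sub_lt pj one_pos) (by rw [hr]; rfl))))
  have e1 : (x ^ p ^ j) ^ p ^ k = y := by rw [← pow_mul, ← pow_add]
  have e2 : (x ^ p ^ j) ^ p ^ (k + 1) = 1 := by rw [← pow_mul, ← pow_add, ← add_assoc, hn]
  obtain ⟨s, hs⟩ : ∃ s, s + 2 = p ^ (k + 1) := ⟨_, Nat.sub_add_cancel (Nat.one_lt_pow k.succ_ne_zero hp.out.one_lt)⟩
  have ind : ∀ ψ : End K V, (∀ g ∈ P, ψ * ρ g = ρ g * ψ) → ∀ u ∈ W₀.map φ, ∀ v,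
      ((ρ (x ^ p ^ j) - 1) ^ (s + 1)) v = ψ u → ψ u = 0 := fun ψ hψ u hu v e => h5 ψ hψ u hu (p ^ j - 1) (by omega) (by
    rw [← e, map_pow, ← sub_one_pow (K := K), ← pow_mul, ← End.mul_apply, ← pow_add, show p ^ j - 1 + p ^ j * (s + 1) =
      p ^ (j + k + 1) - 1 by rw [add_assoc, pow_add, ← hs, mul_add, mul_add]; omega, hr]; rfl)
  have cr := fun s => crit' (k := k) (s := s) (c2 pP) (pow_mem k4 _) e2 h6 h4 (fun g hg hg' g' hg'' => by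
      rw [commutatorElement_eq_one_iff_mul_comm.2 (mem_cent.1 (k6 ⟨k1 hg, C_zpowers y ▸ e1 ▸ hg'⟩) g' hg'').symm]
      exact one_mem _)
    fun h => l4 fun g hg => (h8 g hg).1 (commg_subr (h6.inv.trans St_le_norm_Fx)
      (commgS _ (zpowers_le.2 (e1 ▸ pow_mem h _)) (k2.ge hg)))
  obtain ⟨h9, -, h11⟩ := cr (s + 1) (fun u hu => ind 1 (by simp) _ (pow_sub_mem h4 hu (s + 1)) u rfl) (by omega)
  have key := fun φ => exc_comm_end (φ := φ) h6 h4 (pow_mem k4 _) e2 hs ind fun h => by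
    have := (cr s h (by omega)).2.1; omega
  obtain ⟨ψ, p1, p2, p3⟩ := exists_inv (c2 pP) l2 h1 h2
  obtain ⟨n, hn'⟩ := pP.exists_card_eq
  obtain ⟨m, hm⟩ := dim_pow c1 n hn' h6
  have xP := pow_mem k4 (p ^ j)
  set z := x ^ p ^ j with hz
  let U₁ : Submodule K V :=
    { carrier := {u | u ∈ U ∧ ρ z u ∈ U ∧ ∀ c ∈ Q ⊓ C[zpowers y], ρ z (ρ c u) = ρ c (ρ z u)}
      add_mem' := fun h h' => ⟨add_mem h.1 h'.1, by rw [map_add]; exact add_mem h.2.1 h'.2.1, fun c hc => by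
        simp only [map_add, h.2.2 c hc, h'.2.2 c hc]⟩
      zero_mem' := ⟨zero_mem _, by simp, by simp⟩
      smul_mem' := fun a u h => ⟨U.smul_mem a h.1, by rw [map_smul]; exact U.smul_mem a h.2.1, fun c hc => by
        simp only [map_smul, h.2.2 c hc]⟩ }
  have u1 : U₁ = U := (h.min U₁ (fun u hu => hu.1) (k3.ge.trans (sup_le (fun a ha u hu => ?_) fun a ha u hu =>
    ⟨h.inv ha.1 u hu.1, hu.2.2 a ha ▸ h.inv ha.1 _ hu.2.1, fun c hc => ?_⟩))).resolve_left fun e => l2.ne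
      (eq_bot_iff.2 fun u hu => e.le ⟨l1 hu, ?_, fun c hc => ?_⟩)
  · refine ⟨j, k, m, rfl, h11, hm ▸ h9, fun u hu => (u1.ge hu).2.1, fun c hc u hu => ?_, hm ▸ h6.index_le (c2 pP)
      (fun g hg h' => l3 g hg fun g' hg' => (h8 _ (der_sub P (commutator_mem_commutator hg hg'))).1 (h' g' hg')) (by
        rw [commG1.2 ((((commutator_mono k1 k1).trans hZ).trans inf_le_right).trans (centS k1))]; exact bot_le)⟩
    have : z ∈ St ρ U := fun u hu => (u1.ge hu).2.1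
    rw [commutatorElement_def, map_mul, map_mul, map_mul, End.mul_apply, End.mul_apply, End.mul_apply,
      (u1.ge (inv_mem this u hu)).2.2 _ (inv_mem hc)]
    simp only [← End.mul_apply, ← map_mul, mul_inv_cancel_left, mul_inv_cancel, map_one, End.one_apply]
  · have a1 : ∀ v, ρ z (ρ a v) = ρ (z * a * z⁻¹) (ρ z v) := fun v => by
      simp only [← End.mul_apply, ← map_mul, inv_mul_cancel_right]
    have a2 := conj_mem_of_norm xP ha
    refine ⟨h.inv (k1 ha) u hu.1, a1 u ▸ h.inv (k1 a2) _ hu.2.1, fun c hc => ?_⟩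
    rw [← End.mul_apply (ρ c), k7 c hc a ha, End.mul_apply, a1, a1, hu.2.2 c hc, ← End.mul_apply (ρ c) (ρ (_ * _)),
      k7 c hc _ a2, End.mul_apply]
  · rw [hu.2.2 a ha, ← End.mul_apply (ρ c), ← End.mul_apply (ρ c), ← map_mul, hu.2.2 _ (mul_mem hc ha)]
  · rw [← p3 u hu, key ψ p1 _ ⟨u, hu, rfl⟩]; exact l1 (p2 _)
  · rw [← p3 u hu, key ψ p1 _ ⟨u, hu, rfl⟩]
    exact key (ρ c * ψ) (fun g hg => by rw [mul_assoc, p1 g hg, ← mul_assoc, k7 c hc g hg, mul_assoc]) _ ⟨u, hu, rfl⟩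

theorem exc_Phi [CharP K 2] (q2 : q ≠ 2) (hQ : IsPGroup q Q) (hZ : ⁅Q, Q⁆ ≤ Z[Q]) (hx : x ∈ N[Q]) {e : ℕ}
    (hn : x ^ 2 ^ (e + 1) = 1) (hr : (ρ x - 1) ^ (2 ^ (e + 1) - 1) = 0) (hC : x ^ 2 ^ e ∈ C[Z[Q]]) (h : Irr ρ Q U)
    (hT : IsPGroup 2 T) (xT : x ∈ N[T]) (tQ : T ≤ N[Q]) (tK : T ≤ N[Q ⊓ Fx ρ U]) (yK : x ^ 2 ^ e ∈ N[Q ⊓ Fx ρ U])
    {R : Subgroup Γ} (hR : R = cm Q (Q ⊓ Fx ρ U)) (hv : v ∈ T) :
    ⁅coset R v, coset R (x ^ 2 ^ e)⁆ ∈ Phi (T /ᵍ R) ⊔ (T /ᵍ R ⊓ C[Q /ᵍ R]) := by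
  have qK : Q ≤ N[Q ⊓ Fx ρ U] := normsI (normG Q) (h.inv.trans St_le_norm_Fx)
  have qR : Q ≤ N[R] := hR ▸ norms_cm (normG Q) qK
  have tR : T ≤ N[R] := hR ▸ norms_cm tQ tK
  have yQ : zpowers (x ^ 2 ^ e) ≤ N[Q] := zpowers_le.2 (pow_mem hx _)
  have yR : zpowers (x ^ 2 ^ e) ≤ N[R] := hR ▸ norms_cm yQ (zpowers_le.2 yK)
  have kR : Q ⊓ Fx ρ U ≤ R := hR ▸ (le_cm qK).2 ⟨inf_le_left, commg_subl qK⟩
  have zR : Z[Q] ≤ R := hR ▸ (le_cm qK).2 ⟨inf_le_left, by rw [commG1.2 inf_le_right]; exact bot_le⟩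
  by_cases hK : ⁅Q, zpowers (x ^ 2 ^ e)⁆ ≤ Fx ρ U
  · have m := commutator_mem_commutator (mem_quotient (tR hv) hv) (mem_quotient (yR (mem_zpowers _)) (mem_zpowers _))
    exact mem_sup_right ⟨commg_subl (quotient_norms _ (zpowers_le.2 (pow_mem xT _))) m, (commgS _ (centsC.1
      (quotient_cents2r ((le_inf (commg_subl yQ) hK).trans kR)))).trans (commg_subr (norms_cent (quotient_norms _ tQ))) m⟩
  obtain ⟨j, k, m, rfl, l1, l2, l3, l4, l5⟩ := exc_struct q2 hQ hZ hx hn hr hC h hK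
  have e1 : (x ^ 2 ^ j) ^ 2 ^ k = x ^ 2 ^ (j + k) := by rw [← pow_mul, ← pow_add]
  have zQ := pow_mem hx (2 ^ j)
  have nz : x ^ 2 ^ j ∈ N[R] := hR ▸ zpowers_le.1 (norms_cm (zpowers_le.2 zQ)
    (normsI (zpowers_le.2 zQ) ((zpowers_le.2 l3).trans St_le_norm_Fx)))
  have ab : IsMulCommutative (Q /ᵍ R) := sub_der1_abelian (hZ.trans zR)
  rw [← e1, coset_pow nz]
  refine refl_Phi (hQ.quo R) ab q2 (Nat.pos_of_ne_zero (by rintro rfl; simp at l1)) l2 (hT.quo R)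
    (quotient_norms _ (zpowers_le.2 (pow_mem xT _)) (mem_quotient nz (mem_zpowers _))) (quotient_norms _ tQ)
    ⟨quotient_norms _ (zpowers_le.2 zQ) (mem_quotient nz (mem_zpowers _)), by
      rw [← coset_pow nz, ← pow_mul, ← pow_add, ← add_assoc, hn, coset_one], ?_, ?_⟩ (mem_quotient (tR hv) hv) <;>
    rw [← coset_pow nz, e1, ← quotient_zpowers (yR (mem_zpowers _)), ← quotientR qR yR]
  · have k1 := commg_subl yQ
    have n1 : zpowers (x ^ 2 ^ j) ≤ N[⁅Q, zpowers (x ^ 2 ^ (j + k))⁆] := normsR (zpowers_le.2 zQ)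
      (cents_norm (zpowers_le.2 (by rw [C_zpowers]; exact mem_cent1.2 (Commute.pow_pow_self x _ _))))
    refine comm_le_of_elt (sub_abelian_norm ab (quotientS _ k1)) (quotient_norms _ n1 (mem_quotient nz (mem_zpowers _)))
      fun c hc => ?_
    obtain ⟨c, hc', nc, rfl⟩ := mem_quotient_iff.1 hc
    obtain ⟨a, ha, b, hb, rfl⟩ := (mem_sup_norml (inf_le_left.trans (commg_norml Q _))).1
      ((coprime_cent_prod yQ (IsPGroup.coprime_card_of_ne _ _ q2 _ _ hQ (pg_zpowers (n := 1) (by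
        rw [pow_one, ← pow_mul, ← pow_succ, hn]))) (pgroup_sol hQ)).ge hc')
    have b1 := commg_subl (zpowers_le.2 zQ) (commutator_mem_commutator hb.1 (mem_zpowers _))
    have b2 := commg_subl n1 (commutator_mem_commutator ha (mem_zpowers _))
    have b3 := conj_mem_of_norm (qR (k1 ha)) (kR ⟨b1, l4 b hb⟩)
    rw [← coset_comm nc nz, show ⁅a * b, x ^ 2 ^ j⁆ = a * ⁅b, x ^ 2 ^ j⁆ * a⁻¹ * ⁅a, x ^ 2 ^ j⁆ by
      simp only [commutatorElement_def]; group, coset_mul (normG R b3) (qR (k1 b2)), coset_id b3, one_mul]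
    exact mem_quotient (qR (k1 b2)) b2
  · rwa [card_quotient ((commg_subl yQ).trans qR), hR]

theorem exc_cent [CharP K 2] (hρ : ρ.ker = ⊥) (q2 : q ≠ 2) (hQ : IsPGroup q Q) (hZ : ⁅Q, Q⁆ ≤ Z[Q]) [Q.Normal] {e : ℕ}
    (hr : ∀ x : Γ, x ^ 2 ^ (e + 1) = 1 → (ρ x - 1) ^ (2 ^ (e + 1) - 1) = 0) {S : Set Γ}
    (hS : ∀ s ∈ S, ∃ x ∈ N[T], x ^ 2 ^ (e + 1) = 1 ∧ x ^ 2 ^ e = s) (hT : IsPGroup 2 T) (h1 : T ≤ closure S)
    (hE : E ≤ closure S) (hc : (#T).Coprime #E) : ⁅T, E⁆ ≤ C[Q] := by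
  obtain ⟨c1, c2⟩ := cast_ne (Γ := Γ) (K := K) q2
  have nQ := fun A => norm_of_normal Q A
  have hl : 2 ^ (e + 1) - 1 < 2 ^ (e + 1) := Nat.sub_lt (pow_pos two_pos _) one_pos
  have red : ∀ X : Subgroup Γ, Q ≤ N[X] → (∀ U, Irr ρ Q U → X ≤ Fx ρ U) → X = ⊥ := fun X hX h => by_contra fun ne => by
    obtain ⟨U, h1, h2⟩ := exists_irr_nt (ρ := ρ) (c2 hQ) hX (by rwa [hρ, le_bot_iff])
    exact h2 (h U h1)
  have st : ∀ s ∈ S, ∀ U, Irr ρ Q U → ∃ W, Irr ρ Q W ∧ Q ⊓ Fx ρ W = Q ⊓ Fx ρ U ∧ s ∈ St ρ W := fun s hs U hU => by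
    obtain ⟨x, -, h1, rfl⟩ := hS s hs
    exact exc_norm (c2 hQ) (nQ ⊤ trivial) h1 (hr x h1) hl hU
  have sT : closure S ≤ N[T] := (closure_le _).2 fun s hs => by
    obtain ⟨x, h0, -, rfl⟩ := hS s hs
    exact pow_mem h0 _
  have sZ : closure S ≤ C[Z[Q]] := (closure_le _).2 fun s hs => zpowers_le.1 (centsC.1 (commG1.1 (red _
    (cents_norm (centsC.1 ((commg_subl (norms_center (nQ _))).trans inf_le_right))) fun U hU => by
      obtain ⟨W, l1, l2, l3⟩ := st s hs U hU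
      exact (le_inf ((commSg _ inf_le_left).trans (commg_subl (nQ _))) (commutator_le.2 fun a ha b hb =>
        l1.comm_fx ha (zpowers_le.2 l3 hb))).trans (l2.le.trans inf_le_right))))
  have tE : ⁅T, E⁆ ≤ T := commg_subl (hE.trans sT)
  have key : ⁅Q, ⁅T, E⁆⁆ ≤ C[Q] := commG1.1 (red _ (commg_normr _ _) fun U hU => by
    have nK : closure S ≤ N[Q ⊓ Fx ρ U] := (closure_le _).2 fun s hs => by
      obtain ⟨W, -, l2, l3⟩ := st s hs U hU
      exact l2 ▸ zpowers_le.1 (normsI (nQ _) ((zpowers_le.2 l3).trans St_le_norm_Fx))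
    have qK : Q ≤ N[Q ⊓ Fx ρ U] := normsI (normG Q) (hU.inv.trans St_le_norm_Fx)
    refine ((le_cm qK).1 ?_).2.trans inf_le_right
    obtain ⟨R, hR⟩ : ∃ R, R = cm Q (Q ⊓ Fx ρ U) := ⟨_, rfl⟩
    have sR : closure S ≤ N[R] := hR ▸ norms_cm (nQ _) nK
    have qR : Q ≤ N[R] := hR ▸ norms_cm (normG Q) qK
    rw [← hR, ← quotient_cents2 qR (tE.trans (h1.trans sR)), centsC, quotientR (h1.trans sR) (hE.trans sR)]
    have n1 : closure S /ᵍ R ≤ N[T /ᵍ R] := quotient_norms _ sT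
    have n2 : closure S /ᵍ R ≤ N[Phi (T /ᵍ R) ⊔ (T /ᵍ R ⊓ C[Q /ᵍ R])] :=
      normsY (norms_Phi n1) (normsI n1 (norms_cent (quotient_norms _ (nQ _))))
    refine odd_cent_of_Phi (hT.quo R) (quotient_norms _ (nQ _)) n1 (quotient_norms _ (nQ _)) ?_ (quotientS _ hE)
      (coprime_morph _ hc)
    rw [commutator_comm, ← quotient_cents2 n2 ((quotientS _ h1).trans n2), sub_quotient_pre n2, sub_quotient_pre sR,
      closure_le]
    intro s hs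
    have m := sR (subset_closure hs)
    have m' := n2 (mem_quotient m (subset_closure hs))
    refine mem_coquo.2 ⟨m, zpowers_le.1 ((sub_quotient_pre (zpowers_le.2 m')).1 (centsC.1 (quotient_cents2r
      (comm_le_of_elt ((quotientS _ h1).trans n2) m' fun v hv => ?_))))⟩
    obtain ⟨v, hv', -, rfl⟩ := mem_quotient_iff.1 hv
    obtain ⟨x, h0, h2, rfl⟩ := hS s hs
    exact exc_Phi q2 hQ hZ (nQ ⊤ trivial) h2 (hr x h2) (sZ (subset_closure hs)) hU hT h0 (nQ _) (h1.trans nK)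
      (nK (subset_closure hs)) hR hv')
  refine centsC.1 (commG1.1 ?_)
  rw [← coprime_commGid (nQ _) (IsPGroup.coprime_card_of_ne _ _ q2 _ _ hQ (hT.to_le tE))]
  exact commG1.2 (centsC.1 (((tE.trans h1).trans sZ).trans (centS (le_inf (commg_subl (nQ _)) key))))

end Lin

omit hq in
theorem exc_mem {F V : Type*} [Field F] [CharP F 2] [AddCommGroup V] [Module F V] [FiniteDimensional F V]
    (hG : Group.IsSolvable Γ) (hO : pCore 2 Γ = ⊥) {ρ : Γ →* End F V} (hρ : Function.Injective ρ) {e : ℕ}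
    (hr : ∀ x : Γ, x ^ 2 ^ (e + 1) = 1 → (ρ x - 1) ^ (2 ^ (e + 1) - 1) = 0) (hx : x ^ 2 ^ (e + 1) = 1) :
    x ^ 2 ^ e ∈ pPrimePCore 2 Γ := by
  obtain ⟨d, Φ, hΦ⟩ := exists_bc F V
  have sol : Group.IsSolvable (⊤ : Subgroup Γ) := inferInstance
  obtain ⟨D, hD, xD⟩ := Sylow_superset (M := ⊤) le_top (pg_zpowers hx)
  have nX := pseries2_normal {2}ᶜ {2} (⊤ : Subgroup Γ)
  have hT := Sylow_setI_normal nX hD
  have xT : x ∈ N[Opp 2 ⊤ ⊓ D] := zpowers_le.1 (normsI (le_top.trans nX.norm) (xD.trans (normG D)))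
  generalize Opp 2 ⊤ ⊓ D = T at hT xT
  set S := {s | ∃ x ∈ N[T], x ^ 2 ^ (e + 1) = 1 ∧ x ^ 2 ^ e = s} with hS
  have sT : closure S ≤ N[T] := (closure_le _).2 (by rintro _ ⟨x, h0, -, rfl⟩; exact pow_mem h0 _)
  have nS : N[T] ≤ N[closure S] := fun g hg => mem_norm_of_cj_le (by
    rw [cj_closure, closure_le]
    rintro _ ⟨_, ⟨a, ha, h1, rfl⟩, rfl⟩
    exact subset_closure ⟨_, mul_mem (mul_mem hg ha) (inv_mem hg), by rw [conj_pow, h1]; simp, conj_pow⟩)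
  have pT := hT.pg
  have nT : N[T] ≤ N[T ⊓ closure S] := normsI le_rfl nS
  have key : ∀ E ≤ closure S, PiGrp {2}ᶜ E → E ≤ Op' 2 ⊤ := fun E hE h2 => by
    have cE : (#T).Coprime #E := pnat_coprime (IsPGroup.pi pT) h2
    have t1 : ⁅T ⊓ closure S, E⁆ ≤ T := (commg_subl ((hE.trans sT).trans nT)).trans inf_le_left
    have t2 : ⁅T ⊓ closure S, E⁆ ≤ C[fittingOf ⊤] := centsC.1 (Fitting_le_of_pcore fun q hq _ => by
      haveI := Fact.mk hq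
      by_cases q2 : q = 2
      · subst q2; rw [Op_top, hO]; exact bot_le
      by_cases h0 : Op q (⊤ : Subgroup Γ) = ⊥
      · rw [h0]; exact bot_le
      have pQ := Op_pgroup q (⊤ : Subgroup Γ)
      have nq := (pcore_normal {q} (⊤ : Subgroup Γ)).norm
      obtain ⟨Q, l1, -, l2, l3, -, l4⟩ := critical_odd (by
        obtain ⟨n, hn⟩ := pQ.exists_card_eq
        rw [hn]; exact (hq.odd_of_ne_two q2).pow) pQ h0
      haveI : Q.Normal := normalizer_eq_top_iff.1 (top_le_iff.1 (nq.trans l2))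
      refine centsC.1 (l4 _ (le_top.trans nq) (p'group_of_ne (pT.to_le t1) (Ne.symm q2)) ?_)
      exact exc_cent (ρ := Φ.toMonoidHom.comp ρ) ((MonoidHom.ker_eq_bot_iff _).2 (hΦ.comp hρ)) q2 (pQ.to_le l1)
        ((commgS _ l1).trans l3) (fun x h => by simpa using congrArg Φ (hr x h))
        (S := S) (fun s ⟨x, h0, h1, h2⟩ => ⟨x, nT h0, h1, h2⟩) (pT.to_le inf_le_left) inf_le_right hE
        (cE.coprime_dvd_left (card_dvd_of_le inf_le_left)))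
    have t3 := pgroup_sub_Fitting ((le_inf le_top t2).trans (cent_sub_Fitting sol)) (pT.to_le t1)
    rw [Op_top, hO, le_bot_iff] at t3
    have t4 : ⁅T, E⁆ = ⊥ := by
      rw [← coprime_commGid (hE.trans sT) cE]
      exact eq_bot_iff.2 ((commSg _ (le_inf (commg_subl (hE.trans sT)) ((commgS _ hE).trans
        (commg_subr ((normG T).trans nS))))).trans t3.le)
    exact sub_normal_Hall (pHall_Op'_Opp 2 ⊤) ((pcore_normal _ _).subl (pcore_sub_pseries2 _ _ _) le_top)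
      ((le_inf le_top (centsC.1 (commG1.1 t4))).trans (solvable_p_constrained sol hT)) h2
  have nY := (pcore_normal {2}ᶜ (⊤ : Subgroup Γ)).norm
  rw [← Opp_top]
  refine (sub_pseries2 le_top).2 (pcore_max ⟨quotientS _ le_top, ?_⟩ (pgroup_of_elts fun z hz => ?_))
    (subset_closure ⟨x, xT, hx, rfl⟩ : _ ∈ closure S)
  · have := Frattini_arg nX hT
    rw [top_inf_eq] at this
    replace this : ⊤ ≤ Op' 2 ⊤ ⊔ N[T] :=
      this.ge.trans (sup_le ((Opp_sdprod hT).sup.ge.trans (sup_le_sup_left (normG T) _)) le_sup_right)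
    exact (quotientS _ this).trans ((quotientYidl (le_top.trans nY)).le.trans (quotient_norms _ nS))
  · obtain ⟨z, hz', nz, rfl⟩ := mem_quotient_iff.1 hz
    rw [← consttC {2} z, coset_mul (nY trivial) (nY trivial), coset_id (key _ (zpowers_le.2 (zpowers_le.2 hz'
      (constt_mem_zpowers _ _))) (p_elt_zpowers.2 (p_elt_constt _ _)) (mem_zpowers _)), mul_one, coset_eq (nY trivial)]
    exact PiNat.of_dvd (p_elt_constt _ z) ((orderOf_map_dvd _ _).trans (by simp))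

omit hq in
theorem plen_gross (e : ℕ) : ∀ (G : Type u) [Group G] [Finite G], Group.IsSolvable G → PExp 2 (e + 1) G →
    PLengthLE 2 (2 * e + 1) G := by
  induction e with
  | zero =>
    intro G _ _ hG h
    obtain ⟨H, _, _, f, hf, h1, h3⟩ := exists_frame (PLocal.pSolv_of_isSolvable (p := 2) (G := G))
    exact plen_frame hf h3 (PLocal.pLengthLE_zero_iff.2 ((Nat.prime_two.coprime_iff_not_dvd).2 (PExp.not_dvd
      fun x k hx => h1.inj (by simpa [sub_eq_zero] using h1.exc (h.of_surj hf) hx))).symm)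
  | succ e ih =>
    intro G _ _ hG h
    obtain ⟨H, _, _, f, hf, h1, h3⟩ := exists_frame (PLocal.pSolv_of_isSolvable (p := 2) (G := G))
    have h6 := h.of_surj hf
    haveI := Group.isSolvable_of_surjective hf
    refine plen_frame hf h3 (PLocal.pLengthLE_succ_iff.2 (ih _ inferInstance fun x k hx => ?_))
    obtain ⟨D, hD, e'⟩ := PLocal.exists_lift_pgroup (QuotientGroup.mk'_surjective _) (pg_zpowers hx)
    obtain ⟨g, hg, rfl⟩ := e'.ge (mem_zpowers x)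
    obtain ⟨n, hn⟩ := hD ⟨g, hg⟩
    exact (QuotientGroup.eq_one_iff _).2 (exc_mem inferInstance (Solv.pCore_quotient_pCore 2 H) h1.inj
      (fun x hx => h1.exc h6 hx) (h6.of_surj (QuotientGroup.mk'_surjective _) g n (congrArg Subtype.val hn)))

end Cfsg.Agent.Sig.HH
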