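import Cfsg.Agent.PLocal.Npc
import Cfsg.Agent.PLocal.Quad

/-! Glauberman: abelian subgroups of largest order outside `O_p(G)` act with small degree on the chief factors below
`O_p(G)`.  Part 1: commutator identities, the upper series `JD.K`, Thompson's replacement with surjectivity
(`JD.thompson`). -/

set_option linter.dupNamespace false
set_option linter.unusedSectionVars false
set_option linter.unusedVariables false

namespace Cfsg.Agent.Sig.JD

open Subgroup Cfsg Cfsg.Agent.Transfer Cfsg.Agent.BG Cfsg.Agent.PLocal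
open scoped commutatorElement

variable {G : Type*} [Group G] {p : ℕ} {A B Q S T X Y Z : Subgroup G}

theorem c_mul_left (u w a : G) : ⁅u * w, a⁆ = u * ⁅w, a⁆ * u⁻¹ * ⁅u, a⁆ := by
  simp only [commutatorElement_def]; group

theorem c_mul_right (u a b : G) : ⁅u, a * b⁆ = ⁅u, a⁆ * (a * ⁅u, b⁆ * a⁻¹) := by
  simp only [commutatorElement_def]; group

theorem c_conj (u w a : G) : a * ⁅u, w⁆ * a⁻¹ = ⁅a * u * a⁻¹, a * w * a⁻¹⁆ := by
  simp only [commutatorElement_def]; group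

theorem swap {u a b : G} (hab : Commute a b) (h1 : Commute (a * ⁅u, b⁆ * a⁻¹) ⁅u, a⁆)
    (h2 : Commute (b * ⁅u, a⁆ * b⁻¹) ⁅u, b⁆) (h3 : Commute ⁅u, a⁆ ⁅u, b⁆) :
    ⁅⁅u, a⁆, b⁆ = ⁅⁅u, b⁆, a⁆ := by
  have e1 := c_mul_right u a b
  have e2 := c_mul_right u b a
  rw [hab.eq, e2] at e1
  have e3 : b * ⁅u, a⁆ * b⁻¹ = ⁅u, b⁆⁻¹ * (⁅u, a⁆ * (a * ⁅u, b⁆ * a⁻¹)) := by rw [← e1]; group
  have e4 : ⁅⁅u, a⁆, b⁆ = ⁅u, a⁆ * (b * ⁅u, a⁆ * b⁻¹)⁻¹ := by
    rw [commutatorElement_def ⁅u, a⁆ b]; group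
  have e5 : ⁅⁅u, b⁆, a⁆ = ⁅u, b⁆ * (a * ⁅u, b⁆ * a⁻¹)⁻¹ := by
    rw [commutatorElement_def ⁅u, b⁆ a]; group
  rw [e4, e5, e3]
  generalize a * ⁅u, b⁆ * a⁻¹ = t at *
  generalize ⁅u, a⁆ = r at *
  generalize ⁅u, b⁆ = s at *
  have h4 : Commute s t := by
    have := h2
    rw [e3] at this
    have h5 : Commute (r * t) s := by
      have := (Commute.refl s).mul_left this
      rwa [mul_inv_cancel_left] at this
    have := (h3.inv_left).mul_left h5
    rw [inv_mul_cancel_left] at this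
    exact this.symm
  calc r * (s⁻¹ * (r * t))⁻¹ = r * t⁻¹ * r⁻¹ * s := by group
    _ = t⁻¹ * s := by rw [← h1.inv_left.eq]; group
    _ = s * t⁻¹ := h4.inv_right.eq.symm

theorem comm_of {X : Subgroup G} (hX : IsMulCommutative X) {u w : G} (hu : u ∈ X) (hw : w ∈ X) :
    Commute u w := (le_centralizer_self hX hw u hu)

theorem c_mem (hA : A ≤ N[X]) {u a : G} (hu : u ∈ X) (ha : a ∈ A) : ⁅u, a⁆ ∈ X :=
  commElt_mem_left hu (hA ha)

theorem swap_ab (hX : IsMulCommutative X) (hA : A ≤ N[X]) {u a b : G} (hab : Commute a b) (ha : a ∈ A)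
    (hb : b ∈ A) (h1 : ⁅u, a⁆ ∈ X) (h2 : ⁅u, b⁆ ∈ X) : ⁅⁅u, a⁆, b⁆ = ⁅⁅u, b⁆, a⁆ :=
  swap hab (comm_of hX (conj_mem_of_norm (hA ha) h2) h1) (comm_of hX (conj_mem_of_norm (hA hb) h1) h2)
    (comm_of hX h1 h2)

theorem c_mul_ab (hX : IsMulCommutative X) (hA : A ≤ N[X]) {u w a : G} (hu : u ∈ X) (hw : w ∈ X)
    (ha : a ∈ A) : ⁅u * w, a⁆ = ⁅u, a⁆ * ⁅w, a⁆ := by
  rw [c_mul_left, (comm_of hX hu (c_mem hA hw ha)).eq, mul_inv_cancel_right,
    (comm_of hX (c_mem hA hw ha) (c_mem hA hu ha)).eq]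

theorem c_inv_ab (hX : IsMulCommutative X) (hA : A ≤ N[X]) {u a : G} (hu : u ∈ X)
    (ha : a ∈ A) : ⁅u⁻¹, a⁆ = ⁅u, a⁆⁻¹ := by
  have := c_mul_ab hX hA hu (inv_mem hu) ha
  rw [mul_inv_cancel, commutatorElement_one_left] at this
  exact (eq_inv_of_mul_eq_one_right this.symm)

theorem c_fix {w a c : G} (h : Commute w c) : ⁅w, a * c⁆ = ⁅w, a⁆ := by
  rw [c_mul_right, commutatorElement_eq_one_iff_commute.2 h]; simp

/-- The upper series of the action of `A` on `X / Y`. -/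
def K (X Y A : Subgroup G) : ℕ → Subgroup G
  | 0 => Y
  | n + 1 => X ⊓ Loc.commKer (K X Y A n) A

structure Ok (X Y A : Subgroup G) : Prop where
  le : Y ≤ X
  der : ⁅X, X⁆ ≤ Y
  nX : A ≤ N[X]
  nY : A ≤ N[Y]

theorem K_le (h : Ok X Y A) : ∀ n, K X Y A n ≤ X
  | 0 => h.le
  | _ + 1 => inf_le_left

theorem le_K (h : Ok X Y A) : ∀ n, Y ≤ K X Y A n
  | 0 => le_rfl
  | n + 1 => le_inf h.le (Loc.le_commKer_iff.2 ⟨norm_of_commg_subl
      ((commgSS (K_le h n) h.le).trans (h.der.trans (le_K h n))), (commg_subl h.nY).trans (le_K h n)⟩)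

theorem mem_K (h : Ok X Y A) {n : ℕ} {x : G} :
    x ∈ K X Y A (n + 1) ↔ x ∈ X ∧ ∀ a ∈ A, ⁅x, a⁆ ∈ K X Y A n :=
  ⟨fun hx => ⟨hx.1, hx.2.2⟩, fun hx => ⟨hx.1, norm_of_commg_subl
    ((commSg _ (K_le h n)).trans (h.der.trans (le_K h n))) hx.1, hx.2⟩⟩

theorem comm_K (h : Ok X Y A) (n : ℕ) : ⁅K X Y A (n + 1), A⁆ ≤ K X Y A n :=
  commutator_le.2 fun x hx a ha => ((mem_K h).1 hx).2 a ha

theorem iter_le_iff (h : Ok X Y A) {U : Subgroup G} (hU : U ≤ X) (n m : ℕ) :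
    iterCommutator U A n ≤ K X Y A m ↔ U ≤ K X Y A (m + n) := by
  induction n generalizing m with
  | zero => rfl
  | succ n ih =>
    rw [iter_succ, show m + (n + 1) = m + 1 + n by omega, ← ih]
    refine ⟨fun h1 x hx => (mem_K h).2 ⟨((iter_mono hU le_rfl n).trans (iter_le h.nX n)) hx,
      fun a ha => h1 (commutator_mem_commutator hx ha)⟩, fun h1 => (commSg _ h1).trans (comm_K h m)⟩

theorem K_mono (h : Ok X Y A) : ∀ n, K X Y A n ≤ K X Y A (n + 1)
  | 0 => le_K h 1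
  | n + 1 => fun x hx => (mem_K h).2 ⟨hx.1, fun a ha => K_mono h n (((mem_K h).1 hx).2 a ha)⟩

theorem conj_K (h : Ok X Y A) (n : ℕ) {x a : G} (hx : x ∈ K X Y A n) (ha : a ∈ A) :
    a * x * a⁻¹ ∈ K X Y A n := by
  cases n with
  | zero => exact conj_mem_of_norm (h.nY ha) hx
  | succ n =>
    have : a * x * a⁻¹ = ⁅x, a⁆⁻¹ * x := by simp only [commutatorElement_def]; group
    rw [this]
    exact mul_mem (inv_mem (K_mono h n (((mem_K h).1 hx).2 a ha))) hx

theorem exists_iter_bot [Finite G] [Fact p.Prime] (hS : IsPGroup p S) :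
    ∃ n, iterCommutator S S n = ⊥ := by
  obtain ⟨n, hn⟩ := (isNilpotent_iff_lowerCentralSeries S).1 hS.isNilpotent
  have key : ∀ m, iterCommutator S S m = S.lowerCentralSeries m := by
    intro m
    induction m with
    | zero => rfl
    | succ m ih => rw [iter_succ, ih]; rfl
  exact ⟨n, by rw [key, hn]⟩

theorem exists_le_K [Finite G] [Fact p.Prime] (h : Ok X Y A) (hS : IsPGroup p S) (hX : X ≤ S) (hA : A ≤ S) :
    ∃ n, X ≤ K X Y A n := by
  obtain ⟨n, hn⟩ := exists_iter_bot hS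
  refine ⟨0 + n, (iter_le_iff h le_rfl n 0).1 ?_⟩
  exact ((iter_mono hX hA n).trans hn.le).trans bot_le

theorem exists_step (h : Ok X Y A) (m : ℕ) : ∀ n, ∀ x ∈ K X Y A n, x ∉ K X Y A m →
    ∃ v ∈ K X Y A (m + 1), v ∉ K X Y A m := by
  intro n
  induction n with
  | zero => exact fun x hx hx' => absurd (le_K h m hx) hx'
  | succ n ih =>
    intro x hx hx'
    by_cases h1 : x ∈ K X Y A (m + 1)
    · exact ⟨x, h1, hx'⟩
    · rw [mem_K h] at h1
      push Not at h1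
      obtain ⟨a, ha, h2⟩ := h1 hx.1
      exact ih _ (((mem_K h).1 hx).2 a ha) h2

/-- `[x, A]`. -/
def M (A : Subgroup G) (x : G) : Subgroup G := closure {y | ∃ a ∈ A, ⁅x, a⁆ = y}

theorem mem_M {x a : G} (ha : a ∈ A) : ⁅x, a⁆ ∈ M A x := subset_closure ⟨a, ha, rfl⟩

theorem M_le {x : G} : M A x ≤ X ↔ ∀ a ∈ A, ⁅x, a⁆ ∈ X := by
  rw [M, closure_le]
  exact ⟨fun h a ha => h ⟨a, ha, rfl⟩, by rintro h _ ⟨a, ha, rfl⟩; exact h a ha⟩

theorem mem_cent_M {x c : G} : c ∈ C[M A x] ↔ ∀ a ∈ A, Commute ⁅x, a⁆ c := by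
  rw [← zpowers_le, le_centralizer_iff, M_le]
  simp only [mem_centralizer_zpowers_iff]
  exact forall₂_congr fun a ha => ⟨fun h => h.symm, fun h => h.symm⟩

theorem norm_M (x : G) : A ≤ N[M A x] := by
  refine le_norm_iff.2 fun a ha => ?_
  have : M A x ≤ (M A x).comap (MulAut.conj a).toMonoidHom := M_le.2 fun c hc => by
    have e : a * ⁅x, c⁆ * a⁻¹ = ⁅x, a⁆⁻¹ * ⁅x, a * c⁆ := by rw [c_mul_right]; group
    show a * ⁅x, c⁆ * a⁻¹ ∈ M A x
    rw [e]
    exact mul_mem (inv_mem (mem_M ha)) (mem_M (mul_mem ha hc))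
  exact fun y hy => this hy

theorem abelian_M {x : G} (h : ∀ a ∈ A, ∀ b ∈ A, Commute ⁅x, a⁆ ⁅x, b⁆) : IsMulCommutative (M A x) :=
  abelian_iff.2 (M_le.2 fun b hb => mem_cent_M.2 fun a ha => h a ha b hb)

theorem thompson [Finite G] (hA : A ∈ abMax S) {x : G} (hx : x ∈ S) (hM : IsMulCommutative (M A x)) :
    cent A (M A x) ⊔ M A x ∈ abMax S ∧
      ∀ m ∈ M A x, ∃ e ∈ A, ∀ d ∈ A, ⁅m, d⁆ = ⁅⁅x, e⁆, d⁆ := by
  classical
  have hn := norm_M (A := A) x
  have hAc : ∀ a ∈ A, ∀ b ∈ A, Commute a b := fun a ha b hb => comm_of hA.2.1 ha hb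
  have hMS : M A x ≤ S := M_le.2 fun a ha => by
    rw [commutatorElement_def]
    exact mul_mem (mul_mem (mul_mem hx (hA.1 ha)) (inv_mem hx)) (inv_mem (hA.1 ha))
  let g : M A x →* (A → M A x) := MonoidHom.mk' (fun m d => ⟨⁅(m : G), (d : G)⁆, c_mem hn m.2 d.2⟩)
    fun m m' => funext fun d => Subtype.ext (c_mul_ab hM hn m.2 m'.2 d.2)
  let f : A → (A → M A x) := fun a => g ⟨⁅x, (a : G)⁆, mem_M a.2⟩
  have hsub : Set.range f ⊆ (g.range : Set (A → M A x)) := by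
    rintro _ ⟨a, rfl⟩; exact ⟨_, rfl⟩
  have hker : g.ker = (cent (M A x) A).subgroupOf (M A x) := by
    ext m
    rw [MonoidHom.mem_ker, mem_subgroupOf]
    refine ⟨fun h => ⟨m.2, fun d hd => ?_⟩, fun h => funext fun d => Subtype.ext ?_⟩
    · have := congrArg Subtype.val (congrFun h ⟨d, hd⟩)
      exact (commutatorElement_eq_one_iff_commute.1 this).symm
    · exact commutatorElement_eq_one_iff_commute.2 (h.2 d d.2).symm
  have hf : Setoid.ker f = QuotientGroup.leftRel ((cent A (M A x)).subgroupOf A) := by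
    ext a b
    rw [Setoid.ker_def, QuotientGroup.leftRel_apply, mem_subgroupOf]
    have e : ∀ d : A, (f a d = f b d ↔ Commute ⁅x, (d : G)⁆ ((a : G)⁻¹ * b)) := fun d => by
      rw [Subtype.ext_iff]
      show ⁅⁅x, (a : G)⁆, (d : G)⁆ = ⁅⁅x, (b : G)⁆, (d : G)⁆ ↔ _
      rw [swap_ab hM hn (hAc _ a.2 _ d.2) a.2 d.2 (mem_M a.2) (mem_M d.2),
        swap_ab hM hn (hAc _ b.2 _ d.2) b.2 d.2 (mem_M b.2) (mem_M d.2)]
      generalize ⁅x, (d : G)⁆ = w
      have : (b : G) = a * ((a : G)⁻¹ * b) := by group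
      constructor
      · intro h
        rw [this, c_mul_right] at h
        have h' : (a : G) * ⁅w, (a : G)⁻¹ * b⁆ * (a : G)⁻¹ = 1 := by simpa using h.symm
        rw [← commutatorElement_eq_one_iff_commute]
        simpa [mul_inv_eq_one, mul_eq_left] using h'
      · intro h
        rw [this, c_fix h]
    refine ⟨fun h => ⟨A.mul_mem (A.inv_mem a.2) b.2, mem_cent_M.2 fun d hd => (e ⟨d, hd⟩).1 (congrFun h _)⟩,
      fun h => funext fun d => (e d).2 (mem_cent_M.1 h.2 d d.2)⟩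
  have c1 : Nat.card (Set.range f) * #(cent A (M A x)) = #A := by
    rw [← Nat.card_congr (Setoid.quotientKerEquivRange f), hf,
      ← Nat.card_congr (subgroupOfEquivOfLe (inf_le_left : cent A (M A x) ≤ A)).toEquiv]
    exact (card_eq_card_quotient_mul_card_subgroup _).symm
  have c2 : Nat.card g.range * #(cent (M A x) A) = #(M A x) := by
    rw [← Nat.card_congr (QuotientGroup.quotientKerEquivRange g).toEquiv,
      ← Nat.card_congr (subgroupOfEquivOfLe (inf_le_left : cent (M A x) A ≤ M A x)).toEquiv, ← hker]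
    exact (card_eq_card_quotient_mul_card_subgroup _).symm
  have c3 : Nat.card (Set.range f) ≤ Nat.card g.range := Nat.card_mono (Set.toFinite _) hsub
  have hab : IsMulCommutative (cent A (M A x) ⊔ M A x : Subgroup G) :=
    abelianY (abelianS inf_le_left hA.2.1) hM inf_le_right
  have hle : cent A (M A x) ⊔ M A x ≤ S := sup_le (inf_le_left.trans hA.1) hMS
  have c4 := hA.2.2 _ hle hab
  have c5 := Solv.card_sup_mul_card_inf (N := M A x) (H := cent A (M A x)) (cents_norm inf_le_right)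
  have c6 : cent A (M A x) ⊓ M A x = cent (M A x) A := le_antisymm
    (le_inf inf_le_right ((inf_le_left.trans inf_le_left).trans (le_centralizer_self hA.2.1)))
    (le_inf (le_inf ((inf_le_inf_right _ hMS).trans (inf_centralizer_le_of_mem_abMax hA))
      (inf_le_left.trans (le_centralizer_self hM))) inf_le_left)
  rw [sup_comm, inf_comm (M A x), c6] at c5
  have p1 : 0 < #(cent A (M A x)) := Nat.card_pos
  have p2 : 0 < #(cent (M A x) A) := Nat.card_pos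
  have c7 : #(cent A (M A x) ⊔ M A x) = Nat.card g.range * #(cent A (M A x)) := by
    refine Nat.eq_of_mul_eq_mul_right p2 ?_
    rw [c5, ← c2]; ring
  have c8 : Nat.card g.range ≤ Nat.card (Set.range f) :=
    Nat.le_of_mul_le_mul_right (by rw [← c7, c1]; exact c4) p1
  refine ⟨mem_maxFam_of_card hA hle hab ?_, fun m hm => ?_⟩
  · rw [c7, ← c1]; exact Nat.mul_le_mul_right _ c3
  · have := Set.eq_of_subset_of_ncard_le hsub c8 (Set.toFinite _)
    obtain ⟨e, he⟩ : g ⟨m, hm⟩ ∈ Set.range f := by rw [this]; exact ⟨_, rfl⟩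
    exact ⟨e, e.2, fun d hd => (congrArg Subtype.val (congrFun he ⟨d, hd⟩)).symm⟩

end Cfsg.Agent.Sig.JD
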