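import Cfsg.Agent.Sig.JD1

/-! Glauberman's degree bound for the abelian Thompson subgroup, part 2: minimal members `JD.MinJ` of `𝒜(S)` outside
`T`; cubic action on abelian sections centralised by `T` (`MinJ.cubic`). -/

set_option linter.dupNamespace false
set_option linter.unusedSectionVars false
set_option linter.unusedVariables false

namespace Cfsg.Agent.Sig.JD

open Subgroup Cfsg Cfsg.Agent.Transfer Cfsg.Agent.BG Cfsg.Agent.PLocal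
open scoped commutatorElement

variable {G : Type*} [Group G] [Finite G] {p : ℕ} {A B Q S T V X Y Z : Subgroup G}

theorem mu_le (hA : A ∈ abMax S) (hVS : V ≤ S) (hV : IsMulCommutative V) (hB : B ≤ A) :
    mu V B ≤ mu V A := by
  have h1 : B ≤ centralizer (cent V B : Set G) := le_centralizer_iff.1 inf_le_right
  have h2 := hA.2.2 _ (sup_le (hB.trans hA.1) (inf_le_left.trans hVS))
    (abelianY (abelianS hB hA.2.1) (abelianS inf_le_left hV) h1)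
  rw [mu, ← Solv.card_sup_mul_card_inf (cents_norm inf_le_right)]
  refine Nat.mul_le_mul h2 (card_le_of_le (le_inf (inf_le_right.trans inf_le_left) ?_))
  exact (inf_le_left.trans hB).trans (le_centralizer_self hA.2.1)

theorem sup_cent_mem (hA : A ∈ abMax S) (hVS : V ≤ S) (hV : IsMulCommutative V) (hB : B ≤ A)
    (h : mu V A ≤ mu V B) : B ⊔ cent V B ∈ abMax S := by
  have h1 : B ≤ centralizer (cent V B : Set G) := le_centralizer_iff.1 inf_le_right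
  refine mem_maxFam_of_card hA (sup_le (hB.trans hA.1) (inf_le_left.trans hVS))
      (abelianY (abelianS hB hA.2.1) (abelianS inf_le_left hV) h1) ?_
  rw [mu, mu, ← Solv.card_sup_mul_card_inf (N := B) (cents_norm inf_le_right)] at h
  have h2 : B ⊓ cent V B ≤ cent V A := le_inf (inf_le_right.trans inf_le_left)
    ((inf_le_left.trans hB).trans (le_centralizer_self hA.2.1))
  exact Nat.le_of_mul_le_mul_right (h.trans (Nat.mul_le_mul_left _ (card_le_of_le h2))) Nat.card_pos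

theorem timm (hA : A ∈ abMax S) (hVS : V ≤ S) (hV : IsMulCommutative V) (hn : A ≤ N[V]) :
    cent V (cent A ⁅V, A⁆) = ⁅V, A⁆ ⊔ cent V A ∧ cent A ⁅V, A⁆ ⊔ cent V (cent A ⁅V, A⁆) ∈ abMax S := by
  obtain ⟨h1, h2⟩ := replace hV hn (by rw [comm_eq_bot_iff.2 (le_centralizer_self hA.2.1)]; exact bot_le)
    (fun B hB => mu_le hA hVS hV hB) le_rfl
  exact ⟨h1, sup_cent_mem hA hVS hV inf_le_left h2.ge⟩

structure MinJ (S T A : Subgroup G) : Prop where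
  mem : A ∈ abMax S
  nle : ¬ A ≤ T
  min : ∀ B ∈ abMax S, ¬ B ≤ T → B ≤ A ⊔ T → A ≤ B ⊔ T

theorem exists_minJ (h : ¬ thompsonSubgroupAOf S ≤ T) : ∃ A, MinJ S T A := by
  rw [JA_le_iff] at h
  push Not at h
  obtain ⟨A, ⟨h1, h2⟩, h3⟩ := Set.exists_min_image {A | A ∈ abMax S ∧ ¬ A ≤ T} (fun A => #(A ⊔ T))
    (Set.toFinite _) h
  refine ⟨A, h1, h2, fun B hB hB' hBA => ?_⟩
  have := eq_of_le_of_card_ge (sup_le hBA le_sup_right : B ⊔ T ≤ A ⊔ T) (h3 B ⟨hB, hB'⟩)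
  exact this ▸ le_sup_left

theorem MinJ.of_le (h : MinJ S T A) (hB : B ∈ abMax S) (h1 : ¬ B ≤ T) (h2 : B ≤ A ⊔ T) : MinJ S T B :=
  ⟨hB, h1, fun D hD h3 h4 => h2.trans (sup_le (h.min D hD h3 (h4.trans (sup_le h2 le_sup_right)))
    le_sup_right)⟩

theorem MinJ.comm (h : MinJ S T A) {a b : G} (ha : a ∈ A) (hb : b ∈ A) : Commute a b :=
  comm_of h.mem.2.1 ha hb

theorem MinJ.dich [T.Normal] (h : MinJ S T A) (hB : B ≤ A) (hV : V ≤ T) (hm : B ⊔ V ∈ abMax S)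
    (hBT : ¬ B ≤ T) {a : G} (ha : a ∈ A) : ∃ a₀ ∈ A ⊓ T, ∃ c ∈ B, a = a₀ * c := by
  have := h.min _ hm (fun h1 => hBT (le_sup_left.trans h1)) (sup_le_sup hB hV) ha
  rw [sup_assoc, sup_eq_right.2 hV, sup_comm, mem_sup_norml (norm_of_normal _ _)] at this
  obtain ⟨t, ht, c, hc, rfl⟩ := this
  exact ⟨t, ⟨by simpa using mul_mem ha (inv_mem (hB hc)), ht⟩, c, hc, rfl⟩

variable [Fact p.Prime] [T.Normal]

theorem MinJ.quad (h : MinJ S T A) (hS : IsPGroup p S) (hTS : T ≤ S) (hVT : V ≤ T) (hV : IsMulCommutative V)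
    (hn : A ≤ N[V]) (hc : A ⊓ T ≤ C[V]) : A ≤ C[⁅V, A⁆] := by
  obtain ⟨h1, h2⟩ := timm h.mem (hVT.trans hTS) hV hn
  by_cases hB : cent A ⁅V, A⁆ ≤ T
  · have h3 : V ≤ cent V (cent A ⁅V, A⁆) :=
      le_inf le_rfl (le_centralizer_iff.1 ((le_inf inf_le_left hB).trans hc))
    rw [h1] at h3
    rw [comm_eq_bot_of_le_sup (hS.to_le (hVT.trans hTS)) hV hn (fun a ha => ?_) h3, BG.cent_bot]
    · exact le_top
    · obtain ⟨k, hk⟩ := hS ⟨a, h.mem.1 ha⟩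
      exact ⟨k, by rw [show a ^ p ^ k = 1 from congrArg Subtype.val hk]; exact one_mem _⟩
  · intro a ha
    obtain ⟨a₀, h4, c, h5, rfl⟩ := h.dich inf_le_left (inf_le_left.trans hVT) h2 hB ha
    exact mul_mem (centS (commg_subl hn) (hc h4)) h5.2

/-- `f` is an `A`-endomorphism of `X`. -/
def End (X A : Subgroup G) (f : G → G) : Prop :=
  (∀ u ∈ X, f u ∈ X) ∧ (∀ u ∈ X, ∀ w ∈ X, f (u * w) = f u * f w) ∧ ∀ u ∈ X, ∀ a ∈ A, f ⁅u, a⁆ = ⁅f u, a⁆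

theorem MinJ.exists_deep (h : MinJ S T A) (hS : IsPGroup p S) (hXS : X ≤ S) (hX : IsMulCommutative X)
    (hn : A ≤ N[X]) {x : G} (hx : x ∈ X) (hs : cent A (M A x) ≤ T) :
    ∃ f, End X A f ∧ cent A (M A (f x)) ≤ T ∧ ∀ a ∈ A, ¬ cent A (M A ⁅f x, a⁆) ≤ T := by
  have ok : Ok X ⊥ A := ⟨bot_le, (comm_eq_bot_iff.2 (le_centralizer_self hX)).le, hn, norm_of_normal _ _⟩
  obtain ⟨n, hn'⟩ := exists_le_K ok hS hXS h.mem.1
  have key : ∀ n, ∀ f, End X A f → f x ∈ K X ⊥ A n → cent A (M A (f x)) ≤ T →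
      ∃ f, End X A f ∧ cent A (M A (f x)) ≤ T ∧ ∀ a ∈ A, ¬ cent A (M A ⁅f x, a⁆) ≤ T := by
    intro n
    induction n with
    | zero =>
      intro f hf h1 h2
      rw [show f x = 1 from mem_bot.1 h1] at h2
      exact absurd ((le_inf le_rfl fun c hc => mem_cent_M.2 fun a ha => by simp).trans h2) h.nle
    | succ n ih =>
      intro f hf h1 h2
      by_cases h3 : ∀ a ∈ A, ¬ cent A (M A ⁅f x, a⁆) ≤ T
      · exact ⟨f, hf, h2, h3⟩
      push Not at h3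
      obtain ⟨a, ha, h3⟩ := h3
      refine ih (fun u => ⁅f u, a⁆) ⟨fun u hu => c_mem hn (hf.1 u hu) ha, fun u hu w hw => ?_,
        fun u hu b hb => ?_⟩ (((mem_K ok).1 h1).2 a ha) h3
      · show ⁅f (u * w), a⁆ = _
        rw [hf.2.1 u hu w hw, c_mul_ab hX hn (hf.1 u hu) (hf.1 w hw) ha]
      · show ⁅f ⁅u, b⁆, a⁆ = _
        rw [hf.2.2 u hu b hb, swap_ab hX hn (h.comm hb ha) hb ha (c_mem hn (hf.1 u hu) hb)
          (c_mem hn (hf.1 u hu) ha)]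
  exact key n id ⟨fun u hu => hu, fun _ _ _ _ => rfl, fun _ _ _ _ => rfl⟩ (hn' hx) hs

theorem MinJ.large (h : MinJ S T A) (hTS : T ≤ S) {x : G} (hx : x ∈ S) (hM : IsMulCommutative (M A x))
    (hMT : M A x ≤ T) (hs : ¬ cent A (M A x) ≤ T) {b : G} (hb : b ∈ A) :
    ∃ a₀ ∈ A ⊓ T, ∀ a ∈ A, ⁅⁅x, a⁆, b⁆ = ⁅⁅x, a⁆, a₀⁆ := by
  obtain ⟨a₀, h1, c, h2, rfl⟩ := h.dich inf_le_left hMT (thompson h.mem hx hM).1 hs hb
  exact ⟨a₀, h1, fun a ha => c_fix (mem_cent_M.1 h2.2 a ha)⟩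

theorem MinJ.cubic (h : MinJ S T A) (hS : IsPGroup p S) (hTS : T ≤ S) (hXT : X ≤ T) (hX : IsMulCommutative X)
    (hn : A ≤ N[X]) (hYX : Y ≤ X) (hY : A ≤ N[Y]) (hc : ⁅X, A ⊓ T⁆ ≤ Y) : iterCommutator X A 3 ≤ Y := by
  have ok : Ok X Y A := ⟨hYX, (comm_eq_bot_iff.2 (le_centralizer_self hX)).le.trans bot_le, hn, hY⟩
  have hXS := hXT.trans hTS
  have hM : ∀ y ∈ X, M A y ≤ X := fun y hy => M_le.2 fun a ha => c_mem hn hy ha
  have h0 : ∀ y ∈ X, ∀ a ∈ A ⊓ T, ⁅y, a⁆ ∈ Y := fun y hy a ha => hc (commutator_mem_commutator hy ha)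
  refine (iter_le_iff ok le_rfl 3 0).2 fun x hx => (mem_K ok).2 ⟨hx, fun a ha => (mem_K ok).2
    ⟨c_mem hn hx ha, fun b hb => (mem_K ok).2 ⟨c_mem hn (c_mem hn hx ha) hb, fun d hd => ?_⟩⟩⟩
  show _ ∈ Y
  have hxa := c_mem hn hx ha
  by_cases hs : cent A (M A x) ≤ T
  swap
  · obtain ⟨a₀, h1, h2⟩ := h.large hTS (hXS hx) (abelianS (hM x hx) hX) ((hM x hx).trans hXT) hs hb
    rw [h2 a ha]
    exact c_mem hY (h0 _ hxa _ h1) hd
  obtain ⟨f, hf, h1, h2⟩ := h.exists_deep hS hXS hX hn hx hs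
  have hy := hf.1 x hx
  have hya := c_mem hn hy ha
  obtain ⟨a₀, h3, h4⟩ := h.large hTS (hXS hya) (abelianS (hM _ hya) hX) ((hM _ hya).trans hXT) (h2 a ha) hb
  have hb' := c_mem hn hxa hb
  have h0' := c_mem hn hxa h3.1
  obtain ⟨e, he, h5⟩ := (thompson h.mem (hXS hx) (abelianS (hM x hx) hX)).2 (⁅⁅x, a⁆, b⁆ * ⁅⁅x, a⁆, a₀⁆⁻¹)
    (mul_mem (c_mem (norm_M x) (mem_M ha) hb) (inv_mem (c_mem (norm_M x) (mem_M ha) h3.1)))
  have hfi : ∀ u ∈ X, f u⁻¹ = (f u)⁻¹ := fun u hu => by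
    have e1 := hf.2.1 1 (one_mem _) 1 (one_mem _)
    have e2 := hf.2.1 u hu u⁻¹ (inv_mem hu)
    rw [mul_one, left_eq_mul] at e1
    rw [mul_inv_cancel, e1] at e2
    exact eq_inv_of_mul_eq_one_right e2.symm
  have heT : e ∈ T := h1 ⟨he, mem_cent_M.2 fun d hd => by
    have e1 := congrArg f (h5 d hd)
    have k1 := c_mem hn hya hb
    have k2 := c_mem hn hya h3.1
    rw [hf.2.2 _ (mul_mem hb' (inv_mem h0')) d hd, hf.2.1 _ hb' _ (inv_mem h0'), hfi _ h0',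
      hf.2.2 _ hxa _ hb, hf.2.2 _ hxa _ h3.1, hf.2.2 _ hx _ ha, hf.2.2 _ (c_mem hn hx he) _ hd,
      hf.2.2 _ hx _ he, c_mul_ab hX hn k1 (inv_mem k2) hd, c_inv_ab hX hn k2 hd,
      swap_ab hX hn (h.comm hb hd) hb hd k1 (c_mem hn hya hd),
      swap_ab hX hn (h.comm h3.1 hd) h3.1 hd k2 (c_mem hn hya hd), h4 d hd, mul_inv_cancel,
      swap_ab hX hn (h.comm he hd) he hd (c_mem hn hy he) (c_mem hn hy hd)] at e1
    exact commutatorElement_eq_one_iff_commute.1 e1.symm⟩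
  have e2 := h5 d hd
  rw [c_mul_ab hX hn hb' (inv_mem h0') hd, c_inv_ab hX hn h0' hd, mul_inv_eq_iff_eq_mul] at e2
  rw [e2]
  exact mul_mem (c_mem hY (h0 _ hx _ ⟨he, heT⟩) hd) (c_mem hY (h0 _ hxa _ h3) hd)

end Cfsg.Agent.Sig.JD
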