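import Cfsg.Agent.AB.CA2
import Cfsg.Agent.Perm.ZassAb
import Cfsg.Agent.S0738

/-! TI-subgroups `M` with odd centralisers inverted by an involution (`TIv.H`): if there are more involutions than
cosets of `M`, every coset outside `N(M)` contains one (`H.cos`, `H'`); the Zassenhaus case (`H'.big`). -/

set_option linter.dupNamespace false
set_option linter.unusedSectionVars false
set_option linter.unusedVariables false

namespace Cfsg.Agent.Sig.TIv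

open Subgroup Cfsg Cfsg.Agent.BG Cfsg.Agent.Invol Cfsg.Agent.Perm MulAction

variable {G : Type*} [Group G] [Finite G] {M : Subgroup G} {z t s x y g a d : G}

structure H (M : Subgroup G) (z : G) : Prop where
  ne : M ≠ ⊥
  ti : ∀ g, ∀ x ∈ M, g * x * g⁻¹ ∈ M → g ∉ N[M] → x = 1
  z2 : orderOf z = 2
  zN : z ∈ N[M]
  fac : ∀ n ∈ N[M], ∃ x ∈ M, x⁻¹ * n ∈ C1[z]
  odd : ∀ x ∈ M, x ≠ 1 → Odd #C1[x]

namespace H
variable (h : H M z)
include h

theorem fpf (ht : orderOf t = 2) (hx : x ∈ M) (hc : x ∈ C1[t]) : x = 1 := by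
  by_contra h1
  exact odd_card_iff.1 (h.odd x hx h1) t (mem_cent1_comm.1 hc) ht

theorem all (ht : orderOf t = 2) (hn : t ∈ N[M]) :
    IsMulCommutative M ∧ Odd #M ∧ ∀ k ∈ M, t * k * t⁻¹ = k⁻¹ :=
  Gen.fpf_invol hn (mul_self_of ht ▸ one_mem _) (eq_bot_iff.2 fun x hx => h.fpf ht hx.1 hx.2)

theorem inv (ht : orderOf t = 2) (hn : t ∈ N[M]) (hx : x ∈ M) : t * x * t⁻¹ = x⁻¹ := (h.all ht hn).2.2 x hx

theorem comm : IsMulCommutative M := (h.all h.z2 h.zN).1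

theorem oddM : Odd #M := (h.all h.z2 h.zN).2.1

theorem not_mem (ht : orderOf t = 2) : t ∉ M := fun hm => odd_card_iff.1 h.oddM t hm ht

theorem mul_z (ht : orderOf t = 2) (hn : t ∈ N[M]) : t * z ∈ M := by
  obtain ⟨x, hx, hc⟩ := h.fac _ (mul_mem hn h.zN)
  obtain ⟨u, hu, u1⟩ := (M.bot_or_exists_ne_one).resolve_left h.ne
  have c1 : ∀ k ∈ M, Commute (t * z) k := fun k hk => commute_mul_of_inverts (h.inv ht hn hk) (h.inv h.z2 h.zN hk)
  have c2 : x⁻¹ * (t * z) ∈ C1[u] := mul_mem (inv_mem (mem_cent1.2 (h.comm.comm hx hu))) (mem_cent1.2 (c1 u hu))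
  have e := eq_one_of_odd_of_inverts_of_commute (t := z) (odd_orderOf_of_mem (h.odd u hu u1) c2) (by
    calc z * (x⁻¹ * (t * z)) * z⁻¹ = (z * x * z⁻¹)⁻¹ * (z * (t * z) * z⁻¹) := by group
      _ = (t * z * x⁻¹)⁻¹ := by
        rw [h.inv h.z2 h.zN hx, conj_prod_right (mul_self_of ht) (mul_self_of h.z2)]; group
      _ = _ := by rw [(c1 _ (inv_mem hx)).eq]) (mem_cent1.1 hc)
  rwa [← inv_mul_eq_one.1 e]

theorem conj_z (ht : orderOf t = 2) (hn : t ∈ N[M]) : ∃ x ∈ M, x * z * x⁻¹ = t := by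
  have h1 := h.mul_z ht hn
  obtain ⟨k, hk⟩ := AB.exists_sq_of_odd (odd_orderOf_of_mem h.oddM h1)
  refine ⟨_, pow_mem h1 k, ?_⟩
  calc (t * z) ^ k * z * ((t * z) ^ k)⁻¹ = (t * z) ^ k * (z * ((t * z) ^ k) * z⁻¹)⁻¹ * z := by group
    _ = t := by rw [h.inv h.z2 h.zN (pow_mem h1 k), inv_inv, hk, mul_self_cancel' (mul_self_of h.z2)]

theorem mem_of_inv (ht : orderOf t = 2) (hn : t ∈ N[M]) (hy : y ∈ N[M]) (hi : t * y * t⁻¹ = y⁻¹)
    (ho : Odd (orderOf y)) : y ∈ M := by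
  have h1 : orderOf (t * y) = 2 := orderOf_two_iff.2 ⟨mul_sq_of_inverts (mul_self_of ht) hi, fun e => by
    rw [eq_inv_of_mul_eq_one_right e, orderOf_inv, ht] at ho
    exact absurd ho (by decide)⟩
  have := conj_mem_of_norm h.zN (mul_mem (inv_mem (h.mul_z ht hn)) (h.mul_z h1 (mul_mem hn hy)))
  simpa [mul_assoc] using this

theorem cos (hi : ¬ Nat.card {g : G // orderOf g = 2} ≤ M.index) (hg : g ∉ N[M]) :
    ∃ s, orderOf s = 2 ∧ s * g ∈ M := by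
  classical
  by_contra! hc
  have key : ∀ t t' : G, orderOf t = 2 → t ∈ N[M] → orderOf t' = 2 → (t * z * g)⁻¹ * t' ∉ M := fun t t' ht hn ht' e =>
    hc _ (orderOf_conj'' (t * z) t' ▸ ht') (by
      have := mul_mem (inv_mem (h.mul_z ht hn)) (inv_mem e)
      rwa [mul_inv_rev ((t * z * g)⁻¹), inv_inv, inv_eq_of ht', ← mul_assoc, ← mul_assoc] at this)
  refine hi (Nat.card_le_card_of_injective (β := G ⧸ M)
    (fun t => if t.1 ∈ N[M] then ((t.1 * z * g : G) : G ⧸ M) else t.1) ?_)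
  rintro ⟨t, ht⟩ ⟨t', ht'⟩ e
  dsimp only at e
  split_ifs at e with h1 h2 h2 <;> rw [QuotientGroup.eq] at e
  · have := h.ti g⁻¹ _ (mul_mem (inv_mem (h.mul_z ht h1)) (h.mul_z ht' h2)) (by simpa [mul_assoc] using e)
      (by simpa using hg)
    exact Subtype.ext (mul_right_cancel (inv_mul_eq_one.1 this))
  · exact absurd e (key _ _ ht h1 ht')
  · exact absurd (by simpa using inv_mem e) (key _ _ ht' h2 ht)
  · refine Subtype.ext (inv_mul_eq_one.1 (h.ti t _ e ?_ h1))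
    rw [inv_eq_of ht] at e ⊢
    simpa [mul_self_cancel (mul_self_of ht), ← mul_assoc, inv_eq_of ht, inv_eq_of ht', mul_self_of ht]
      using inv_mem e

end H

structure H' (M : Subgroup G) (z : G) : Prop extends H M z where
  cos : ∀ g ∉ N[M], ∃ s, orderOf s = 2 ∧ s * g ∈ M
  nn : ∃ g, g ∉ N[M]

namespace H'
variable (h : H' M z)
include h

theorem trans (hs : orderOf s = 2) (hn : s ∉ N[M]) (hg : g ∈ N[M]) :
    ∃ d ∈ N[M], s * d * s⁻¹ = d⁻¹ ∧ d⁻¹ * g ∈ M := by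
  obtain ⟨t, ht, h1⟩ := h.cos (s * g) fun e => hn (by simpa using mul_mem e (inv_mem hg))
  have h2 : (s * t)⁻¹ * g ∈ M := by rwa [mul_inv_rev, inv_eq_of ht, inv_eq_of hs, mul_assoc]
  exact ⟨s * t, by simpa using mul_mem hg (inv_mem (normG _ h2)),
    conj_prod_left (mul_self_of hs) (mul_self_of ht), h2⟩

theorem exz (hs : orderOf s = 2) (hn : s ∉ N[M]) : ∃ x ∈ M, x⁻¹ * s * x ∈ C1[z] := by
  obtain ⟨d, hd, h1, h2⟩ := h.trans hs hn h.zN
  have h3 : d * d = 1 := by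
    have := mul_sq_of_inverts (mul_self_of h.z2) (h.inv h.z2 h.zN (inv_mem h2))
    simpa using this
  have h4 : orderOf d = 2 := orderOf_two_iff.2 ⟨h3, by
    rintro rfl
    exact h.not_mem h.z2 (by simpa using h2)⟩
  obtain ⟨x, hx, rfl⟩ := h.conj_z h4 hd
  refine ⟨x, hx, mem_cent1.2 ?_⟩
  rw [inv_eq_of h4] at h1
  calc x⁻¹ * s * x * z = x⁻¹ * (s * (x * z * x⁻¹) * s⁻¹) * s * x := by group
    _ = _ := by rw [h1]; group

theorem semi' (hs : orderOf s = 2) (hn : s ∉ N[M]) (hx : x ∈ M) (hi : s * x * s⁻¹ ∈ N[M]) : x = 1 := by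
  obtain ⟨y, hy, hc⟩ := h.exz hs hn
  have h1 : orderOf (y * z * y⁻¹) = 2 := BG.orderOf_conj' y z ▸ h.z2
  have h2 : y * z * y⁻¹ ∈ N[M] := mul_mem (mul_mem (normG _ hy) h.zN) (inv_mem (normG _ hy))
  have h3 : y * z * y⁻¹ * s = s * (y * z * y⁻¹) := by
    calc y * z * y⁻¹ * s = y * (z * (y⁻¹ * s * y)) * y⁻¹ := by group
      _ = _ := by rw [← mem_cent1.1 hc]; group
  refine h.ti s x hx (h.mem_of_inv h1 h2 hi ?_ (BG.orderOf_conj' s x ▸ odd_orderOf_of_mem h.oddM hx)) hn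
  calc y * z * y⁻¹ * (s * x * s⁻¹) * (y * z * y⁻¹)⁻¹ = (y * z * y⁻¹ * s) * x * (y * z * y⁻¹ * s)⁻¹ := by group
    _ = s * (y * z * y⁻¹ * x * (y * z * y⁻¹)⁻¹) * s⁻¹ := by rw [h3]; group
    _ = _ := by rw [h.inv h1 h2 hx]; group

theorem cos' (hg : g ∉ N[M]) : ∃ s, orderOf s = 2 ∧ s ∉ N[M] ∧ ∃ y ∈ M, g = s * y := by
  obtain ⟨s, hs, h1⟩ := h.cos g hg
  exact ⟨s, hs, fun e => hg (by simpa using mul_mem (inv_mem e) (normG _ h1)), _, h1,
    (mul_self_cancel (mul_self_of hs) g).symm⟩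

theorem semi (hg : g ∉ N[M]) (hx : x ∈ M) (hi : g⁻¹ * x * g ∈ N[M]) : x = 1 := by
  obtain ⟨s, hs, hn, y, hy, rfl⟩ := h.cos' hg
  refine h.semi' hs hn hx ?_
  have := mul_mem (mul_mem (normG _ hy) hi) (inv_mem (normG _ hy))
  simpa [mul_assoc, inv_eq_of hs] using this

theorem invD (hs : orderOf s = 2) (hn : s ∉ N[M]) (hd : d ∈ N[M]) (hi : s * d * s⁻¹ ∈ N[M]) :
    s * d * s⁻¹ = d⁻¹ := by
  obtain ⟨e, he, h1, h2⟩ := h.trans hs hn hd
  have := h.semi' hs hn h2 (by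
    rw [show s * (e⁻¹ * d) * s⁻¹ = (s * e * s⁻¹)⁻¹ * (s * d * s⁻¹) by group, h1]
    exact mul_mem (inv_mem (inv_mem he)) hi)
  rwa [← inv_mul_eq_one.1 this]

theorem sq (hg : g ∉ N[M]) (h2 : g * g ∈ N[M]) : orderOf g = 2 := by
  obtain ⟨s, hs, hn, y, hy, rfl⟩ := h.cos' hg
  have := h.semi' hs hn hy (by simpa [mul_assoc, inv_eq_of hs] using mul_mem h2 (inv_mem (normG _ hy)))
  rwa [this, mul_one]

theorem three {s₁ s₂ : G} (h1 : orderOf s₁ = 2) (h2 : orderOf s₂ = 2) (n1 : s₁ ∉ N[M]) (n : s₁ * s₂ ∉ N[M])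
    (hy : y ∈ N[M]) (i1 : s₁ * y * s₁⁻¹ = y⁻¹) (i2 : s₂ * y * s₂⁻¹ = y⁻¹) : y * y = 1 := by
  obtain ⟨s, hs, hn, m, hm, e⟩ := h.cos' n
  have c := commute_mul_of_inverts i1 i2
  have e1 : s * (m * y * m⁻¹) * s⁻¹ = y := by
    calc s * (m * y * m⁻¹) * s⁻¹ = s * m * y * (s * m)⁻¹ := by group
      _ = y := by rw [← e, c.eq]; group
  have e2 := h.invD hs hn (mul_mem (mul_mem (normG _ hm) hy) (inv_mem (normG _ hm))) (e1.symm ▸ hy)
  rw [e1] at e2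
  refine h.semi' h1 n1 ?_ ?_
  · have : y * y = (y * m * y⁻¹) * m⁻¹ := by
      calc y * y = y * (m * y * m⁻¹)⁻¹ := by rw [← e2]
        _ = _ := by group
    exact this ▸ mul_mem (conj_mem_of_norm hy hm) (inv_mem hm)
  · rw [show s₁ * (y * y) * s₁⁻¹ = (s₁ * y * s₁⁻¹) * (s₁ * y * s₁⁻¹) by group, i1]
    exact mul_mem (inv_mem hy) (inv_mem hy)

theorem cz' (hs : orderOf s = 2) (hn : s ∉ N[M]) (hc : s ∈ C1[z]) (hy : y ∈ N[M]) (hc' : y ∈ C1[z]) :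
    s * y * s⁻¹ = y⁻¹ := by
  obtain ⟨d, hd, h1, h2⟩ := h.trans hs hn hy
  have h3 : s * z * s⁻¹ = z := by rw [mem_cent1.1 hc]; group
  have h4 := h.invD hs hn (mul_mem hd h.zN) (by
    rw [show s * (d * z) * s⁻¹ = (s * d * s⁻¹) * (s * z * s⁻¹) by group, h1, h3]
    exact mul_mem (inv_mem hd) h.zN)
  rw [show s * (d * z) * s⁻¹ = (s * d * s⁻¹) * (s * z * s⁻¹) by group, h1, h3, mul_inv_rev, inv_eq_of h.z2] at h4
  have := h.fpf h.z2 h2 (mul_mem (mem_cent1.2 h4) hc')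
  rwa [← inv_mul_eq_one.1 this]

theorem red (hg : g ∉ N[M]) (hd : d ∈ N[M]) (hi : g⁻¹ * d * g ∈ N[M]) :
    ∃ s, orderOf s = 2 ∧ s ∉ N[M] ∧ s * d * s⁻¹ = d⁻¹ ∧ ∃ y ∈ M, g = s * y := by
  obtain ⟨s, hs, hn, y, hy, rfl⟩ := h.cos' hg
  exact ⟨s, hs, hn, h.invD hs hn hd (by
    simpa [mul_assoc, inv_eq_of hs] using mul_mem (mul_mem (normG _ hy) hi) (inv_mem (normG _ hy))), y, hy, rfl⟩

theorem of_fix (hg : g ∉ N[M]) (hi : g⁻¹ * z * g ∈ N[M]) :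
    ∃ s, orderOf s = 2 ∧ s ∉ N[M] ∧ s ∈ C1[z] ∧ ∃ y ∈ M, g = s * y := by
  obtain ⟨s, hs, hn, h1, h2⟩ := h.red hg h.zN hi
  exact ⟨s, hs, hn, mem_cent1.2 (by rwa [inv_eq_of h.z2, mul_inv_eq_iff_eq_mul] at h1), h2⟩

theorem cz (ha : a ∉ N[M]) (hc : a ∈ C1[z]) : orderOf a = 2 := by
  obtain ⟨s, hs, hn, h1, y, hy, rfl⟩ := h.of_fix ha (by
    rw [mul_assoc, ← mem_cent1.1 hc]; simpa using h.zN)
  rwa [h.fpf h.z2 hy (by simpa using mul_mem (inv_mem h1) hc), mul_one]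

theorem dec (hg : g ∉ N[M]) : ∃ x ∈ M, ∃ a ∈ C1[z], a ∉ N[M] ∧ ∃ y ∈ M, g = x * a * y := by
  obtain ⟨s, hs, hn, y, hy, rfl⟩ := h.cos' hg
  obtain ⟨x, hx, hc⟩ := h.exz hs hn
  refine ⟨x, hx, _, hc, fun e => hn ?_, x⁻¹ * y, mul_mem (inv_mem hx) hy, by group⟩
  simpa [mul_assoc] using mul_mem (mul_mem (normG _ hx) e) (inv_mem (normG _ hx))

theorem exa : ∃ a ∈ C1[z], a ∉ N[M] := by
  obtain ⟨g, hg⟩ := h.nn
  obtain ⟨-, -, a, h1, h2, -⟩ := h.dec hg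
  exact ⟨a, h1, h2⟩

variable (hy : y ∈ N[M]) (hc : y ∈ C1[z]) (y2 : y * y ≠ 1)
include hy hc y2

theorem two {b : G} (ha : a ∉ N[M]) (ha' : a ∈ C1[z]) (hb : b ∉ N[M]) (hb' : b ∈ C1[z]) : a⁻¹ * b ∈ N[M] := by
  by_contra hn
  rw [inv_eq_of (h.cz ha ha')] at hn
  exact y2 (h.three (h.cz ha ha') (h.cz hb hb') ha hn hy (h.cz' (h.cz ha ha') ha ha' hy hc)
    (h.cz' (h.cz hb hb') hb hb' hy hc))

theorem fix3 {g₁ g₂ : G} (hd : d ∈ N[M]) (n1 : g₁ ∉ N[M]) (n2 : g₂ ∉ N[M]) (n : g₁⁻¹ * g₂ ∉ N[M])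
    (i1 : g₁⁻¹ * d * g₁ ∈ N[M]) (i2 : g₂⁻¹ * d * g₂ ∈ N[M]) : d = 1 := by
  by_contra d1
  have key : ∀ s₁ s₂ y₁ y₂ : G, y₁ ∈ M → y₂ ∈ M → s₁⁻¹ * s₂ ∈ N[M] → (s₁ * y₁)⁻¹ * (s₂ * y₂) ∈ N[M] :=
    fun s₁ s₂ y₁ y₂ h1 h2 h3 => by
      simpa [mul_assoc] using mul_mem (mul_mem (inv_mem (normG _ h1)) h3) (normG _ h2)
  obtain ⟨s₁, o1, m1, j1, y₁, k1, e1⟩ := h.red n1 hd i1
  obtain ⟨s₂, o2, m2, j2, y₂, k2, e2⟩ := h.red n2 hd i2
  have d2 := h.three o1 o2 m1 (fun e => n (e1 ▸ e2 ▸ key _ _ _ _ k1 k2 (by rwa [inv_eq_of o1]))) hd j1 j2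
  obtain ⟨x, hx, rfl⟩ := h.conj_z (orderOf_two_iff.2 ⟨d2, d1⟩) hd
  have nx : ∀ g ∉ N[M], x⁻¹ * g ∉ N[M] := fun g hg e => hg (by simpa using mul_mem (normG _ hx) e)
  obtain ⟨t₁, o1, m1, j1, y₁, k1, e1⟩ := h.of_fix (nx _ n1) (by simpa [mul_assoc] using i1)
  obtain ⟨t₂, o2, m2, j2, y₂, k2, e2⟩ := h.of_fix (nx _ n2) (by simpa [mul_assoc] using i2)
  have := key _ _ _ _ k1 k2 (h.two hy hc y2 m1 j1 m2 j2)
  rw [← e1, ← e2] at this
  exact n (by simpa [mul_assoc] using this)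

theorem sharp (g : G) (u v w : G ⧸ N[M]) (huv : u ≠ v) (huw : u ≠ w) (hvw : v ≠ w)
    (hu : g • u = u) (hv : g • v = v) (hw : g • w = w) : g = 1 := by
  obtain ⟨u, rfl⟩ := QuotientGroup.mk_surjective u
  obtain ⟨v, rfl⟩ := QuotientGroup.mk_surjective v
  obtain ⟨w, rfl⟩ := QuotientGroup.mk_surjective w
  rw [AB.mk_ne_iff] at huv huw hvw
  rw [AB.smul_mk_iff, ← inv_mem_iff] at hu hv hw
  have := h.fix3 hy hc y2 (d := u⁻¹ * g * u) (by simpa [mul_assoc] using hu) huv huw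
    (by simpa [mul_assoc] using hvw) (by simpa [mul_assoc] using hv) (by simpa [mul_assoc] using hw)
  calc g = u * (u⁻¹ * g * u) * u⁻¹ := by group
    _ = 1 := by rw [this]; group

theorem big : ∃ (F : Type) (_ : Field F) (_ : Fintype F) (p : ℕ) (_ : Fact p.Prime) (_ : CharP F p),
    Fintype.card F = Nat.card M ∧ IsElementaryAbelian p M ∧
      (Nonempty (G ≃* (GL (Fin 2) F ⧸ center (GL (Fin 2) F))) ∨
        (Fintype.card F % 4 = 1 ∧ Nonempty (G ≃* Matrix.ProjectiveSpecialLinearGroup (Fin 2) F))) := by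
  obtain ⟨a, ha', ha⟩ := h.exa
  have a2 := h.cz ha ha'
  let o : G ⧸ N[M] := (1 : G)
  let b : G ⧸ N[M] := a
  have fo : ∀ g : G, g • o = o ↔ g ∈ N[M] := fun g => by rw [AB.smul_mk_iff]; simp
  have hob : o ≠ b := AB.mk_ne_iff.2 (by simpa using ha)
  have fb : ∀ d ∈ N[M], d ∈ C1[z] → d • b = b := fun d hd hd' => AB.smul_mk_iff.2 (by
    have := h.cz' a2 ha ha' (inv_mem hd) (inv_mem hd')
    rw [mul_inv_rev, inv_eq_of a2] at *
    rwa [this, inv_inv])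
  have reg : ∀ w ≠ o, ∃ x ∈ M, x • b = w := fun w hw => by
    obtain ⟨w, rfl⟩ := QuotientGroup.mk_surjective w
    obtain ⟨x, hx, c, h1, h2, y, hy', rfl⟩ := h.dec (g := w) (by simpa using AB.mk_ne_iff.1 hw)
    exact ⟨x, hx, AB.smul_mk_iff.2 (by simpa [mul_assoc] using mul_mem (h.two hy hc y2 ha ha' h2 h1) (normG _ hy'))⟩
  have semi : ∀ w ≠ o, ∀ x ∈ M, x • w = w → x = 1 := fun w hw x hx e => by
    obtain ⟨w, rfl⟩ := QuotientGroup.mk_surjective w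
    exact h.semi (g := w) (by simpa using AB.mk_ne_iff.1 hw) hx (by
      simpa [mul_assoc] using inv_mem (AB.smul_mk_iff.1 e))
  have tr : ∀ u v, u ≠ o → v ≠ o → ∃ x ∈ M, x • u = v := fun u v hu hv => by
    obtain ⟨x, hx, rfl⟩ := reg u hu
    obtain ⟨x', hx', rfl⟩ := reg v hv
    exact ⟨x' * x⁻¹, mul_mem hx' (inv_mem hx), by rw [mul_smul, inv_smul_smul]⟩
  have hreg : ∀ u v, u ≠ o → v ≠ o → ∃! x : M, (x : G) • u = v := fun u v hu hv => by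
    obtain ⟨x, hx, e⟩ := tr u v hu hv
    refine ⟨⟨x, hx⟩, e, fun x' e' => Subtype.ext (inv_mul_eq_one.1 (semi u hu _ (mul_mem (inv_mem hx) x'.2) ?_)).symm⟩
    rw [mul_smul, e', ← e, inv_smul_smul]
  obtain ⟨x, hx, x1⟩ := (M.bot_or_exists_ne_one).resolve_left h.ne
  have c1 : x • b ≠ o := fun e => hob (by rw [← (fo _).2 (inv_mem (normG _ hx)), ← e, inv_smul_smul])
  have c2 : x • b ≠ b := fun e => x1 (semi b hob.symm x hx e)
  have sh := h.sharp hy hc y2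
  have hZ : IsZassenhausGroup G (G ⧸ N[M]) := by
    refine ⟨⟨fun {g₁ g₂} e => (inv_mul_eq_one.1 (sh _ o b (x • b) hob c1.symm c2.symm ?_ ?_ ?_))⟩, ?_,
      fun g u v w h1 h2 h3 => sh g u v w h1 h3 h2, ⟨z, ne_one_of h.z2, o, b, hob, (fo z).2 h.zN,
      fb z h.zN (cent1_self z)⟩, fun R _ hR => ?_⟩
    iterate 3 rw [mul_smul, ← e, inv_smul_smul]
    · have key : ∀ u v : G ⧸ N[M], u ≠ v → ∃ g : G, g • u = o ∧ g • v = b := fun u v huv => by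
        obtain ⟨g, hg⟩ := MulAction.exists_smul_eq G u o
        obtain ⟨x, hx, e⟩ := tr (g • v) b (hg ▸ by simpa using huv.symm) hob.symm
        exact ⟨x * g, by rw [mul_smul, hg, (fo x).2 (normG _ hx)], by rw [mul_smul, e]⟩
      refine is_two_pretransitive_iff.2 fun {u v u' v'} h1 h2 => ?_
      obtain ⟨g, g1, g2⟩ := key _ _ h1
      obtain ⟨k, k1, k2⟩ := key _ _ h2
      exact ⟨k⁻¹ * g, by rw [mul_smul, g1, ← k1, inv_smul_smul], by rw [mul_smul, g2, ← k2, inv_smul_smul]⟩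
    · by_contra! h0
      obtain ⟨⟨t, ht⟩, e⟩ := hR.exists_smul_eq o b
      change t • o = b at e
      have cm : ∀ d ∈ N[M], d ∈ C1[z] → d * t * d⁻¹ = t := fun d hd hd' => by
        have := (h0 o).le (x := ⟨t⁻¹ * (d * t * d⁻¹), mul_mem (inv_mem ht) (Normal.conj_mem inferInstance t ht d)⟩) (by
          change (t⁻¹ * (d * t * d⁻¹)) • o = o
          rw [mul_smul, mul_smul, mul_smul, (fo _).2 (inv_mem hd), e, fb d hd hd', ← e, inv_smul_smul])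
        exact (inv_mul_eq_one.1 (congrArg Subtype.val (mem_bot.1 this))).symm
      have tN : t ∉ N[M] := fun k => hob (by rw [← e, (fo t).2 k])
      have tz : t ∈ C1[z] := mem_cent1.2 (mul_inv_eq_iff_eq_mul.1 (cm z h.zN (cent1_self z))).symm
      have := h.cz' (h.cz tN tz) tN tz hy hc
      rw [← mul_inv_eq_iff_eq_mul.1 (cm y hy hc), mul_inv_cancel_right] at this
      exact y2 (by nth_rewrite 1 [this]; simp)
  have hFa : ∀ u ∈ M, u • o = o := fun u hu => (fo u).2 (normG _ hu)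
  have hF := Zass.mem_kernel_iff hZ hob hFa hreg
  have cM := Zass.card_kernel hob hF tr
  have ev : Even #(stabilizer G o ⊓ stabilizer G b : Subgroup G) :=
    even_card_of_invol ⟨(fo z).2 h.zN, fb z h.zN (cent1_self z)⟩ h.z2
  have cl := Zass.classify_of_comm hZ hob hF (commG1.2 (abelian_iff.1 h.comm))
  haveI := Fintype.ofFinite (G ⧸ N[M])
  obtain ⟨-, p, f, hp, h1, h2⟩ := S0738.result hZ hob (by
      rw [← Nat.card_eq_fintype_card]; rcases cl with e | ⟨e, -⟩ <;> omega) M hFa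
    ⟨fun u hu g => conj_mem_of_norm (A := M) ((fo g).1 g.2) hu⟩ hreg
  rw [← Nat.card_eq_fintype_card] at h2
  haveI := Fact.mk hp
  rcases cl with e | ⟨e, K, _, _, e1, -, e2⟩
  · have c3 : z • x • b ≠ x • b := fun k =>
      ne_one_of h.z2 (sh z o b _ hob c1.symm c2.symm ((fo z).2 h.zN) (fb z h.zN (cent1_self z)) k)
    have zz : ∀ w : G ⧸ N[M], z • z • w = w := fun w => by rw [← mul_smul, mul_self_of h.z2, one_smul]
    obtain ⟨K, _, _, e1, e2⟩ := sharp3_equiv_PGL_of_inverted (Zass.three_of_card hZ hob e.ge) sh c3 c1.symm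
      (fun k => c1 (by rw [← zz (x • b), ← k, (fo z).2 h.zN])) rfl (zz _) ((fo z).2 h.zN) fun k k1 k2 => by
        change k • ((x * a : G) : G ⧸ N[M]) = (x * a : G) at k1
        change k • ((z * (x * a) : G) : G ⧸ N[M]) = (z * (x * a) : G) at k2
        change ((z * (x * a) : G) : G ⧸ N[M]) ≠ (x * a : G) at c3
        rw [AB.smul_mk_iff, ← inv_mem_iff] at k1 k2
        have := h.invD (s := (x * a)⁻¹ * z * (x * a)) (d := (x * a)⁻¹ * k * (x * a))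
          (orderOf_conj'' _ z ▸ h.z2) (by simpa [mul_assoc, inv_eq_of h.z2] using AB.mk_ne_iff.1 c3)
          (by simpa [mul_assoc] using k1) (by simpa [mul_assoc, inv_eq_of h.z2] using k2)
        calc z * k = (x * a) * ((x * a)⁻¹ * z * (x * a) * ((x * a)⁻¹ * k * (x * a)) *
              ((x * a)⁻¹ * z * (x * a))⁻¹) * (x * a)⁻¹ * z := by group
          _ = _ := by rw [this]; group
    exact ⟨K, _, _, p, inferInstance, charP_of_card_eq_prime_pow (f := f) (by omega), by omega, ⟨h.comm, h1⟩, .inl e2⟩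
  · obtain ⟨r, hr⟩ := ev
    exact ⟨K, _, _, p, inferInstance, charP_of_card_eq_prime_pow (f := f) (by omega), by omega, ⟨h.comm, h1⟩,
      .inr ⟨by omega, e2⟩⟩

end H'

end Cfsg.Agent.Sig.TIv
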